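import Cfsg.Agent.H6.Cent
import Cfsg.Agent.H6.Collect
import Cfsg.Agent.H6.GoodAll

/-! Centralizers of some involutions. -/

set_option autoImplicit false

namespace CfsgH6

open Cfsg.Lie

set_option maxRecDepth 100000

variable {D : ChevalleyDatum}

theorem Good.mem_WJ_of_fix' (G : Good D) {r s : Fin D.nroots} (a b : ℤ)
    (h : ∀ i, 0 ≤ a * G.A r (G.sm i) + b * G.A s (G.sm i))
    {w : Equiv.Perm (Fin D.nroots)} (hw : w ∈ G.W) (e : w r = r) (e' : w s = s) :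
    w ∈ G.WJ {i | a * G.A r (G.sm i) + b * G.A s (G.sm i) = 0} :=
  Good.Add.mem_WJ (φ := fun k => a * G.A r k + b * G.A s k) (fun k => by
    simp only [G.A_lin r k, G.A_lin s k, mul_add, Finset.sum_add_distrib, Int.cast_id, Finset.mul_sum, mul_left_comm])
    h hw fun i => by
      have h1 := Good.A_W hw r (G.sm i)
      have h2 := Good.A_W hw s (G.sm i)
      rw [e] at h1; rw [e'] at h2
      simp only [h1, h2]; exact h i

/-- commutators with positive root elements fall into a given list -/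
def Abs (G : Good D) (p : ℤ) (T S : List ℕ) : Prop := (∀ s : Fin D.nroots, (s : ℕ) ∈ T ++ S → G.Pos s) ∧
  ∀ a, G.Pos a → ∀ s ∈ T ++ S, ∀ c ∈ D.commTerms a s, c.2.1 % p = 0 ∨ c.1 ∈ S

instance decAbs (G : Good D) (p : ℤ) (T S : List ℕ) : Decidable (Abs G p T S) := inferInstanceAs (Decidable (_ ∧ _))

namespace Cover

variable {G : Good D} {F : Type*} [Field F] {Γ : Type*} [Group Γ] (C : Cover G F Γ)

theorem word_mem_of {S : Set (Fin D.nroots)} {w : List (ℕ × F)}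
    (h : ∀ c ∈ w, c.2 = 0 ∨ ∀ r : Fin D.nroots, (r : ℕ) = c.1 → r ∈ S) : wordG C.x w ∈ C.US S := by
  refine list_prod_mem fun a ha => ?_
  obtain ⟨c, hc, rfl⟩ := List.mem_map.1 ha
  split_ifs with e
  · rcases h c hc with h | h
    · rw [h, C.x_zero]; exact one_mem _
    · exact C.x_mem (h _ rfl) _
  · exact one_mem _

section abs

variable {p : ℤ} (hp : (p : F) = 0) {T S : List ℕ} (H : Abs G p T S)
include hp H

theorem abs_x {a s : Fin D.nroots} (ha : G.Pos a) (hs : (s : ℕ) ∈ T ++ S) (t c : F) :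
    ∃ v ∈ C.US {r | (r : ℕ) ∈ S}, C.x a t * C.x s c * (C.x a t)⁻¹ = C.x s c * v := by
  by_cases e : s = a
  · exact ⟨1, one_mem _, by rw [e, C.x_comm]; simp⟩
  refine ⟨_, C.word_mem_of fun k hk => ?_, by
    rw [mul_assoc, ← C.x_neg, C.comm a s e fun e => G.pos_rev.1 (e ▸ H.1 s hs) ha, C.x_neg, mul_assoc,
      mul_inv_cancel_left]⟩
  obtain ⟨k, hk', rfl⟩ := List.mem_map.1 hk
  refine (H.2 a ha s hs k hk').imp (fun h => ?_) fun h r e => by rwa [Set.mem_setOf_eq, e]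
  obtain ⟨n, hn⟩ := Int.dvd_of_emod_eq_zero h
  simp [hn, hp]

theorem abs_conj {u : Γ} (hu : u ∈ C.U) {v : Γ} (hv : v ∈ C.US {r | (r : ℕ) ∈ S}) :
    u * v * u⁻¹ ∈ C.US {r | (r : ℕ) ∈ S} :=
  C.US_induction' (p := fun u => u * v * u⁻¹ ∈ C.US {r | (r : ℕ) ∈ S}) (by simpa using hv) (fun g _ a ha t ih => by
    simpa [mul_assoc] using C.conj_mem_of_gen (g := C.x a t) (fun s hs c => by
      obtain ⟨v, hv, e⟩ := C.abs_x hp H ha (List.mem_append_right _ hs) t c
      exact e ▸ mul_mem (C.x_mem hs c) hv) ih) hu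

theorem abs_U {u : Γ} (hu : u ∈ C.U) {s : Fin D.nroots} (hs : (s : ℕ) ∈ T ++ S) (c : F) :
    ∃ v ∈ C.US {r | (r : ℕ) ∈ S}, u * C.x s c * u⁻¹ = C.x s c * v :=
  C.US_induction' (p := fun u => ∃ v ∈ C.US {r | (r : ℕ) ∈ S}, u * C.x s c * u⁻¹ = C.x s c * v)
    ⟨1, one_mem _, by simp⟩ (fun g _ a ha t ⟨v, hv, e⟩ => by
      obtain ⟨v', hv', e'⟩ := C.abs_x hp H ha hs t c
      refine ⟨_, mul_mem hv' (C.abs_conj hp H (C.x_mem_U ha t) hv), ?_⟩
      rw [← mul_assoc, ← e', eq_inv_mul_of_mul_eq e.symm]; group) hu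

theorem abs_two {u : Γ} (hu : u ∈ C.U) {r s : Fin D.nroots} (hr : (r : ℕ) ∈ T ++ S) (hs : (s : ℕ) ∈ T ++ S) (b c : F) :
    ∃ v ∈ C.US {r | (r : ℕ) ∈ S}, u * (C.x r b * C.x s c) * u⁻¹ = C.x r b * C.x s c * v := by
  obtain ⟨v, hv, e⟩ := C.abs_U hp H hu hr b
  obtain ⟨v', hv', e'⟩ := C.abs_U hp H hu hs c
  refine ⟨_, mul_mem (C.abs_conj hp H (inv_mem (C.x_mem_U (H.1 s hs) c)) hv) hv', ?_⟩
  calc _ = (u * C.x r b * u⁻¹) * (u * C.x s c * u⁻¹) := by group
    _ = _ := by rw [e, e']; group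

end abs

theorem cent_eq' (h3 : C.R3) {z : Γ} {J : Set (Fin D.rank)} {K : Subgroup Γ} (h1 : K ≤ Subgroup.centralizer {z})
    (h0 : K ≤ C.Gr) (hJ : ∀ r, G.InJ J r → ∀ t, C.x r t ∈ K)
    (hw : ∀ u ∈ C.U, ∀ v ∈ C.U, ∀ m w, w ∈ G.W → C.Mon m w → m * (v * z * v⁻¹) * m⁻¹ = u * z * u⁻¹ → w ∈ G.WJ J)
    (hk : ∀ u ∈ C.U, ∀ c, h3.τ c * z * (h3.τ c)⁻¹ = u * z * u⁻¹ → ∀ i ∉ J, c i = 1)
    (hU : ∀ u ∈ C.U, u * z = z * u → u ∈ K) : C.Gr ⊓ Subgroup.centralizer {z} = K := by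
  refine le_antisymm (fun g hg => ?_) (le_inf h0 h1)
  have h2 : ∀ j ∈ J, ∀ t, C.n (G.sm j) t ∈ K := fun j hj t =>
    mul_mem (mul_mem (hJ _ (G.inJ_sm.2 hj) _) (hJ _ (G.inJ_rev.2 (G.inJ_sm.2 hj)) _)) (hJ _ (G.inJ_sm.2 hj) _)
  obtain ⟨u, hu, m, hm, w, hw', h4, v, hv, rfl⟩ := C.canonical' hg.1
  have h5 := (Subgroup.mem_inf.1 hg).2
  have hwJ := hw _ (inv_mem hu) v (C.invSet_le_U w hv) m w hw' h4 (by
    conv_rhs => rw [← mul_inv_eq_iff_eq_mul.2 (Subgroup.mem_centralizer_singleton_iff.1 h5)]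
    group)
  have hv' : v ∈ K := C.US_le.2 (fun r hr => hJ r (by_contra fun e =>
    (G.mem_invSet.1 hr).2 ((Good.pos_WJ hwJ e).2 (G.mem_invSet.1 hr).1))) hv
  obtain ⟨m', h6, h7, h8⟩ : ∃ m' ∈ K, m' ∈ C.NN ∧ C.Mon m' w :=
    G.WJ_induction (p := fun w => ∃ m' ∈ K, m' ∈ C.NN ∧ C.Mon m' w) ⟨1, one_mem _, one_mem _, C.mon_one⟩
      (fun i hi w _ ⟨m', h6, h7, h8⟩ => ⟨_, mul_mem (h2 i hi 1) h6, mul_mem (C.ν_mem i) h7, (C.mon_ν i).mul h8⟩) hwJ
  obtain ⟨c, h9⟩ := h3.exists_τ (C.mul_inv_mem_HH hm h7 h4 h8)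
  rw [← inv_mul_cancel_right m m', ← h9] at h5 ⊢
  rw [mul_mem_cancel_right (h1 hv'), ← mul_assoc, mul_mem_cancel_right (h1 h6)] at h5
  have h10 := hk _ (inv_mem hu) c (by
    rw [inv_inv, mul_assoc u⁻¹, eq_inv_mul_iff_mul_eq, ← mul_assoc, ← mul_assoc,
      Subgroup.mem_centralizer_singleton_iff.1 h5]; group)
  have h11 : h3.τ c ∈ K := by
    rw [h3.τ_eq]
    refine list_prod_mem fun a ha => ?_
    obtain ⟨i, -, rfl⟩ := List.mem_map.1 ha
    by_cases hi : i ∈ J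
    · exact mul_mem (h2 i hi _) (h2 i hi _)
    · rw [h10 i hi, Units.val_one, C.h_one]; exact one_mem _
  rw [mul_mem_cancel_right (h1 h11)] at h5
  exact mul_mem (mul_mem (hU u hu (Subgroup.mem_centralizer_singleton_iff.1 h5)) (mul_mem h11 h6)) hv'

theorem mem_of_coset {f : Fin D.rank → ℤ} {S S' A : Set (Fin D.nroots)} (hS : G.Nil f S) (hA : A ⊆ S)
    (hc : ∀ A ⊆ S, G.Closed A) {r : Fin D.nroots} (hr : r ∈ S) (h1 : S' ⊆ S) (h2 : r ∉ S') {t : F} (ht : t ≠ 0) {v : Γ}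
    (hv : v ∈ C.US S') (h : C.x r t * v ∈ C.US A) : r ∈ A := by
  by_contra e
  have h3 : S \ {r} ⊆ S := Set.diff_subset
  refine (C.mem_of_x_mem (hS.subset h3 (hc _ h3)) ht ((mul_mem_cancel_right (C.US_mono ?_ hv)).1 (C.US_mono ?_ h)) rfl).2 rfl
  · exact fun s hs => ⟨h1 hs, fun e => h2 (e ▸ hs)⟩
  · exact fun s hs => ⟨hA hs, fun e' => e (e' ▸ hs)⟩

theorem closed_of_ht {S : Set (Fin D.nroots)} {n : ℤ} (h : ∀ r, G.fn 1 r < 2 * n) (hS : ∀ r ∈ S, n ≤ G.fn 1 r)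
    (hn : 0 < n) : G.Closed S := fun r hr s hs k i j hi hj e => by
  have := h k
  rw [G.fn_comb 1 e] at this
  nlinarith [hS r hr, hS s hs, show (1 : ℤ) ≤ i by exact_mod_cast hi, show (1 : ℤ) ≤ j by exact_mod_cast hj]

/-- the supports of conjugate elements -/
theorem two_mem {p : ℤ} (hp : (p : F) = 0) {r s : Fin D.nroots} {S : List ℕ} (H : Abs G p [r, s] S) {n : ℤ}
    (h : ∀ r, G.fn 1 r < 2 * n) (hS : ∀ a : Fin D.nroots, (a : ℕ) ∈ [r.1, s.1] ++ S → n ≤ G.fn 1 a) (hn : 0 < n)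
    (hrs : Cm D p r s) (hr : (r : ℕ) ∉ s.1 :: S) {u v m : Γ} (hu : u ∈ C.U) (hv : v ∈ C.U)
    {w : Equiv.Perm (Fin D.nroots)} (hw : w ∈ G.W) (hm : C.Mon m w) {b c : F} (hb : b ≠ 0)
    (e : m * (v * (C.x r b * C.x s c) * v⁻¹) * m⁻¹ = u * (C.x r b * C.x s c) * u⁻¹) :
    (w r : ℕ) ∈ [r.1, s.1] ++ S ∧ ((s : ℕ) ∉ r.1 :: S → c ≠ 0 → (w s : ℕ) ∈ [r.1, s.1] ++ S) := by
  have h1 : ∀ A ⊆ {a : Fin D.nroots | (a : ℕ) ∈ [r.1, s.1] ++ S}, G.Closed A := fun A hA =>
    closed_of_ht h (fun a ha => hS a (hA ha)) hn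
  have h2 : G.Nil 1 {a : Fin D.nroots | (a : ℕ) ∈ [r.1, s.1] ++ S} := G.nil_pos.subset H.1 (h1 _ le_rfl)
  obtain ⟨f, h3⟩ := h2.preimage (Good.lin_W hw)
  have h4 : ∀ u ∈ C.U, u * (C.x r b * C.x s c) * u⁻¹ ∈ C.US {a : Fin D.nroots | (a : ℕ) ∈ [r.1, s.1] ++ S} :=
    fun u hu => by
      obtain ⟨a, ha, e⟩ := C.abs_two hp H hu (r := r) (s := s) (by simp) (by simp) b c
      exact e ▸ mul_mem (mul_mem (C.x_mem (by simp) _) (C.x_mem (by simp) _))
        (C.US_mono (fun _ h => List.mem_append_right _ h) ha)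
  have h5 := C.mem_inf' h2 h3 (h4 v hv) (by
    simpa [← e, mul_assoc] using hm.conj_mem' (T := w ⁻¹' {a : Fin D.nroots | (a : ℕ) ∈ [r.1, s.1] ++ S})
      (fun a ha => by simpa using ha) (h4 u hu))
  obtain ⟨a, ha, e'⟩ := C.abs_two hp H hv (r := r) (s := s) (by simp) (by simp) b c
  rw [e', mul_assoc] at h5
  refine ⟨(C.mem_of_coset h2 Set.inter_subset_left h1 (by simp) (S' := {a | (a : ℕ) ∈ s.1 :: S})
    (fun a ha => List.mem_cons_of_mem _ ha) hr hb (mul_mem (C.x_mem (r := s) (by simp) c)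
      (C.US_mono (fun _ h => List.mem_cons_of_mem _ h) ha)) h5).2, fun hs hc => ?_⟩
  rw [← mul_assoc, (C.comm_of_cm hp hrs b c).eq, mul_assoc] at h5
  exact (C.mem_of_coset h2 Set.inter_subset_left h1 (by simp) (S' := {a | (a : ℕ) ∈ r.1 :: S})
    (fun a ha => by simp at ha ⊢; tauto) hs hc (mul_mem (C.x_mem (r := r) (by simp) b)
      (C.US_mono (fun _ h => List.mem_cons_of_mem _ h) ha)) h5).2

theorem two_eq {p : ℤ} (hp : (p : F) = 0) {r s : Fin D.nroots} {S : List ℕ} (H : Abs G p [r, s] S) {n : ℤ}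
    (h : ∀ r, G.fn 1 r < 2 * n) (hS : ∀ a : Fin D.nroots, (a : ℕ) ∈ [r.1, s.1] ++ S → n ≤ G.fn 1 a) (hn : 0 < n)
    (hr : (r : ℕ) ∉ s.1 :: S) {u : Γ} (hu : u ∈ C.U) {b c b' c' : F}
    (e : C.x r b' * C.x s c' = u * (C.x r b * C.x s c) * u⁻¹) : b' = b ∧ ((s : ℕ) ∉ S → c' = c) := by
  have h1 : ∀ A ⊆ {a : Fin D.nroots | (a : ℕ) ∈ [r.1, s.1] ++ S}, G.Closed A := fun A hA =>
    closed_of_ht h (fun a ha => hS a (hA ha)) hn
  have h2 : G.Nil 1 {a : Fin D.nroots | (a : ℕ) ∈ [r.1, s.1] ++ S} := G.nil_pos.subset H.1 (h1 _ le_rfl)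
  obtain ⟨a, ha, e'⟩ := C.abs_two hp H hu (r := r) (s := s) (by simp) (by simp) b c
  rw [e'] at e
  have h3 : b' = b := by_contra fun h3 => hr (C.mem_of_x_mem (h2.subset (T := {a | (a : ℕ) ∈ s.1 :: S})
    (fun a ha => List.mem_cons_of_mem _ ha) (h1 _ fun a ha => List.mem_cons_of_mem _ ha)) (t := -b + b')
    (by rwa [neg_add_eq_sub, sub_ne_zero]) (mul_mem (mul_mem (C.x_mem (r := s) (by simp) c)
      (C.US_mono (fun _ h => List.mem_cons_of_mem _ h) ha)) (inv_mem (C.x_mem (r := s) (by simp) c'))) (by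
        rw [C.add, C.x_neg, eq_mul_inv_of_mul_eq e]; congr 1; group))
  rw [h3, mul_assoc, mul_right_inj] at e
  exact ⟨h3, fun hs => by_contra fun h4 => hs (C.mem_of_x_mem (h2.subset (T := {a | (a : ℕ) ∈ S})
    (fun a ha => List.mem_append_right _ ha) (h1 _ fun a ha => List.mem_append_right _ ha)) (t := -c + c')
    (by rwa [neg_add_eq_sub, sub_ne_zero]) ha (by rw [C.add, C.x_neg, e]; simp))⟩

theorem U_split_list {L M : List ℕ} (h : Enum (L ++ M) {r | G.Pos r}) {u : Γ} (hu : u ∈ C.U) :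
    ∃ a ∈ C.US {r | r.1 ∈ L}, ∃ t : ℕ → F, u = a * wordG C.x (M.map fun r => (r, t r)) := by
  obtain ⟨t, rfl⟩ := C.exists_word G.nil_pos h.1 h.2.1 h.2.2 hu
  exact ⟨_, C.word_mem (w := L.map fun r => (r, t r)) (by simp), t, by simp [wordG]⟩

end Cover

variable {F : Type*} [Field F] [CharP F 2] {Γ : Type*} [Group Γ]

theorem two_cast : ((2 : ℤ) : F) = 0 := by simpa using CharTwo.two_eq_zero

theorem centF4a (C : Cover goodF4 F Γ) (h3 : C.R3) :
    C.Gr ⊓ Subgroup.centralizer {C.x ⟨47, by decide⟩ 1 * C.x ⟨44, by decide⟩ 1} =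
      C.U ⊔ C.US {⟨20, by decide⟩} ⊔ C.US {⟨22, by decide⟩} := by
  have H : Abs goodF4 2 [47, 44] [] := by decide +kernel
  rw [sup_assoc, ← C.US_union, show ({⟨20, by decide⟩} ∪ {⟨22, by decide⟩} : Set (Fin chevF4.nroots)) =
    {r | ∃ j ∈ {j : Fin chevF4.rank | j.1 = 1 ∨ j.1 = 2}, r = (goodF4.sm j).rev} from Set.ext (by
      simp only [Set.mem_union, Set.mem_singleton_iff, Set.mem_setOf_eq]; decide +kernel)]
  refine C.cent_eq h3 (fun r hr t => ?_) (fun j hj t => ?_) (fun m w hw hm e => ?_) fun c e => ?_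
  · have : ∀ r, goodF4.Pos r → Cm chevF4 2 r 47 ∧ Cm chevF4 2 r 44 := by decide +kernel
    exact (C.comm_of_cm two_cast (this r hr).1 t 1).mul_right (C.comm_of_cm two_cast (this r hr).2 t 1)
  · have : ∀ j : Fin chevF4.rank, j.1 = 1 ∨ j.1 = 2 → Cm chevF4 2 (goodF4.sm j).rev 47 ∧
      Cm chevF4 2 (goodF4.sm j).rev 44 := by decide +kernel
    exact (C.comm_of_cm two_cast (this j hj).1 t 1).mul_right (C.comm_of_cm two_cast (this j hj).2 t 1)
  · obtain ⟨h1, h2⟩ := C.two_mem two_cast (r := ⟨47, by decide⟩) (s := ⟨44, by decide⟩) H (n := 6) (by decide +kernel)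
      (by decide +kernel) (by norm_num) (by decide +kernel) (by decide) (one_mem _) (one_mem _) hw hm one_ne_zero
      (by simpa using e)
    have : ∀ a : Fin chevF4.nroots, a.1 ∈ [47, 44] ++ [] → (goodF4.len a = goodF4.len ⟨47, by decide⟩ →
      a = ⟨47, by decide⟩) ∧ (goodF4.len a = goodF4.len ⟨44, by decide⟩ → a = ⟨44, by decide⟩) := by decide +kernel
    refine goodF4.WJ_mono ?_ (goodF4.mem_WJ_of_fix' 1 1 (by decide +kernel) hw ((this _ h1).1 (Good.len_W hw _))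
      ((this _ (h2 (by decide) one_ne_zero)).2 (Good.len_W hw _)))
    simp only [Set.setOf_subset_setOf]; decide +kernel
  · rw [← MulAut.conj_apply, map_mul, MulAut.conj_apply, MulAut.conj_apply, h3.τ_conj, h3.τ_conj,
      Cover.chr_eq (i := ⟨3, by decide⟩) (by decide +kernel), Cover.chr_eq (i := ⟨0, by decide⟩) (by decide +kernel)] at e
    obtain ⟨h1, h2⟩ := C.two_eq two_cast (r := ⟨47, by decide⟩) (s := ⟨44, by decide⟩) H (n := 6) (by decide +kernel)
      (by decide +kernel) (by norm_num) (by decide) (one_mem _) (b := 1) (c := 1) (e.trans (by simp))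
    have : ∀ i : Fin chevF4.rank, ¬ (i.1 = 1 ∨ i.1 = 2) → i = ⟨3, by decide⟩ ∨ i = ⟨0, by decide⟩ := by decide +kernel
    intro i hi
    rcases this i hi with rfl | rfl
    · exact Units.ext (by simpa using h1)
    · exact Units.ext (by simpa using h2 (by decide))

theorem centF4b (C : Cover goodF4 F Γ) (h3 : C.R3) :
    C.Gr ⊓ Subgroup.centralizer {C.x ⟨39, by decide⟩ 1 * C.x ⟨45, by decide⟩ 1} =
      C.US {⟨33, by decide⟩} ⊔ C.US {⟨14, by decide⟩} ⊔ C.US {⟨24, by decide⟩} ⊔ C.US {⟨23, by decide⟩} ⊔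
        C.US {r | goodF4.Pos r ∧ r.1 ∉ [27, 25, 34, 26]} := by
  have H : Abs goodF4 2 [39, 45] [40, 44, 46, 47] := by decide +kernel
  simp only [← C.US_union]
  refine C.cent_eq' h3 (J := {j | j.1 = 0 ∨ j.1 = 3}) (fun u hu => Subgroup.mem_centralizer_singleton_iff.2
    (C.commute_US (fun r hr t => ?_) hu)) (C.US_le_Gr _) (fun r hr t => C.x_mem ?_ t)
    (fun u hu v hv m w hw hm e => ?_) (fun u hu c e => ?_) fun u hu e => ?_
  · have : Cm chevF4 2 r 39 ∧ Cm chevF4 2 r 45 := by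
      simp only [Set.mem_union, Set.mem_singleton_iff, Set.mem_setOf_eq] at hr; revert r; decide +kernel
    exact (C.comm_of_cm two_cast this.1 t 1).mul_right (C.comm_of_cm two_cast this.2 t 1)
  · simp only [Set.mem_union, Set.mem_singleton_iff, Set.mem_setOf_eq, Good.InJ] at hr ⊢; revert r; decide +kernel
  · obtain ⟨h1, h2⟩ := C.two_mem two_cast (r := ⟨39, by decide⟩) (s := ⟨45, by decide⟩) H (n := 6) (by decide +kernel)
      (by decide +kernel) (by norm_num) (by decide +kernel) (by decide) hu hv hw hm one_ne_zero e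
    have : ∀ a : Fin chevF4.nroots, a.1 ∈ [39, 45] ++ [40, 44, 46, 47] → ∀ b : Fin chevF4.nroots,
      b.1 ∈ [39, 45] ++ [40, 44, 46, 47] → goodF4.len a = goodF4.len ⟨39, by decide⟩ ∧
      goodF4.len b = goodF4.len ⟨45, by decide⟩ ∧ goodF4.A a b = goodF4.A ⟨39, by decide⟩ ⟨45, by decide⟩ →
      a = ⟨39, by decide⟩ ∧ b = ⟨45, by decide⟩ := by decide +kernel
    have := this _ h1 _ (h2 (by decide) one_ne_zero) ⟨Good.len_W hw _, Good.len_W hw _, Good.A_W hw _ _⟩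
    refine goodF4.WJ_mono ?_ (goodF4.mem_WJ_of_fix' 2 3 (by decide +kernel) hw this.1 this.2)
    simp only [Set.setOf_subset_setOf]; decide +kernel
  · rw [← MulAut.conj_apply, map_mul, MulAut.conj_apply, MulAut.conj_apply, h3.τ_conj, h3.τ_conj] at e
    obtain ⟨h1, h2⟩ := C.two_eq two_cast (r := ⟨39, by decide⟩) (s := ⟨45, by decide⟩) H (n := 6) (by decide +kernel)
      (by decide +kernel) (by norm_num) (by decide) hu e
    replace h2 := h2 (by decide)
    rw [mul_one, Units.val_eq_one] at h1 h2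
    have h4 : ∀ (a b : ℤ) (i : Fin chevF4.rank), (∀ j : Fin chevF4.rank, a * chevF4.cartan j 39 +
        b * chevF4.cartan j 45 = if j = i then 1 else 0) → c i = 1 := fun a b i h => by
      have := congrArg₂ (· * ·) (congrArg (· ^ a) h1) (congrArg (· ^ b) h2)
      simpa [goodF4.chr_pw', ← Finset.prod_zpow, ← zpow_mul, ← Finset.prod_mul_distrib, ← zpow_add, mul_comm _ a,
        mul_comm _ b, h] using this
    have : ∀ i : Fin chevF4.rank, ¬ (i.1 = 0 ∨ i.1 = 3) → i = ⟨1, by decide⟩ ∨ i = ⟨2, by decide⟩ := by decide +kernel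
    intro i hi
    rcases this i hi with rfl | rfl
    · exact h4 1 1 _ (by decide +kernel)
    · exact h4 2 1 _ (by decide +kernel)
  · obtain ⟨a, ha, t, rfl⟩ := C.U_split_list (L := [24, 28, 29, 30, 31, 32, 33, 35, 36, 37, 38, 39, 40, 41, 42, 43, 44,
      45, 46, 47]) (M := [27, 25, 34, 26]) (by unfold Enum; simp only [Set.mem_setOf_eq]; decide +kernel) hu
    have h1 : Commute a (C.x ⟨39, by decide⟩ 1 * C.x ⟨45, by decide⟩ 1) := C.commute_US (fun r hr t => by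
      have : Cm chevF4 2 r 39 ∧ Cm chevF4 2 r 45 := by
        simp only [Set.mem_setOf_eq] at hr; revert r; decide +kernel
      exact (C.comm_of_cm two_cast this.1 t 1).mul_right (C.comm_of_cm two_cast this.2 t 1)) ha
    obtain ⟨f, hf⟩ := exists_ev fun n => t ([0, 0, 27, 25, 0, 34, 0, 26].getD n 0)
    have h2 := C.same_sound checkedF4 f two_cast (key := id) (fuel := 20)
      (v := [(27, [(2, 1)]), (25, [(3, 1)]), (34, [(5, 1)]), (26, [(7, 1)])] ++ [(39, [(1, 1)]), (45, [(1, 1)])])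
      (w := [(39, [(1, 1)]), (45, [(1, 1)])] ++ [(27, [(2, 1)]), (25, [(3, 1)]), (34, [(5, 1)]), (26, [(7, 1)])] ++
        [(40, [(2, 1)]), (44, [(5, 1)]), (46, [(3, 1)]), (47, [(7, 1)])]) (by decide +kernel)
    rw [mul_assoc, ← mul_assoc _ a, ← h1.eq, mul_assoc, mul_right_inj] at e
    simp only [C.pw_append] at h2
    simp only [Cover.pw, PWord.ev, List.map_cons, List.map_nil, Ply.ev_cons, Ply.ev_nil, hf 2 (by norm_num),
      hf 3 (by norm_num), hf 5 (by norm_num), hf 7 (by norm_num), Int.cast_one, one_mul, add_zero, map_one,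
      List.getD_cons_succ, List.getD_cons_zero] at h2 e
    have h4 : wordG C.x [(39, 1), (45, 1)] = C.x ⟨39, by decide⟩ 1 * C.x ⟨45, by decide⟩ 1 := by
      simp [wordG, show 39 < chevF4.nroots by decide, show 45 < chevF4.nroots by decide]
    rw [h4, e, left_eq_mul] at h2
    have h5 := mt (C.word_ne_one (goodF4.nil_pos.subset (T := {r | r.1 ∈ [40, 44, 46, 47]})
      (by simp only [Set.setOf_subset_setOf]; decide +kernel) (Cover.closed_of_ht (n := 6) (by decide +kernel)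
        (by simp only [Set.mem_setOf_eq]; decide +kernel) (by norm_num)))
      (L := [40, 44, 46, 47]) ⟨by decide, by decide, fun _ => Iff.rfl⟩ rfl) (not_not.2 h2)
    simp only [List.mem_cons, List.not_mem_nil, or_false, exists_eq_or_imp, exists_eq_left, not_or, not_not] at h5
    rw [List.map_cons, List.map_cons, List.map_cons, List.map_cons, List.map_nil, C.word_eq_one (by simp [h5]), mul_one]
    refine C.US_mono (fun r hr => ?_) ha
    simp only [Set.mem_union, Set.mem_singleton_iff, Set.mem_setOf_eq] at hr ⊢; revert r; decide +kernel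

theorem centG2b (C : Cover goodG2 F Γ) (h3 : C.R3) :
    C.Gr ⊓ Subgroup.centralizer {C.x ⟨9, by decide⟩ 1} =
      C.US {⟨9, by decide⟩} ⊔ C.US {⟨10, by decide⟩} ⊔ C.US {⟨11, by decide⟩} ⊔ C.US {⟨6, by decide⟩} ⊔
        C.US {⟨5, by decide⟩} := by
  have H : Abs goodG2 2 [9, 11] [10, 11] := by decide +kernel
  have h0 : C.x ⟨9, by decide⟩ 1 = C.x ⟨9, by decide⟩ 1 * C.x ⟨11, by decide⟩ 0 := by rw [C.x_zero, mul_one]
  simp only [← C.US_union]
  refine C.cent_eq' h3 (J := {j | j.1 = 1}) (fun u hu => Subgroup.mem_centralizer_singleton_iff.2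
    (C.commute_US (fun r hr t => C.comm_of_cm two_cast ?_ t 1) hu)) (C.US_le_Gr _) (fun r hr t => C.x_mem ?_ t)
    (fun u hu v hv m w hw hm e => ?_) (fun u hu c e => ?_) fun u hu e => ?_
  · simp only [Set.mem_union, Set.mem_singleton_iff, Set.mem_setOf_eq] at hr; revert r; decide +kernel
  · simp only [Set.mem_union, Set.mem_singleton_iff, Set.mem_setOf_eq, Good.InJ] at hr ⊢; revert r; decide +kernel
  · rw [h0] at e
    obtain ⟨h1, -⟩ := C.two_mem two_cast (r := ⟨9, by decide⟩) (s := ⟨11, by decide⟩) H (n := 3) (by decide +kernel)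
      (by decide +kernel) (by norm_num) (by decide +kernel) (by decide) hu hv hw hm one_ne_zero e
    have : ∀ a : Fin chevG2.nroots, a.1 ∈ [9, 11] ++ [10, 11] → goodG2.len a = goodG2.len ⟨9, by decide⟩ →
      a = ⟨9, by decide⟩ := by decide +kernel
    have := this _ h1 (Good.len_W hw _)
    refine goodG2.WJ_mono ?_ (goodG2.mem_WJ_of_fix' 1 0 (by decide +kernel) hw this this)
    simp only [Set.setOf_subset_setOf]; decide +kernel
  · rw [h3.τ_conj, Cover.chr_eq (i := ⟨0, by decide⟩) (by decide +kernel), h0] at e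
    obtain ⟨h1, -⟩ := C.two_eq two_cast (r := ⟨9, by decide⟩) (s := ⟨11, by decide⟩) H (n := 3) (by decide +kernel)
      (by decide +kernel) (by norm_num) (by decide) hu (c' := 0) ((congrArg _ (C.x_zero _)).trans ((mul_one _).trans e))
    have : ∀ i : Fin chevG2.rank, ¬ i.1 = 1 → i = ⟨0, by decide⟩ := by decide +kernel
    intro i hi
    rw [this i hi]
    exact Units.ext (by simpa using h1)
  · obtain ⟨a, ha, t, rfl⟩ := C.U_split_list (L := [6, 9, 10, 11]) (M := [7, 8])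
      (by unfold Enum; simp only [Set.mem_setOf_eq]; decide +kernel) hu
    have h1 : Commute a (C.x ⟨9, by decide⟩ 1) := C.commute_US (fun r hr t => C.comm_of_cm two_cast (by
        simp only [Set.mem_setOf_eq] at hr; revert r; decide +kernel) t 1) ha
    obtain ⟨f, hf⟩ := exists_ev fun n => t ([0, 0, 7, 8].getD n 0)
    have h2 := C.same_sound checkedG2 f two_cast (key := id) (fuel := 20)
      (v := [(7, [(2, 1)]), (8, [(3, 1)])] ++ [(9, [(1, 1)])])
      (w := [(9, [(1, 1)])] ++ [(7, [(2, 1)]), (8, [(3, 1)])] ++ [(10, [(2, 1)]), (11, [(3, 1)])]) (by decide +kernel)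
    rw [mul_assoc, ← mul_assoc _ a, ← h1.eq, mul_assoc, mul_right_inj] at e
    simp only [C.pw_append] at h2
    simp only [Cover.pw, PWord.ev, List.map_cons, List.map_nil, Ply.ev_cons, Ply.ev_nil, hf 2 (by norm_num),
      hf 3 (by norm_num), Int.cast_one, one_mul, add_zero, map_one,
      List.getD_cons_succ, List.getD_cons_zero] at h2 e
    have h4 : wordG C.x [(9, 1)] = C.x ⟨9, by decide⟩ 1 := by simp [wordG, show 9 < chevG2.nroots by decide]
    rw [h4, e, left_eq_mul] at h2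
    have h5 := mt (C.word_ne_one (goodG2.nil_pos.subset (T := {r | r.1 ∈ [10, 11]})
      (by simp only [Set.setOf_subset_setOf]; decide +kernel) (Cover.closed_of_ht (n := 3) (by decide +kernel)
        (by simp only [Set.mem_setOf_eq]; decide +kernel) (by norm_num)))
      (L := [10, 11]) ⟨by decide, by decide, fun _ => Iff.rfl⟩ rfl) (not_not.2 h2)
    simp only [List.mem_cons, List.not_mem_nil, or_false, exists_eq_or_imp, exists_eq_left, not_or, not_not] at h5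
    rw [List.map_cons, List.map_cons, List.map_nil, C.word_eq_one (by simp [h5]), mul_one]
    refine C.US_mono (fun r hr => ?_) ha
    simp only [Set.mem_union, Set.mem_singleton_iff, Set.mem_setOf_eq] at hr ⊢; revert r; decide +kernel

end CfsgH6
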