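import Mathlib
import Cfsg.Agent.H6.St

/-! The torus relation over finite fields; images of covers. -/

set_option autoImplicit false

namespace CfsgH6

open Cfsg.Lie

variable {D : ChevalleyDatum} {G : Good D} {F : Type*} [Field F] {Γ : Type*} [Group Γ]

theorem Cover.n_alt' (C : Cover G F Γ) (r : Fin D.nroots) {t : F} (ht : t ≠ 0) :
    C.n r t = C.x r.rev (-t⁻¹) * C.x r t * C.x r.rev (-t⁻¹) := by
  have := C.n_conj r ht r t
  rw [G.rf_self, G.η_self, G.A_self, show ((-1 : ℤ) : F) * t ^ (-2 : ℤ) * t = -t⁻¹ by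
    rw [zpow_neg, zpow_ofNat]; field_simp; simp] at this
  have h2 : C.n r t = C.x r.rev (-t⁻¹) * C.n r t * (C.x r t)⁻¹ := by rw [← this]; group
  rw [h2]
  conv_lhs => rw [Cover.n]
  group

theorem Cover.h_one_sub' (C : Cover G F Γ) (r : Fin D.nroots) {u v : F} (hu : u ≠ 0) (hv : v ≠ 0) (h : u + v = 1) :
    C.h r (u * v) = C.h r u * C.h r v := by
  have k : ∀ {t : F}, t ≠ 0 → C.n r t * C.x r.rev 1 = C.x r (-t ^ 2) * C.n r t ∧
      C.x r.rev 1 * C.n r t = C.n r t * C.x r (-t ^ 2) := fun {t} ht => by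
    have h1 := C.n_conj r ht r.rev 1
    have h2 := C.n_conj r ht r (-t ^ 2)
    rw [G.rf_self_rev, G.η_rev, G.η_self, G.A_rev_right, G.A_self, neg_neg, show ((-1 : ℤ) : F) * t ^ (2 : ℤ) * 1 = -t ^ 2 by
      rw [zpow_ofNat]; simp] at h1
    rw [G.rf_self, G.η_self, G.A_self, show ((-1 : ℤ) : F) * t ^ (-2 : ℤ) * -t ^ 2 = 1 by
      rw [zpow_neg, zpow_ofNat]; field_simp; simp] at h2
    exact ⟨by rw [← h1]; group, by rw [← h2]; group⟩
  have e : C.n r u * C.n r (-1) * C.n r v = C.n r (u * v) := by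
    rw [C.n_alt' r (t := -1) (by simp), show -(-1 : F)⁻¹ = 1 by simp, ← mul_assoc, ← mul_assoc, (k hu).1, mul_assoc,
      (k hv).2]
    simp only [Cover.n, ← mul_assoc]
    rw [← C.add, mul_assoc _ (C.x r u), ← C.add, mul_assoc _ (C.x r _) (C.x r v), ← C.add,
      show u + -1 + v = 0 by linear_combination h, C.x_zero, mul_one, mul_assoc _ (C.x r.rev _) (C.x r.rev _),
      ← C.add, mul_assoc _ (C.x r v), ← C.add]
    congr 3
    · linear_combination -u * h
    · field_simp; linear_combination -h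
    · linear_combination -v * h
  rw [Cover.h, Cover.h, Cover.h, ← e]; group

theorem Cover.R3_fin [Finite F] (C : Cover G F Γ) (hG : C.Gr = ⊤) : C.R3 := by
  intro r
  have cen : ∀ t u : F, t ≠ 0 → u ≠ 0 → ∃ z ∈ Subgroup.center Γ, C.h r (t * u) = C.h r t * C.h r u * z :=
    fun t u ht hu => ⟨(C.h r t * C.h r u)⁻¹ * C.h r (t * u), by
      rw [← C.π_ker hG, MonoidHom.mem_ker, map_mul, map_inv, map_mul, C.π_h', C.π_h', C.π_h', G.gl_R3 F r t u ht hu,
        inv_mul_cancel], by group⟩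
  obtain ⟨g, hg⟩ := IsCyclic.exists_monoid_generator (α := Fˣ)
  have pw : ∀ n : ℕ, ∃ z ∈ Subgroup.center Γ, C.h r (g ^ n : Fˣ) = C.h r g ^ n * z := fun n => by
    induction n with
    | zero => exact ⟨1, one_mem _, by simp [C.h_one]⟩
    | succ n ih =>
      obtain ⟨z, hz, e⟩ := ih
      obtain ⟨z', hz', e'⟩ := cen _ _ (g ^ n).ne_zero g.ne_zero
      exact ⟨z * z', mul_mem hz hz', by
        rw [pow_succ, Units.val_mul, e', e, pow_succ, mul_assoc _ z, ← Subgroup.mem_center_iff.1 hz]; group⟩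
  have com : ∀ t u : F, t ≠ 0 → u ≠ 0 → Commute (C.h r t) (C.h r u) := fun t u ht hu => by
    obtain ⟨a, ha⟩ := hg (Units.mk0 t ht)
    obtain ⟨b, hb⟩ := hg (Units.mk0 u hu)
    obtain ⟨z, hz, e⟩ := pw a
    obtain ⟨z', hz', e'⟩ := pw b
    simp only [ha, hb, Units.val_mk0] at e e'
    rw [e, e']
    exact (((Commute.refl _).pow_pow _ _).mul_right (Subgroup.mem_center_iff.1 hz' _)).mul_left
      (Subgroup.mem_center_iff.1 hz _).symm
  have sq : ∀ u t : F, u ≠ 0 → t ≠ 0 → C.h r (u * (t * t)) = C.h r u * C.h r (t * t) := fun u t hu ht => by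
    have := C.h_conj_h r r ht u
    rw [G.A_self, (com _ _ ht hu).eq, mul_inv_cancel_right, zpow_two, mul_comm] at this
    rw [this]; group
  have symm : ∀ a b : F, a ≠ 0 → b ≠ 0 → C.h r (a * b) = C.h r a * C.h r b → C.h r (b * a) = C.h r b * C.h r a :=
    fun a b ha hb h => by rw [mul_comm, h, (com _ _ ha hb).eq]
  have shift : ∀ a b t : F, a ≠ 0 → b ≠ 0 → t ≠ 0 → C.h r (a * b) = C.h r a * C.h r b →
      C.h r (a * (b * (t * t))) = C.h r a * C.h r (b * (t * t)) := fun a b t ha hb ht h => by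
    rw [← mul_assoc, sq _ _ (mul_ne_zero ha hb) ht, h, sq _ _ hb ht, mul_assoc]
  intro a b ha hb
  by_cases h1 : IsSquare b
  · obtain ⟨t, rfl⟩ := h1; exact sq _ _ ha (left_ne_zero_of_mul hb)
  by_cases h2 : IsSquare a
  · obtain ⟨t, rfl⟩ := h2; exact symm _ _ hb ha (sq _ _ hb (left_ne_zero_of_mul ha))
  classical
  have := Fintype.ofFinite F
  have hc : ringChar F ≠ 2 := fun e => h1 (FiniteField.isSquare_of_char_two e b)
  obtain ⟨s, hs⟩ : IsSquare (a * b) := by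
    rw [← quadraticChar_one_iff_isSquare (mul_ne_zero ha hb), map_mul, quadraticChar_neg_one_iff_not_isSquare.2 h1,
      quadraticChar_neg_one_iff_not_isSquare.2 h2]; norm_num
  obtain ⟨x, y, e⟩ := FiniteField.exists_root_sum_quadratic (f := Polynomial.X ^ 2)
    (g := Polynomial.X ^ 2 - Polynomial.C a⁻¹) (Polynomial.degree_X_pow 2)
    (Polynomial.degree_X_pow_sub_C (by norm_num) _) (FiniteField.odd_card_of_char_ne_two hc)
  simp only [Polynomial.eval_pow, Polynomial.eval_X, Polynomial.eval_sub, Polynomial.eval_C] at e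
  have hx : x ≠ 0 := fun h => h2 (isSquare_inv.1 ⟨y, by rw [h] at e; linear_combination -e⟩)
  have hy : y ≠ 0 := fun h => h2 (isSquare_inv.1 ⟨x, by rw [h] at e; linear_combination -e⟩)
  have hs0 : s ≠ 0 := fun h => mul_ne_zero ha hb (by rw [hs, h, mul_zero])
  have e1 := C.h_one_sub' r (u := a * (x * x)) (v := a * (y * y)) (by simp [ha, hx]) (by simp [ha, hy])
    (by linear_combination a * e + mul_inv_cancel₀ ha)
  have e2 := shift _ _ (s / (a * y)) (by simp [ha, hx]) (by simp [ha, hy]) (by simp [ha, hy, hs0]) e1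
  rw [show a * (y * y) * (s / (a * y) * (s / (a * y))) = b by field_simp; linear_combination -hs] at e2
  have e3 := shift _ _ x⁻¹ hb (by simp [ha, hx]) (inv_ne_zero hx) (symm _ _ (by simp [ha, hx]) hb e2)
  rw [show a * (x * x) * (x⁻¹ * x⁻¹) = a by field_simp] at e3
  exact symm _ _ hb ha e3

namespace Cover
variable (C : Cover G F Γ) {Γ' : Type*} [Group Γ']

/-- the image of a cover -/
noncomputable def mapS (σ : Γ →* Γ') (hs : Function.Surjective σ) (hk : σ.ker ≤ C.π.ker) : Cover G F Γ' where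
  x r t := σ (C.x r t)
  add := (C.rel.map σ).add
  comm := (C.rel.map σ).comm
  π := σ.liftOfSurjective hs ⟨_, hk⟩
  π_x r t := by rw [MonoidHom.liftOfRightInverse_comp_apply]; exact C.π_x r t

theorem mapS_π (σ : Γ →* Γ') (hs : Function.Surjective σ) (hk : σ.ker ≤ C.π.ker) (g : Γ) :
    (C.mapS σ hs hk).π (σ g) = C.π g := MonoidHom.liftOfRightInverse_comp_apply _ _ _ _ _

theorem mapS_Gr (hG : C.Gr = ⊤) (σ : Γ →* Γ') (hs : Function.Surjective σ) (hk : σ.ker ≤ C.π.ker) :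
    (C.mapS σ hs hk).Gr = ⊤ := by
  rw [Gr, ← C.map_US _ σ fun _ _ => rfl]
  change C.Gr.map σ = ⊤
  rw [hG, ← MonoidHom.range_eq_map, MonoidHom.range_eq_top.2 hs]

theorem exists_adj (hG : C.Gr = ⊤) (σ : Γ →* Γ') (hs : Function.Surjective σ) (hk : σ.ker = Subgroup.center Γ) :
    ∃ C' : Cover G F Γ', C'.Gr = ⊤ ∧ Function.Injective C'.π ∧ ∀ r t, C'.x r t = σ (C.x r t) := by
  have h := hk.trans (C.π_ker hG).symm
  refine ⟨C.mapS σ hs h.le, C.mapS_Gr hG _ _ _, (injective_iff_map_eq_one _).2 fun g hg => ?_, fun _ _ => rfl⟩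
  obtain ⟨g, rfl⟩ := hs g
  rw [mapS_π] at hg
  exact h.ge hg

theorem exists_quot (hG : C.Gr = ⊤) : ∃ C' : Cover G F (Γ ⧸ Subgroup.center Γ), C'.Gr = ⊤ ∧
    Function.Injective C'.π ∧ ∀ r t, C'.x r t = C.x r t :=
  C.exists_adj hG (QuotientGroup.mk' _) (QuotientGroup.mk'_surjective _) (QuotientGroup.ker_mk' _)

theorem exists_equiv (hG : C.Gr = ⊤) (e : Γ ≃* Γ') : ∃ C' : Cover G F Γ', C'.Gr = ⊤ ∧ (∀ g, C'.π (e g) = C.π g) ∧
    ∀ r t, C'.x r t = e (C.x r t) :=
  ⟨C.mapS e e.surjective (by rw [(MonoidHom.ker_eq_bot_iff _).2 e.injective]; exact bot_le), C.mapS_Gr hG _ _ _,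
    C.mapS_π _ _ _, fun _ _ => rfl⟩

end Cover

end CfsgH6
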