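import Cfsg.Agent.H6.StBlk
import Cfsg.Agent.H6.R3f
import Cfsg.Agent.S0953

/-! Groups in their defining characteristic: blocks and the Steinberg character. -/

set_option autoImplicit false

open Cfsg CfsgH3 CfsgH4 Cfsg.Lie

namespace CfsgH6

section
variable {G : Type*} [Group G] [Finite G] {p : ℕ} [hp : Fact p.Prime] {M : Ideal AlgInt}

/-- centralizers of radical subgroups are small -/
def Rad (p : ℕ) (G : Type*) [Group G] : Prop := ∀ D : Subgroup G, IsPGroup p D → D ≠ ⊥ →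
  (pCore p (Subgroup.normalizer (D : Set G))).map (Subgroup.normalizer (D : Set G)).subtype = D →
  ∀ x ∈ Subgroup.centralizer (D : Set G), ¬ p ∣ orderOf x → x ∈ Subgroup.center G

/-- there is a Steinberg character -/
def HasSt (p : ℕ) (G : Type*) [Group G] : Prop := ∃ χ : G → ℂ, IsIrrCharacter G χ ∧
  χ 1 = (p ^ (Nat.card G).factorization p : ℕ) ∧ (∀ x, p ∣ orderOf x → χ x = 0) ∧
    ∀ ψ, IsIrrCharacter G ψ → (∀ x, p ∣ orderOf x → ψ x = 0) → ψ = χ

theorem HasSt.result (h : HasSt p G) : ∃ χ : G → ℂ, IsIrrCharacter G χ ∧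
    ∀ P : Sylow p G, χ 1 = Nat.card P ∧ ∀ x : G, x ∈ P → x ≠ 1 → χ x = 0 := by
  obtain ⟨χ, h1, h2, h3, -⟩ := h
  refine ⟨χ, h1, fun P => ⟨by rw [h2, P.card_eq_multiplicity], fun x hx h0 => h3 x ?_⟩⟩
  obtain ⟨k, hk⟩ := pelt_of_mem P.isPGroup' hx
  rcases k with _ | k
  · exact absurd (orderOf_eq_one_iff.1 hk) h0
  · exact hk ▸ dvd_pow_self p k.succ_ne_zero

theorem Split.hasSt {G ι : Type*} [Group G] [Fintype G] [Fintype ι] [DecidableEq ι] (S : Split G ι p)
    (hG : ∀ N : Subgroup G, N.Normal → S.U ∅ ≤ N → N = ⊤) : HasSt p G :=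
  ⟨S.St, S.isIrr, by rw [← S.card_U]; exact S.deg, fun _ => S.St_sing, fun _ => S.eq_St hG⟩

theorem Rad.sylow (h : Rad p G) (hM : IsPModular p M) {B : Set (IrrCharacter G)} (hB : IsPBlock M B) {D : Subgroup G}
    (hD : IsDefectGroup p M B D) (h0 : D ≠ ⊥) : ¬ p ∣ D.index := by
  have : PMod p M := ⟨hM⟩
  obtain ⟨g, hg, h2⟩ := isDefectGroup_iff_sylow.1 hD
  have h3 : ¬ p ∣ orderOf g := fun h3 => hg.2.1 (by rw [blockCoeff_eq_zero hB.fB_mem h3]; exact InP.zero)
  have h1 := h D hD.isPGroup h0 (Cfsg.Agent.S0955.result p M hM B hB D hD) g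
    (fun x hx => Subgroup.mem_centralizer_singleton_iff.1 (h2.1 hx)) h3
  have h4 := h2.2.2
  rwa [show Subgroup.centralizer ({g} : Set G) = ⊤ from eq_top_iff.2 fun x _ =>
    Subgroup.mem_centralizer_singleton_iff.2 (Subgroup.mem_center_iff.1 h1 x), Subgroup.relIndex_top_right] at h4

theorem Rad.defect (h : Rad p G) (hM : IsPModular p M) {B : Set (IrrCharacter G)} (hB : IsPBlock M B) :
    blockDefect p B = 0 ∨ blockDefect p B = (Nat.card G).factorization p := by
  have : PMod p M := ⟨hM⟩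
  obtain ⟨D, hD⟩ := hB.exists_defectGroup
  rw [← hD.fact_card hB]
  by_cases h0 : D = ⊥
  · simp [h0]
  · have := (hD.isPGroup.toSylow (h.sylow hM hB hD h0)).card_eq_multiplicity
    exact Or.inr (by rw [show Nat.card D = _ from this, Nat.factorization_pow_self hp.out])

theorem HasSt.zero (h : HasSt p G) (hM : IsPModular p M) :
    ∃ B0, ∀ B : Set (IrrCharacter G), IsPBlock M B ∧ blockDefect p B = 0 ↔ B = B0 := by
  have : PMod p M := ⟨hM⟩
  obtain ⟨χ, h1, h2, h3, h4⟩ := h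
  have key : ∀ B, IsPBlock M B → blockDefect p B = 0 → B = blockOf M χ := fun B hB h0 => by
    obtain ⟨D, hD⟩ := hB.exists_defectGroup
    obtain rfl : D = ⊥ := Subgroup.card_eq_one.1 (by rw [hD.card_eq hB, h0, pow_zero])
    obtain ⟨ψ, hψ⟩ := hB.nonempty
    rw [← h4 ψ ψ.2 fun x hx => Cfsg.Agent.S0924.result p M hM ψ x _ (isPPart_ppart p x) fun E hE hx' => by
      rw [← hB.eq_blockOf hψ] at hE
      obtain ⟨y, rfl⟩ := hD.exists_conj hB hE
      rw [CfsgL0.cj_bot, Subgroup.mem_bot, ppart_eq_one_iff] at hx'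
      exact hx' hx]
    exact hB.eq_blockOf hψ
  refine ⟨blockOf M χ, fun B => ⟨fun h => key B h.1 h.2, ?_⟩⟩
  rintro rfl
  refine ⟨isPBlock_blockOf h1, ?_⟩
  have h5 : charDegree χ = p ^ (Nat.card G).factorization p := by
    exact_mod_cast (coe_charDegree h1.isCharacter).trans h2
  have h6 := (Cfsg.Agent.S0914.result p M hM ⟨χ, h1⟩).1 (by
    rw [h5]; exact Nat.not_dvd_ordCompl hp.out Nat.card_pos.ne')
  change blockOf M χ = _ at h6
  rw [h6, blockDefect, Set.image_singleton, csInf_singleton]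
  change _ - (charDegree χ).factorization p = 0
  rw [h5, Nat.factorization_pow_self hp.out, Nat.sub_self]

theorem HasSt.card_zero (h : HasSt p G) (hM : IsPModular p M) :
    Nat.card {B : Set (IrrCharacter G) // IsPBlock M B ∧ blockDefect p B = 0} = 1 := by
  obtain ⟨B0, h⟩ := h.zero hM
  simp [h]

theorem card_blocks_eq (h : HasSt p G) (h' : Rad p G) (hM : IsPModular p M) (hG : p ∣ Nat.card G)
    (hZ : ¬ p ∣ Nat.card (Subgroup.center G)) :
    Nat.card {B : Set (IrrCharacter G) // IsPBlock M B} = Nat.card (Subgroup.center G) + 1 := by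
  have : PMod p M := ⟨hM⟩
  obtain ⟨B0, h⟩ := h.zero hM
  let P : Sylow p G := default
  have hP : (P : Subgroup G) ≠ ⊥ := P.ne_bot_of_dvd_card hG
  have h1 : ∀ B, IsPBlock M B ∧ IsDefectGroup p M B P ↔ IsPBlock M B ∧ B ≠ B0 := fun B => by
    refine and_congr_right fun hB => ⟨fun hD e => hP (Subgroup.card_eq_one.1 ?_), fun h0 => ?_⟩
    · rw [hD.card_eq hB, ((h B).2 e).2, pow_zero]
    · obtain ⟨D, hD⟩ := hB.exists_defectGroup
      have h2 := h'.sylow hM hB hD fun e => h0 ((h B).1 ⟨hB, by rw [← hD.fact_card hB, e]; simp⟩)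
      obtain ⟨x, hx⟩ := MulAction.exists_smul_eq G (hD.isPGroup.toSylow h2) P
      exact (show CfsgL0.cj x D = P from congrArg Sylow.toSubgroup hx) ▸ hD.conj hB x
  have h2 := Cfsg.Agent.S0953.result p M hM P
  have h3 : ∀ n : Subgroup.normalizer ((P : Subgroup G) : Set G), ¬ p ∣ orderOf n →
      (n : G) ∈ Subgroup.centralizer ((P : Subgroup G) : Set G) → (n : G) ∈ Subgroup.center G := fun n h1 h2 =>
    h' P P.isPGroup' hP (by
      refine le_antisymm ?_ fun a ha => ⟨⟨a, Subgroup.le_normalizer ha⟩, CfsgH1.le_pCore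
        (hn := Subgroup.normal_in_normalizer) (P.isPGroup'.comap_subtype) ha, rfl⟩
      refine (P.is_maximal' (IsPGroup.to_sup_of_normal_left' P.isPGroup' ((CfsgH1.isPGroup_pCore p).map _)
        (Subgroup.map_subtype_le _)) le_sup_left).le.trans' le_sup_right) n h2 (by simpa using h1)
  let f : Subgroup.center G → Subgroup.normalizer ((P : Subgroup G) : Set G) := fun z =>
    ⟨z, Subgroup.center_le_normalizer _ z.2⟩
  have h4 : ∀ z n, ConjClasses.mk n = ConjClasses.mk (f z) → n = f z := fun z n e => by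
    obtain ⟨c, rfl⟩ := isConj_iff.1 (ConjClasses.mk_eq_mk_iff_isConj.1 e).symm
    exact Subtype.ext (by simp [f, Subgroup.mem_center_iff.1 z.2])
  let f' : Subgroup.center G → {C : ConjClasses (Subgroup.normalizer ((P : Subgroup G) : Set G)) //
      ∀ n : Subgroup.normalizer ((P : Subgroup G) : Set G), ConjClasses.mk n = C →
        ¬ p ∣ orderOf n ∧ (n : G) ∈ Subgroup.centralizer ((P : Subgroup G) : Set G)} := fun z =>
    ⟨ConjClasses.mk (f z), fun n e => by
      rw [h4 z n e]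
      refine ⟨fun h5 => hZ (h5.trans ?_), Subgroup.center_le_centralizer _ z.2⟩
      rw [← Subgroup.orderOf_coe]
      exact (Subgroup.orderOf_coe z).symm ▸ orderOf_dvd_natCard z⟩
  replace h2 := h2.trans (Nat.card_congr (Equiv.ofBijective f' ⟨fun a b e =>
        Subtype.ext (congrArg Subtype.val (h4 b (f a) (congrArg Subtype.val e)) :), fun ⟨C, hC⟩ => by
      obtain ⟨n, rfl⟩ := ConjClasses.mk_surjective C
      exact ⟨⟨n, h3 n (hC n rfl).1 (hC n rfl).2⟩, rfl⟩⟩)).symm
  rw [← h2, ← Finite.card_option]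
  refine Nat.card_congr ((Equiv.optionSubtypeNe (⟨B0, ((h B0).2 rfl).1⟩ : {B // IsPBlock M B})).symm.trans
    (Equiv.optionCongr ((Equiv.subtypeSubtypeEquivSubtypeInter _ fun B => B ≠ B0).symm.symm.trans
      (Equiv.subtypeEquivRight fun B => (h1 B).symm) |>.symm.trans
        (Equiv.subtypeEquivRight fun B => by simp [Subtype.ext_iff])).symm))

theorem altSum_unit {M : Type*} [Group M] (Q : Finset Unit → Subgroup M) :
    altSum Q Finset.univ = fixedPointCharacter (Q ∅) - fixedPointCharacter (Q Finset.univ) := by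
  rw [altSum, show (Finset.univ : Finset Unit).powerset = {∅, Finset.univ} by decide, Finset.sum_pair (by decide)]
  simp [sub_eq_add_neg]

theorem inner_rk1 {M : Type*} [Group M] [Fintype M] (Q : Finset Unit → Subgroup M) (h1 : Q Finset.univ = ⊤) {n : M}
    (hn : n ∉ Q ∅) (h : ∀ g, g ∈ Q ∅ ∨ ∃ a ∈ Q ∅, ∃ b ∈ Q ∅, g = a * n * b) (K : Finset Unit) :
    classInner (altSum Q Finset.univ) (fixedPointCharacter (Q K)) = if K = ∅ then 1 else 0 := by
  classical
  have k1 : ∀ H : Subgroup M, classInner (fixedPointCharacter ⊤) (fixedPointCharacter H) = 1 := fun H => by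
    rw [inner_fpc ⊤ H (fun _ => ()) (fun _ => ⟨1, rfl⟩) fun g g' =>
      ⟨fun _ => ⟨1, one_mem _, g⁻¹ * g', trivial, by group⟩, fun _ => rfl⟩]; simp
  have k2 : ∀ H : Subgroup M, classInner (fixedPointCharacter H) (fixedPointCharacter ⊤) = 1 := fun H => by
    rw [inner_fpc H ⊤ (fun _ => ()) (fun _ => ⟨1, rfl⟩) fun g g' =>
      ⟨fun _ => ⟨g' * g⁻¹, trivial, 1, one_mem _, by group⟩, fun _ => rfl⟩]; simp
  rw [altSum_unit, classInner_sub_left, h1, k1]
  split_ifs with hK
  · rw [hK, inner_fpc (Q ∅) (Q ∅) (fun g => decide (g ∈ Q ∅)) (fun b => by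
      cases b
      · exact ⟨n, by simp [hn]⟩
      · exact ⟨1, by simp⟩) fun g g' => ?_]
    · simp; norm_num
    · rw [decide_eq_decide]
      constructor
      · intro e
        rcases h g with h2 | ⟨a, ha, b, hb, rfl⟩
        · exact ⟨g' * g⁻¹, mul_mem (e.1 h2) (inv_mem h2), 1, one_mem _, by group⟩
        · rcases h g' with h3 | ⟨a', ha', b', hb', rfl⟩
          · exact ⟨g' * (a * n * b)⁻¹, mul_mem h3 (inv_mem (e.2 h3)), 1, one_mem _, by group⟩
          · exact ⟨a' * a⁻¹, mul_mem ha' (inv_mem ha), b⁻¹ * b', mul_mem (inv_mem hb) hb', by group⟩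
      · rintro ⟨a, ha, b, hb, rfl⟩
        rw [Subgroup.mul_mem_cancel_right _ hb, Subgroup.mul_mem_cancel_left _ ha]
  · rw [show K = Finset.univ by revert K; decide, h1, k2, sub_self]

/-- the parabolic data in rank one -/
noncomputable def Split.rk1 {G : Type*} [Group G] [Fintype G] {B U : Subgroup G} (h1 : U ≤ B)
    (h2 : B ≤ Subgroup.normalizer (U : Set G)) (h3 : IsPGroup p U) (h4 : ¬ p ∣ U.index) {n : G} (hn : n ∉ B)
    (h : ∀ g, g ∈ B ∨ ∃ a ∈ B, ∃ b ∈ B, g = a * n * b) (h5 : B.index = Nat.card U + 1) : Split G Unit p where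
  P K := if K = ∅ then B else ⊤
  U K := if K = ∅ then U else ⊥
  mono {J K} hJ := by
    split_ifs with a b
    · rfl
    · exact le_top
    · simp_all
    · rfl
  top := if_neg (by decide)
  U_le J := by split_ifs <;> simp_all
  U_le_B := h1
  norm J := by
    split_ifs
    · exact h2
    · exact (Subgroup.normalizer_eq_top ⊥).ge
  pgrp := h3
  syl := h4
  innerI I _ K hK := by
    by_cases hI : I = ∅
    · subst hI
      obtain rfl := Finset.subset_empty.1 hK
      rw [altSum, Finset.powerset_empty, Finset.sum_singleton, Subgroup.subgroupOf_self, Finset.card_empty, pow_zero,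
        one_smul, inner_fpc ⊤ ⊤ (fun _ => ()) (fun _ => ⟨1, rfl⟩) fun g g' =>
          ⟨fun _ => ⟨1, one_mem _, g⁻¹ * g', trivial, by group⟩, fun _ => rfl⟩]
      simp
    · obtain rfl : I = Finset.univ := (by decide : ∀ I : Finset Unit, ¬ I = ∅ → I = Finset.univ) I hI
      refine inner_rk1 (fun K => (if K = ∅ then B else ⊤).subgroupOf _) (Subgroup.subgroupOf_self _)
        (n := ⟨n, by simp [hI]⟩) hn (fun g => (h g).imp id fun ⟨a, ha, b, hb, e⟩ =>
          ⟨⟨a, by simp [hI]⟩, ha, ⟨b, by simp [hI]⟩, hb, Subtype.ext e⟩) K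
  degI I := by
    by_cases hI : I = ∅
    · subst hI
      rw [altSum, Finset.powerset_empty, Finset.sum_singleton, Subgroup.subgroupOf_self, Finset.card_empty, pow_zero,
        one_smul, fpc_one, Subgroup.index_top]
      simp
    · obtain rfl : I = Finset.univ := by revert I; decide
      rw [altSum_unit, Pi.sub_apply, fpc_one, fpc_one, Subgroup.subgroupOf_self]
      change ((B.relIndex _ : ℕ) - _ : ℂ) * _ = Nat.card U
      rw [Subgroup.index_top]
      simp [hI, h5]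
  inner := inner_rk1 _ (if_neg (by decide)) hn h
  deg := by
    rw [altSum_unit, Pi.sub_apply, fpc_one, fpc_one, if_pos rfl, if_neg (by decide)]
    simp [h5]

theorem index_rk1 {G : Type*} [Group G] {B U : Subgroup G} (h1 : U ≤ B) {n : G} (hn : n ∉ B)
    (h : ∀ g, g ∈ B ∨ ∃ a ∈ U, ∃ b ∈ B, g = a * n * b) (h2 : ∀ u ∈ U, n⁻¹ * u * n ∈ B → u = 1) [Finite U] :
    B.index = Nat.card U + 1 := by
  rw [← Finite.card_option]
  refine (Nat.card_congr (Equiv.ofBijective (fun x : Option U => x.elim ((1 : G) : G ⧸ B) fun u => (u * n : G))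
    ⟨?_, fun x => ?_⟩)).symm
  · have k : ∀ u : U, ((1 : G) : G ⧸ B) ≠ (u * n : G) := fun u e => hn (by
      simpa [Subgroup.mul_mem_cancel_left _ (h1 u.2)] using QuotientGroup.eq.1 e)
    rintro (_ | a) (_ | b) e
    · rfl
    · exact absurd e (k b)
    · exact absurd e.symm (k a)
    · have := h2 (a⁻¹ * b) (mul_mem (inv_mem a.2) b.2) (by simpa [mul_assoc] using QuotientGroup.eq.1 e)
      rw [Subtype.ext (inv_mul_eq_one.1 this)]
  · obtain ⟨g, rfl⟩ := QuotientGroup.mk_surjective x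
    rcases h g with h3 | ⟨a, ha, b, hb, rfl⟩
    · exact ⟨none, QuotientGroup.eq.2 (by simpa using h3)⟩
    · exact ⟨some ⟨a, ha⟩, QuotientGroup.eq.2 (by simpa [mul_assoc] using hb)⟩

omit [Finite G] hp in
theorem HasSt.of_equiv {G' : Type*} [Group G'] (e : G ≃* G') (h : HasSt p G) : HasSt p G' := by
  obtain ⟨χ, h1, h2, h3, h4⟩ := h
  refine ⟨χ ∘ e.symm, h1.comp_equiv e.symm, by simpa [← Nat.card_congr e.toEquiv] using h2,
    fun x hx => h3 _ (by rwa [e.symm.orderOf_eq]), fun ψ h5 h6 => ?_⟩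
  rw [← h4 (ψ ∘ e) (h5.comp_equiv e) fun x hx => h6 _ (by rwa [e.orderOf_eq])]
  ext; simp

/-- a split BN-pair of rank one -/
structure R1 (p : ℕ) (B U : Subgroup G) (n : G) : Prop where
  le : U ≤ B
  norm : B ≤ Subgroup.normalizer (U : Set G)
  pgrp : IsPGroup p U
  idx : ¬ p ∣ U.relIndex B
  ne : U ≠ ⊥
  notMem : n ∉ B
  bru : ∀ g, g ∈ B ∨ ∃ a ∈ U, ∃ b ∈ B, g = a * n * b
  free : ∀ u ∈ U, n⁻¹ * u * n ∈ B → u = 1

namespace R1
variable {B U : Subgroup G} {n : G} (X : R1 p B U n)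
include X

theorem syl : ¬ p ∣ U.index := by
  rw [← Subgroup.relIndex_mul_index X.le, index_rk1 X.le X.notMem X.bru X.free, hp.out.dvd_mul, not_or]
  refine ⟨X.idx, fun h => hp.out.not_dvd_one ((Nat.dvd_add_right ?_).1 h)⟩
  exact (X.pgrp.card_eq_or_dvd).resolve_left fun e => X.ne (Subgroup.card_eq_one.1 e)

/-- the parabolic data -/
noncomputable def split [Fintype G] : Split G Unit p :=
  Split.rk1 X.le X.norm X.pgrp X.syl X.notMem (fun g => (X.bru g).imp id fun ⟨a, ha, h⟩ => ⟨a, X.le ha, h⟩)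
    (index_rk1 X.le X.notMem X.bru X.free)

theorem hasSt (h : ∀ N : Subgroup G, N.Normal → U ≤ N → N = ⊤) : HasSt p G := by
  have := Fintype.ofFinite G
  exact X.split.hasSt h

theorem card_pelt : Nat.card {g : G // ∃ k, orderOf g = p ^ k} = Nat.card U ^ 2 := by
  have := Fintype.ofFinite G
  exact X.split.card_pelt

omit hp [Finite G] in
theorem map {G' : Type*} [Group G'] (σ : G →* G') (hs : Function.Surjective σ) (hk : σ.ker ≤ B) :
    R1 p (B.map σ) (U.map σ) (σ n) := by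
  have k : ∀ {g}, σ g ∈ B.map σ → g ∈ B := fun h => by
    rwa [← Subgroup.mem_comap, Subgroup.comap_map_eq, sup_eq_left.2 hk] at h
  refine ⟨Subgroup.map_mono X.le, (Subgroup.map_mono X.norm).trans (Subgroup.le_normalizer_map σ), X.pgrp.map σ,
    fun h => X.idx (h.trans ?_), fun h => ?_, fun h => X.notMem (k h), fun g => ?_, ?_⟩
  · rw [Subgroup.relIndex_map_map, sup_eq_left.2 hk]
    exact Subgroup.relIndex_dvd_of_le_left _ le_sup_left
  · refine X.ne (eq_bot_iff.2 fun u hu => X.free u hu (hk ?_))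
    exact σ.normal_ker.conj_mem' u ((Subgroup.map_eq_bot_iff _).1 h hu) n
  · obtain ⟨g, rfl⟩ := hs g
    exact (X.bru g).imp (fun h => ⟨g, h, rfl⟩) fun ⟨a, ha, b, hb, e⟩ =>
      ⟨_, ⟨a, ha, rfl⟩, _, ⟨b, hb, rfl⟩, by simp [e]⟩
  · rintro _ ⟨u, hu, rfl⟩ h
    rw [X.free u hu (k (by simpa using h)), map_one]

omit hp [Finite G] in
theorem mem_B {g d : G} (hd : d ∈ U) (h0 : d ≠ 1) (h : g⁻¹ * d * g ∈ B) : g ∈ B := by
  rcases X.bru g with h1 | ⟨a, ha, b, hb, rfl⟩
  · exact h1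
  · have := X.free (a⁻¹ * d * a) (mul_mem (mul_mem (inv_mem ha) hd) ha) (by
      convert mul_mem (mul_mem hb h) (inv_mem hb) using 1; group)
    exact absurd (by simpa [mul_assoc] using (mul_eq_one_iff_eq_inv.1 this)) h0

theorem rad (h : ∀ x ∈ Subgroup.centralizer (U : Set G), ¬ p ∣ orderOf x → x ∈ Subgroup.center G) : Rad p G := by
  intro D hD h0 h1 x hx hp'
  obtain ⟨P, hP⟩ := hD.exists_le_sylow
  obtain ⟨g, hg⟩ := MulAction.exists_smul_eq G (X.pgrp.toSylow X.syl) P
  have e : CfsgL0.cj g U = P := congrArg Sylow.toSubgroup hg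
  rw [← e] at hP
  have h2 : D = CfsgL0.cj g U := by
    by_contra hne
    have := (X.pgrp.map (MulAut.conj g).toMonoidHom).isNilpotent
    refine (CfsgH1.lt_normalizer_inf_of_isNilpotent (lt_of_le_of_ne hP hne)).not_ge fun a ha => ?_
    obtain ⟨d, hd, h3⟩ := (Subgroup.nontrivial_iff_exists_ne_one D).1 (D.nontrivial_iff_ne_bot.2 h0)
    have hn : ((CfsgL0.cj g U).subgroupOf (Subgroup.normalizer (D : Set G))).Normal := ⟨fun b hb m => by
      have h4 : g⁻¹ * m * g ∈ B := X.mem_B (CfsgL0.mem_cj.1 (hP hd)) (fun e => h3 (by simpa [mul_assoc] using mul_eq_one_iff_eq_inv.1 e)) (by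
        convert X.le (CfsgL0.mem_cj.1 (hP ((Subgroup.mem_normalizer_iff''.1 m.2 d).1 hd))) using 1; group)
      refine CfsgL0.mem_cj.2 ?_
      convert (Subgroup.mem_normalizer_iff.1 (X.norm h4) _).1 (CfsgL0.mem_cj.1 hb) using 1
      change g⁻¹ * (m * b * (m : G)⁻¹) * g = _ * (g⁻¹ * b * g) * _
      group⟩
    rw [← h1]
    exact ⟨⟨a, ha.1⟩, CfsgH1.le_pCore (hn := hn) (X.pgrp.map _).comap_subtype ha.2, rfl⟩
  have := h (g⁻¹ * x * g) (fun u hu => by
    have := hx (g * u * g⁻¹) (h2 ▸ CfsgL0.mem_cj.2 (by simpa [mul_assoc] using hu))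
    calc _ = g⁻¹ * (g * u * g⁻¹ * x) * g := by group
      _ = _ := by rw [this]; group) (by rwa [← MulAut.conj_inv_apply, MulEquiv.orderOf_eq])
  simpa [mul_assoc] using (inferInstance : (Subgroup.center G).Normal).conj_mem _ this g

end R1

end

section
variable {D : ChevalleyDatum} {G : Good D} {F : Type*} [Field F] [Finite F] {Γ : Type*} [Group Γ] [Finite Γ]
  (C : Cover G F Γ) (hG : C.Gr = ⊤) (p : ℕ) [Fact p.Prime] [CharP F p]
include hG

/-- the parabolic data of a cover -/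
noncomputable def Cover.split' [Fintype Γ] : Split Γ (Fin D.rank) p :=
  C.split (φ := MonoidHom.id Γ) Function.injective_id (C.R3_fin hG) (by rw [hG, MonoidHom.range_eq_top]; exact Function.surjective_id) p

omit [Finite Γ] in
theorem Cover.split'_U [Fintype Γ] : (C.split' hG p).U ∅ = C.U := by
  change (C.US (G.radJ (∅ : Finset (Fin D.rank)))).comap _ = _
  rw [Cover.radJ_empty]; rfl

theorem Cover.hasSt : HasSt p Γ := by
  have := Fintype.ofFinite Γ
  refine (C.split' hG p).hasSt fun N hN hU => ?_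
  rw [C.split'_U, Cover.U, C.US_le] at hU
  rw [eq_top_iff, ← hG]
  refine C.Gr_le_of_pm (fun i t => hU _ (G.pos_sm i) t) fun i t => ?_
  obtain ⟨c, hc, -⟩ := (C.mon_ν i).conj_n (G.sm i)
  have := hN.conj_mem _ (hU _ (G.pos_sm i) ((c⁻¹ : Fˣ) * t)) (C.ν i)
  rwa [hc, G.σ_sm, Units.mul_inv_cancel_left] at this

theorem Cover.card_pelt : Nat.card {g : Γ // ∃ k, orderOf g = p ^ k} = Nat.card F ^ (D.nroots / 2 * 2) := by
  have := Fintype.ofFinite Γ
  rw [(C.split' hG p).card_pelt, C.split'_U, Cover.U, C.card_US G.nil_pos, G.card_pos, ← pow_mul]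

theorem Cover.rad {rk : List ℕ} (hc : Good.ConnOK D rk) : Rad p Γ := by
  intro Q hQ h0 h x hx hp
  obtain ⟨g, J, rfl⟩ := C.radical_eq (C.R3_fin hG) hG p hQ h
  have hJ : Jᶜ.Nonempty := by
    by_contra h1
    rw [Set.not_nonempty_iff_eq_empty, Set.compl_empty_iff] at h1
    exact h0 (by rw [h1, Cover.rad_univ, Cover.US_empty, CfsgL0.cj_bot])
  have := (G.gl F).mem_U_of_cent Function.injective_id hc hJ (C.π_mem_Gr (g := g⁻¹ * x * g) (hG ▸ trivial))
    fun v hv => by
      rw [← C.map_US _ C.π C.π_x'] at hv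
      obtain ⟨v, hv, rfl⟩ := hv
      have := hx (g * v * g⁻¹) (CfsgL0.mem_cj.2 (by simpa [mul_assoc] using hv))
      rw [← map_inv, ← map_mul, ← map_mul]
      congr 1
      calc _ = g⁻¹ * (x * (g * v * g⁻¹)) * x⁻¹ * g := by group
        _ = _ := by rw [← this]; group
  obtain ⟨k, hk⟩ := ((G.gl F).isPGroup_US p G.nil_pos) ⟨_, this⟩
  have h1 : C.π x ^ p ^ k = 1 := by
    have : C.π (g⁻¹ * x * g) ^ p ^ k = 1 := congrArg Subtype.val hk
    rw [map_mul, map_mul, map_inv, ← MulAut.conj_inv_apply, ← map_pow] at this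
    exact (MulEquiv.map_eq_one_iff _).1 this
  rw [← C.π_ker hG, MonoidHom.mem_ker]
  exact (pow_eq_one_iff_of_coprime (((Nat.Prime.coprime_iff_not_dvd Fact.out).2 hp).pow_left k)).1
    ⟨h1, by rw [← map_pow, pow_orderOf_eq_one, map_one]⟩

end

end CfsgH6
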