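import Mathlib
import Cfsg.Agent.H6.St

/-! Table facts without the two computational checks; these follow from a faithful representation. -/

set_option autoImplicit false

namespace CfsgH6

open Cfsg.Lie Matrix IsNilpotent

variable (D : ChevalleyDatum)

/-- The table facts without the Jacobi identity and the long commutator formulas. -/
structure Good0 where
  sm : Fin D.rank → Fin D.nroots
  vec : Fin D.nroots → Fin D.rank → ℤ
  len : Fin D.nroots → ℤ
  fl : Fin D.rank → ℤ
  adj : Fin D.rank → Fin D.rank → ℤ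
  det : ℤ
  refl : Fin D.rank → Fin D.nroots → Fin D.nroots
  two_le_rank : 2 ≤ D.rank
  sm_val : ∀ i, (sm i : ℕ) = D.simple i
  refl_val : ∀ i s, (refl i s : ℕ) = D.reflectRoot i s
  neg_val : ∀ r : Fin D.nroots, D.neg r = (r.rev : ℕ)
  coroot_size : ∀ r : Fin D.nroots, (D.coroot.getD r #[]).size = D.rank
  vec_rev : ∀ r i, vec r.rev i = - vec r i
  cov_rev : ∀ r i, cov D r.rev i = - cov D r i
  vec_sm : ∀ i j, vec (sm i) j = if j = i then 1 else 0
  cov_sm : ∀ i j, cov D (sm i) j = if j = i then 1 else 0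
  fl_pos : ∀ i, 0 < fl i
  fl_mono : StrictMono fun r => ∑ i, fl i * vec r i
  pos_or_neg : ∀ r, (∀ i, 0 ≤ vec r i) ∨ (∀ i, vec r i ≤ 0)
  len_pos : ∀ r, 0 < len r
  cov_len : ∀ r i, cov D r i * len r = vec r i * len (sm i)
  symm : ∀ i j, len (sm i) * D.cartan i (sm j) = len (sm j) * D.cartan j (sm i)
  cartan_lin : ∀ (i : Fin D.rank) (r : Fin D.nroots), D.cartan i r = ∑ j, vec r j * D.cartan i (sm j)
  pairing_self : ∀ r : Fin D.nroots, ∑ i, cov D r i * D.cartan i r = 2
  det_ne : det ≠ 0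
  adj_mul : ∀ k j, ∑ i, adj k i * D.cartan i (sm j) = if k = j then det else 0
  refl_vec : ∀ i s j, vec (refl i s) j = vec s j - if j = i then D.cartan i s else 0
  cs : ∀ (i : Fin D.rank) (s : Fin D.nroots), s ≠ sm i → s ≠ (sm i).rev →
    D.cartan i s * (∑ j, cov D s j * D.cartan j (sm i)) < 4
  chain_filter : ∀ r s : Fin D.nroots,
    (((D.chain.getD r #[]).toList.filter (fun e => e.1 = (s : ℕ))).map fun e => e.2.toList) =
      if D.chainEntry r s = [] then [] else [D.chainEntry r s]
  entry_len : ∀ r s : Fin D.nroots, (D.chainEntry r s).length ≤ 3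
  entry_self : ∀ r : Fin D.nroots, D.chainEntry r r = []
  entry_rev : ∀ r : Fin D.nroots, D.chainEntry r r.rev = []
  entry_vec : ∀ (r s : Fin D.nroots) (j k : ℕ), D.chainRoot r s (j + 1) = some k →
    ∃ k' : Fin D.nroots, (k' : ℕ) = k ∧ k' ≠ r ∧ k' ≠ r.rev ∧ D.chainM r s (j + 1) ≠ 0 ∧
      (∀ i, vec k' i = vec s i + (j + 1 : ℕ) * vec r i) ∧
      D.chainRoot r k 1 = D.chainRoot r s (j + 2) ∧
      D.chainM r k 1 * D.chainM r s (j + 1) = (j + 2 : ℕ) * D.chainM r s (j + 2)
  entry_as : ∀ r s : Fin D.nroots, D.chainRoot s r 1 = D.chainRoot r s 1 ∧ D.chainM s r 1 = - D.chainM r s 1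
  entry_neg : ∀ r s : Fin D.nroots, D.chainM r.rev s.rev 1 = - D.chainM r s 1
  complete : ∀ (i : Fin D.rank) (s k : Fin D.nroots), (∀ j, vec k j = vec s j + vec (sm i) j) →
    D.chainEntry (sm i) s ≠ []
  decomp : ∀ r : Fin D.nroots, (∀ i, r ≠ sm i ∧ r ≠ (sm i).rev) → ∃ (i : Fin D.rank) (s : Fin D.nroots),
    ((∀ j, 0 ≤ vec r j) ∧ D.chainRoot (sm i) s 1 = some (r : ℕ)) ∨
    ((∀ j, vec r j ≤ 0) ∧ D.chainRoot (sm i).rev s 1 = some (r : ℕ))
  stdec : ∀ (i : Fin D.rank) (a : Fin D.nroots), (a = sm i ∨ a = (sm i).rev) →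
    ∃ (i' : Fin D.rank) (d g : Fin D.nroots) (j : ℕ), (d = sm i' ∨ d = (sm i').rev) ∧
      D.chainRoot d g (j + 1) = some (a : ℕ) ∧ (D.chainM d g (j + 1) = 1 ∨ D.chainM d g (j + 1) = -1)

variable {D}

namespace Good0

open Good

variable (G : Good0 D)
include G

theorem chainRoot_big (r s : Fin D.nroots) {k : ℕ} (hk : 4 ≤ k) : D.chainRoot r s k = none := by
  obtain ⟨k, rfl⟩ : ∃ j, k = j + 1 := ⟨k - 1, by omega⟩
  rw [chainRoot_eq_none_iff]
  have := G.entry_len r s
  omega

theorem rev_ne (r : Fin D.nroots) : r.rev ≠ r := by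
  intro h
  have h1 : ∀ i, cov D r i = 0 := fun i => by
    have := G.cov_rev r i
    rw [h] at this
    omega
  have := G.pairing_self r
  simp [h1] at this

theorem E_big (r : Fin D.nroots) {k : ℕ} (hk : 4 ≤ k) : E D r k = 0 := by
  ext a b
  have h0 : k ≠ 0 := by omega
  have h1 : k ≠ 1 := by omega
  have h2 : k ≠ 2 := by omega
  rcases a with j | u <;> rcases b with j' | s <;> simp [E, h0, h1, h2, G.chainRoot_big r _ hk]

theorem ne_rev_of_some {r s : Fin D.nroots} {k u : ℕ} (h : D.chainRoot r s k = some u) : s ≠ r.rev := by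
  rintro rfl
  rw [chainRoot_eq_none_of_nil (G.entry_rev r)] at h
  cases h

theorem E_one_self (r : Fin D.nroots) : E D r 1 *ᵥ ev D ℤ r = 0 :=
  E_col_none one_ne_zero (G.rev_ne r).symm (chainRoot_eq_none_of_nil (G.entry_self r) _)

omit G in
theorem E_one_hv (r s : Fin D.nroots) :
    E D r 1 *ᵥ hv D ℤ s = (- ∑ i, cov D s i * D.cartan i r) • ev D ℤ r := by
  rw [hv_eq_sum, Matrix.mulVec_sum]
  simp only [Matrix.mulVec_smul, E_col_inl r 1 _ one_ne_zero, if_true, smul_smul]
  rw [← Finset.sum_smul]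
  simp

theorem E_one_mul (r : Fin D.nroots) (k : ℕ) : E D r 1 * E D r k = ((k + 1 : ℕ) : ℤ) • E D r (k + 1) := by
  rcases Nat.eq_zero_or_pos k with rfl | hk
  · simp [E_zero]
  apply ext_cols
  · intro i
    rw [← Matrix.mulVec_mulVec, Matrix.smul_mulVec, E_col_inl r k i hk.ne',
      E_col_inl r (k + 1) i (by omega), if_neg (by omega : k + 1 ≠ 1)]
    split_ifs
    · rw [Matrix.mulVec_smul, G.E_one_self, smul_zero, smul_zero]
    · simp
  · intro s
    rw [← Matrix.mulVec_mulVec, Matrix.smul_mulVec]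
    by_cases hs : s = r.rev
    · subst hs
      rw [E_col_rev r k hk.ne', E_col_rev r (k + 1) (by omega), if_neg (by omega : k + 1 ≠ 1)]
      by_cases h1 : k = 1
      · subst h1
        simp [Good0.E_one_hv, G.pairing_self]
      · rw [if_neg h1, if_neg (by omega : k + 1 ≠ 2)]
        split_ifs <;> simp [Matrix.mulVec_neg, G.E_one_self]
    · obtain ⟨j, rfl⟩ : ∃ j, k = j + 1 := ⟨k - 1, by omega⟩
      cases h : D.chainRoot r s (j + 1) with
      | none =>
        have h2 : D.chainRoot r s (j + 1 + 1) = none := by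
          rw [chainRoot_eq_none_iff] at h ⊢; omega
        rw [E_col_none hk.ne' hs h, E_col_none (by omega) hs h2]; simp
      | some k =>
        obtain ⟨k', rfl, h1, h2, -, -, h3, h4⟩ := G.entry_vec r s j k h
        rw [E_col_some hk.ne' hs h, Matrix.mulVec_smul]
        cases h5 : D.chainRoot r s (j + 2) with
        | none =>
          rw [E_col_none (by omega) hs h5, E_col_none one_ne_zero h2 (h3.trans h5)]; simp
        | some m =>
          obtain ⟨m', rfl, -⟩ := G.entry_vec r s (j + 1) m h5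
          rw [E_col_some (by omega) hs h5, E_col_some one_ne_zero h2 (h3.trans h5), smul_smul, smul_smul,
            mul_comm, h4]

theorem E_pow (r : Fin D.nroots) (k : ℕ) : E D r 1 ^ k = (k.factorial : ℤ) • E D r k := by
  induction k with
  | zero => simp [E_zero]
  | succ k ih =>
    rw [pow_succ', ih, Matrix.mul_smul, G.E_one_mul, smul_smul, Nat.factorial_succ]
    congr 1
    push_cast; ring

section Q
variable {R : Type*} [CommRing R] [Algebra ℚ R]

omit [Algebra ℚ R] in
theorem ER_pow (r : Fin D.nroots) (k : ℕ) : ER D R r 1 ^ k = (k.factorial : R) • ER D R r k := by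
  have := congrArg (Int.castRingHom R).mapMatrix (G.E_pow r k)
  rw [map_pow] at this
  refine this.trans ?_
  ext a b
  simp only [ER, RingHom.mapMatrix_apply, Matrix.map_apply, Matrix.smul_apply, smul_eq_mul]
  simp

theorem smul_ER_pow_four (r : Fin D.nroots) (t : R) : (t • ER D R r 1) ^ 4 = 0 := by
  rw [smul_pow, G.ER_pow, ER, G.E_big r le_rfl]; simp

theorem nilp (r : Fin D.nroots) (t : R) : IsNilpotent (t • ER D R r 1) := ⟨4, G.smul_ER_pow_four r t⟩

theorem xR_eq_exp (r : Fin D.nroots) (t : R) : xR D R r t = exp (t • ER D R r 1) := by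
  rw [exp_eq_sum (G.smul_ER_pow_four r t), xR]
  refine Finset.sum_congr rfl fun k _ => ?_
  rw [smul_pow, G.ER_pow, smul_smul, ← smul_assoc]
  congr 1
  rw [mul_comm, ← nsmul_eq_mul, ← Nat.cast_smul_eq_nsmul ℚ, smul_smul,
    inv_mul_cancel₀ (by exact_mod_cast k.factorial_ne_zero), one_smul]

end Q
end Good0

/-- no root chains of type `G₂` -/
def NoG2 (D : ChevalleyDatum) : Prop :=
  ∀ r s k k' : Fin D.nroots, D.chainRoot r s 1 = some (k : ℕ) → D.chainRoot r s 2 = some (k' : ℕ) →
    D.chainRoot r s 3 = none ∧ D.chainRoot s r 2 = none ∧ k' ≠ s.rev ∧ D.chainRoot s k' 1 = none ∧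
      k' ≠ k.rev ∧ D.chainRoot k k' 1 = none

/-- a representation of the Lie algebra in an associative algebra -/
structure LRep (D : ChevalleyDatum) (R A : Type*) [CommRing R] [Ring A] [Algebra R A] where
  ρ : (D.Idx → R) →ₗ[R] A
  br : ∀ r y, ρ (ev D R r) * ρ y - ρ y * ρ (ev D R r) = ρ (ER D R r 1 *ᵥ y)
  nil : ∀ r, IsNilpotent (ρ (ev D R r))

namespace LRep

open Good

variable {R A : Type*} [CommRing R] [Algebra ℚ R] [Ring A] [Algebra R A] [Algebra ℚ A] (L : LRep D R A)

/-- root elements -/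
noncomputable def X (r : Fin D.nroots) (t : R) : A := exp (t • L.ρ (ev D R r))

/-- words in root elements -/
noncomputable def wX (w : List (ℕ × R)) : A :=
  (w.map fun p => if h : p.1 < D.nroots then L.X ⟨p.1, h⟩ p.2 else 1).prod

omit [Algebra ℚ R] [Algebra ℚ A] in
theorem nl (r : Fin D.nroots) (t : R) : IsNilpotent (t • L.ρ (ev D R r)) := (L.nil r).smul t

omit [Algebra ℚ R] in
theorem X_add (r : Fin D.nroots) (t u : R) : L.X r (t + u) = L.X r t * L.X r u := by
  rw [X, X, X, add_smul, exp_add_of_commute (((Commute.refl _).smul_left _).smul_right _) (L.nl r t) (L.nl r u)]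

omit [Algebra ℚ R] in
theorem X_zero (r : Fin D.nroots) : L.X r 0 = 1 := by simp [X]

omit [Algebra ℚ R] in
theorem X_neg (r : Fin D.nroots) (t : R) : L.X r (-t) * L.X r t = 1 := by rw [← L.X_add]; simp [X_zero]

omit [Algebra ℚ R] in
theorem X_neg' (r : Fin D.nroots) (t : R) : L.X r t * L.X r (-t) = 1 := by rw [← L.X_add]; simp [X_zero]

omit [Algebra ℚ R] [Algebra ℚ A] in
theorem commute {r s : Fin D.nroots} (hs : s ≠ r.rev) (h : D.chainRoot r s 1 = none) (t u : R) :
    Commute (t • L.ρ (ev D R r)) (u • L.ρ (ev D R s)) := by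
  have := L.br r (ev D R s)
  rw [ER_col_none one_ne_zero hs h, map_zero, sub_eq_zero] at this
  exact ((show Commute _ _ from this).smul_left _).smul_right _

omit [Algebra ℚ R] in
theorem X_comm {r s : Fin D.nroots} (hs : s ≠ r.rev) (h : D.chainRoot r s 1 = none) (t u : R) :
    L.X r t * L.X s u = L.X s u * L.X r t := by
  have hc := L.commute hs h t u
  rw [X, X, ← exp_add_of_commute hc (L.nl _ _) (L.nl _ _),
    ← exp_add_of_commute hc.symm (L.nl _ _) (L.nl _ _), add_comm]

variable (G : Good0 D)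
include G

theorem X_ad (r : Fin D.nroots) (t : R) (y : D.Idx → R) :
    L.X r t * L.ρ y = L.ρ (xR D R r t *ᵥ y) * L.X r t := by
  have hn := G.nilp r t
  have := exp_conj_ad (t • L.ρ (ev D R r)) (L.nl r t) (Matrix.toLinAlgEquiv' (t • ER D R r 1))
    (hn.map Matrix.toLinAlgEquiv') L.ρ (fun y => by
      rw [Matrix.toLinAlgEquiv'_apply, Matrix.smul_mulVec, map_smul, ← L.br, smul_mul_assoc,
        mul_smul_comm, smul_sub]) y
  rw [← map_exp hn, Matrix.toLinAlgEquiv'_apply, ← G.xR_eq_exp] at this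
  exact this

theorem X_conj (r s : Fin D.nroots) (t u : R) :
    L.X r (-t) * L.X s u * L.X r t = exp (u • L.ρ (xR D R r (-t) *ᵥ ev D R s)) := by
  let g : Aˣ := ⟨_, _, L.X_neg r t, L.X_neg' r t⟩
  have h3 : u • L.ρ (xR D R r (-t) *ᵥ ev D R s) = ConjAct.toConjAct g • (u • L.ρ (ev D R s)) := by
    rw [ConjAct.units_smul_def]
    change _ = L.X r (-t) * _ * L.X r t
    rw [mul_smul_comm, L.X_ad G, smul_mul_assoc, mul_assoc, L.X_neg, mul_one]
  rw [h3, exp_smul _ (L.nl s u), ConjAct.units_smul_def]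
  rfl

theorem conj_one {r s k : Fin D.nroots} (h : D.chainRoot r s 1 = some (k : ℕ))
    (h2 : D.chainRoot r s 2 = none) (h2' : D.chainRoot s r 2 = none) (t u : R) :
    L.X r (-t) * L.X s u * L.X r t = L.X s u * L.X k (D.chainM r s 1 * (-t) * u) := by
  have hs := G.ne_rev_of_some h
  have h3 : D.chainRoot r s 3 = none := by rw [chainRoot_eq_none_iff] at h2 ⊢; omega
  obtain ⟨k2, e2, -, hk3, -, -, hk4, -⟩ := G.entry_vec s r 0 k ((G.entry_as r s).1.trans h)
  obtain rfl : k2 = k := Fin.ext e2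
  rw [L.X_conj G, xR_eq]
  simp only [Matrix.add_mulVec, Matrix.smul_mulVec, Matrix.one_mulVec, ER_col_some one_ne_zero hs h,
    ER_col_none two_ne_zero hs h2, ER_col_none three_ne_zero hs h3, smul_zero, add_zero, smul_smul, map_add,
    map_smul, smul_add]
  rw [exp_add_of_commute (L.commute hk3 (hk4.trans h2') _ _) (L.nl _ _) (L.nl _ _), X, X]
  congr 3; ring

theorem conj_two (H : NoG2 D) {r s k k' : Fin D.nroots} (h : D.chainRoot r s 1 = some (k : ℕ))
    (h2 : D.chainRoot r s 2 = some (k' : ℕ)) (t u : R) :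
    L.X r (-t) * L.X s u * L.X r t =
      L.X s u * L.X k (D.chainM r s 1 * (-t) * u) * L.X k' (D.chainM r s 2 * (-t) ^ 2 * u) := by
  have hs := G.ne_rev_of_some h
  obtain ⟨h3, h2', a1, a2, a3, a4⟩ := H r s k k' h h2
  obtain ⟨k2, e2, -, hk3, -, -, hk4, -⟩ := G.entry_vec s r 0 k ((G.entry_as r s).1.trans h)
  obtain rfl : k2 = k := Fin.ext e2
  rw [L.X_conj G, xR_eq]
  simp only [Matrix.add_mulVec, Matrix.smul_mulVec, Matrix.one_mulVec, ER_col_some one_ne_zero hs h,
    ER_col_some two_ne_zero hs h2, ER_col_none three_ne_zero hs h3, smul_zero, add_zero, smul_smul, map_add,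
    map_smul, smul_add]
  have c1 := L.commute hk3 (hk4.trans h2') u (u * (-t * D.chainM r s 1))
  rw [exp_add_of_commute ((L.commute a1 a2 _ _).add_left (L.commute a3 a4 _ _))
    (c1.isNilpotent_add (L.nl _ _) (L.nl _ _)) (L.nl _ _), exp_add_of_commute c1 (L.nl _ _) (L.nl _ _), X, X, X]
  congr 3
  · congr 1; ring
  · ring

theorem comm (H : NoG2 D) {r s : Fin D.nroots} (hs : s ≠ r.rev) (t u : R) :
    L.X s u * L.X r t = L.X r t * L.X s u * L.wX (commWordR D R r s t u) := by
  have key : ∀ W, L.X r (-t) * L.X s u * L.X r t = L.X s u * W → L.X s u * L.X r t = L.X r t * L.X s u * W := by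
    intro W h
    rw [mul_assoc, ← h, ← mul_assoc, ← mul_assoc, L.X_neg', one_mul]
  cases h1 : D.chainRoot r s 1 with
  | none =>
    have h0 := chainRoot_one_eq_none.1 h1
    have h0' := chainRoot_one_eq_none.1 ((G.entry_as r s).1.trans h1)
    have : D.commTerms r s = [] := by
      simp [ChevalleyDatum.commTerms, chainRoot_eq_none_of_nil h0, chainRoot_eq_none_of_nil h0']
    rw [L.X_comm hs h1]
    simp [commWordR, wX, this]
  | some k =>
    obtain ⟨k, rfl, -, b1, -, -, b2, -⟩ := G.entry_vec r s 0 k h1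
    have h1' := (G.entry_as r s).1.trans h1
    cases h2 : D.chainRoot r s 2 with
    | some k' =>
      obtain ⟨k', rfl, -⟩ := G.entry_vec r s 1 k' h2
      obtain ⟨h3, h2', -⟩ := H r s k k' h1 h2
      have h3' : D.chainRoot s r 3 = none := by rw [chainRoot_eq_none_iff] at h2' ⊢; omega
      have : D.commTerms r s = [((k : ℕ), D.chainM r s 1, 1, 1), ((k' : ℕ), D.chainM r s 2, 2, 1)] := by
        simp [ChevalleyDatum.commTerms, h1, h2, h2', h3, h3']
      apply key
      rw [L.conj_two G H h1 h2]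
      simp [commWordR, wX, this, mul_assoc]
    | none =>
      have h3 : D.chainRoot r s 3 = none := by rw [chainRoot_eq_none_iff] at h2 ⊢; omega
      cases h2' : D.chainRoot s r 2 with
      | none =>
        have h3' : D.chainRoot s r 3 = none := by rw [chainRoot_eq_none_iff] at h2' ⊢; omega
        have : D.commTerms r s = [((k : ℕ), D.chainM r s 1, 1, 1)] := by
          simp [ChevalleyDatum.commTerms, h1, h2, h2', h3, h3']
        apply key
        rw [L.conj_one G h1 h2 h2']
        simp [commWordR, wX, this, mul_assoc]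
      | some k' =>
        obtain ⟨k', rfl, -⟩ := G.entry_vec s r 1 k' h2'
        obtain ⟨h3', -, a1, a2, -⟩ := H s r k k' h1' h2'
        have : D.commTerms r s = [((k : ℕ), D.chainM r s 1, 1, 1), ((k' : ℕ), D.chainM s r 2, 1, 2)] := by
          simp [ChevalleyDatum.commTerms, h1, h2, h2', h3, h3']
        have e := L.conj_two G H h1' h2' u (-t)
        rw [(G.entry_as r s).2] at e
        have e2 : L.wX (commWordR D R r s t u) = L.X k (((-D.chainM r s 1 : ℤ) : R) * -u * -t) *
            L.X k' (D.chainM s r 2 * (-u) ^ 2 * -t) := by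
          simp only [commWordR, wX, this, List.map_cons, List.map_nil, List.prod_cons, List.prod_nil, Fin.is_lt,
            dite_true, Fin.eta, mul_one]
          congr 2 <;> push_cast <;> ring
        rw [e2]
        generalize ((-D.chainM r s 1 : ℤ) : R) * -u * -t = c1 at e ⊢
        generalize (D.chainM s r 2 : R) * (-u) ^ 2 * -t = c2 at e ⊢
        have e3 := congrArg (fun a => a * L.X r t) e
        simp only [mul_assoc] at e3
        rw [← L.X_comm a1 a2, ← mul_assoc (L.X k _), ← L.X_comm b1 (b2.trans h2), mul_assoc,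
          ← mul_assoc (L.X r (-t)) (L.X r t), L.X_neg, one_mul] at e3
        rw [← e3, mul_assoc, ← mul_assoc (L.X s u), L.X_neg', one_mul, ← mul_assoc, L.X_neg', one_mul]

theorem wX_ad (w : List (ℕ × R)) (y : D.Idx → R) :
    L.wX w * L.ρ y = L.ρ (wordR D R w *ᵥ y) * L.wX w := by
  induction w generalizing y with
  | nil => simp [wordR, wX]
  | cons p w ih =>
    simp only [wordR, wX, List.map_cons, List.prod_cons] at ih ⊢
    rw [mul_assoc, ih, ← mul_assoc, ← Matrix.mulVec_mulVec, ← mul_assoc]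
    congr 1
    unfold xN
    split_ifs
    · exact L.X_ad G _ _ _
    · simp

theorem comm_ad (H : NoG2 D) (hi : Function.Injective L.ρ) {r s : Fin D.nroots} (hs : s ≠ r.rev) (t u : R)
    (y : D.Idx → R) : (xR D R s u * xR D R r t) *ᵥ y =
      (xR D R r t * xR D R s u * wordR D R (commWordR D R r s t u)) *ᵥ y := by
  have h1 : L.X s u * L.X r t * L.ρ y = L.ρ ((xR D R s u * xR D R r t) *ᵥ y) * (L.X s u * L.X r t) := by
    rw [mul_assoc, L.X_ad G, ← mul_assoc, L.X_ad G, Matrix.mulVec_mulVec, mul_assoc]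
  have h2 : L.X r t * L.X s u * L.wX (commWordR D R r s t u) * L.ρ y =
      L.ρ ((xR D R r t * xR D R s u * wordR D R (commWordR D R r s t u)) *ᵥ y) *
        (L.X r t * L.X s u * L.wX (commWordR D R r s t u)) := by
    rw [mul_assoc, L.wX_ad G, ← mul_assoc, mul_assoc (L.X r t), L.X_ad G, ← mul_assoc, L.X_ad G,
      Matrix.mulVec_mulVec, Matrix.mulVec_mulVec]
    simp only [mul_assoc]
  rw [← L.comm G H hs, h1] at h2
  apply hi
  have := congrArg (fun a => a * (L.X r (-t) * L.X s (-u))) h2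
  simpa only [mul_assoc, ← mul_assoc (L.X r t), L.X_neg', one_mul, mul_one] using this

end LRep

/-- an integral matrix realisation of the Lie algebra -/
structure MRep (D : ChevalleyDatum) (J : Type) [Fintype J] [DecidableEq J] where
  B : D.Idx → Matrix J J ℤ
  br : ∀ b c, B b * B c - B c * B b = ∑ a, adB D b a c • B a
  e2 : Fin D.nroots → Matrix J J ℤ
  sq : ∀ r, B (.inr r) * B (.inr r) = (2 : ℤ) • e2 r
  cube : ∀ r, B (.inr r) * e2 r = 0
  inj : ∀ (R : Type) [CommRing R] [IsDomain R] [CharZero R] (v : D.Idx → R),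
    ∑ b, v b • (B b).map (Int.cast : ℤ → R) = 0 → v = 0

namespace MRep

open Good

variable {J : Type} [Fintype J] [DecidableEq J] (M : MRep D J)

section
variable (R : Type*) [CommRing R]

/-- the representation over a ring -/
noncomputable def ρ : (D.Idx → R) →ₗ[R] Matrix J J R :=
  Fintype.linearCombination R fun b => (M.B b).map (Int.cast : ℤ → R)

/-- the root elements over a ring -/
def X (r : Fin D.nroots) (t : R) : Matrix J J R :=
  1 + t • (M.B (.inr r)).map (Int.cast : ℤ → R) + t ^ 2 • (M.e2 r).map (Int.cast : ℤ → R)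

theorem ρ_single (b : D.Idx) : M.ρ R (Pi.single b 1) = (M.B b).map (Int.cast : ℤ → R) := by simp [ρ]

theorem ρ_br (x y : D.Idx → R) : M.ρ R x * M.ρ R y - M.ρ R y * M.ρ R x = M.ρ R (ad D R x *ᵥ y) := by
  have key : ∀ b c : D.Idx, M.ρ R (Pi.single b 1) * M.ρ R (Pi.single c 1) -
      M.ρ R (Pi.single c 1) * M.ρ R (Pi.single b 1) = M.ρ R (ad D R (Pi.single b 1) *ᵥ Pi.single c 1) := by
    intro b c
    have := congrArg (Int.castRingHom R).mapMatrix (M.br b c)
    rw [map_sub, map_mul, map_mul, map_sum] at this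
    rw [ρ_single, ρ_single, ad_single]
    refine this.trans ?_
    rw [ρ, Fintype.linearCombination_apply]
    refine Finset.sum_congr rfl fun a _ => ?_
    rw [map_zsmul]
    ext; simp
  refine vec_induction (p := fun x => M.ρ R x * M.ρ R y - M.ρ R y * M.ρ R x = M.ρ R (ad D R x *ᵥ y))
    (by simp) ?_ ?_ ?_ ?_ x
  · intro x z hx hz
    rw [map_add, map_add, Matrix.add_mulVec, map_add, ← hx, ← hz]; noncomm_ring
  · intro c x hx
    rw [map_smul, map_smul, Matrix.smul_mulVec, map_smul, ← hx, Matrix.mul_smul, Matrix.smul_mul, smul_sub]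
  all_goals
    intro b
    refine vec_induction (p := fun y => M.ρ R _ * M.ρ R y - M.ρ R y * M.ρ R _ = M.ρ R (ad D R _ *ᵥ y))
      (by simp) ?_ ?_ (fun i => key _ _) (fun s => key _ _) y
    · intro y z hy hz
      rw [Matrix.mulVec_add, map_add, map_add, ← hy, ← hz]; noncomm_ring
    · intro c y hy
      rw [Matrix.mulVec_smul, map_smul, map_smul, ← hy, Matrix.mul_smul, Matrix.smul_mul, smul_sub]

theorem B_sq (r : Fin D.nroots) : (M.B (.inr r)).map (Int.cast : ℤ → R) ^ 2 =
    (2 : R) • (M.e2 r).map (Int.cast : ℤ → R) := by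
  have := congrArg (Int.castRingHom R).mapMatrix (M.sq r)
  rw [map_mul, map_zsmul] at this
  rw [pow_two]
  refine this.trans ?_
  ext; simp

theorem B_cube (r : Fin D.nroots) : (M.B (.inr r)).map (Int.cast : ℤ → R) ^ 3 = 0 := by
  have := congrArg (Int.castRingHom R).mapMatrix (M.cube r)
  rw [map_mul, map_zero] at this
  rw [pow_succ', B_sq, Matrix.mul_smul]
  exact (congrArg _ this).trans (smul_zero _)

/-- as an abstract representation -/
noncomputable def lrep : LRep D R (Matrix J J R) where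
  ρ := M.ρ R
  br r y := by rw [M.ρ_br, ad_ev]
  nil r := ⟨3, by rw [ev, ρ_single, B_cube]⟩

variable {R}

theorem X_map {S : Type*} [CommRing S] (φ : R →+* S) (r : Fin D.nroots) (t : R) :
    (M.X R r t).map φ = M.X S r (φ t) := by
  ext a b; by_cases h : a = b <;> simp [X, Matrix.one_apply, h]

theorem X_eq [Algebra ℚ R] (r : Fin D.nroots) (t : R) : (M.lrep R).X r t = M.X R r t := by
  have h : (t • (M.B (.inr r)).map (Int.cast : ℤ → R)) ^ 3 = 0 := by rw [smul_pow, B_cube, smul_zero]
  rw [LRep.X]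
  change exp (t • M.ρ R (Pi.single _ 1)) = _
  rw [ρ_single, exp_eq_sum h]
  simp only [Finset.sum_range_succ, Finset.sum_range_zero, smul_pow, B_sq, X]
  have : ((Nat.factorial 2 : ℚ)⁻¹) • t ^ 2 • (2 : R) • (M.e2 r).map (Int.cast : ℤ → R) =
      t ^ 2 • (M.e2 r).map (Int.cast : ℤ → R) := by
    rw [smul_comm, two_smul, ← two_smul ℚ, smul_smul]; norm_num [Nat.factorial]
  rw [this]; simp

/-- words -/
def wX (w : List (ℕ × R)) : Matrix J J R :=
  (w.map fun p => if h : p.1 < D.nroots then M.X R ⟨p.1, h⟩ p.2 else 1).prod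

theorem wX_map {S : Type*} [CommRing S] (φ : R →+* S) (w : List (ℕ × R)) :
    (M.wX w).map φ = M.wX (w.map fun p => (p.1, φ p.2)) := by
  induction w with
  | nil => simp [wX]
  | cons p w ih =>
    simp only [wX, List.map_cons, List.prod_cons] at ih ⊢
    rw [Matrix.map_mul, ih]
    congr 1
    split_ifs
    · exact M.X_map φ _ _
    · simp

theorem wX_eq [Algebra ℚ R] (w : List (ℕ × R)) : (M.lrep R).wX w = M.wX w := by
  simp only [LRep.wX, wX, X_eq]

theorem X_add (r : Fin D.nroots) (t u : R) : M.X R r (t + u) = M.X R r t * M.X R r u := by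
  have h1 : M.X Pz r (.X 0 + .X 1) = M.X Pz r (.X 0) * M.X Pz r (.X 1) := by
    apply matrix_map_inj Pz_inj
    rw [Matrix.map_mul, X_map, X_map, X_map, map_add, ← X_eq, ← X_eq, ← X_eq, LRep.X_add]
  have := congrArg (fun M => M.map (evPz t u)) h1
  simpa [Matrix.map_mul, X_map] using this

theorem X_zero (r : Fin D.nroots) : M.X R r 0 = 1 := by simp [X]

theorem X_comm (G : Good0 D) (H : NoG2 D) {r s : Fin D.nroots} (hs : s ≠ r.rev) (t u : R) :
    M.X R s u * M.X R r t = M.X R r t * M.X R s u * M.wX (commWordR D R r s t u) := by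
  have h1 : M.X Pz s (.X 1) * M.X Pz r (.X 0) =
      M.X Pz r (.X 0) * M.X Pz s (.X 1) * M.wX (commWordR D Pz r s (.X 0) (.X 1)) := by
    apply matrix_map_inj Pz_inj
    rw [Matrix.map_mul, Matrix.map_mul, Matrix.map_mul, X_map, X_map, wX_map, commWordR_map, ← X_eq, ← X_eq,
      ← wX_eq, LRep.comm _ G H hs]
  have := congrArg (fun M => M.map (evPz t u)) h1
  simpa only [Matrix.map_mul, X_map, wX_map, commWordR_map, evPz_X0, evPz_X1] using this

end

theorem ρ_inj (R : Type) [CommRing R] [IsDomain R] [CharZero R] : Function.Injective (M.ρ R) :=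
  (injective_iff_map_eq_zero _).2 fun v h => M.inj R v (by rwa [ρ, Fintype.linearCombination_apply] at h)

/-- the full list of table facts -/
def good (G : Good0 D) (H : NoG2 D) : Good D :=
  { G with
    jac := fun _ g _ s u _ => by
      apply M.ρ_inj ℤ
      rw [← ad_ev_int, ← ad_ev_int, map_sub, ← M.ρ_br, ← M.ρ_br, ← M.ρ_br, ← M.ρ_br, ← M.ρ_br, ← M.ρ_br]
      noncomm_ring
    comm3 := fun r s h i g _ => by
      have hs : s ≠ r.rev := by
        rintro rfl
        have := G.entry_rev r.rev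
        rw [Fin.rev_rev] at this
        rw [G.entry_rev, this] at h
        simp at h
      have := (M.lrep (MvPolynomial (Fin 2) ℚ)).comm_ad G H (M.ρ_inj _) hs
        (MvPolynomial.map (Int.castRingHom ℚ) (.X 0 : Pz)) (MvPolynomial.map (Int.castRingHom ℚ) (.X 1 : Pz))
        (ev D _ g)
      rw [← commWordR_map, ← wordR_map, ← xR_map, ← xR_map, ← Matrix.map_mul, ← Matrix.map_mul,
        ← Matrix.map_mul] at this
      ext1 a
      apply Pz_inj
      simpa only [ev, Matrix.mulVec_single_one, Matrix.col_apply, Matrix.map_apply] using congrFun this a }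

variable {F : Type*} [Field F]

/-- the root elements as invertible matrices -/
def XU (r : Fin D.nroots) (t : F) : GL J F :=
  ⟨M.X F r t, M.X F r (-t), by rw [← M.X_add]; simp [X_zero], by rw [← M.X_add]; simp [X_zero]⟩

theorem XU_val (r : Fin D.nroots) (t : F) : (M.XU r t : Matrix J J F) = M.X F r t := rfl

theorem word_val (w : List (ℕ × F)) : ((wordG M.XU w : GL J F) : Matrix J J F) = M.wX w := by
  induction w with
  | nil => simp [wX, wordG]
  | cons p w ih =>
    simp only [wX, wordG, List.map_cons, List.prod_cons, Units.val_mul] at ih ⊢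
    rw [ih]
    split_ifs <;> rfl

theorem rel (G : Good0 D) (H : NoG2 D) : Rel D (M.XU (F := F)) where
  add r t u := Units.ext (M.X_add r t u)
  comm r s _ hs t u := Units.ext (by
    rw [Units.val_mul, Units.val_mul, Units.val_mul, word_val]
    exact M.X_comm G H hs t u)

end MRep
end CfsgH6
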