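import Mathlib
import Cfsg.Agent.H6.G0

/-! Root data with a matrix realisation: root strings and structure constants. -/

set_option autoImplicit false

namespace CfsgH6

open Matrix

/-- a root system with at most two root lengths of ratio two, with a matrix realisation -/
structure RD (l : ℕ) (ι Φ J : Type) [Fintype ι] [Fintype J] [DecidableEq J] where
  v : Φ → ι → ℤ
  inj : Function.Injective v
  neg : Φ → Φ
  v_neg : ∀ r, v (neg r) = - v r
  a : ℤ
  a_pos : 0 < a
  nrm : ∀ r, v r ⬝ᵥ v r = a ∨ v r ⬝ᵥ v r = 2 * a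
  sm : Fin l → Φ
  vec : Φ → Fin l → ℤ
  v_eq : ∀ r, v r = ∑ i, vec r i • v (sm i)
  indep : ∀ c : Fin l → ℤ, ∑ i, c i • v (sm i) = 0 → c = 0
  pos_or_neg : ∀ r, (∀ i, 0 ≤ vec r i) ∨ ∀ i, vec r i ≤ 0
  two_le : 2 ≤ l
  noiso : ∀ i, ∃ j, j ≠ i ∧ v (sm i) ⬝ᵥ v (sm j) ≠ 0
  wt : J → ι → ℤ
  pr : Φ → J → ℤ
  pr_eq : ∀ r a, pr r a * (v r ⬝ᵥ v r) = 2 * (v r ⬝ᵥ wt a)
  e : Φ → Matrix J J ℤ
  e2 : Φ → Matrix J J ℤ
  e_ne : ∀ r, e r ≠ 0
  e_wt : ∀ r a b, e r a b ≠ 0 → wt a = wt b + v r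
  br_neg : ∀ r, e r * e (neg r) - e (neg r) * e r = diagonal (pr r)
  g : Set (Matrix J J ℤ)
  e_mem : ∀ r, e r ∈ g
  br_mem : ∀ x ∈ g, ∀ y ∈ g, x * y - y * x ∈ g
  wsp : ∀ x ∈ g, ∀ μ : ι → ℤ, μ ≠ 0 → (∀ a b, x a b ≠ 0 → wt a = wt b + μ) →
    x = 0 ∨ ∃ k, v k = μ ∧ ∃ N : ℤ, x = N • e k
  dd : J → ℤ
  dd_ne : ∀ a, dd a ≠ 0
  e_neg : ∀ r a b, dd a * e (neg r) a b = dd b * e r b a
  sq : ∀ r, e r * e r = (2 : ℤ) • e2 r
  cube : ∀ r, e r * e2 r = 0

namespace RD

variable {l : ℕ} {ι Φ J : Type} [Fintype ι] [Fintype J] [DecidableEq J] (R : RD l ι Φ J)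

/-- inner product of roots -/
def ip (r s : Φ) : ℤ := R.v r ⬝ᵥ R.v s

/-- squared length -/
def len (r : Φ) : ℤ := R.ip r r

theorem ip_comm (r s : Φ) : R.ip r s = R.ip s r := dotProduct_comm _ _

theorem len_cases (r : Φ) : R.len r = R.a ∨ R.len r = 2 * R.a := R.nrm r

theorem len_pos (r : Φ) : 0 < R.len r := by have := R.a_pos; rcases R.len_cases r with h | h <;> omega

theorem v_ne (r : Φ) : R.v r ≠ 0 := fun h => by have := R.len_pos r; simp [len, ip, h] at this

@[simp] theorem neg_neg (r : Φ) : R.neg (R.neg r) = r := R.inj (by simp [R.v_neg])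

theorem neg_ne (r : Φ) : R.neg r ≠ r := fun h => R.v_ne r (by
  have := R.v_neg r
  rw [h] at this
  ext i; have := congrFun this i; simp at this ⊢; omega)

theorem ip_neg_left (r s : Φ) : R.ip (R.neg r) s = - R.ip r s := by simp [ip, R.v_neg]

theorem ip_neg_right (r s : Φ) : R.ip r (R.neg s) = - R.ip r s := by simp [ip, R.v_neg]

theorem len_neg (r : Φ) : R.len (R.neg r) = R.len r := by simp [len, ip_neg_left, ip_neg_right]

theorem ip_sum {r s k : Φ} (h : R.v k = R.v r + R.v s) (u : Φ) : R.ip u k = R.ip u r + R.ip u s := by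
  simp [ip, h]

theorem len_sum {r s k : Φ} (h : R.v k = R.v r + R.v s) : R.len k = R.len r + R.len s + 2 * R.ip r s := by
  rw [len, R.ip_sum h, R.ip_comm k, R.ip_comm k, R.ip_sum h, R.ip_sum h, R.ip_comm s r, len, len]; ring

theorem exists_entry (r : Φ) : ∃ a b, R.e r a b ≠ 0 := by
  by_contra h
  push Not at h
  exact R.e_ne r (Matrix.ext h)

/-- Cartan integers -/
def A (r s : Φ) : ℤ := 2 * R.ip r s / R.len r

theorem pr_sub {r s : Φ} {a b : J} (h : R.e s a b ≠ 0) : (R.pr r a - R.pr r b) * R.len r = 2 * R.ip r s := by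
  rw [sub_mul, len, ip, R.pr_eq, R.pr_eq, R.e_wt s a b h, dotProduct_add, ip]; ring

theorem A_eq (r s : Φ) : R.A r s * R.len r = 2 * R.ip r s := by
  obtain ⟨a, b, h⟩ := R.exists_entry s
  rw [A, ← R.pr_sub h, Int.mul_ediv_cancel _ (R.len_pos r).ne']

theorem A_of {r s : Φ} {c : ℤ} (h : c * R.len r = 2 * R.ip r s) : R.A r s = c :=
  mul_right_cancel₀ (R.len_pos r).ne' ((R.A_eq r s).trans h.symm)

theorem A_self (r : Φ) : R.A r r = 2 := R.A_of rfl

theorem A_neg_left (r s : Φ) : R.A (R.neg r) s = - R.A r s :=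
  R.A_of (by rw [len_neg, ip_neg_left, neg_mul, A_eq]; ring)

theorem A_neg_right (r s : Φ) : R.A r (R.neg s) = - R.A r s :=
  R.A_of (by rw [ip_neg_right, neg_mul, A_eq]; ring)

theorem A_sum {r s k : Φ} (h : R.v k = R.v r + R.v s) (u : Φ) : R.A u k = R.A u r + R.A u s :=
  R.A_of (by rw [R.ip_sum h, add_mul, A_eq, A_eq]; ring)

theorem A_symm (r s : Φ) : R.A r s * R.len r = R.A s r * R.len s := by rw [A_eq, A_eq, ip_comm]

theorem dot_pos {x : ι → ℤ} (h : x ≠ 0) : 0 < x ⬝ᵥ x :=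
  lt_of_le_of_ne (Finset.sum_nonneg fun _ _ => mul_self_nonneg _) fun e => h (dotProduct_self_eq_zero.1 e.symm)

theorem A_cases {r s : Φ} (h1 : s ≠ r) (h2 : s ≠ R.neg r) :
    (R.len r = R.len s ∧ R.A r s = R.A s r ∧ -1 ≤ R.A r s ∧ R.A r s ≤ 1) ∨
    (R.len r = R.a ∧ R.len s = 2 * R.a ∧ R.A r s = 2 * R.A s r ∧ -1 ≤ R.A s r ∧ R.A s r ≤ 1) ∨
    (R.len r = 2 * R.a ∧ R.len s = R.a ∧ R.A s r = 2 * R.A r s ∧ -1 ≤ R.A r s ∧ R.A r s ≤ 1) := by
  have ha := R.a_pos
  have e1 : 0 < R.len r + R.len s - 2 * R.ip r s := by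
    have := dot_pos (x := R.v s - R.v r) fun h => h1 (R.inj (sub_eq_zero.1 h))
    simp only [sub_dotProduct, dotProduct_sub, dotProduct_comm (R.v s) (R.v r)] at this
    simp only [len, ip]; omega
  have e2 : 0 < R.len r + R.len s + 2 * R.ip r s := by
    have := dot_pos (x := R.v s + R.v r) fun h => h2 (R.inj (by rw [R.v_neg]; exact eq_neg_of_add_eq_zero_left h))
    simp only [add_dotProduct, dotProduct_add, dotProduct_comm (R.v s) (R.v r)] at this
    simp only [len, ip]; omega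
  have e3 := R.A_eq r s
  have e4 := R.A_eq s r
  rw [R.ip_comm s r] at e4
  rcases R.len_cases r with h | h <;> rcases R.len_cases s with h' | h' <;> rw [h] at e1 e2 e3 <;>
    rw [h'] at e1 e2 e4
  · exact Or.inl ⟨h.trans h'.symm, mul_right_cancel₀ ha.ne' (e3.trans e4.symm), by nlinarith, by nlinarith⟩
  · exact Or.inr (Or.inl ⟨h, h', mul_right_cancel₀ ha.ne' (by linarith), by nlinarith, by nlinarith⟩)
  · exact Or.inr (Or.inr ⟨h, h', mul_right_cancel₀ ha.ne' (by linarith), by nlinarith, by nlinarith⟩)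
  · exact Or.inl ⟨h.trans h'.symm, mul_right_cancel₀ ha.ne' (by linarith), by nlinarith, by nlinarith⟩

theorem cs {r s : Φ} (h1 : s ≠ r) (h2 : s ≠ R.neg r) : R.A r s * R.A s r < 4 := by
  rcases R.A_cases h1 h2 with ⟨-, h, _, _⟩ | ⟨-, -, h, _, _⟩ | ⟨-, -, h, _, _⟩
  · rw [← h]; nlinarith
  · rw [h]; nlinarith
  · rw [h]; nlinarith

theorem ne_neg_of_sum {r s k : Φ} (h : R.v k = R.v r + R.v s) : s ≠ R.neg r := by
  rintro rfl
  exact R.v_ne k (by rw [h, R.v_neg]; simp)

theorem ne_of_sum {r s k : Φ} (h : R.v k = R.v r + R.v s) : s ≠ r := by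
  rintro rfl
  have := R.len_sum h
  have ha := R.a_pos
  change _ = _ + 2 * R.len s at this
  rcases R.len_cases s with h | h <;> rcases R.len_cases k with h' | h' <;> omega

theorem sum_neg {r s k : Φ} (h : R.v k = R.v r + R.v s) : R.v s = R.v (R.neg r) + R.v k := by
  rw [h, R.v_neg]; abel

theorem sum_comm {r s k : Φ} (h : R.v k = R.v r + R.v s) : R.v k = R.v s + R.v r := by rw [h, add_comm]

theorem sum_nn {r s k : Φ} (h : R.v k = R.v r + R.v s) : R.v (R.neg k) = R.v (R.neg r) + R.v (R.neg s) := by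
  rw [R.v_neg, R.v_neg, R.v_neg, h]; abel

theorem three {r s k k' : Φ} (h : R.v k = R.v r + R.v s) (h' : R.v k' = R.v r + R.v k) :
    R.len r = R.a ∧ R.len s = 2 * R.a ∧ R.len k = R.a ∧ R.len k' = 2 * R.a ∧ R.ip r s = - R.a := by
  have e1 := R.len_sum h
  have e2 := R.len_sum h'
  rw [R.ip_sum h] at e2
  change _ = _ + 2 * (R.len r + _) at e2
  have ha := R.a_pos
  rcases R.len_cases r with a | a <;> rcases R.len_cases s with b | b <;> rcases R.len_cases k with c | c <;>
    rcases R.len_cases k' with d | d <;> omega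

/-- the bracket -/
def br (x y : Matrix J J ℤ) : Matrix J J ℤ := x * y - y * x

theorem h_e (r s : Φ) : br (diagonal (R.pr r)) (R.e s) = R.A r s • R.e s := by
  ext a b
  simp only [br, Matrix.sub_apply, Matrix.diagonal_mul, Matrix.mul_diagonal, Matrix.smul_apply, smul_eq_mul]
  by_cases h : R.e s a b = 0
  · simp [h]
  · rw [R.A_of (R.pr_sub h)]; ring

theorem br_wt {r s : Φ} {a b : J} (h : br (R.e r) (R.e s) a b ≠ 0) : R.wt a = R.wt b + (R.v r + R.v s) := by
  by_contra h0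
  apply h
  have key : ∀ r s : Φ, R.wt a ≠ R.wt b + (R.v r + R.v s) → (R.e r * R.e s) a b = 0 := fun r s h0 => by
    rw [Matrix.mul_apply]
    refine Finset.sum_eq_zero fun c _ => by_contra fun h1 => h0 ?_
    rw [R.e_wt r a c (left_ne_zero_of_mul h1), R.e_wt s c b (right_ne_zero_of_mul h1)]; abel
  rw [br, Matrix.sub_apply, key r s h0, key s r (by rwa [add_comm (R.v s)]), sub_zero]

open Classical in
/-- structure constants -/
noncomputable def N (r s : Φ) : ℤ :=
  if h : ∃ p : Φ × ℤ, R.v p.1 = R.v r + R.v s ∧ br (R.e r) (R.e s) = p.2 • R.e p.1 then h.choose.2 else 0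

theorem br_some {r s k : Φ} (h : R.v k = R.v r + R.v s) : br (R.e r) (R.e s) = R.N r s • R.e k := by
  have h1 : ∃ p : Φ × ℤ, R.v p.1 = R.v r + R.v s ∧ br (R.e r) (R.e s) = p.2 • R.e p.1 := by
    rcases R.wsp _ (R.br_mem _ (R.e_mem r) _ (R.e_mem s)) _ (h ▸ R.v_ne k) (fun a b => R.br_wt) with
      h1 | ⟨k', h1, N, h2⟩
    · exact ⟨(k, 0), h, by rw [zero_smul]; exact h1⟩
    · exact ⟨(k', N), h1, h2⟩
  rw [N, dif_pos h1, ← R.inj (h1.choose_spec.1.trans h.symm)]
  exact h1.choose_spec.2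

theorem N_none {r s : Φ} (h : ∀ k, R.v k ≠ R.v r + R.v s) : R.N r s = 0 :=
  dif_neg fun ⟨p, h1, _⟩ => h p.1 h1

theorem br_none {r s : Φ} (h2 : s ≠ R.neg r) (h : ∀ k, R.v k ≠ R.v r + R.v s) : br (R.e r) (R.e s) = 0 :=
  (R.wsp _ (R.br_mem _ (R.e_mem r) _ (R.e_mem s)) _
    (fun e => h2 (R.inj (by rw [R.v_neg]; exact eq_neg_of_add_eq_zero_right e))) fun _ _ => R.br_wt).resolve_right
    fun ⟨k, h1, _⟩ => h k h1

theorem smul_inj {r : Φ} {c d : ℤ} (h : c • R.e r = d • R.e r) : c = d := smul_left_injective ℤ (R.e_ne r) h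

theorem N_as (r s : Φ) : R.N s r = - R.N r s := by
  by_cases h : ∃ k, R.v k = R.v r + R.v s
  · obtain ⟨k, h⟩ := h
    apply R.smul_inj (r := k)
    rw [neg_smul, ← R.br_some h, ← R.br_some (R.sum_comm h), br, br, neg_sub]
  · push Not at h
    rw [R.N_none h, R.N_none (by simpa [add_comm] using h), neg_zero]

theorem N_neg (r s : Φ) : R.N (R.neg r) (R.neg s) = - R.N r s := by
  by_cases h : ∃ k, R.v k = R.v r + R.v s
  · obtain ⟨k, h⟩ := h
    have key : ∀ r, diagonal R.dd * R.e (R.neg r) = (R.e r)ᵀ * diagonal R.dd := fun r => by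
      ext a b; simp [R.e_neg, mul_comm]
    have h1 := congrArg (fun x => diagonal R.dd * x) (R.br_some (R.sum_nn h))
    have h2 := congrArg (fun x => xᵀ * diagonal R.dd) (R.br_some h)
    simp only [br, Matrix.mul_sub, ← mul_assoc, key, Matrix.mul_smul] at h1
    simp only [mul_assoc, key] at h1
    simp only [br, Matrix.transpose_sub, Matrix.transpose_mul, Matrix.sub_mul, mul_assoc, Matrix.transpose_smul,
      Matrix.smul_mul] at h2
    obtain ⟨a, b, hab⟩ := R.exists_entry k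
    have h3 : R.N (R.neg r) (R.neg s) • ((R.e k)ᵀ * diagonal R.dd) = - R.N r s • ((R.e k)ᵀ * diagonal R.dd) := by
      rw [← h1, neg_smul, ← h2, neg_sub]
    have h4 := congrFun (congrFun h3 b) a
    simp only [Matrix.smul_apply, Matrix.mul_diagonal, Matrix.transpose_apply, smul_eq_mul] at h4
    exact mul_right_cancel₀ (mul_ne_zero hab (R.dd_ne a)) h4
  · push Not at h
    rw [R.N_none h, R.N_none fun k e => h (R.neg k) (by simpa using R.sum_nn e), neg_zero]

open Classical in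
/-- the coefficient of `[e_{-r}, [e_r, e_s]]` -/
noncomputable def c (r s : Φ) : ℤ :=
  if h : ∃ k, R.v k = R.v r + R.v s then R.N r s * R.N (R.neg r) h.choose else 0

theorem c_some {r s k : Φ} (h : R.v k = R.v r + R.v s) : R.c r s = R.N r s * R.N (R.neg r) k := by
  have h1 : ∃ k, R.v k = R.v r + R.v s := ⟨k, h⟩
  rw [c, dif_pos h1, R.inj (h1.choose_spec.trans h.symm)]

theorem c_none {r s : Φ} (h : ∀ k, R.v k ≠ R.v r + R.v s) : R.c r s = 0 := dif_neg fun ⟨k, h1⟩ => h k h1

omit [DecidableEq J] in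
theorem br_smul (x y : Matrix J J ℤ) (c : ℤ) : br x (c • y) = c • br x y := by
  rw [br, br, Matrix.mul_smul, Matrix.smul_mul, smul_sub]

theorem br_br {r s : Φ} (h2 : s ≠ R.neg r) : br (R.e (R.neg r)) (br (R.e r) (R.e s)) = R.c r s • R.e s := by
  by_cases h : ∃ k, R.v k = R.v r + R.v s
  · obtain ⟨k, h⟩ := h
    rw [R.br_some h, br_smul, R.br_some (R.sum_neg h), R.c_some h, smul_smul]
  · push Not at h
    rw [R.br_none h2 h, R.c_none h]; simp [br]

theorem c_rec {r s : Φ} (h1 : s ≠ r) (h2 : s ≠ R.neg r) : R.c r s = R.c (R.neg r) s - R.A r s := by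
  apply R.smul_inj (r := s)
  have := R.br_br (r := R.neg r) (s := s) (by simpa using h1)
  rw [neg_neg] at this
  rw [sub_smul, ← R.br_br h2, ← this, ← R.h_e, ← R.br_neg]
  simp only [br]; noncomm_ring

theorem cyc {r s k : Φ} (h : R.v k = R.v r + R.v s) : R.N (R.neg r) k * R.len k = R.N r s * R.len s := by
  have e0 : R.N (R.neg r) k = R.N (R.neg k) r := by rw [R.N_as r, ← R.N_neg, neg_neg]
  have h1 : R.v (R.neg r) = R.v s + R.v (R.neg k) := by rw [R.v_neg, R.v_neg, h]; abel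
  have h2 : R.v (R.neg s) = R.v (R.neg k) + R.v r := by rw [R.v_neg, R.v_neg, h]; abel
  have e1 : R.N s (R.neg k) • diagonal (R.pr r) + R.N (R.neg k) r • diagonal (R.pr s) +
      R.N r s • diagonal (R.pr (R.neg k)) = 0 := by
    rw [← R.br_neg, ← R.br_neg, ← R.br_neg, neg_neg]
    change _ • br _ _ + _ • br _ _ + _ • br _ _ = 0
    rw [← br_smul, ← br_smul, ← br_smul, ← R.br_some h1, ← R.br_some h2, ← R.br_some h]
    simp only [br]; noncomm_ring
  have e2 : ∀ u, R.N s (R.neg k) * R.A r u + R.N (R.neg k) r * R.A s u + R.N r s * R.A (R.neg k) u = 0 := by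
    intro u
    apply R.smul_inj (r := u)
    have := congrArg (fun x => br x (R.e u)) e1
    simp only [add_smul, mul_smul, ← R.h_e, zero_smul]
    simp only [br, Matrix.add_mul, Matrix.mul_add, Matrix.smul_mul, Matrix.mul_smul, smul_sub] at this ⊢
    rw [Matrix.zero_mul, Matrix.mul_zero, sub_zero] at this
    rw [← this]; abel
  have a1 := e2 r
  have a2 := e2 s
  rw [A_neg_left, A_self] at a1 a2
  have b1 := R.A_eq s r
  have b2 := R.A_eq r s
  have b3 := R.A_eq k r
  have b4 := R.A_eq k s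
  rw [R.ip_comm k, R.ip_sum h] at b3 b4
  rw [R.ip_comm s r] at b1 b4
  change _ = 2 * (R.len r + _) at b3
  change _ = 2 * (_ + R.len s) at b4
  have b5 := R.cs (R.ne_of_sum h) (R.ne_neg_of_sum h)
  have b6 : R.len r * R.len s - R.ip r s ^ 2 ≠ 0 := by
    have := mul_pos (R.len_pos r) (R.len_pos s)
    have e : 4 * R.ip r s ^ 2 = R.A r s * R.A s r * (R.len r * R.len s) := by linear_combination (-(2 * R.ip r s)) * b1 - R.A s r * R.len s * b2
    nlinarith
  rw [e0]
  apply mul_left_cancel₀ (mul_ne_zero two_ne_zero b6)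
  linear_combination (R.len r * R.len s * R.len k) * a2 - (R.ip r s * R.len s * R.len k) * a1 -
    R.N s (R.neg k) * R.len s * R.len k * b2 + R.N r s * R.len r * R.len s * b4 +
    R.N (R.neg k) r * R.ip r s * R.len k * b1 - R.N r s * R.ip r s * R.len s * b3

theorem ex_sum {r s : Φ} (h : R.A r s < 0) (h2 : s ≠ R.neg r) : ∃ k, R.v k = R.v r + R.v s := by
  have h1 : s ≠ r := fun e => by rw [e, A_self] at h; omega
  by_contra h0
  push Not at h0
  have h3 : R.c (R.neg r) s = 0 := R.c_none fun m hm => by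
    have e1 := R.len_sum hm
    have e2 := R.A_eq r s
    rw [len_neg, ip_neg_left] at e1
    have ha := R.a_pos
    have := R.len_pos r
    have : 2 * R.ip r s ≤ - R.len r := by nlinarith
    rcases R.len_cases r with a | a <;> rcases R.len_cases s with b | b <;> rcases R.len_cases m with c | c <;> omega
  have := R.c_rec h1 h2
  rw [R.c_none h0, h3] at this
  omega

theorem c_first {r s : Φ} (h1 : s ≠ r) (h2 : s ≠ R.neg r) (h : ∀ m, R.v s ≠ R.v r + R.v m) : R.c r s = - R.A r s := by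
  rw [R.c_rec h1 h2, R.c_none fun m e => h m (by simpa using R.sum_neg e), zero_sub]

theorem no_four {r s k k' : Φ} (h : R.v k = R.v r + R.v s) (h' : R.v k' = R.v r + R.v k) (m : Φ) :
    R.v m ≠ R.v r + R.v k' ∧ R.v s ≠ R.v r + R.v m := by
  have ha := R.a_pos
  have := R.three h h'
  exact ⟨fun e => by have := R.three h' e; omega, fun e => by have := R.three e h; omega⟩

theorem c_mid {r s k : Φ} (h : R.v k = R.v r + R.v s) (h1 : k ≠ r) : R.c r k = R.c r s - R.A r s - 2 := by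
  have h2 : k ≠ R.neg r := by simpa using R.ne_of_sum (R.sum_neg h)
  rw [R.c_rec h1 h2, R.c_some (R.sum_neg h), neg_neg, R.c_some h, R.A_sum h, A_self]; ring

theorem ne_left {r s k : Φ} (h : R.v k = R.v r + R.v s) : k ≠ r := by
  simpa using R.ne_neg_of_sum (R.sum_neg h)

theorem ex_sum2 {r s k : Φ} (h : R.v k = R.v r + R.v s) (hA : R.A r s = -2) : ∃ k', R.v k' = R.v r + R.v k := by
  by_contra h0
  push Not at h0
  have h1 := R.c_mid h (R.ne_left h)
  rw [R.c_none h0, R.c_first (R.ne_of_sum h) (R.ne_neg_of_sum h) fun m e => ?_] at h1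
  · omega
  · have := R.three e h
    have e2 := R.A_eq r s
    have ha := R.a_pos
    rw [hA, R.ip_sum e] at e2
    change _ = 2 * (R.len r + _) at e2
    omega

theorem N_first {r s k : Φ} (h : R.v k = R.v r + R.v s) (h0 : ∀ m, R.v s ≠ R.v r + R.v m) :
    R.N r s = 1 ∨ R.N r s = -1 := by
  have h1 := R.ne_of_sum h
  have h2 := R.ne_neg_of_sum h
  have e1 := R.c_first h1 h2 h0
  rw [R.c_some h] at e1
  have e2 := R.cyc h
  have e3 : R.N r s ^ 2 * R.len s = - R.A r s * R.len k := by linear_combination R.len k * e1 - R.N r s * e2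
  have e4 := R.len_sum h
  have e5 := R.A_eq r s
  have ha := R.a_pos
  have e6 : R.A r s ≠ 0 := fun e => by
    obtain ⟨k', hk⟩ := R.ex_sum2 (R.sum_neg h) (by rw [A_neg_left, R.A_sum h, A_self, e]; rfl)
    exact h0 k' (by simpa using R.sum_neg hk)
  have key : ∀ u, ∃ x : ℤ, (x = 1 ∨ x = 2) ∧ R.len u = x * R.a := fun u => by
    rcases R.len_cases u with h | h
    · exact ⟨1, Or.inl rfl, by rw [h, one_mul]⟩
    · exact ⟨2, Or.inr rfl, h⟩
  obtain ⟨x, hx, hx'⟩ := key r
  obtain ⟨y, hy, hy'⟩ := key s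
  obtain ⟨z, hz, hz'⟩ := key k
  have e7 : R.A r s * x = z - x - y :=
    mul_right_cancel₀ ha.ne' (by linear_combination e5 - e4 + hz' - hx' - hy' - R.A r s * hx')
  have e8 : R.N r s ^ 2 * y = - R.A r s * z :=
    mul_right_cancel₀ ha.ne' (by linear_combination e3 - R.N r s ^ 2 * hy' - R.A r s * hz')
  rw [← sq_eq_one_iff]
  generalize R.N r s ^ 2 = n at e8
  rcases hx with rfl | rfl <;> rcases hy with rfl | rfl <;> rcases hz with rfl | rfl <;> omega

theorem N_mid {r s k k' : Φ} (h : R.v k = R.v r + R.v s) (h' : R.v k' = R.v r + R.v k) :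
    R.N r k = 2 ∨ R.N r k = -2 := by
  obtain ⟨a1, a2, a3, a4, a5⟩ := R.three h h'
  have ha := R.a_pos
  have hA : R.A r s = -2 := R.A_of (by rw [a1, a5]; ring)
  have e1 := R.c_mid h (R.ne_left h)
  rw [R.c_first (R.ne_of_sum h) (R.ne_neg_of_sum h) fun m => (R.no_four h h' m).2, R.c_some h', hA] at e1
  have e2 := R.cyc h'
  rw [a3, a4] at e2
  have e3 : R.N r k = 2 * R.N (R.neg r) k' := mul_right_cancel₀ ha.ne' (by linarith)
  rw [e3] at e1 ⊢
  have : R.N (R.neg r) k' * R.N (R.neg r) k' = 1 := by linarith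
  rcases Int.eq_one_or_neg_one_of_mul_eq_one this with h | h <;> simp [h]

theorem N_ne {r s k : Φ} (h : R.v k = R.v r + R.v s) : R.N r s ≠ 0 := by
  by_cases h0 : ∃ m, R.v s = R.v r + R.v m
  · obtain ⟨m, hm⟩ := h0
    rcases R.N_mid hm h with e | e <;> omega
  · push Not at h0
    rcases R.N_first h h0 with e | e <;> omega

theorem ex_refl (r s : Φ) : ∃ k, R.v k = R.v s - R.A r s • R.v r := by
  have key : ∀ r s, R.A r s < 0 → s ≠ R.neg r → ∃ k, R.v k = R.v s - R.A r s • R.v r := by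
    intro r s h h2
    obtain ⟨k, hk⟩ := R.ex_sum h h2
    have h1 := R.ne_of_sum hk
    have : R.A r s = -1 ∨ R.A r s = -2 := by rcases R.A_cases h1 h2 with h | h | h <;> omega
    rcases this with e | e
    · exact ⟨k, by rw [hk, e]; simp [add_comm]⟩
    · obtain ⟨k', hk'⟩ := R.ex_sum2 hk e
      exact ⟨k', by rw [hk', hk, e]; ext; simp; ring⟩
  by_cases h1 : s = r
  · exact ⟨R.neg r, by rw [h1, A_self, v_neg]; ext; simp; ring⟩
  by_cases h2 : s = R.neg r
  · exact ⟨r, by rw [h2, A_neg_right, A_self, v_neg]; ext; simp; ring⟩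
  rcases lt_trichotomy (R.A r s) 0 with h | h | h
  · exact key r s h h2
  · exact ⟨s, by simp [h]⟩
  · obtain ⟨k, hk⟩ := key (R.neg r) s (by rw [A_neg_left]; omega) (by simpa using h1)
    exact ⟨k, by rw [hk, A_neg_left, v_neg]; simp⟩

/-- the reflection -/
noncomputable def rf (r s : Φ) : Φ := (R.ex_refl r s).choose

theorem v_rf (r s : Φ) : R.v (R.rf r s) = R.v s - R.A r s • R.v r := (R.ex_refl r s).choose_spec

theorem len_rf (r s : Φ) : R.len (R.rf r s) = R.len s := by
  have := R.A_eq r s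
  simp only [len, ip, v_rf, sub_dotProduct, dotProduct_sub, smul_dotProduct, dotProduct_smul, smul_eq_mul,
    dotProduct_comm (R.v s) (R.v r)] at this ⊢
  linear_combination R.A r s * this

theorem vec_of {r : Φ} {c : Fin l → ℤ} (h : R.v r = ∑ i, c i • R.v (R.sm i)) : R.vec r = c :=
  sub_eq_zero.1 (R.indep _ (by
    simp only [Pi.sub_apply, sub_smul, Finset.sum_sub_distrib, ← h, ← R.v_eq, sub_self]))

theorem vec_comb {r s k : Φ} {x y : ℤ} :
    R.v k = x • R.v r + y • R.v s ↔ ∀ i, R.vec k i = x * R.vec r i + y * R.vec s i := by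
  have e : x • R.v r + y • R.v s = ∑ i, (x * R.vec r i + y * R.vec s i) • R.v (R.sm i) := by
    rw [R.v_eq r, R.v_eq s, Finset.smul_sum, Finset.smul_sum, ← Finset.sum_add_distrib]
    simp only [add_smul, mul_smul]
  rw [e]
  exact ⟨fun h i => by rw [R.vec_of h], fun h => by rw [R.v_eq k]; simp only [h]⟩

theorem vec_sum {r s k : Φ} : R.v k = R.v r + R.v s ↔ ∀ i, R.vec k i = R.vec r i + R.vec s i := by
  simpa using R.vec_comb (r := r) (s := s) (k := k) (x := 1) (y := 1)

theorem vec_neg (r : Φ) (i : Fin l) : R.vec (R.neg r) i = - R.vec r i := by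
  simpa using (R.vec_comb (r := r) (s := r) (k := R.neg r) (x := -1) (y := 0)).1 (by simp [R.v_neg]) i

theorem vec_sm (i j : Fin l) : R.vec (R.sm i) j = if j = i then 1 else 0 := by
  rw [R.vec_of (c := fun j => if j = i then 1 else 0) (by simp)]

theorem vec_inj {r s : Φ} (h : ∀ i, R.vec r i = R.vec s i) : r = s := R.inj (by rw [R.v_eq r, R.v_eq s]; simp [h])

theorem vec_rf (i : Fin l) (s : Φ) (j : Fin l) :
    R.vec (R.rf (R.sm i) s) j = R.vec s j - if j = i then R.A (R.sm i) s else 0 := by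
  rw [(R.vec_comb (r := s) (s := R.sm i) (x := 1) (y := - R.A (R.sm i) s)).1 (by simp [v_rf, sub_eq_add_neg]), vec_sm]
  split_ifs <;> ring

theorem ip_lin (r s : Φ) : R.ip r s = ∑ j, R.vec s j * R.ip r (R.sm j) := by
  rw [ip, R.v_eq s, dotProduct_sum]; simp only [ip, dotProduct_smul, smul_eq_mul]

theorem A_lin (r s : Φ) : R.A r s = ∑ j, R.vec s j * R.A r (R.sm j) :=
  R.A_of (by rw [R.ip_lin r s, Finset.sum_mul, Finset.mul_sum]; simp only [mul_assoc, A_eq, mul_left_comm])

theorem ex_pos {r : Φ} (h : ∀ i, 0 ≤ R.vec r i) : ∃ i, 0 < R.vec r i ∧ 0 < R.A (R.sm i) r := by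
  by_contra h0
  push Not at h0
  have := R.len_pos r
  rw [len, ip_lin] at this
  refine absurd this (not_lt.2 (Finset.sum_nonpos fun i _ => ?_))
  rcases (h i).eq_or_lt with e | e
  · simp [← e]
  · have e1 := R.A_eq (R.sm i) r
    have := mul_nonpos_of_nonpos_of_nonneg (h0 i e) (R.len_pos (R.sm i)).le
    rw [R.ip_comm] at e1
    exact mul_nonpos_of_nonneg_of_nonpos e.le (by omega)

theorem ex_cov_pos (n : ℕ) : ∀ r, (∀ i, 0 ≤ R.vec r i) → ∑ i, R.vec r i ≤ n →
    ∃ c : Fin l → ℤ, ∀ i, c i * R.len r = R.vec r i * R.len (R.sm i) := by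
  induction n with
  | zero =>
    intro r h h'
    obtain ⟨i, hi, -⟩ := R.ex_pos h
    have := Finset.single_le_sum (fun j _ => h j) (Finset.mem_univ i)
    omega
  | succ n ih =>
    intro r h h'
    obtain ⟨i, hi, hA⟩ := R.ex_pos h
    by_cases h1 : r = R.sm i
    · exact ⟨R.vec r, fun j => by rw [h1, vec_sm]; split_ifs with e <;> simp [e]⟩
    rcases R.pos_or_neg (R.rf (R.sm i) r) with h2 | h2
    · obtain ⟨c, hc⟩ := ih _ h2 (by simp [vec_rf]; push_cast at h'; omega)
      refine ⟨fun j => c j + if j = i then R.A r (R.sm i) else 0, fun j => ?_⟩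
      have := hc j
      rw [len_rf, vec_rf] at this
      by_cases e : j = i
      · subst e; simp only [if_true] at this ⊢; linear_combination this + R.A_symm r (R.sm j)
      · simpa [e] using this
    · exfalso
      have h3 : ∀ j, R.vec r j = R.vec r i * R.vec (R.sm i) j + 0 * R.vec (R.sm i) j := fun j => by
        have := h2 j
        have := h j
        rw [vec_rf] at *
        rw [vec_sm]
        split_ifs at * with e
        · simp [e]
        · omega
      have h4 := R.vec_comb.2 h3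
      have h5 : R.len r = R.vec r i ^ 2 * R.len (R.sm i) := by
        simp only [len, ip]; rw [h4]
        simp only [zero_smul, add_zero, smul_dotProduct, dotProduct_smul, smul_eq_mul]; ring
      have h6 : R.vec r i = 1 := by
        by_contra h6
        have : 4 ≤ R.vec r i ^ 2 := by nlinarith [show 2 ≤ R.vec r i by omega]
        have ha := R.a_pos
        rcases R.len_cases r with a | a <;> rcases R.len_cases (R.sm i) with b | b <;> rw [a, b] at h5 <;> nlinarith
      exact h1 (R.inj (by simpa [h6] using h4))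

theorem ex_cov (r : Φ) : ∃ c : Fin l → ℤ, ∀ i, c i * R.len r = R.vec r i * R.len (R.sm i) := by
  rcases R.pos_or_neg r with h | h
  · exact R.ex_cov_pos _ r h (Int.self_le_toNat _)
  · obtain ⟨c, hc⟩ := R.ex_cov_pos _ (R.neg r) (fun i => by rw [vec_neg]; have := h i; omega) (Int.self_le_toNat _)
    exact ⟨-c, fun i => by have := hc i; rw [len_neg, vec_neg] at this; simp; linarith⟩

/-- coefficients of the coroots -/
noncomputable def cv (r : Φ) : Fin l → ℤ := (R.ex_cov r).choose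

theorem cv_len (r : Φ) (i : Fin l) : R.cv r i * R.len r = R.vec r i * R.len (R.sm i) := (R.ex_cov r).choose_spec i

theorem cv_neg (r : Φ) (i : Fin l) : R.cv (R.neg r) i = - R.cv r i :=
  mul_right_cancel₀ (R.len_pos r).ne' (by rw [neg_mul, cv_len, ← len_neg, cv_len, vec_neg, neg_mul])

theorem cv_sm (i j : Fin l) : R.cv (R.sm i) j = if j = i then 1 else 0 :=
  mul_right_cancel₀ (R.len_pos (R.sm i)).ne' (by rw [cv_len, vec_sm]; split_ifs with e <;> simp [e])

theorem A_cv (r s : Φ) : ∑ i, R.cv r i * R.A (R.sm i) s = R.A r s := by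
  refine (R.A_of ?_).symm
  rw [R.ip_comm r s, R.ip_lin s r, Finset.sum_mul, Finset.mul_sum]
  refine Finset.sum_congr rfl fun i _ => ?_
  have := R.A_eq (R.sm i) s
  rw [R.ip_comm] at this
  linear_combination R.A (R.sm i) s * R.cv_len r i + R.vec r i * this

theorem pr_cv (r : Φ) (a : J) : ∑ i, R.cv r i * R.pr (R.sm i) a = R.pr r a := by
  apply mul_right_cancel₀ (R.len_pos r).ne'
  rw [len, ip, R.pr_eq]
  nth_rewrite 3 [R.v_eq r]
  rw [sum_dotProduct, Finset.sum_mul, Finset.mul_sum]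
  refine Finset.sum_congr rfl fun i _ => ?_
  have := R.pr_eq (R.sm i) a
  have h := R.cv_len r i
  simp only [len, ip, smul_dotProduct, smul_eq_mul] at h ⊢
  linear_combination R.pr (R.sm i) a * h + R.vec r i * this

theorem det_ne : (Matrix.of fun i j => R.A (R.sm i) (R.sm j)).det ≠ 0 := by
  intro h
  obtain ⟨c, hc, h0⟩ := Matrix.exists_mulVec_eq_zero_iff.2 h
  apply hc
  apply R.indep
  by_contra h1
  refine (dot_pos h1).ne' ?_
  nth_rewrite 1 [sum_dotProduct]
  refine Finset.sum_eq_zero fun i _ => ?_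
  have := congrArg (· * R.len (R.sm i)) (congrFun h0 i)
  simp only [Matrix.mulVec, dotProduct, Matrix.of_apply, Finset.sum_mul, Pi.zero_apply, zero_mul,
    mul_right_comm _ (c _), A_eq] at this
  rw [smul_dotProduct, dotProduct_sum]
  apply smul_eq_zero_of_right
  apply mul_left_cancel₀ (two_ne_zero (α := ℤ))
  rw [mul_zero, ← this, Finset.mul_sum]
  refine Finset.sum_congr rfl fun j _ => ?_
  simp only [ip, dotProduct_smul, smul_eq_mul]; ring

theorem A_sm_nonpos {i j : Fin l} (h : j ≠ i) : R.A (R.sm i) (R.sm j) ≤ 0 ∧ ∀ m, R.v (R.sm j) ≠ R.v (R.sm i) + R.v m := by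
  have key : ∀ m, R.v (R.sm j) ≠ R.v (R.sm i) + R.v m := fun m e => by
    have h1 := R.vec_sum.1 e i
    have h2 := R.vec_sum.1 e j
    simp only [vec_sm, h, h.symm, if_true, if_false] at h1 h2
    rcases R.pos_or_neg m with h | h
    · have := h i; omega
    · have := h j; omega
  refine ⟨by_contra fun h0 => ?_, key⟩
  obtain ⟨k, hk⟩ := R.ex_sum (r := R.neg (R.sm i)) (s := R.sm j) (by rw [A_neg_left]; omega) (fun e => by
    have := congrArg (R.vec · j) e
    simp [vec_sm, h] at this)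
  exact key k (by simpa using R.sum_neg hk)

end RD
end CfsgH6
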