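import Mathlib
import Cfsg.Agent.H6.RD

/-! The Chevalley datum of a root datum with a matrix realisation. -/

set_option autoImplicit false

namespace CfsgH6

open Matrix Cfsg.Lie

namespace RD

section
variable {l n : ℕ} {ι J : Type} [Fintype ι] [Fintype J] [DecidableEq J] (R : RD l ι (Fin n) J)

open Classical in
/-- the entries of the chain table -/
noncomputable def ent (r s : Fin n) : List (ℕ × ℤ) :=
  if h : ∃ k, R.v k = R.v r + R.v s then ((h.choose : ℕ), R.N r s) ::
    (if h2 : ∃ k', R.v k' = R.v r + R.v h.choose then [((h2.choose : ℕ), R.N r s * R.N r h.choose / 2)] else [])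
  else []

/-- the Chevalley datum -/
@[reducible] noncomputable def D : ChevalleyDatum where
  rank := l
  nroots := n
  simpleIdx := Array.ofFn fun i : Fin l => (R.sm i : ℕ)
  negIdx := Array.ofFn fun r : Fin n => (R.neg r : ℕ)
  coroot := Array.ofFn fun r : Fin n => Array.ofFn (R.cv r)
  cartanSR := Array.ofFn fun i : Fin l => Array.ofFn (R.A (R.sm i))
  chain := Array.ofFn fun r : Fin n =>
    (((List.finRange n).filter fun s => R.ent r s ≠ []).map fun s : Fin n => ((s : ℕ), (R.ent r s).toArray)).toArray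

theorem ent_none {r s : Fin n} (h : ∀ k, R.v k ≠ R.v r + R.v s) : R.ent r s = [] :=
  dif_neg fun ⟨k, h1⟩ => h k h1

theorem ent_one {r s k : Fin n} (h : R.v k = R.v r + R.v s) (h' : ∀ k', R.v k' ≠ R.v r + R.v k) :
    R.ent r s = [((k : ℕ), R.N r s)] := by
  have h1 : ∃ k, R.v k = R.v r + R.v s := ⟨k, h⟩
  have e : h1.choose = k := R.inj (h1.choose_spec.trans h.symm)
  rw [ent, dif_pos h1, dif_neg fun ⟨k, h2⟩ => h' k (e ▸ h2), e]

theorem ent_two {r s k k' : Fin n} (h : R.v k = R.v r + R.v s) (h' : R.v k' = R.v r + R.v k) :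
    R.ent r s = [((k : ℕ), R.N r s), ((k' : ℕ), R.N r s * R.N r k / 2)] := by
  have h1 : ∃ k, R.v k = R.v r + R.v s := ⟨k, h⟩
  have e : h1.choose = k := R.inj (h1.choose_spec.trans h.symm)
  have h2 : ∃ k', R.v k' = R.v r + R.v h1.choose := ⟨k', e ▸ h'⟩
  have e2 : h2.choose = k' := R.inj (h2.choose_spec.trans (by rw [e, h']))
  rw [ent, dif_pos h1, dif_pos h2, e2, e]

theorem ent_cases (r s : Fin n) : ((∀ k, R.v k ≠ R.v r + R.v s) ∧ R.ent r s = []) ∨
    (∃ k, R.v k = R.v r + R.v s ∧ (∀ k', R.v k' ≠ R.v r + R.v k) ∧ R.ent r s = [((k : ℕ), R.N r s)]) ∨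
    ∃ k k', R.v k = R.v r + R.v s ∧ R.v k' = R.v r + R.v k ∧
      R.ent r s = [((k : ℕ), R.N r s), ((k' : ℕ), R.N r s * R.N r k / 2)] := by
  by_cases h : ∃ k, R.v k = R.v r + R.v s
  · obtain ⟨k, h⟩ := h
    by_cases h' : ∃ k', R.v k' = R.v r + R.v k
    · obtain ⟨k', h'⟩ := h'
      exact Or.inr (Or.inr ⟨k, k', h, h', R.ent_two h h'⟩)
    · push Not at h'
      exact Or.inr (Or.inl ⟨k, h, h', R.ent_one h h'⟩)
  · push Not at h
    exact Or.inl ⟨h, R.ent_none h⟩

theorem simple_eq (i : Fin l) : R.D.simple i = R.sm i := by simp [ChevalleyDatum.simple]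

theorem neg_eq (r : Fin n) : R.D.neg r = R.neg r := by simp [ChevalleyDatum.neg]

theorem cartan_eq (i : Fin l) (s : Fin n) : R.D.cartan i s = R.A (R.sm i) s := by simp [ChevalleyDatum.cartan]

theorem cov_eq (r : Fin n) (i : Fin l) : cov R.D r i = R.cv r i := by simp [cov]

theorem filter_eq (r s : Fin n) : (R.D.chain.getD r #[]).toList.filter (fun e => e.1 = (s : ℕ)) =
    if R.ent r s = [] then [] else [((s : ℕ), (R.ent r s).toArray)] := by
  have : ((List.finRange n).filter fun s => R.ent r s ≠ []).filter (fun x => x = s) =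
      if R.ent r s = [] then [] else [s] := by
    rw [List.filter_eq]
    split_ifs with h
    · rw [List.count_eq_zero.2 (by simp [h])]; rfl
    · rw [List.count_eq_one_of_mem ((List.nodup_finRange n).filter _) (by simp [h])]; rfl
  simp only [Array.getD_eq_getD_getElem?, Array.getElem?_ofFn, Fin.is_lt, dite_true, Option.getD_some, Fin.eta,
    List.filter_map, Function.comp_def, Fin.val_inj, this]
  split_ifs <;> rfl

theorem entry_eq (r s : Fin n) : R.D.chainEntry r s = R.ent r s := by
  rw [ChevalleyDatum.chainEntry, ← List.head?_filter, filter_eq]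
  split_ifs with h
  · simp [h]
  · simp

theorem cr_one {r s k : Fin n} (h : R.v k = R.v r + R.v s) :
    R.D.chainRoot r s 1 = some (k : ℕ) ∧ R.D.chainM r s 1 = R.N r s := by
  rw [ChevalleyDatum.chainRoot, ChevalleyDatum.chainM, entry_eq]
  rcases R.ent_cases r s with ⟨h1, -⟩ | ⟨k1, h1, -, e⟩ | ⟨k1, k', h1, -, e⟩
  · exact absurd h (h1 k)
  all_goals rw [e, R.inj (h1.trans h.symm)]; simp

theorem cr_none {r s : Fin n} (h : ∀ k, R.v k ≠ R.v r + R.v s) (j : ℕ) : R.D.chainRoot r s j = none :=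
  chainRoot_eq_none_of_nil (by rw [entry_eq, R.ent_none h]) j

theorem cM_one (r s : Fin n) : R.D.chainM r s 1 = R.N r s := by
  by_cases h : ∃ k, R.v k = R.v r + R.v s
  · exact (R.cr_one h.choose_spec).2
  · push Not at h
    rw [chainM_eq_zero_of_none (R.cr_none h 1), R.N_none h]

theorem cr_two {r s k k' : Fin n} (h : R.v k = R.v r + R.v s) (h' : R.v k' = R.v r + R.v k) :
    R.D.chainRoot r s 2 = some (k' : ℕ) ∧ R.D.chainM r s 2 = R.N r s * R.N r k / 2 := by
  rw [ChevalleyDatum.chainRoot, ChevalleyDatum.chainM, entry_eq, R.ent_two h h']; simp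

theorem cr_two_none {r s k : Fin n} (h : R.v k = R.v r + R.v s) (h' : ∀ k', R.v k' ≠ R.v r + R.v k) :
    R.D.chainRoot r s 2 = none := by
  rw [ChevalleyDatum.chainRoot, entry_eq, R.ent_one h h']; simp

theorem cr_three (r s : Fin n) : R.D.chainRoot r s 3 = none := by
  rw [ChevalleyDatum.chainRoot, entry_eq]
  rcases R.ent_cases r s with ⟨-, e⟩ | ⟨k1, h1, -, e⟩ | ⟨k1, k', h1, -, e⟩ <;> simp [e]

theorem of_cr_one {r s k : Fin n} (h : R.D.chainRoot r s 1 = some (k : ℕ)) : R.v k = R.v r + R.v s := by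
  by_cases h1 : ∃ k, R.v k = R.v r + R.v s
  · obtain ⟨k', h1⟩ := h1
    rw [(R.cr_one h1).1, Option.some_inj, Fin.val_inj] at h
    exact h ▸ h1
  · push Not at h1
    rw [R.cr_none h1] at h; cases h

theorem of_cr_two {r s k k' : Fin n} (h1 : R.v k = R.v r + R.v s) (h : R.D.chainRoot r s 2 = some (k' : ℕ)) :
    R.v k' = R.v r + R.v k := by
  by_cases h2 : ∃ k', R.v k' = R.v r + R.v k
  · obtain ⟨k2, h2⟩ := h2
    rw [(R.cr_two h1 h2).1, Option.some_inj, Fin.val_inj] at h
    exact h ▸ h2
  · push Not at h2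
    rw [R.cr_two_none h1 h2] at h; cases h

theorem cr_neg {r s : Fin n} (h : R.A r s < 0) (h2 : s ≠ R.neg r) :
    R.D.chainRoot r s (- R.A r s).toNat = some (R.rf r s : ℕ) ∧
      (R.D.chainM r s (- R.A r s).toNat = 1 ∨ R.D.chainM r s (- R.A r s).toNat = -1) := by
  obtain ⟨k, hk⟩ := R.ex_sum h h2
  have h1 := R.ne_of_sum hk
  have h0 : ∀ m, R.v s ≠ R.v r + R.v m := fun m e => by
    have := R.three e hk
    have e2 := R.A_eq r s
    rw [R.ip_sum e] at e2
    change _ = 2 * (R.len r + _) at e2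
    have := mul_neg_of_neg_of_pos h (R.len_pos r)
    omega
  have : R.A r s = -1 ∨ R.A r s = -2 := by rcases R.A_cases h1 h2 with h | h | h <;> omega
  rcases this with e | e
  · have : R.rf r s = k := R.inj (by rw [v_rf, hk, e]; simp [add_comm])
    rw [this, e]
    exact ⟨(R.cr_one hk).1, (R.cr_one hk).2 ▸ R.N_first hk h0⟩
  · obtain ⟨k', hk'⟩ := R.ex_sum2 hk e
    have : R.rf r s = k' := R.inj (by rw [v_rf, hk', hk, e]; ext; simp; ring)
    rw [this, e]
    refine ⟨(R.cr_two hk hk').1, ?_⟩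
    change R.D.chainM r s 2 = 1 ∨ R.D.chainM r s 2 = -1
    rw [(R.cr_two hk hk').2]
    rcases R.N_first hk h0 with a | a <;> rcases R.N_mid hk hk' with b | b <;> simp [a, b]

theorem rf_neg (r s : Fin n) : R.rf (R.neg r) s = R.rf r s := R.inj (by rw [v_rf, v_rf, A_neg_left, v_neg]; simp)

theorem refl_eq (i : Fin l) (s : Fin n) : (R.rf (R.sm i) s : ℕ) = R.D.reflectRoot i s := by
  simp only [ChevalleyDatum.reflectRoot, simple_eq, neg_eq, cartan_eq, Fin.val_inj]
  split_ifs with h1 h2 h3 h4
  · rw [Fin.val_inj]; exact R.inj (by rw [v_rf, h1, A_self, v_neg]; ext; simp; ring)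
  · rw [Fin.val_inj]; exact R.inj (by rw [v_rf, h2, A_neg_right, A_self, v_neg]; ext; simp; ring)
  · have := (R.cr_neg (r := R.neg (R.sm i)) (s := s) (by rw [A_neg_left]; omega) (by simpa using h1)).1
    rw [A_neg_left, _root_.neg_neg, rf_neg] at this
    rw [this]; rfl
  · rw [(R.cr_neg h4 h2).1]; rfl
  · rw [Fin.val_inj]; exact R.inj (by rw [v_rf, show R.A (R.sm i) s = 0 by omega]; simp)

theorem stdec_aux {a d : Fin n} (h : 0 < R.A d a) (h1 : a ≠ d) : ∃ (g : Fin n) (j : ℕ),
    R.D.chainRoot d g (j + 1) = some (a : ℕ) ∧ (R.D.chainM d g (j + 1) = 1 ∨ R.D.chainM d g (j + 1) = -1) := by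
  have e1 : R.A d (R.rf d a) = - R.A d a := R.A_of (by
    have := R.A_eq d a
    simp only [len, ip, v_rf, dotProduct_sub, dotProduct_smul, smul_eq_mul] at this ⊢
    linear_combination this)
  have e2 : R.rf d (R.rf d a) = a := R.inj (by rw [v_rf, e1, v_rf]; simp)
  have := R.cr_neg (r := d) (s := R.rf d a) (by omega) fun e => h1 (by
    rw [← e2, e]; exact R.inj (by rw [v_rf, A_neg_right, A_self, v_neg]; ext; simp; ring))
  rw [e2, e1, _root_.neg_neg] at this
  exact ⟨R.rf d a, (R.A d a).toNat - 1, by rwa [Nat.sub_add_cancel (by omega)]⟩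

/-- the roots are listed in an order given by a linear functional -/
structure Sorted where
  fl : Fin l → ℤ
  fl_pos : ∀ i, 0 < fl i
  fl_mono : StrictMono fun r => ∑ i, fl i * R.vec r i
  neg_rev : ∀ r, R.neg r = r.rev

variable {R} in
/-- the table facts -/
noncomputable def Sorted.good0 (S : R.Sorted) : Good0 R.D where
  sm := R.sm
  vec := R.vec
  len := R.len
  fl := S.fl
  adj := (Matrix.of fun i j => R.A (R.sm i) (R.sm j)).adjugate
  det := (Matrix.of fun i j => R.A (R.sm i) (R.sm j)).det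
  refl i := R.rf (R.sm i)
  two_le_rank := R.two_le
  sm_val i := (R.simple_eq i).symm
  refl_val := R.refl_eq
  neg_val r := by rw [neg_eq, S.neg_rev]
  coroot_size r := by simp
  vec_rev r i := by rw [← S.neg_rev, vec_neg]
  cov_rev r i := by rw [← S.neg_rev, cov_eq, cov_eq, cv_neg]
  vec_sm := R.vec_sm
  cov_sm i j := by rw [cov_eq, cv_sm]
  fl_pos := S.fl_pos
  fl_mono := S.fl_mono
  pos_or_neg := R.pos_or_neg
  len_pos := R.len_pos
  cov_len r i := by rw [cov_eq, cv_len]
  symm i j := by rw [cartan_eq, cartan_eq, mul_comm, A_symm, mul_comm]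
  cartan_lin i r := by simp only [cartan_eq]; exact R.A_lin _ _
  pairing_self r := by simp only [cartan_eq, cov_eq]; rw [A_cv, A_self]
  det_ne := R.det_ne
  adj_mul k j := by
    have := congrFun (congrFun (Matrix.adjugate_mul (Matrix.of fun i j => R.A (R.sm i) (R.sm j))) k) j
    simpa [Matrix.mul_apply, cartan_eq, Matrix.one_apply] using this
  refl_vec i s j := by rw [vec_rf, cartan_eq]
  cs i s h1 h2 := by
    simp only [cartan_eq, cov_eq]
    rw [A_cv]
    exact R.cs h1 (by rwa [S.neg_rev])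
  chain_filter r s := by
    rw [filter_eq, entry_eq]
    split_ifs <;> simp
  entry_len r s := by
    rw [entry_eq]
    rcases R.ent_cases r s with ⟨-, e⟩ | ⟨k1, h1, -, e⟩ | ⟨k1, k', h1, -, e⟩ <;> simp [e]
  entry_self r := by rw [entry_eq]; exact R.ent_none fun k h => R.ne_of_sum h rfl
  entry_rev r := by rw [entry_eq]; exact R.ent_none fun k h => R.ne_neg_of_sum h (S.neg_rev r).symm
  entry_vec r s j k h := by
    have h4 : ∀ j, R.D.chainRoot r s (j + 3) = none := fun j => by
      have := R.cr_three r s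
      rw [chainRoot_eq_none_iff] at this ⊢; omega
    have ne : ∀ {s k}, R.v k = R.v r + R.v s → k ≠ r ∧ k ≠ r.rev := fun h =>
      ⟨R.ne_left h, by simpa [S.neg_rev] using R.ne_of_sum (R.sum_neg h)⟩
    by_cases h0 : ∃ k, R.v k = R.v r + R.v s
    swap
    · push Not at h0
      rw [R.cr_none h0] at h; cases h
    obtain ⟨k1, h1⟩ := h0
    match j with
    | 0 =>
      rw [zero_add, (R.cr_one h1).1, Option.some_inj] at h
      refine ⟨k1, h, (ne h1).1, (ne h1).2, by rw [zero_add, cM_one]; exact R.N_ne h1,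
        fun i => by rw [R.vec_sum.1 h1]; simp [add_comm], ?_⟩
      subst h
      rw [zero_add, zero_add, cM_one, cM_one]
      by_cases h2 : ∃ k', R.v k' = R.v r + R.v k1
      · obtain ⟨k', h2⟩ := h2
        rw [(R.cr_one h2).1, (R.cr_two h1 h2).1, (R.cr_two h1 h2).2]
        refine ⟨rfl, ?_⟩
        rcases R.N_mid h1 h2 with e | e <;> rw [e] <;> push_cast <;> omega
      · push Not at h2
        rw [R.cr_none h2, R.cr_two_none h1 h2, chainM_eq_zero_of_none (R.cr_two_none h1 h2), R.N_none h2]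
        simp
    | 1 =>
      by_cases h2 : ∃ k', R.v k' = R.v r + R.v k1
      · obtain ⟨k', h2⟩ := h2
        rw [(R.cr_two h1 h2).1, Option.some_inj] at h
        have h3 := fun m => (R.no_four h1 h2 m).1
        refine ⟨k', h, (ne h2).1, (ne h2).2, ?_,
          fun i => by rw [R.vec_sum.1 h2, R.vec_sum.1 h1]; push_cast; ring, ?_⟩
        · rw [(R.cr_two h1 h2).2]
          have := R.N_ne h1
          rcases R.N_mid h1 h2 with e | e <;> rw [e] <;> omega
        · subst h
          rw [R.cr_none h3, cM_one, R.N_none h3, R.cr_three, chainM_eq_zero_of_none (R.cr_three r s)]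
          simp
      · push Not at h2
        rw [R.cr_two_none h1 h2] at h; cases h
    | j + 2 => rw [h4] at h; cases h
  entry_as r s := by
    rw [cM_one, cM_one, N_as]
    refine ⟨?_, rfl⟩
    by_cases h : ∃ k, R.v k = R.v r + R.v s
    · obtain ⟨k, h⟩ := h
      rw [(R.cr_one h).1, (R.cr_one (R.sum_comm h)).1]
    · push Not at h
      rw [R.cr_none h, R.cr_none (by simpa [add_comm] using h)]
  entry_neg r s := by rw [cM_one, cM_one, ← S.neg_rev, ← S.neg_rev, N_neg]
  complete i s k h := by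
    rw [Ne, ← chainRoot_one_eq_none, (R.cr_one (R.sum_comm (R.vec_sum.2 h))).1]
    simp
  decomp r hr := by
    rcases R.pos_or_neg r with h | h
    · obtain ⟨i, -, hi⟩ := R.ex_pos h
      obtain ⟨s, hs⟩ := R.ex_sum (r := R.neg (R.sm i)) (s := r) (by rw [A_neg_left]; omega) (by simpa using (hr i).1)
      exact ⟨i, s, Or.inl ⟨h, (R.cr_one (by simpa using R.sum_neg hs)).1⟩⟩
    · obtain ⟨i, -, hi⟩ := R.ex_pos (r := R.neg r) fun i => by rw [vec_neg]; have := h i; omega
      rw [A_neg_right] at hi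
      obtain ⟨s, hs⟩ := R.ex_sum (r := R.sm i) (s := r) (by omega) (by rw [S.neg_rev]; exact (hr i).2)
      exact ⟨i, s, Or.inr ⟨h, by rw [← S.neg_rev]; exact (R.cr_one (R.sum_neg hs)).1⟩⟩
  stdec i a ha := by
    obtain ⟨j, hj, h⟩ := R.noiso i
    have h1 : R.A (R.sm j) (R.sm i) < 0 := lt_of_le_of_ne (R.A_sm_nonpos hj.symm).1 fun e => h (by
      have := R.A_eq (R.sm j) (R.sm i)
      rw [e, R.ip_comm] at this
      change R.ip _ _ = 0
      omega)
    have h2 : R.sm i ≠ R.neg (R.sm j) := fun e => by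
      have := congrArg (R.vec · i) e
      simp [vec_neg, vec_sm, hj.symm] at this
    rcases ha with rfl | rfl
    · obtain ⟨g, k, h⟩ := R.stdec_aux (a := R.sm i) (d := R.neg (R.sm j)) (by rw [A_neg_left]; omega) h2
      exact ⟨j, _, g, k, Or.inr (S.neg_rev _), h⟩
    · obtain ⟨g, k, h⟩ := R.stdec_aux (a := R.neg (R.sm i)) (d := R.sm j) (by rw [A_neg_right]; omega)
        fun e => h2 (by rw [← e, neg_neg])
      exact ⟨j, _, g, k, Or.inl rfl, S.neg_rev _ ▸ h⟩

variable {R} in
theorem Sorted.noG2 (S : R.Sorted) : NoG2 R.D := by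
  intro r s k k' h h'
  have h1 := R.of_cr_one h
  have h2 := R.of_cr_two h1 h'
  obtain ⟨a1, a2, a3, a4, a5⟩ := R.three h1 h2
  have ha := R.a_pos
  have b1 : R.ip s k' = 0 := by
    rw [R.ip_sum h2, R.ip_sum h1, R.ip_comm s r]
    change _ + (_ + R.len s) = 0
    omega
  have b2 : R.ip k k' = R.a := by
    rw [R.ip_sum h2, R.ip_comm k r, R.ip_sum h1]
    change R.len r + _ + R.len k = _
    omega
  refine ⟨R.cr_three r s, R.cr_two_none (R.sum_comm h1) fun m e => ?_, ?_, R.cr_none (fun m e => ?_) _, ?_,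
    R.cr_none (fun m e => ?_) _⟩
  · have := R.three (R.sum_comm h1) e; omega
  · rintro rfl
    rw [← S.neg_rev, ip_neg_right] at b1
    change - R.len s = 0 at b1
    omega
  · have := R.len_sum e
    rcases R.len_cases m with c | c <;> omega
  · rintro rfl
    rw [← S.neg_rev, len_neg] at a4
    omega
  · have := R.len_sum e
    rcases R.len_cases m with c | c <;> omega

theorem sum_col (x : R.D.Idx → ℤ) (B : R.D.Idx → Matrix J J ℤ) (M : Matrix R.D.Idx R.D.Idx ℤ) (c : R.D.Idx)
    (h : M *ᵥ Pi.single c 1 = x) : ∑ a, M a c • B a = ∑ a, x a • B a := by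
  simp [← h]

variable {R} in
/-- the matrix realisation -/
noncomputable def Sorted.mrep (S : R.Sorted) : MRep R.D J where
  B := Sum.elim (fun i => diagonal (R.pr (R.sm i))) R.e
  br b c := by
    rcases b with i | r <;> rcases c with j | s
    · simp [adB, wtI, Matrix.diagonal_apply, mul_comm]
    · simp only [adB, wtI, Matrix.diagonal_apply, Sum.elim_inl, Sum.elim_inr, ite_smul, zero_smul,
        Finset.sum_ite_eq', Finset.mem_univ, if_true, cartan_eq]
      exact R.h_e _ _
    · refine Eq.trans ?_ (R.sum_col _ _ (E R.D r 1) _ (Good.E_col_inl r 1 j one_ne_zero)).symm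
      rw [cartan_eq]
      have := R.h_e (R.sm j) r
      rw [br] at this
      simp only [Sum.elim_inl, Sum.elim_inr]
      rw [← neg_sub, this]
      simp [ev, Pi.single_apply]
    · by_cases hs : s = r.rev
      · subst hs
        refine Eq.trans ?_ (R.sum_col _ _ (E R.D r 1) _ (Good.E_col_rev r 1 one_ne_zero)).symm
        rw [← S.neg_rev]
        simp only [Sum.elim_inr, R.br_neg, if_true, Fintype.sum_sum_type, hv, Sum.elim_inl, cov_eq]
        ext a b
        simp only [Matrix.sum_apply, Matrix.add_apply, Matrix.smul_apply, smul_eq_mul]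
        by_cases h : a = b
        · simp [h, pr_cv]
        · simp [h]
      · by_cases h : ∃ k, R.v k = R.v r + R.v s
        · obtain ⟨k, h⟩ := h
          refine Eq.trans ?_ (R.sum_col _ _ (E R.D r 1) _ (Good.E_col_some one_ne_zero hs (R.cr_one h).1)).symm
          rw [cM_one]
          simpa [ev, Pi.single_apply, br] using R.br_some h
        · push Not at h
          refine Eq.trans ?_ (R.sum_col _ _ (E R.D r 1) _ (Good.E_col_none one_ne_zero hs (R.cr_none h _))).symm
          simpa [br] using R.br_none (by rwa [S.neg_rev]) h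
  e2 := R.e2
  sq := R.sq
  cube := R.cube
  inj K _ _ _ x hx := by
    have h1 : ∀ r, x (.inr r) = 0 := fun r => by
      obtain ⟨a, b, h⟩ := R.exists_entry r
      have hab : a ≠ b := fun e => R.v_ne r (by simpa [e] using R.e_wt r a b h)
      have := congrFun (congrFun hx a) b
      simp only [Fintype.sum_sum_type, Matrix.add_apply, Matrix.sum_apply, Matrix.smul_apply, Matrix.map_apply,
        Sum.elim_inl, Sum.elim_inr, Matrix.diagonal_apply_ne _ hab, smul_eq_mul, Matrix.zero_apply] at this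
      rw [Finset.sum_eq_single r (fun s _ hs => by
        have : R.e s a b = 0 := by_contra fun h' =>
          hs (R.inj (add_left_cancel ((R.e_wt s a b h').symm.trans (R.e_wt r a b h))))
        simp [this]) (by simp)] at this
      simpa [h] using this
    have h2 : ∀ a, ∑ i, x (.inl i) * (R.pr (R.sm i) a : K) = 0 := fun a => by
      simpa [Fintype.sum_sum_type, h1, Matrix.sum_apply] using congrFun (congrFun hx a) a
    have h3 : (fun i => x (.inl i)) ᵥ* ((Matrix.of fun i j => R.A (R.sm i) (R.sm j)).map (Int.cast : ℤ → K)) = 0 := by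
      ext j
      obtain ⟨a, b, h⟩ := R.exists_entry (R.sm j)
      have := sub_eq_zero.2 ((h2 a).trans (h2 b).symm)
      rw [← Finset.sum_sub_distrib] at this
      refine Eq.trans ?_ this
      simp only [Matrix.vecMul, dotProduct]
      refine Finset.sum_congr rfl fun i _ => ?_
      simp [R.A_of (R.pr_sub h), mul_sub]
    have h4 := Matrix.eq_zero_of_vecMul_eq_zero (by
      rw [← Int.cast_det]; exact Int.cast_ne_zero.2 R.det_ne) h3
    ext b
    rcases b with i | r
    · exact congrFun h4 i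
    · exact h1 r

variable {R} in
/-- the table facts -/
noncomputable def Sorted.good (S : R.Sorted) : Good R.D := S.mrep.good S.good0 S.noG2

end

end RD
end CfsgH6
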