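import Mathlib
import Cfsg.Agent.H6.RD2
import Cfsg.Agent.H6.Levi
import Cfsg.Agent.H6.Simple

/-! Matrix groups generated by the root elements of a root datum. -/

set_option autoImplicit false

namespace CfsgH6

open Matrix Cfsg.Lie

theorem Cover.π_eq_one_of_map {D : ChevalleyDatum} {G : Good D} {F : Type*} [Field F] {Γ : Type*} [Group Γ]
    (C : Cover G F Γ) (hG : C.Gr = ⊤) {Γ' : Type*} [Group Γ'] (σ : Γ →* Γ')
    (h : ∀ r, ¬ G.Pos r → ∀ t : F, t ≠ 0 → σ (C.x r t) ∉ C.U.map σ) {a : Γ} (ha : σ a = 1) : C.π a = 1 := by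
  refine C.π_eq_one_of_core (M := σ.ker) (fun g hg => ?_) (fun g _ b hb => σ.normal_ker.conj_mem b hb g) ha
  obtain ⟨u, hu, m, hm, w, hw, h1, v, hv, rfl⟩ := C.canonical' (g := g) (hG ▸ Subgroup.mem_top g)
  have hv' := C.invSet_le_U w hv
  have h2 : σ m ∈ C.U.map σ := by
    refine ⟨u⁻¹ * v⁻¹, mul_mem (inv_mem hu) (inv_mem hv'), ?_⟩
    rw [MonoidHom.mem_ker, map_mul, map_mul] at hg
    rw [map_mul, map_inv, map_inv]
    calc _ = (σ u)⁻¹ * (σ u * σ m * σ v) * (σ v)⁻¹ := by rw [hg]; group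
      _ = _ := by group
  have h3 : w = 1 := G.eq_one_of_pos hw fun i => by_contra fun h4 => by
    obtain ⟨c, hc, -⟩ := h1.conj_n (G.sm i)
    refine h _ h4 _ (mul_ne_zero c.ne_zero one_ne_zero) ?_
    rw [← hc, map_mul, map_mul, map_inv]
    exact mul_mem (mul_mem h2 ⟨_, C.x_mem_U (G.pos_sm i) 1, rfl⟩) (inv_mem h2)
  subst h3
  exact mul_mem (mul_mem (C.U_le_B hu) (C.HH_le_B (C.mem_HH_of_mon hm h1))) (C.U_le_B hv')

theorem exists_fl {l : ℕ} {Φ : Type*} [Finite Φ] (vec : Φ → Fin l → ℤ) (h : Function.Injective vec) :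
    ∃ fl : Fin l → ℤ, (∀ i, 0 < fl i) ∧ Function.Injective fun r => ∑ i, fl i * vec r i := by
  let P : Φ → Polynomial ℤ := fun r => ∑ i : Fin l, Polynomial.monomial i (vec r i)
  have hP : ∀ r (i : Fin l), (P r).coeff i = vec r i := fun r i => by
    simp [P, Polynomial.coeff_monomial, Fin.val_inj]
  have h1 : (⋃ p : {p : Φ × Φ // p.1 ≠ p.2}, {x : ℤ | (P p.1.1 - P p.1.2).IsRoot x}).Finite :=
    Set.finite_iUnion fun p => Polynomial.finite_setOf_isRoot
      (sub_ne_zero.2 fun e => p.2 (h (funext fun i => by rw [← hP, ← hP, e])))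
  obtain ⟨x, hx, h2⟩ := (Set.Ioi_infinite (0 : ℤ)).exists_notMem_finite h1
  refine ⟨fun i => x ^ (i : ℕ), fun i => pow_pos hx _, fun r s e => by_contra fun h3 => h2 ?_⟩
  refine Set.mem_iUnion.2 ⟨⟨(r, s), h3⟩, ?_⟩
  simpa [P, Polynomial.eval_finset_sum, sub_eq_zero, mul_comm] using e

namespace RD

section
variable {l : ℕ} {ι Φ Φ' J : Type} [Fintype ι] [Fintype J] [DecidableEq J] (R : RD l ι Φ J)

/-- reindexing the roots -/
def comap (e : Φ' ≃ Φ) : RD l ι Φ' J where
  v r := R.v (e r)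
  inj := R.inj.comp e.injective
  neg r := e.symm (R.neg (e r))
  v_neg r := by simp [R.v_neg]
  a := R.a
  a_pos := R.a_pos
  nrm r := R.nrm _
  sm i := e.symm (R.sm i)
  vec r := R.vec (e r)
  v_eq r := by simpa using R.v_eq (e r)
  indep := by simpa using R.indep
  pos_or_neg r := R.pos_or_neg _
  two_le := R.two_le
  noiso := by simpa using R.noiso
  wt := R.wt
  pr r := R.pr (e r)
  pr_eq r := R.pr_eq _
  e r := R.e (e r)
  e2 r := R.e2 (e r)
  e_ne r := R.e_ne _
  e_wt r := R.e_wt _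
  br_neg r := by simpa using R.br_neg (e r)
  g := R.g
  e_mem r := R.e_mem _
  br_mem := R.br_mem
  wsp x hx μ h0 h := (R.wsp x hx μ h0 h).imp id fun ⟨k, h1, h2⟩ => ⟨e.symm k, by simpa using h1, by simpa using h2⟩
  dd := R.dd
  dd_ne := R.dd_ne
  e_neg r := by simpa using R.e_neg (e r)
  sq r := R.sq _
  cube r := R.cube _

theorem exists_sorted [Finite Φ] : ∃ (n : ℕ) (e : Fin n ≃ Φ), Nonempty (R.comap e).Sorted := by
  obtain ⟨fl, h1, h2⟩ := exists_fl R.vec fun r s h => R.vec_inj (congrFun h)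
  letI : LinearOrder Φ := LinearOrder.lift' _ h2
  letI := Fintype.ofFinite Φ
  let e := monoEquivOfFin Φ rfl
  have hm : StrictMono fun r => ∑ i, fl i * R.vec (e r) i := fun a b h => e.strictMono h
  refine ⟨_, e.toEquiv, ⟨⟨fl, h1, hm, fun r => ?_⟩⟩⟩
  have h3 : StrictMono fun r : Fin (Fintype.card Φ) => (e.symm (R.neg (e r))).rev := fun a b h => by
    rw [Fin.rev_lt_rev, e.symm.lt_iff_lt]
    have := hm h
    change ∑ i, fl i * R.vec (R.neg _) i < ∑ i, fl i * R.vec (R.neg _) i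
    simpa [vec_neg] using this
  exact Fin.rev_eq_iff.1 (congrFun h3.eq_id r)

/-- the root elements -/
def xm (F : Type*) [CommRing F] (r : Φ) (t : F) : Matrix J J F :=
  1 + t • (R.e r).map (Int.cast : ℤ → F) + t ^ 2 • (R.e2 r).map (Int.cast : ℤ → F)

theorem exists_ht : ∃ (ht : J → ℤ) (c : ℤ), 0 < c ∧ (∀ r a b, R.e r a b ≠ 0 → ht a = ht b + c * ∑ i, R.vec r i) ∧
    ∀ r a b, R.e2 r a b ≠ 0 → ht a = ht b + 2 * (c * ∑ i, R.vec r i) := by
  set M := Matrix.of fun i j => R.A (R.sm i) (R.sm j)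
  have h1 : ∀ r a b, R.e r a b ≠ 0 → M.det * ∑ k, ∑ i, M.adjugate k i * R.pr (R.sm i) a =
      M.det * ∑ k, ∑ i, M.adjugate k i * R.pr (R.sm i) b + M.det ^ 2 * ∑ i, R.vec r i := fun r a b h => by
    have : ∀ k, ∑ i, M.adjugate k i * R.pr (R.sm i) a =
        ∑ i, M.adjugate k i * R.pr (R.sm i) b + M.det * R.vec r k := fun k => by
      have e1 := congrFun (congrArg (· *ᵥ R.vec r) (Matrix.adjugate_mul M)) k
      rw [← Matrix.mulVec_mulVec, Matrix.smul_mulVec, Matrix.one_mulVec] at e1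
      rw [← sub_eq_iff_eq_add', ← Finset.sum_sub_distrib]
      refine Eq.trans (Finset.sum_congr rfl fun i _ => ?_) e1
      rw [← mul_sub, ← R.A_of (R.pr_sub h), A_lin]
      simp [M, Matrix.mulVec, dotProduct, mul_comm]
    simp only [this, Finset.sum_add_distrib, ← Finset.mul_sum]
    ring
  refine ⟨_, _, pow_pos (abs_pos.2 R.det_ne) 2, by simpa only [sq_abs] using h1, fun r a b h => ?_⟩
  have h2 : (R.e r * R.e r) a b ≠ 0 := by rw [R.sq]; simpa using h
  obtain ⟨c, -, h3⟩ := Finset.exists_ne_zero_of_sum_ne_zero h2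
  rw [h1 r a c (left_ne_zero_of_mul h3), h1 r c b (right_ne_zero_of_mul h3), sq_abs]
  ring

end

section
variable {l n : ℕ} {ι J : Type} [Fintype ι] [Fintype J] [DecidableEq J] {R : RD l ι (Fin n) J} (S : R.Sorted)
  {F : Type*} [Field F] {Γ : Type*} [Group Γ]

theorem Sorted.exists_cover (hent : ∀ r, ∃ a b, R.e r a b = 1 ∨ R.e r a b = -1) (ρ : Γ →* Matrix J J F)
    (hρ : Function.Injective ρ) (y : Fin n → F → Γ) (hy : ∀ r t, ρ (y r t) = R.xm F r t)
    (hgen : Subgroup.closure {g | ∃ r t, g = y r t} = ⊤) :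
    ∃ C : Cover S.good F Γ, C.Gr = ⊤ ∧ C.x = y := by
  have hρ' : Function.Injective ρ.toHomUnits := fun a b h => hρ (congrArg Units.val h)
  have hy' : ∀ r t, ρ.toHomUnits (y r t) = S.mrep.XU r t := fun r t => Units.ext (hy r t)
  have h0 := S.mrep.rel (F := F) S.good0 S.noG2
  have hr : Rel R.D y := ⟨fun r t u => hρ' (by rw [map_mul, hy', hy', hy', h0.add]),
    fun r s h1 h2 t u => hρ' (by
      rw [map_mul, map_mul, map_mul, map_wordG]; simp only [hy']; exact h0.comm r s h1 h2 t u)⟩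
  let σ := S.good.scLift hr
  have hσ : ∀ r t, σ ((S.good.sc F).x r t) = y r t := S.good.scLift_x hr
  have hs : Function.Surjective σ := by
    rw [← MonoidHom.range_eq_top, eq_top_iff, ← hgen, Subgroup.closure_le]
    rintro _ ⟨r, t, rfl⟩
    exact ⟨_, hσ r t⟩
  obtain ⟨ht, c, hc, h1, h2⟩ := R.exists_ht
  have hx : ∀ r t a b, a ≠ b → R.xm F r t a b = t * R.e r a b + t ^ 2 * R.e2 r a b := fun r t a b h => by
    simp [xm, h]
  have hk : σ.ker ≤ (S.good.sc F).π.ker := fun a ha =>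
    (S.good.sc F).π_eq_one_of_map (S.good.sc_Gr F) σ (fun r hr t h0 ⟨u, hu, e⟩ => by
      have h3 : (ρ (σ u)).BlockTriangular fun a => - ht a := by
        refine (S.good.sc F).US_induction (p := fun u => (ρ (σ u)).BlockTriangular fun a => - ht a)
          (by simpa using Matrix.blockTriangular_one) (fun g _ s hs t hg => ?_) hu
        rw [map_mul, map_mul, hσ, hy]
        refine hg.mul fun a b hab => ?_
        have h4 : 0 < c * ∑ i, R.vec s i := mul_pos hc (S.good.ht_pos hs)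
        have h5 : R.e s a b = 0 := by_contra fun h => by have := h1 s a b h; simp only at hab; omega
        have h6 : R.e2 s a b = 0 := by_contra fun h => by have := h2 s a b h; simp only at hab; omega
        rw [hx _ _ _ _ (by rintro rfl; simp at hab), h5, h6]; simp
      obtain ⟨a, b, h4⟩ := hent r
      have h5 : c * ∑ i, R.vec r i < 0 := mul_neg_of_pos_of_neg hc (S.good.ht_neg (S.good.not_pos.1 hr))
      have h6 := h1 r a b (by omega)
      have h7 : R.e2 r a b = 0 := by_contra fun h => by have := h2 r a b h; omega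
      have := h3 (i := a) (j := b) (by simp only; omega)
      rw [e, hσ, hy, hx _ _ _ _ (by rintro rfl; omega), h7] at this
      rcases h4 with h | h <;> simp [h, h0] at this) ha
  refine ⟨⟨y, hr.add, hr.comm, σ.liftOfSurjective hs ⟨_, hk⟩, fun r t => ?_⟩, ?_, rfl⟩
  · rw [← hσ, MonoidHom.liftOfRightInverse_comp_apply]
    exact (S.good.sc F).π_x r t
  · rw [← hgen]
    exact congrArg Subgroup.closure (by ext; simp)

theorem Sorted.A_eq (r s : Fin n) : S.good.A r s = R.A r s := by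
  simp only [Good.A, cov_eq, cartan_eq]; exact R.A_cv r s

theorem Sorted.vec_eq : S.good.vec = R.vec := rfl

theorem Sorted.sm_eq : S.good.sm = R.sm := rfl

theorem Sorted.len_eq : S.good.len = R.len := rfl

theorem connOK (R : RD l ι (Fin n) J) (h : ∀ c : Fin l, (c : ℕ) = 0 ∨ ∃ d < c, R.ip (R.sm c) (R.sm d) ≠ 0) :
    Good.ConnOK R.D (List.range l) := fun c => (h c).imp id fun ⟨d, h1, h2⟩ => ⟨d, by simpa using h1, by
      rw [simple_eq, cartan_eq]
      intro e
      have := R.A_eq (R.sm c) (R.sm d)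
      rw [e] at this
      omega⟩

end

end RD
end CfsgH6
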