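import Mathlib
import Cfsg.Agent.H6.RD3
import Cfsg.Agent.H5.SLBasic

/-! The root datum of the special linear group. -/

set_option autoImplicit false

namespace CfsgH6

open Matrix Cfsg.Lie

theorem eq_zero_of_psum {m : ℕ} {x : Fin m → ℤ} (h : ∀ i, ∑ k, (if k ≤ i then x k else 0) = 0) : x = 0 := by
  funext i
  induction i using WellFoundedLT.induction with
  | _ i ih =>
  have := h i
  rw [Finset.sum_eq_single i (fun k _ hk => by
    split_ifs with h1
    · exact ih k (lt_of_le_of_ne h1 hk)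
    · rfl) (by simp)] at this
  simpa using this

/-- unit vectors -/
def uv {ι : Type} [DecidableEq ι] (a : ι) : ι → ℤ := Pi.single a 1

theorem uv_dot {ι : Type} [DecidableEq ι] [Fintype ι] (a b : ι) : uv a ⬝ᵥ uv b = if a = b then 1 else 0 := by
  simp [uv, Pi.single_apply, eq_comm]

theorem uv_apply {ι : Type} [DecidableEq ι] (a b : ι) : uv a b = if b = a then 1 else 0 := by
  simp [uv, Pi.single_apply]

theorem uv_sub_inj {ι : Type} [DecidableEq ι] {a b c d : ι} (h : a ≠ b) (e : uv a - uv b = uv c - uv d) :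
    a = c ∧ b = d := by
  have h1 := congrFun e a
  have h2 := congrFun e b
  simp only [Pi.sub_apply, uv_apply, if_true, h, h.symm, if_false] at h1 h2
  constructor
  · by_contra h3; rw [if_neg h3] at h1; split_ifs at h1 <;> omega
  · by_contra h3; rw [if_neg h3] at h2; split_ifs at h2 <;> omega

/-- partial sums -/
def psum {m l : ℕ} : (Fin m → ℤ) →ₗ[ℤ] (Fin l → ℤ) where
  toFun x i := ∑ k : Fin m, if (k : ℕ) ≤ i then x k else 0
  map_add' x y := by ext i; simp only [Pi.add_apply, ← Finset.sum_add_distrib]; congr; ext k; split_ifs <;> simp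
  map_smul' c x := by ext i; simp [Finset.mul_sum]

theorem psum_uv {m l : ℕ} (a : Fin m) (i : Fin l) : psum (uv a) i = if (a : ℕ) ≤ i then 1 else 0 := by
  simp only [psum, LinearMap.coe_mk, AddHom.coe_mk, uv_apply]
  rw [Finset.sum_eq_single a (fun k _ hk => by simp [hk]) (by simp)]
  simp

theorem psum_inj {m : ℕ} {x : Fin m → ℤ} (h : psum (l := m) x = 0) : x = 0 :=
  eq_zero_of_psum fun i => congrFun h i

/-- the roots of type A -/
abbrev ΦA (l : ℕ) : Type := {p : Fin (l + 1) × Fin (l + 1) // p.1 ≠ p.2}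

theorem psum_sm {l : ℕ} (i : Fin l) : psum (uv i.castSucc - uv i.succ) = (uv i : Fin l → ℤ) := by
  ext j
  simp only [map_sub, Pi.sub_apply, psum_uv, uv_apply, Fin.val_castSucc, Fin.val_succ, Fin.ext_iff]
  split_ifs <;> omega

theorem sum_smul_uv {ι : Type} [DecidableEq ι] [Fintype ι] (c : ι → ℤ) : ∑ i, c i • uv i = c := by
  ext j; simp [uv_apply, Finset.sum_apply]

/-- the root datum of type A -/
def rdA (l : ℕ) (hl : 2 ≤ l) : RD l (Fin (l + 1)) (ΦA l) (Fin (l + 1)) where
  v p := uv p.1.1 - uv p.1.2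
  inj p q h := Subtype.ext (Prod.ext (uv_sub_inj p.2 h).1 (uv_sub_inj p.2 h).2)
  neg p := ⟨p.1.swap, p.2.symm⟩
  v_neg p := by simp
  a := 2
  a_pos := two_pos
  nrm p := Or.inl (by simp [uv_dot, p.2, p.2.symm])
  sm i := ⟨(i.castSucc, i.succ), (Fin.castSucc_lt_succ (i := i)).ne⟩
  vec p := psum (uv p.1.1 - uv p.1.2)
  v_eq p := by
    refine sub_eq_zero.1 (psum_inj (funext fun i => ?_))
    refine Fin.lastCases ?_ (fun i => ?_) i
    · simp only [map_sub, map_sum, map_smul, Pi.sub_apply, Finset.sum_apply, Pi.smul_apply, psum_uv, Fin.val_last,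
        Nat.lt_succ_iff.1 (Fin.is_lt _), if_true]
      simp
    · have : ∀ x : Fin (l + 1) → ℤ, psum (l := l + 1) x i.castSucc = psum (l := l) x i := fun _ => rfl
      rw [this, map_sub (psum (l := l)) _ (∑ _, _), map_sum]
      simp only [map_smul, psum_sm, sum_smul_uv, sub_self]
      rfl
  indep c h := by
    have := congrArg (psum (l := l)) h
    rwa [map_sum, map_zero, Finset.sum_congr rfl fun i _ => by rw [map_smul, psum_sm], sum_smul_uv] at this
  pos_or_neg p := by
    simp only [map_sub, Pi.sub_apply, psum_uv]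
    rcases le_total (p.1.1 : ℕ) p.1.2 with h | h
    · exact Or.inl fun i => by split_ifs <;> omega
    · exact Or.inr fun i => by split_ifs <;> omega
  two_le := hl
  noiso i := by
    by_cases h : (i : ℕ) = 0
    · refine ⟨⟨1, hl⟩, fun e => by simp [← e] at h, ?_⟩
      simp [uv_dot, Fin.ext_iff, h]
    · refine ⟨⟨i - 1, by omega⟩, fun e => by simp [Fin.ext_iff] at e; omega, ?_⟩
      simp only [sub_dotProduct, dotProduct_sub, uv_dot, Fin.ext_iff, Fin.val_castSucc, Fin.val_succ]
      split_ifs <;> omega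
  wt := uv
  pr p := uv p.1.1 - uv p.1.2
  pr_eq p a := by simp [uv_dot, p.2, p.2.symm, uv_apply, eq_comm, mul_comm]
  e p := single p.1.1 p.1.2 1
  e2 _ := 0
  e_ne p h := by simpa using congrFun (congrFun h p.1.1) p.1.2
  e_wt p a b h := by
    obtain ⟨rfl, rfl⟩ : p.1.1 = a ∧ p.1.2 = b := by by_contra h1; exact h (by simp [single, h1])
    simp
  br_neg p := by
    simp only [Prod.fst_swap, Prod.snd_swap]
    rw [single_mul_single_same, single_mul_single_same]
    ext a b
    by_cases h : a = b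
    · simp [h, single_apply, uv_apply, eq_comm]
    · simp [h, single_apply_of_ne, fun c => show ¬ (c = a ∧ c = b) from fun e => h (e.1.symm.trans e.2)]
  g := Set.univ
  e_mem _ := trivial
  br_mem _ _ _ _ := trivial
  wsp x _ μ h0 h := by
    by_cases hx : x = 0
    · exact Or.inl hx
    obtain ⟨a, b, h1⟩ : ∃ a b, x a b ≠ 0 := by
      by_contra! h1; exact hx (Matrix.ext h1)
    have h2 : a ≠ b := by rintro rfl; exact h0 (by simpa using h a a h1)
    have h3 : μ = uv a - uv b := by rw [h a b h1]; simp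
    refine Or.inr ⟨⟨(a, b), h2⟩, h3.symm, x a b, Matrix.ext fun c d => ?_⟩
    by_cases h4 : a = c ∧ b = d
    · simp [← h4.1, ← h4.2]
    · rw [Matrix.smul_apply, single_apply_of_ne _ _ _ _ _ h4, smul_zero]
      by_contra h5
      exact h4 (uv_sub_inj h2 (by rw [h c d h5, h3]; simp))
  dd _ := 1
  dd_ne _ := one_ne_zero
  e_neg p a b := by simp [single, and_comm]
  sq p := by simp [single_mul_single_of_ne, p.2.symm]
  cube p := by simp

theorem exists_cover_SL {l : ℕ} (hl : 2 ≤ l) {n : ℕ} {e : Fin n ≃ ΦA l} (S : ((rdA l hl).comap e).Sorted)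
    (F : Type*) [Field F] : ∃ C : Cover S.good F (SpecialLinearGroup (Fin (l + 1)) F), C.Gr = ⊤ ∧
      ∀ r t, C.x r t = SpecialLinearGroup.transvection (e r).2 t := by
  obtain ⟨C, h1, h2⟩ := S.exists_cover (F := F) (fun r => ⟨(e r).1.1, (e r).1.2, Or.inl (by simp [RD.comap, rdA])⟩)
    SpecialLinearGroup.coeMonoidHom SpecialLinearGroup.coeMonoidHom_injective
    (fun r t => SpecialLinearGroup.transvection (e r).2 t) (fun r t => by
      ext a b
      change (1 + single (e r).1.1 (e r).1.2 t) a b = _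
      simp [RD.comap, rdA, RD.xm, single])
    (CfsgH5.SL_eq_top_of_transvections _ fun i j h c =>
      Subgroup.subset_closure ⟨e.symm ⟨(i, j), h⟩, c, by simp⟩)
  exact ⟨C, h1, fun r t => by rw [h2]⟩

theorem connA {l : ℕ} (hl : 2 ≤ l) {n : ℕ} (e : Fin n ≃ ΦA l) :
    Good.ConnOK ((rdA l hl).comap e).D (List.range l) := RD.connOK _ fun c => by
  refine (Nat.eq_zero_or_pos c).imp id fun h => ⟨⟨c - 1, by omega⟩, by simp [Fin.lt_def]; omega, ?_⟩
  simp only [RD.ip, RD.comap, rdA, Equiv.apply_symm_apply, sub_dotProduct, dotProduct_sub, uv_dot, Fin.ext_iff,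
    Fin.val_castSucc, Fin.val_succ]
  split_ifs <;> omega

end CfsgH6
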