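import Cfsg.Agent.H6.DC
import Cfsg.Agent.H6.RA
import Cfsg.Agent.H1.SL2P

/-! The special linear groups in their defining characteristic. -/

set_option autoImplicit false

open Cfsg CfsgH1 Matrix
open scoped MatrixGroups

namespace CfsgH6

variable (F : Type*) [Field F]

/-- upper triangular matrices -/
def borelSL2 : Subgroup SL(2, F) where
  carrier := {g | g.1 1 0 = 0}
  one_mem' := by simp
  mul_mem' {a b} ha hb := by
    simp only [Set.mem_setOf] at *
    rw [sl2_mul, ha, hb]; simp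
  inv_mem' {a} ha := by
    simp only [Set.mem_setOf] at *
    rw [SpecialLinearGroup.SL2_inv_expl]; simp [ha]

variable {F}

theorem conj_sU {g : SL(2, F)} (hg : g ∈ borelSL2 F) (t : F) : g * sU t * g⁻¹ = sU (g.1 0 0 ^ 2 * t) := by
  have h1 : g.1 1 0 = 0 := hg
  have h2 := sl2_det g
  rw [h1] at h2
  rw [mul_inv_eq_iff_eq_mul]
  apply sl2_ext <;> simp [sl2_mul, sU_val, h1]
  linear_combination (-g.1 0 0 * t) * h2

theorem card_upper : Nat.card (upperUnipotentSL2 F) = Nat.card F :=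
  (Nat.card_congr (Equiv.ofBijective (fun t => (⟨sU t, mem_upper.2 ⟨t, rfl⟩⟩ : upperUnipotentSL2 F))
    ⟨fun _ _ h => sU_inj (congrArg Subtype.val h), fun ⟨g, hg⟩ => (mem_upper.1 hg).imp fun _ h => Subtype.ext h.symm⟩)).symm

variable (F) [Finite F] (p : ℕ) [hp : Fact p.Prime] [CharP F p]

theorem not_dvd_units : ¬ p ∣ Nat.card Fˣ := by
  have := Fintype.ofFinite F
  obtain ⟨n, -, hn⟩ := FiniteField.card F p
  rw [Nat.card_units, Nat.card_eq_fintype_card, hn]
  intro h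
  exact hp.out.not_dvd_one ((Nat.dvd_sub_iff_right (Nat.one_le_pow _ _ hp.out.pos) (dvd_pow_self p n.ne_zero)).1 h)

theorem r1_SL2 : R1 p (borelSL2 F) (upperUnipotentSL2 F) (sW 1) := by
  have hle : upperUnipotentSL2 F ≤ borelSL2 F := fun g hg => by
    obtain ⟨t, rfl⟩ := mem_upper.1 hg; rfl
  refine ⟨hle, fun g hg => Subgroup.mem_normalizer_fintype fun u hu => ?_, ?_, fun h => ?_, fun h => ?_, fun h => ?_,
    fun g => ?_, fun u hu h => ?_⟩
  · obtain ⟨t, rfl⟩ := mem_upper.1 hu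
    exact mem_upper.2 ⟨_, conj_sU hg t⟩
  · have := Fintype.ofFinite F
    obtain ⟨n, -, hn⟩ := FiniteField.card F p
    exact IsPGroup.of_card (by rw [card_upper, Nat.card_eq_fintype_card, hn])
  · let φ : borelSL2 F →* Fˣ := MonoidHom.toHomUnits
      { toFun := fun g => g.1.1 0 0
        map_one' := by simp
        map_mul' := fun a b => by rw [Subgroup.coe_mul, sl2_mul, show b.1.1 1 0 = 0 from b.2]; simp }
    refine not_dvd_units F p (h.trans ((Subgroup.index_dvd_of_le (H := φ.ker) fun g hg => ?_).trans ?_))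
    · have h1 : g.1.1 0 0 = 1 := congrArg Units.val hg
      have h2 := sl2_det g.1
      rw [show g.1.1 1 0 = 0 from g.2, h1] at h2
      exact Subgroup.subset_closure ⟨g.2, h1, by simpa using h2⟩
    · rw [Subgroup.index_ker]; exact Subgroup.card_subgroup_dvd_card _
  · exact one_ne_zero (sU_inj ((Subgroup.mem_bot.1 (h ▸ mem_upper.2 ⟨1, rfl⟩)).trans sU_zero.symm))
  · have : (sW (1 : F)).1 1 0 = 0 := h
    simp [sW_val] at this
  · by_cases h : g.1 1 0 = 0
    · exact Or.inl h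
    · refine Or.inr ⟨_, mem_upper.2 ⟨_, rfl⟩, (sW 1)⁻¹ * sW (-(g.1 1 0)⁻¹) * sU (g.1 1 1 / g.1 1 0),
        mul_mem ?_ (hle (mem_upper.2 ⟨_, rfl⟩)), (sl2_eq_of_ne h).trans (by rw [mul_assoc (sW 1)⁻¹, mul_assoc _ (sW 1), mul_inv_cancel_left])⟩
      change ((sW (1 : F))⁻¹ * sW (-(g.1 1 0)⁻¹)).1 1 0 = 0
      rw [sl2_mul, SpecialLinearGroup.SL2_inv_expl]
      simp [sW_val, h]
  · obtain ⟨t, rfl⟩ := mem_upper.1 hu
    have : ((sW (1 : F))⁻¹ * sU t * sW 1).1 1 0 = 0 := h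
    rw [sl2_mul, sl2_mul, sl2_mul, SpecialLinearGroup.SL2_inv_expl] at this
    simp [sW_val, sU_val] at this
    rw [this, sU_zero]

omit [Finite F] in
theorem normal_SL2 (N : Subgroup SL(2, F)) (hN : N.Normal) (h : upperUnipotentSL2 F ≤ N) : N = ⊤ :=
  sl2_le_of (fun t => h (mem_upper.2 ⟨t, rfl⟩)) fun t => by
    have := hN.conj_mem' _ (h (mem_upper.2 ⟨-t, rfl⟩)) (sW 1)
    convert this using 1
    rw [mul_assoc, eq_inv_mul_iff_mul_eq]
    apply sl2_ext <;> simp [sl2_mul, sW_val, sU_val, sL_val]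

theorem rad_SL2 : Rad p SL(2, F) := (r1_SL2 F p).rad fun x hx hp' => by
  have h1 := hx (sU 1) (mem_upper.2 ⟨1, rfl⟩)
  have h2 : x.1 1 0 = 0 := by simpa [sl2_mul, sU_val] using congrArg (fun g : SL(2, F) => g.1 0 0) h1
  have h3 : x.1 1 1 = x.1 0 0 := by
    have := congrArg (fun g : SL(2, F) => g.1 0 1) h1
    simp [sl2_mul, sU_val] at this
    linear_combination this
  have h4 := sl2_det x
  rw [h2, h3] at h4
  have h5 : ∀ n : ℕ, (x ^ n).1 0 0 = x.1 0 0 ^ n ∧ (x ^ n).1 0 1 * x.1 0 0 = n * x.1 0 0 ^ n * x.1 0 1 := fun n => by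
    induction n with
    | zero => simp
    | succ n ih =>
      rw [pow_succ, sl2_mul, sl2_mul, h2, h3, ih.1]
      refine ⟨by ring, ?_⟩
      push_cast
      linear_combination x.1 0 0 * ih.2
  have h0 : x.1 0 0 ≠ 0 := fun e => by simp [e] at h4
  have h6 := (h5 (orderOf x)).2
  rw [pow_orderOf_eq_one] at h6
  have h7 : x.1 0 1 = 0 := by simpa [h0, (CharP.cast_eq_zero_iff F p _).not.2 hp'] using h6
  refine Subgroup.mem_center_iff.2 fun g => ?_
  apply sl2_ext <;> simp [sl2_mul, h2, h3, h7, mul_comm]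

theorem dc_SL {n : ℕ} (hn : 2 ≤ n) : HasSt p SL(n, F) ∧ Rad p SL(n, F) ∧ HasSt p (ProjectiveSpecialLinearGroup (Fin n) F) ∧
    Nat.card {g : SL(n, F) // ∃ k, orderOf g = p ^ k} = Nat.card F ^ (n * (n - 1)) := by
  rcases hn.eq_or_lt with rfl | hn
  · refine ⟨(r1_SL2 F p).hasSt (normal_SL2 F), rad_SL2 F p, ((r1_SL2 F p).map (QuotientGroup.mk' (Subgroup.center _))
      (QuotientGroup.mk'_surjective _) fun g hg => ?_).hasSt fun N hN h => ?_, by rw [(r1_SL2 F p).card_pelt, card_upper]⟩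
    · rw [QuotientGroup.ker_mk'] at hg
      rcases sl2_center hg with rfl | rfl
      · exact one_mem _
      · change (-1 : Matrix (Fin 2) (Fin 2) F) 1 0 = 0
        simp
    · rw [← Subgroup.map_comap_eq_self_of_surjective (QuotientGroup.mk'_surjective _) N,
        normal_SL2 F _ (hN.comap _) (Subgroup.map_le_iff_le_comap.1 h), ← MonoidHom.range_eq_map,
        MonoidHom.range_eq_top.2 (QuotientGroup.mk'_surjective _)]
  · obtain ⟨l, rfl⟩ : ∃ l, n = l + 1 := ⟨n - 1, by omega⟩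
    have hl : 2 ≤ l := by omega
    obtain ⟨m, e, ⟨S⟩⟩ := (rdA l hl).exists_sorted
    obtain ⟨C, hC, -⟩ := exists_cover_SL hl S F
    obtain ⟨C', hC', -⟩ := C.exists_quot hC
    refine ⟨C.hasSt hC p, C.rad hC p (connA hl e), C'.hasSt hC' p, ?_⟩
    rw [C.card_pelt hC p]
    have : m = (l + 1) * l := by
      rw [← Fintype.card_fin m, Fintype.card_congr e, Fintype.card_subtype_compl, Fintype.card_prod,
        Fintype.card_congr (⟨fun x => x.1.1, fun a => ⟨(a, a), rfl⟩, fun ⟨⟨a, b⟩, h⟩ => Subtype.ext (Prod.ext rfl h),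
          fun _ => rfl⟩ : {x : Fin (l + 1) × Fin (l + 1) // x.1 = x.2} ≃ Fin (l + 1)), Fintype.card_fin,
        mul_add_one, Nat.add_sub_cancel]
    change _ ^ (m / 2 * 2) = _
    rw [this, Nat.div_mul_cancel (by rw [mul_comm]; exact (Nat.even_mul_succ_self l).two_dvd)]; rfl

end CfsgH6
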