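import Mathlib
import Cfsg.Agent.H6.Sq1
import Cfsg.Agent.H3.More
import Cfsg.Agent.H3.Burnside
import Cfsg.Agent.H8.SL2f

set_option autoImplicit false
open Cfsg CfsgH3 MulAction Subgroup CfsgH8 CfsgH2
open scoped ComplexConjugate

namespace CfsgH6.Dg

section comb
variable {ι : Type*} [DecidableEq ι]

theorem one_sq {T : Finset ι} {n : ι → ℤ} (h : ∑ i ∈ T, n i ^ 2 = 1) :
    ∃ y ∈ T, (n y = 1 ∨ n y = -1) ∧ ∀ i ∈ T, i ≠ y → n i = 0 := by
  obtain ⟨y, hy, h0⟩ := Finset.exists_ne_zero_of_sum_ne_zero (h ▸ one_ne_zero)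
  rw [← Finset.add_sum_erase _ _ hy] at h
  have h1 : 0 ≤ ∑ i ∈ T.erase y, n i ^ 2 := Finset.sum_nonneg fun i _ => sq_nonneg _
  have h2 : 0 < n y ^ 2 := lt_of_le_of_ne (sq_nonneg _) h0.symm
  refine ⟨y, hy, sq_eq_one_iff.1 (by omega), fun i hi e => ?_⟩
  exact pow_eq_zero_iff two_ne_zero |>.1 ((Finset.sum_eq_zero_iff_of_nonneg fun i _ => sq_nonneg _).1
    (by omega) i (Finset.mem_erase.2 ⟨e, hi⟩))

theorem sum_single {T : Finset ι} {n : ι → ℤ} {y : ι} (hy : y ∈ T) (h : ∀ i ∈ T, i ≠ y → n i = 0)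
    (f : ι → ℤ) : ∑ i ∈ T, n i * f i = n y * f y :=
  Finset.sum_eq_single_of_mem y hy fun i hi e => by rw [h i hi e, zero_mul]

variable [Fintype ι] {o s c c' : ι}

theorem split2 (h : o ≠ s) (f : ι → ℤ) : ∑ i, f i = f o + f s + ∑ i ∈ {o, s}ᶜ, f i := by
  rw [← Finset.sum_add_sum_compl {o, s}, Finset.sum_pair h]

theorem split4 (h : [o, s, c, c'].Nodup) (f : ι → ℤ) :
    ∑ i, f i = f o + f s + f c + f c' + ∑ i ∈ {o, s, c, c'}ᶜ, f i := by
  simp only [List.nodup_cons, List.mem_cons, List.not_mem_nil, not_or] at h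
  rw [← Finset.sum_add_sum_compl {o, s, c, c'}, Finset.sum_insert (by simp; tauto),
    Finset.sum_insert (by simp; tauto), Finset.sum_pair (by tauto)]
  ring

/-- the shape of the vectors of norm five -/
structure KK (o s c c' : ι) (n : ι → ℤ) : Prop where
  n5 : ∑ i, n i * n i = 5
  ho : n o = 1
  hs : n s = -1
  hc : n c' = n c

theorem KK.shape (h : [o, s, c, c'].Nodup) {n : ι → ℤ} (k : KK o s c c' n) (h0 : n c ≠ 0) :
    (n c = 1 ∨ n c = -1) ∧ ∃ y ∈ ({o, s, c, c'}ᶜ : Finset ι), (n y = 1 ∨ n y = -1) ∧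
      ∀ i ∈ ({o, s, c, c'}ᶜ : Finset ι), i ≠ y → n i = 0 := by
  have h1 := k.n5
  rw [split4 h, k.ho, k.hs, k.hc] at h1
  simp only [← sq] at h1
  have h2 : 0 ≤ ∑ i ∈ ({o, s, c, c'}ᶜ : Finset ι), n i ^ 2 := Finset.sum_nonneg fun i _ => sq_nonneg _
  have h3 : 0 < n c ^ 2 := by positivity
  exact ⟨sq_eq_one_iff.1 (by omega), one_sq (by omega)⟩

theorem KK.pair (h : [o, s, c, c'].Nodup) {n n' : ι → ℤ} (k : KK o s c c' n) (k' : KK o s c c' n')
    (e : ∑ i, n i * n' i = 0) (h0 : n c ≠ 0) :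
    n' c = -n c ∧ ∀ i ∈ ({o, s, c, c'}ᶜ : Finset ι), n i ≠ 0 → n' i = 0 := by
  obtain ⟨h1, y, hy, h2, h3⟩ := k.shape h h0
  rw [split4 h, k.ho, k.hs, k.hc, k'.ho, k'.hs, k'.hc, sum_single hy h3] at e
  have h4 := k'.n5
  rw [split4 h, k'.ho, k'.hs, k'.hc] at h4
  have h5 := Finset.single_le_sum (f := fun i => n' i * n' i) (fun i _ => mul_self_nonneg _) hy
  have h6 : n' y * n' y ≤ 3 := by nlinarith [mul_self_nonneg (n' c)]
  have h7 : -1 ≤ n' y ∧ n' y ≤ 1 := by constructor <;> nlinarith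
  have h8 : n' c = -n c ∧ n' y = 0 := by
    rcases h1 with h1 | h1 <;> rcases h2 with h2 | h2 <;> rw [h1, h2] at e <;> omega
  exact ⟨h8.1, fun i hi h9 => by rw [not_not.1 (mt (h3 i hi) h9), h8.2]⟩

end comb

section gen
variable {G : Type*} [Group G] [Fintype G]

/-- multiplicities -/
noncomputable def nn (θ : G → ℂ) (φ : IrrCharacter G) : ℤ := ⌊(classInner θ φ).re⌋

/-- degrees -/
noncomputable def dg (φ : IrrCharacter G) : ℕ := charDegree (φ : G → ℂ)

omit [Fintype G] in
theorem dg_eq (φ : IrrCharacter G) : (φ : G → ℂ) 1 = dg φ := by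
  obtain ⟨d, hd⟩ := φ.2.isCharacter.exists_nat_apply_one
  rw [dg, charDegree_of_eq hd, hd]

theorem nn_of {θ : G → ℂ} {φ : IrrCharacter G} {k : ℤ} (h : classInner θ φ = k) : nn θ φ = k := by
  simp [nn, h]

variable {θ θ' : G → ℂ}

theorem nn_eq (h : IsGeneralizedCharacter G θ) (φ : IrrCharacter G) : classInner θ φ = nn θ φ := by
  obtain ⟨k, hk⟩ := h.exists_int_classInner φ.2.isGen
  rw [nn_of hk, hk]

theorem nn_inner (h : IsGeneralizedCharacter G θ) (h' : IsGeneralizedCharacter G θ') {k : ℤ}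
    (e : classInner θ θ' = k) : ∑ φ, nn θ φ * nn θ' φ = k := by
  rw [h.isClassFunction.classInner_eq_sum_irr] at e
  simp only [fun φ : IrrCharacter G => φ.2.isGen.classInner_comm h', nn_eq h, nn_eq h'] at e
  exact_mod_cast e

theorem nn_deg (h : IsGeneralizedCharacter G θ) (e : θ 1 = 0) : ∑ φ, nn θ φ * dg φ = 0 := by
  rw [h.isClassFunction.apply_eq_sum_irr] at e
  simp only [nn_eq h, dg_eq] at e
  exact_mod_cast e

theorem sum_dg : ∑ φ : IrrCharacter G, (dg φ : ℤ) ^ 2 = Nat.card G := by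
  have := sum_irr_deg_sq (G := G)
  simp only [dg_eq] at this
  exact_mod_cast this

variable {A : Subgroup G} [Fintype A]

/-- the basic generalized characters -/
noncomputable def Th (A : Subgroup G) (l : A → ℂ) : G → ℂ := indFun A ((fun _ => 1) - l)

variable {l : A → ℂ}

omit [Fintype A] in
theorem Th_gen (hl : IsIrrCharacter A l) : IsGeneralizedCharacter G (Th A l) :=
  (isGen_one.sub hl.isGen).ind

omit [Fintype G] [Fintype A] in
theorem l_one (hA : CC A) (hl : IsIrrCharacter A l) : l 1 = 1 :=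
  hl.apply_one_of_comm fun a b => Subtype.ext (hA.comm a.2 b.2)

omit [Fintype A] in
theorem Th_zero (hA : CC A) (hl : IsIrrCharacter A l) {g : G} (hg : g ∉ Cls A) : Th A l g = 0 := by
  refine indFun_eq_zero_of_forall _ fun x hx => ?_
  by_cases h1 : g = 1
  · have : (⟨_, hx⟩ : A) = 1 := Subtype.ext (by simp [h1])
    simp [this, l_one hA hl]
  · exact absurd ⟨h1, x⁻¹, by simpa using hx⟩ hg

omit [Fintype G] in
theorem inner_sub {a b : A → ℂ} (ha : IsIrrCharacter A a) (hb : IsIrrCharacter A b)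
    (a1 : a ≠ fun _ => 1) (b1 : b ≠ fun _ => 1) :
    classInner ((fun _ => 1) - a) ((fun _ => 1) - b) = 1 + classInner a b := by
  rw [classInner_sub_left, classInner_sub_right, classInner_sub_right, isIrr_one.classInner_self,
    isIrr_one.classInner_of_ne hb b1.symm, ha.classInner_of_ne isIrr_one a1]
  ring

theorem Th_const (hA : CC A) (hl : IsIrrCharacter A l) (l1 : l ≠ fun _ => 1) {φ : IrrCharacter G}
    {c : ℤ} (h : ∀ a ∈ A, a ≠ 1 → (φ : G → ℂ) a = c) : nn (Th A l) φ = c := by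
  refine nn_of ?_
  rw [Th, classInner_indFun_left _ φ.2.isClassFunction]
  have : classInner ((fun _ => 1) - l) (fun a : A => (φ : G → ℂ) a) =
      classInner ((fun _ => 1) - l) (c • fun _ => 1) := by
    unfold classInner
    congr 1
    refine Finset.sum_congr rfl fun a _ => ?_
    by_cases h1 : a = 1
    · simp [h1, l_one hA hl]
    · simp [h a a.2 fun e => h1 (Subtype.ext e)]
  rw [this, classInner_zsmul_right, classInner_sub_left, isIrr_one.classInner_self,
    hl.classInner_of_ne isIrr_one l1]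
  ring

theorem Th_norm (hA : CC A) (hl : IsIrrCharacter A l) (l1 : l ≠ fun _ => 1) {e : ℕ}
    (he : Nat.card (normalizer (A : Set G)) = e * Nat.card A) :
    classInner (Th A l) (Th A l) = (e + 1 : ℤ) := by
  classical
  have hσ : ∀ n : normalizer (A : Set G), IsIrrCharacter A (fun a => l (A.normalizerMonoidHom n a)) :=
    fun n => hl.comp_of_surjective (A.normalizerMonoidHom n).toMonoidHom (MulEquiv.surjective _)
  have e1 : (fun a : A => Th A l a) = (Nat.card A : ℂ)⁻¹ • ∑ n : normalizer (A : Set G),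
      ((fun _ => 1) - fun a => l (A.normalizerMonoidHom n a)) := by
    ext a
    rw [Th, indFun_apply', Pi.smul_apply, smul_eq_mul, Finset.sum_apply]
    congr 1
    rw [← Finset.sum_subset (Finset.subset_univ (Finset.univ.filter (· ∈ normalizer (A : Set G)))),
      Finset.sum_subtype (p := (· ∈ normalizer (A : Set G))) _ (by simp)]
    · exact Finset.sum_congr rfl fun n _ => extendByZero_of_mem _ (Sv.conj_mem n.2 a.2)
    · intro x _ hx
      by_cases h1 : a = 1
      · rw [extendByZero_of_mem _ (show x * a * x⁻¹ ∈ A by simp [h1])]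
        have : (⟨x * a * x⁻¹, by simp [h1]⟩ : A) = 1 := Subtype.ext (by simp [h1])
        simp [this, l_one hA hl]
      · exact extendByZero_of_not_mem _ fun h => hx (by
          simpa using hA.mem_norm a.2 (fun e => h1 (Subtype.ext e)) h)
  obtain ⟨f, hf⟩ := hl.isCharacter.exists_monoidHom (l_one hA hl)
  have e2 : ∀ n : normalizer (A : Set G), classInner l (fun a => l (A.normalizerMonoidHom n a)) =
      if n.1 ∈ A then 1 else 0 := fun n => by
    rw [hl.classInner_eq_ite (hσ n)]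
    congr 1
    refine propext ⟨fun h => ?_, fun h => funext fun a => congrArg l (Subtype.ext ?_)⟩
    · by_contra hn
      have inj : Function.Injective fun a : A => a⁻¹ * A.normalizerMonoidHom n a := fun a b hab => by
        by_contra ne
        refine hn (hA.mem_of_comm (b * a⁻¹).2 (fun e => ne (mul_inv_eq_one.1 (Subtype.ext e)).symm) ?_)
        have := congrArg Subtype.val hab
        change (a : G)⁻¹ * (n * a * (n : G)⁻¹) = (b : G)⁻¹ * (n * b * (n : G)⁻¹) at this
        change (n : G) * (b * (a : G)⁻¹) = b * (a : G)⁻¹ * n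
        calc _ = b * ((b : G)⁻¹ * (n * b * (n : G)⁻¹)) * n * (a : G)⁻¹ := by group
          _ = _ := by rw [← this]; group
      refine l1 (funext fun b => ?_)
      obtain ⟨a, rfl⟩ := Finite.injective_iff_surjective.1 inj b
      have := congrFun h a
      rw [hf] at this ⊢
      simp only [map_mul, map_inv, Units.val_mul] at this ⊢
      rw [← this, Units.inv_mul]
    · change (a : G) = n * a * (n : G)⁻¹
      rw [hA.comm h a.2, mul_inv_cancel_right]
  conv_lhs => rw [Th, classInner_indFun_left _ (isClassFunction_indFun _)]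
  change classInner _ (fun a : A => Th A l a) = _
  rw [e1, classInner_smul_right, classInner_sum_right, Finset.sum_congr rfl fun n _ =>
    inner_sub hl (hσ n) l1 fun h => l1 (funext fun a => by
      obtain ⟨a, rfl⟩ := (A.normalizerMonoidHom n).surjective a; exact congrFun h a)]
  simp only [e2, Finset.sum_add_distrib, Finset.sum_const, Finset.card_univ, Finset.sum_boole]
  have e3 : (Finset.univ.filter fun n : normalizer (A : Set G) => n.1 ∈ A).card = Nat.card A := by
    rw [← Fintype.card_subtype, ← Nat.card_eq_fintype_card]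
    exact Nat.card_congr (subgroupOfEquivOfLe le_normalizer).toEquiv
  rw [e3, ← Nat.card_eq_fintype_card, he]
  have := natCard_ne_zero A
  simp
  field_simp

theorem card_irr (hA : CC A) : Fintype.card (IrrCharacter A) = Nat.card A := by
  have := sum_irr_deg_sq (G := A)
  simp only [fun φ : IrrCharacter A => l_one hA φ.2] at this
  simpa using this

theorem deg_mod (hA : CC A) {φ : IrrCharacter G} {e : ℤ}
    (h : ∀ l, IsIrrCharacter A l → l ≠ (fun _ => 1) → nn (Th A l) φ = e) :
    (Nat.card A : ℤ) ∣ dg φ - e := by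
  have hχ := φ.2.isCharacter.restrict A
  obtain ⟨k, hk⟩ := hχ.exists_nat_classInner isCharacter_one
  have h1 := (hχ.isClassFunction.sub ((isClassFunction_const 1).zsmul e)).apply_eq_sum_irr 1
  rw [Finset.sum_congr rfl (g := fun _ => (k : ℂ) - e) fun μ _ => ?_] at h1
  · refine ⟨k - e, ?_⟩
    simp [card_irr hA, dg_eq] at h1
    rw [Nat.card_eq_fintype_card, mul_sub]
    exact_mod_cast h1
  rw [l_one hA μ.2, mul_one, classInner_sub_left, classInner_zsmul_left]
  by_cases h2 : μ.1 = fun _ => 1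
  · rw [h2, hk, isIrr_one.classInner_self, mul_one]
  · have := nn_eq (Th_gen μ.2) φ
    rw [h _ μ.2 h2, Th, classInner_indFun_left _ φ.2.isClassFunction, classInner_sub_left,
      isCharacter_one.classInner_comm hχ, hk, μ.2.isCharacter.classInner_comm hχ] at this
    rw [isIrr_one.classInner_of_ne μ.2 (Ne.symm h2), ← this]
    ring

theorem exists_l (hA : CC A) (h0 : 1 < Nat.card A) : ∃ l, IsIrrCharacter A l ∧ l ≠ fun _ => 1 := by
  rw [← card_irr hA] at h0
  obtain ⟨l, hl⟩ := Fintype.exists_ne_of_one_lt_card h0 ⟨_, isIrr_one⟩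
  exact ⟨l.1, l.2, fun e => hl (Subtype.ext e)⟩

omit [Fintype A] in
theorem Th_cross {B : Subgroup G} {l' : B → ℂ} (hA : CC A) (hB : CC B) (hl : IsIrrCharacter A l)
    (hl' : IsIrrCharacter B l') (hc : (Nat.card A).Coprime (Nat.card B)) :
    ∑ φ, nn (Th A l) φ * nn (Th B l') φ = 0 := by
  refine nn_inner (Th_gen hl) (Th_gen hl') ?_
  rw [classInner, Finset.sum_eq_zero, mul_zero, Int.cast_zero]
  intro g _
  by_cases hg : g ∈ Cls A
  · rw [Th_zero hB hl' (Set.disjoint_left.1 (cls_disjoint hc) hg), map_zero, mul_zero]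
  · rw [Th_zero hA hl hg, zero_mul]

omit [Fintype A] in
theorem Th_real (hA : CC A) (hl : IsIrrCharacter A l) (hr : ∀ g ∈ Cls A, IsConj g g⁻¹)
    (φ : IrrCharacter G) : nn (Th A l) ⟨_, φ.2.conj⟩ = nn (Th A l) φ := by
  have e : (fun g => conj (Th A l g)) = Th A l := funext fun g => by
    by_cases hg : g ∈ Cls A
    · rw [← (Th_gen hl).apply_inv, ← (Th_gen hl).isClassFunction.eq_of_isConj (hr g hg)]
    · rw [Th_zero hA hl hg, map_zero]
  refine nn_of ?_
  conv_lhs => rw [← e]
  rw [classInner_conj_conj, φ.2.isGen.classInner_comm (Th_gen hl), nn_eq (Th_gen hl)]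

end gen

end CfsgH6.Dg
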