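import Mathlib
import Cfsg.Agent.H6.Dg1

set_option autoImplicit false
open Cfsg CfsgH3 MulAction Subgroup CfsgH8 CfsgH8.SzG CfsgH2 CfsgH6.Sv CfsgH6.Bn CfsgH6.Sq
open scoped ComplexConjugate

namespace CfsgH6.Dg

variable {F : Type*} [Field F] {m : ℕ} [Fintype F] [h : SzF F m]

local notation "q" => Fintype.card F

theorem ord_eq {G : Type*} [Group G] {a b : G} (e : IsConj a b) : orderOf a = orderOf b := by
  obtain ⟨c, rfl⟩ := isConj_iff.1 e
  exact (orderOf_injective (cj c) (cj_injective c) a).symm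

theorem card_cls4 {G ι K : Type*} [Group G] [Zero K] [Finite ι] (t : G → K)
    (ht : ∀ x y, IsConj x y → t x = t y) (a b : G) (e : ι → G) (oa : orderOf a = 2)
    (ob : orderOf b = 4) (nr : ¬ IsConj b b⁻¹) (t1 : t 1 = 0) (ta : t a = 0) (tb : t b = 0)
    (tb' : t b⁻¹ = 0) (te : ∀ i, t (e i) ≠ 0) (ti : ∀ i j, t (e i) = t (e j) → i = j)
    (hs : ∀ g, g = 1 ∨ IsConj a g ∨ IsConj b g ∨ IsConj b⁻¹ g ∨ ∃ i, IsConj (e i) g) :
    Nat.card (ConjClasses G) = 4 + Nat.card ι := by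
  let f : Fin 4 ⊕ ι → G := Sum.elim ![1, a, b, b⁻¹] e
  have t0 : ∀ i, t (f (.inl i)) = 0 := fun i => by
    fin_cases i
    exacts [t1, ta, tb, tb']
  rw [← Nat.card_congr (Equiv.ofBijective (fun i => ConjClasses.mk (f i)) ⟨?_, fun c => ?_⟩)]
  · simp
  · rintro (i | s) (j | r) k <;> replace k := ConjClasses.mk_eq_mk_iff_isConj.1 k
    · have e2 := ord_eq k
      fin_cases i <;> fin_cases j <;> first | rfl | exact (nr k).elim | exact (nr k.symm).elim |
        (simp [f, oa, ob] at e2)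
    · exact (te r ((ht _ _ k).symm.trans (t0 i))).elim
    · exact (te s ((ht _ _ k).trans (t0 j))).elim
    · rw [ti s r (ht _ _ k)]
  · obtain ⟨g, rfl⟩ := ConjClasses.mk_surjective c
    simp only [ConjClasses.mk_eq_mk_iff_isConj]
    rcases hs g with rfl | k | k | k | ⟨i, k⟩
    exacts [⟨.inl 0, IsConj.refl _⟩, ⟨.inl 1, k⟩, ⟨.inl 2, k⟩, ⟨.inl 3, k⟩, ⟨.inr i, k⟩]

theorem card_classes : Nat.card (ConjClasses (Sz F m)) = q + 3 := by
  classical
  rw [card_cls4 tr (fun _ _ => tr_eq) (u m 0 1) (u m 1 0)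
    (fun s : Fˣ => u m 0 1 * (w F m * u m 0 (s : F) * w F m))
    (orderOf_u_zero (m := m) (one_ne_zero (α := F))) (orderOf_u (m := m) (one_ne_zero (α := F)) 0)
    (not_real (m := m) (b := 0) (one_ne_zero (α := F))) (by rw [← u_zero, tr_u]) (tr_u _ _) (tr_u _ _)
    (by rw [u_inv, tr_u]) (fun s => by rw [tr_one]; simp)
    (fun s r e => by rw [tr_one, tr_one] at e; exact Units.ext (th_inj e)) fun g => ?_]
  · have : 1 ≤ q := Fintype.card_pos
    rw [Nat.card_eq_fintype_card, Fintype.card_units]; omega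
  · by_cases g1 : g = 1
    · exact .inl g1
    rcases cases_tr g1 with ⟨a, b, e⟩ | ⟨s, s0, e⟩
    · by_cases ha : a = 0
      · exact .inr (.inl (inv_case g1 (ha ▸ e)).symm)
      · rcases four_cases (m := m) ha b 0 with k | k
        exacts [.inr (.inr (.inl (e.trans k).symm)), .inr (.inr (.inr (.inl (e.trans k).symm)))]
    · exact .inr (.inr (.inr (.inr ⟨Units.mk0 s s0, e.symm⟩)))

theorem card_fix_one : Nat.card (fixedBy (suzukiOvoid F m) (1 : Sz F m)) = q ^ 2 + 1 := by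
  rw [fixedBy_one_eq_univ, Nat.card_congr (Equiv.Set.univ _), card_ovoid]

variable [Fintype (Sz F m)]

theorem st_irr : IsIrrCharacter (Sz F m)
    ((fun g => (Nat.card (fixedBy (suzukiOvoid F m) g) : ℂ)) - fun _ => 1) := by
  classical
  have e := card_fixedBy_eq_indFun (G := Sz F m) (suzukiOvoid F m) (inf F m)
  have hc : IsCharacter (Sz F m) fun g => (Nat.card (fixedBy (suzukiOvoid F m) g) : ℂ) :=
    e ▸ isCharacter_one.ind
  have h1 : classInner (fun g : Sz F m => (Nat.card (fixedBy (suzukiOvoid F m) g) : ℂ)) (fun _ => 1) = 1 := by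
    rw [e, classInner_indFun_left _ (isClassFunction_const 1), isIrr_one.classInner_self]
  have h2 : classInner (fun g : Sz F m => (Nat.card (fixedBy (suzukiOvoid F m) g) : ℂ))
      (fun g => (Nat.card (fixedBy (suzukiOvoid F m) g) : ℂ)) = 2 := by
    conv_lhs => enter [2]; rw [e]
    rw [classInner_indFun_right _ hc.isClassFunction]
    refine (classInner_fixedBy_one (G := B F m) (suzukiOvoid F m)).trans ?_
    rw [Nat.card_eq_two_iff.2 ⟨⟦inf F m⟧, ⟦zer F m⟧, fun k => ?_, Set.eq_univ_of_forall fun p => ?_⟩]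
    · rfl
    · obtain ⟨g, hg⟩ := Quotient.exact k.symm
      exact inf_ne_zer (g.2.symm.trans hg)
    · obtain ⟨p, rfl⟩ := Quotient.exists_rep p
      by_cases hp : p = inf F m
      · exact Or.inl (by rw [hp])
      · obtain ⟨a, b, k⟩ := exists_u_zer hp
        exact Or.inr (Quotient.sound ⟨⟨_, U_le_B (u_mem a b)⟩, k⟩)
  refine (hc.isGen.sub isGen_one).isIrr_of_re_nonneg ?_ ?_
  · rw [classInner_sub_left, classInner_sub_right, classInner_sub_right, h1, h2,
      isCharacter_one.classInner_comm hc, h1, isIrr_one.classInner_self]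
    norm_num
  · rw [Pi.sub_apply, card_fix_one, Nat.cast_add, Nat.cast_one, add_sub_cancel_right, Complex.natCast_re]
    exact Nat.cast_nonneg _

/-- the principal character -/
def oo (F : Type*) [Field F] (m : ℕ) : IrrCharacter (Sz F m) := ⟨_, isIrr_one⟩

/-- the Steinberg character -/
noncomputable def ss (F : Type*) [Field F] [Fintype F] (m : ℕ) [SzF F m] [Fintype (Sz F m)] : IrrCharacter (Sz F m) :=
  ⟨_, st_irr⟩

omit [Fintype F] h [Fintype (Sz F m)] in
theorem dg_oo : dg (oo F m) = 1 := charDegree_of_eq (by simp [oo])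

theorem dg_ss : dg (ss F m) = q ^ 2 :=
  charDegree_of_eq (by simp only [ss, Pi.sub_apply, card_fix_one]; simp)

theorem oo_ne : oo F m ≠ ss F m := fun e => by
  have := congrArg dg e
  rw [dg_oo, dg_ss] at this
  have := q_ge (F := F) (m := m)
  nlinarith

theorem ss_D {a : Sz F m} (ha : a ∈ D F m) (h1 : a ≠ 1) : (ss F m).1 a = (1 : ℤ) := by
  obtain ⟨t, rfl⟩ := ha
  have : fixedBy (suzukiOvoid F m) (dH F m t) = {inf F m, zer F m} := by
    ext p
    refine ⟨fun hp => ?_, by rintro (rfl | rfl) <;> simp⟩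
    by_contra n
    simp only [Set.mem_insert_iff, Set.mem_singleton_iff, not_or] at n
    exact h1 (by rw [d_fix n.1 n.2 hp, map_one])
  simp only [ss, Pi.sub_apply, this, Nat.card_coe_set_eq, Set.ncard_pair inf_ne_zer]
  norm_num

theorem ss_N {a : Sz F m} (ha : Fpf a) : (ss F m).1 a = (-1 : ℤ) := by
  have : fixedBy (suzukiOvoid F m) a = ∅ := Set.eq_empty_of_forall_notMem ha
  simp [ss, this]

theorem D_shape {l : D F m → ℂ} (hl : IsIrrCharacter (D F m) l) (l1 : l ≠ fun _ => 1) :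
    nn (Th (D F m) l) (oo F m) = 1 ∧ nn (Th (D F m) l) (ss F m) = 1 ∧
    ∃ y ∈ ({oo F m, ss F m} : Set _)ᶜ, nn (Th (D F m) l) y = -1 ∧ dg y = q ^ 2 + 1 ∧
      ∀ i ∈ ({oo F m, ss F m} : Set _)ᶜ, i ≠ y → nn (Th (D F m) l) i = 0 := by
  classical
  have h1 := Th_const cc_D hl l1 (φ := oo F m) (c := 1) fun _ _ _ => by simp [oo]
  have h2 := Th_const cc_D hl l1 (φ := ss F m) fun _ => ss_D
  have h3 := nn_inner (Th_gen hl) (Th_gen hl) (Th_norm cc_D hl l1 (card_norm_D.trans (by rw [card_D])))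
  have h4 := nn_deg (Th_gen hl) (Th_zero cc_D hl fun h => h.1 rfl)
  rw [split2 oo_ne, h1, h2] at h3 h4
  simp only [← sq] at h3
  obtain ⟨y, hy, h5, h6⟩ := one_sq (T := {oo F m, ss F m}ᶜ) (n := nn (Th (D F m) l)) (by omega)
  rw [sum_single hy h6, dg_oo, dg_ss] at h4
  have h7 : nn (Th (D F m) l) y = -1 := h5.resolve_left fun e => by rw [e] at h4; omega
  rw [h7] at h4
  exact ⟨h1, h2, y, by simpa using hy, h7, by omega, fun i hi => h6 i (by simpa using hi)⟩

theorem N_kk {A : Subgroup (Sz F m)} (hA : NTor A) {l : A → ℂ} (hl : IsIrrCharacter A l)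
    (l1 : l ≠ fun _ => 1) (c : IrrCharacter (Sz F m)) :
    KK (oo F m) (ss F m) c ⟨_, c.2.conj⟩ (nn (Th A l)) := by
  classical
  refine ⟨nn_inner (Th_gen hl) (Th_gen hl) (Th_norm hA.cc hl l1 hA.card_norm_eq),
    Th_const hA.cc hl l1 fun _ _ _ => by simp [oo], Th_const hA.cc hl l1 fun a ha h1 => ss_N (hA.fpf ha h1),
    Th_real hA.cc hl (fun g hg => ?_) c⟩
  obtain ⟨s, s0, e⟩ := odd_form hg.1 (odd_of_dvd (m := m) (hA.cls_fpf hg).orderOf_dvd)
  exact real_of_tr (by rw [tr_eq e, tr_one]; simpa using s0)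

omit [Fintype F] h in
theorem dvd_of_zero {A : Subgroup (Sz F m)} (hA : CC A) {φ : IrrCharacter (Sz F m)}
    (h0 : ∀ l, IsIrrCharacter A l → l ≠ (fun _ => 1) → nn (Th A l) φ = 0) : Nat.card A ∣ dg φ := by
  classical
  have := deg_mod hA h0
  rw [sub_zero] at this
  exact_mod_cast this

theorem cusp {A : Subgroup (Sz F m)} (hA : NTor A) {l : A → ℂ} (hl : IsIrrCharacter A l)
    (l1 : l ≠ fun _ => 1) {φ : IrrCharacter (Sz F m)} (h1 : φ ≠ oo F m) (h2 : φ ≠ ss F m)
    (h0 : nn (Th A l) φ ≠ 0) : q - 1 ∣ dg φ := by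
  classical
  rw [← card_D (m := m)]
  refine dvd_of_zero cc_D fun l' hl' l1' => ?_
  obtain ⟨e1, e2, y, hy, e3, -, e4⟩ := D_shape hl' l1'
  have k := N_kk hA hl l1 φ
  have := Th_cross cc_D hA.cc hl' hl (card_D (F := F) (m := m) ▸
    ((coprime_plus_minus (m := m)).coprime_dvd_left hA.card_dvd).symm)
  rw [split2 oo_ne, e1, e2, k.ho, k.hs, sum_single (y := y) (by simpa using hy)
    (fun i hi => e4 i (by simpa using hi)), e3] at this
  exact e4 φ (by simp [h1, h2]) fun e => h0 (by rw [e]; omega)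

theorem involved {A A' : Subgroup (Sz F m)} (hA : NTor A) (hA' : NTor A')
    (hc : (Nat.card A).Coprime (Nat.card A')) (φ : IrrCharacter (Sz F m)) :
    (∃ l, IsIrrCharacter (D F m) l ∧ l ≠ (fun _ => 1) ∧ nn (Th (D F m) l) φ ≠ 0) ∨
    (∃ l, IsIrrCharacter A l ∧ l ≠ (fun _ => 1) ∧ nn (Th A l) φ ≠ 0) ∨
    (∃ l, IsIrrCharacter A' l ∧ l ≠ (fun _ => 1) ∧ nn (Th A' l) φ ≠ 0) := by
  by_contra H
  push Not at H
  have h1 := dvd_of_zero cc_D H.1
  have h2 := hc.mul_dvd_of_dvd_of_dvd (dvd_of_zero hA.cc H.2.1) (dvd_of_zero hA'.cc H.2.2)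
  rw [(hA.pair hA' hc).2.2.1] at h2
  rw [card_D] at h1
  obtain ⟨d, d0, hd⟩ := φ.2.exists_pos_apply_one
  have h3 := Nat.le_of_dvd (by rw [dg, charDegree_of_eq hd]; exact d0)
    ((coprime_plus_minus (m := m)).mul_dvd_of_dvd_of_dvd h2 h1)
  have h4 := Finset.single_le_sum (f := fun φ : IrrCharacter (Sz F m) => (dg φ : ℤ) ^ 2)
    (fun _ _ => sq_nonneg _) (Finset.mem_univ φ)
  rw [sum_dg, card_sz] at h4
  have h5 : dg φ ^ 2 ≤ q ^ 2 * (q ^ 2 + 1) * (q - 1) := by exact_mod_cast h4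
  have h6 := (Nat.pow_le_pow_left h3 2).trans h5
  have h7 : 1 ≤ q - 1 := by have := q_ge (F := F) (m := m); omega
  generalize q - 1 = r at h6 h7
  generalize q ^ 2 = s at h6
  have : (s + 1) * r * ((s + 1) * r) ≤ (s + 1) * r * s := by nlinarith
  have := Nat.le_of_mul_le_mul_left this (by positivity)
  nlinarith

end CfsgH6.Dg
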