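import Mathlib
import Cfsg.Agent.H6.Dg2

set_option autoImplicit false
open Cfsg CfsgH3 MulAction Subgroup CfsgH8 CfsgH8.SzG CfsgH2 CfsgH6.Sv CfsgH6.Bn CfsgH6.Sq
open scoped ComplexConjugate

namespace CfsgH6.Dg

variable {F : Type*} [Field F] {m : ℕ} [Fintype F] [h : SzF F m] [Fintype (Sz F m)]

local notation "q" => Fintype.card F

omit [Fintype (Sz F m)] in
include h in
theorem q_four : 4 ∣ q := by
  rw [h.hF]; exact pow_dvd_pow 2 (show 2 ≤ _ by have := h.hm; omega)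

theorem core {A A' : Subgroup (Sz F m)} (hA : NTor A) (hA' : NTor A')
    (hc : (Nat.card A).Coprime (Nat.card A')) {c : IrrCharacter (Sz F m)}
    (nd : [oo F m, ss F m, c, ⟨_, c.2.conj⟩].Nodup) {l : A → ℂ} (hl : IsIrrCharacter A l)
    (l1 : l ≠ fun _ => 1) (h0 : nn (Th A l) c ≠ 0) :
    (∀ l', IsIrrCharacter A' l' → l' ≠ (fun _ => 1) → nn (Th A' l') c = -nn (Th A l) c) ∧
    (dg c).Coprime (Nat.card A') ∧
    (∀ φ ∉ [oo F m, ss F m, c, ⟨_, c.2.conj⟩], nn (Th A l) φ ≠ 0 → Odd (dg φ)) ∧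
    ∃ y : IrrCharacter (Sz F m), q - 1 ∣ dg y ∧ Nat.card A' ∣ dg y := by
  classical
  have k := N_kk hA hl l1 c
  have p := fun l' (hl' : IsIrrCharacter A' l') l1' => k.pair nd (N_kk hA' hl' l1' c)
    (Th_cross hA.cc hA'.cc hl hl' hc) h0
  obtain ⟨e, y, hy, ey, hy'⟩ := k.shape nd h0
  have h4 := nn_deg (Th_gen hl) (Th_zero hA.cc hl fun h => h.1 rfl)
  have h5 : dg (⟨_, c.2.conj⟩ : IrrCharacter (Sz F m)) = dg c :=
    charDegree_of_eq (by simp [dg_eq])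
  rw [split4 nd, sum_single hy hy', k.ho, k.hs, k.hc, dg_oo, dg_ss, h5] at h4
  have y0 : nn (Th A l) y ≠ 0 := by omega
  have hy2 := hy
  simp only [Finset.mem_compl, Finset.mem_insert, Finset.mem_singleton, not_or] at hy2
  refine ⟨fun l' hl' l1' => (p l' hl' l1').1, ?_, fun φ hφ h1 => ?_, y,
    cusp hA hl l1 hy2.1 hy2.2.1 y0, dvd_of_zero hA'.cc fun l' hl' l1' => (p l' hl' l1').2 y hy y0⟩
  · obtain ⟨r, hr⟩ := deg_mod hA'.cc fun l' hl' l1' => (p l' hl' l1').1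
    rw [← Nat.isCoprime_iff_coprime]
    rcases e with e | e <;> rw [e] at hr
    exacts [⟨-1, r, by linear_combination -hr⟩, ⟨1, -r, by linear_combination hr⟩]
  · rw [not_not.1 (mt (hy' φ (by simpa using hφ)) h1), ← Int.odd_coe_nat]
    obtain ⟨r, hr⟩ := q_even (F := F) (m := m)
    rw [hr] at h4
    push_cast at h4
    rcases ey with ey | ey <;> rw [ey] at h4
    exacts [⟨2 * r ^ 2 - nn (Th A l) c * dg c - 1, by linear_combination h4⟩,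
      ⟨-2 * r ^ 2 + nn (Th A l) c * dg c, by linear_combination -h4⟩]

theorem exists_c : ∃ c : IrrCharacter (Sz F m), [oo F m, ss F m, c, ⟨_, c.2.conj⟩].Nodup := by
  have nr := not_real (m := m) (b := 0) (one_ne_zero (α := F))
  obtain ⟨c, hc, h1⟩ : ∃ c, IsIrrCharacter (Sz F m) c ∧ c (u m 1 0) ≠ c (u m 1 0)⁻¹ := by
    by_contra H
    push Not at H
    exact nr (isConj_of_irr_eq H)
  rw [hc.isCharacter.apply_inv] at h1
  have k : ∀ φ : IrrCharacter (Sz F m), conj (φ.1 (u m 1 0)) = φ.1 (u m 1 0) →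
      φ ≠ ⟨c, hc⟩ ∧ φ ≠ ⟨_, hc.conj⟩ := fun φ e =>
    ⟨fun e' => h1 (by subst e'; exact e.symm), fun e' => h1 (by subst e'; simpa using e)⟩
  have k1 := k (oo F m) (by simp [oo])
  have k2 := k (ss F m) (by simp [ss])
  refine ⟨⟨c, hc⟩, ?_⟩
  simp only [List.nodup_cons, List.mem_cons, List.not_mem_nil, not_or, or_false, not_false_iff,
    List.nodup_nil, and_true]
  exact ⟨⟨oo_ne, k1⟩, k2, fun e => h1 (congrFun (congrArg Subtype.val e) _)⟩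

theorem not_D {c : IrrCharacter (Sz F m)} (nd : [oo F m, ss F m, c, ⟨_, c.2.conj⟩].Nodup)
    {l : D F m → ℂ} (hl : IsIrrCharacter (D F m) l) (l1 : l ≠ fun _ => 1) : nn (Th (D F m) l) c = 0 := by
  by_contra h0
  obtain ⟨-, -, y, -, -, -, e4⟩ := D_shape hl l1
  simp only [List.nodup_cons, List.mem_cons, List.not_mem_nil, not_or, or_false] at nd
  have h1 := Th_real cc_D hl (fun g hg => ?_) c
  · have h2 := not_not.1 (mt (e4 c (by simp [Ne.symm nd.1.2.1, Ne.symm nd.2.1.1])) h0)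
    have h3 := not_not.1 (mt (e4 ⟨_, c.2.conj⟩ (by simp [Ne.symm nd.1.2.2, Ne.symm nd.2.1.2]))
      (h1 ▸ h0))
    exact nd.2.2.1 (h2.trans h3.symm)
  · obtain ⟨g1, x, hx⟩ := hg
    obtain ⟨s, s0, e⟩ := odd_form g1 (by
      rw [ord_eq (isConj_iff.2 ⟨x, rfl⟩ : IsConj g _)]; exact odd_of_mem tor_D hx)
    exact real_of_tr (by rw [tr_eq e, tr_one]; simpa using s0)

theorem core2 {A A' : Subgroup (Sz F m)} (hA : NTor A) (hA' : NTor A')
    (hc : (Nat.card A).Coprime (Nat.card A')) {c : IrrCharacter (Sz F m)}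
    (nd : [oo F m, ss F m, c, ⟨_, c.2.conj⟩].Nodup) {l : A → ℂ} (hl : IsIrrCharacter A l)
    (l1 : l ≠ fun _ => 1) (h0 : nn (Th A l) c ≠ 0) :
    (dg c).Coprime (q ^ 2 + 1) ∧ q - 1 ∣ dg c ∧
    (∀ φ ∉ [oo F m, ss F m, c, ⟨_, c.2.conj⟩], Odd (dg φ)) ∧
    ∀ r : ℕ, r.Prime → r ∣ q ^ 2 + 1 → ∃ y : IrrCharacter (Sz F m), q - 1 ∣ dg y ∧ r ∣ dg y := by
  classical
  obtain ⟨a1, a2, -, y, a3, a4⟩ := core hA hA' hc nd hl l1 h0
  obtain ⟨l', hl', l1'⟩ := exists_l hA'.cc (by have := hA'.five_le; omega)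
  have h0' : nn (Th A' l') c ≠ 0 := by rw [a1 l' hl' l1']; omega
  obtain ⟨b1, b2, -, y', b3, b4⟩ := core hA' hA hc.symm nd hl' l1' h0'
  have nd' := nd
  simp only [List.nodup_cons, List.mem_cons, List.not_mem_nil, not_or, or_false] at nd'
  rw [← (hA.pair hA' hc).2.2.1]
  refine ⟨b2.mul_right a2, cusp hA hl l1 (Ne.symm nd'.1.2.1) (Ne.symm nd'.2.1.1) h0,
    fun φ hφ => ?_, fun r hr h1 => ?_⟩
  · rcases involved hA hA' hc φ with ⟨k, hk, k1, k0⟩ | ⟨k, hk, k1, k0⟩ | ⟨k, hk, k1, k0⟩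
    · obtain ⟨-, -, z, -, -, e3, e4⟩ := D_shape hk k1
      simp only [List.mem_cons, not_or] at hφ
      rw [not_not.1 (mt (e4 φ (by simp [hφ.1, hφ.2.1])) k0), e3]
      exact ((even_iff_two_dvd.2 (q_even (m := m))).pow_of_ne_zero two_ne_zero).add_one
    · exact (core hA hA' hc nd hk k1 (by rw [b1 k hk k1]; omega)).2.2.1 φ hφ k0
    · exact (core hA' hA hc.symm nd hk k1 (by rw [a1 k hk k1]; omega)).2.2.1 φ hφ k0
  · rcases (Nat.Prime.dvd_mul hr).1 h1 with h1 | h1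
    exacts [⟨y', b3, h1.trans b4⟩, ⟨y, a3, h1.trans a4⟩]

theorem sum_odd {ι : Type*} (T : Finset ι) (f : ι → ℕ) (hf : ∀ i ∈ T, Odd (f i)) :
    (4 : ℤ) ∣ ∑ i ∈ T, (f i : ℤ) ^ 2 - T.card := by
  rw [Finset.card_eq_sum_ones, Nat.cast_sum, ← Finset.sum_sub_distrib]
  refine Finset.dvd_sum fun i hi => ?_
  obtain ⟨k, hk⟩ := hf i hi
  exact ⟨k ^ 2 + k, by rw [hk]; push_cast; ring⟩

theorem big : ∃ c : IrrCharacter (Sz F m), (dg c).Coprime (q ^ 2 + 1) ∧ q - 1 ∣ dg c ∧ 2 ∣ dg c ∧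
    (∀ φ : IrrCharacter (Sz F m), 2 ∣ dg φ → dg φ = q ^ 2 ∨ dg φ = dg c) ∧
    ∀ r : ℕ, r.Prime → r ∣ q ^ 2 + 1 → ∃ y : IrrCharacter (Sz F m), q - 1 ∣ dg y ∧ r ∣ dg y := by
  classical
  obtain ⟨c, nd⟩ := exists_c (F := F) (m := m)
  obtain ⟨A, A', hA, hA', h1, h2⟩ := exists_ntor (F := F) (m := m)
  have hc : (Nat.card A).Coprime (Nat.card A') := by rw [h1, h2]; exact coprime_pm
  obtain ⟨a1, a2, a3, a4⟩ : (dg c).Coprime (q ^ 2 + 1) ∧ q - 1 ∣ dg c ∧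
      (∀ φ ∉ [oo F m, ss F m, c, ⟨_, c.2.conj⟩], Odd (dg φ)) ∧
      ∀ r : ℕ, r.Prime → r ∣ q ^ 2 + 1 → ∃ y : IrrCharacter (Sz F m), q - 1 ∣ dg y ∧ r ∣ dg y := by
    rcases involved hA hA' hc c with ⟨k, hk, k1, k0⟩ | ⟨k, hk, k1, k0⟩ | ⟨k, hk, k1, k0⟩
    exacts [(k0 (not_D nd hk k1)).elim, core2 hA hA' hc nd hk k1 k0, core2 hA' hA hc.symm nd hk k1 k0]
  have h5 : dg (⟨_, c.2.conj⟩ : IrrCharacter (Sz F m)) = dg c :=
    charDegree_of_eq (by simp [dg_eq])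
  refine ⟨c, a1, a2, ?_, fun φ hφ => ?_, a4⟩
  · have s1 := sum_dg (G := Sz F m)
    have s2 := split4 nd fun _ => 1
    have s3 := sum_odd {oo F m, ss F m, c, ⟨_, c.2.conj⟩}ᶜ dg fun φ hφ => a3 φ (by simpa using hφ)
    rw [split4 nd, dg_oo, dg_ss, h5, card_sz] at s1
    simp only [Finset.sum_const, Finset.card_univ, nsmul_eq_mul, mul_one] at s2
    rw [← Nat.card_eq_fintype_card, card_irr_eq_card_conjClasses, card_classes] at s2
    obtain ⟨r, hr⟩ := q_four (F := F) (m := m)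
    obtain ⟨t, ht⟩ := s3
    rw [mul_assoc] at s1
    generalize (q ^ 2 + 1) * (q - 1) = M at s1
    rw [hr] at s1 s2
    push_cast at s1 s2
    refine Nat.prime_two.dvd_of_dvd_pow (n := 2) (Int.natCast_dvd_natCast.1 ⟨4 * r ^ 2 * M -
      64 * r ^ 4 - t - r, ?_⟩)
    push_cast
    linarith
  · by_contra H
    refine Nat.not_even_iff_odd.2 ?_ (even_iff_two_dvd.2 hφ)
    by_cases h3 : φ = oo F m
    · rw [h3, dg_oo]; exact odd_one
    refine a3 φ ?_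
    simp only [List.mem_cons, List.not_mem_nil, or_false, not_or] at H ⊢
    exact ⟨h3, fun e => H.1 (e ▸ dg_ss), fun e => H.2 (e ▸ rfl), fun e => H.2 (e ▸ h5)⟩

omit [Fintype (Sz F m)] in
theorem final {S : Type*} [Group S] (e : Sz F m ≃* S) : degreePrimes S =
    {r : ℕ | r.Prime ∧ (r = 2 ∨ r ∣ (q - 1) * (q ^ 2 + 1))} ∧ ∀ r s : ℕ, (degreeGraph S).Adj r s ↔
      (r ≠ s ∧ r.Prime ∧ s.Prime ∧ ((r ∣ (q - 1) * (q ^ 2 + 1) ∧ s ∣ (q - 1) * (q ^ 2 + 1)) ∨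
        (r = 2 ∧ s ∣ q - 1) ∨ (s = 2 ∧ r ∣ q - 1))) := by
  classical
  haveI := Fintype.ofFinite (Sz F m)
  have hd : charDegrees S = Set.range (dg (G := Sz F m)) :=
    (charDegrees_subset_of_surjective e.toMonoidHom e.surjective).antisymm
      (charDegrees_subset_of_surjective e.symm.toMonoidHom e.symm.surjective)
  obtain ⟨c, c1, c2, c3, c4, c5⟩ := big (F := F) (m := m)
  obtain ⟨l, hl, l1⟩ := exists_l (cc_D (F := F) (m := m)) (by
    rw [card_D]; have := q_ge (F := F) (m := m); omega)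
  obtain ⟨-, -, x, -, -, hx, -⟩ := D_shape hl l1
  have two : ∀ r : ℕ, r.Prime → r ∣ q ^ 2 → r = 2 := fun r hr h1 => by
    rw [h.hF] at h1
    exact (Nat.prime_dvd_prime_iff_eq hr Nat.prime_two).1 (hr.dvd_of_dvd_pow (hr.dvd_of_dvd_pow h1))
  have dv : ∀ r : ℕ, r.Prime → ∀ φ : IrrCharacter (Sz F m), r ∣ dg φ →
      r = 2 ∨ r ∣ (q - 1) * (q ^ 2 + 1) := fun r hr φ h1 => by
    have := h1.trans (φ.2.degree_dvd_card (dg_eq φ))
    rw [card_sz, mul_assoc, mul_comm (q ^ 2 + 1)] at this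
    exact ((Nat.Prime.dvd_mul hr).1 this).imp_left (two r hr)
  have ev : ∀ s : ℕ, s.Prime → s ≠ 2 → ∀ φ : IrrCharacter (Sz F m), 2 ∣ dg φ → s ∣ dg φ →
      s ∣ q - 1 := fun s hs s2 φ h1 h2 => by
    rcases c4 φ h1 with k | k
    · exact (s2 (two s hs (k ▸ h2))).elim
    · exact ((Nat.Prime.dvd_mul hs).1 ((dv s hs φ h2).resolve_left s2)).resolve_right fun h3 =>
        hs.one_lt.ne' (Nat.eq_one_of_dvd_coprimes c1 (k ▸ h2) h3)
  have mk : ∀ r s : ℕ, r ≠ s → r.Prime → s.Prime → ∀ φ : IrrCharacter (Sz F m), r ∣ dg φ → s ∣ dg φ →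
      ∃ d ∈ Set.range (dg (G := Sz F m)), r * s ∣ d := fun r s ne hr hs φ h1 h2 =>
    ⟨_, ⟨φ, rfl⟩, ((Nat.coprime_primes hr hs).2 ne).mul_dvd_of_dvd_of_dvd h1 h2⟩
  refine ⟨Set.ext fun r => and_congr_right fun hr => ?_, fun r s => and_congr_right fun ne =>
    and_congr_right fun hr => and_congr_right fun hs => ?_⟩ <;> rw [hd]
  · refine ⟨by rintro ⟨_, ⟨φ, rfl⟩, h1⟩; exact dv r hr φ h1, ?_⟩
    rintro (rfl | h1)
    · exact ⟨_, ⟨c, rfl⟩, c3⟩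
    rcases (Nat.Prime.dvd_mul hr).1 h1 with h1 | h1
    exacts [⟨_, ⟨c, rfl⟩, h1.trans c2⟩, ⟨_, ⟨x, rfl⟩, hx ▸ h1⟩]
  · constructor
    · rintro ⟨_, ⟨φ, rfl⟩, h1⟩
      have h2 := (dvd_mul_right r s).trans h1
      have h3 := (dvd_mul_left s r).trans h1
      by_cases r2 : r = 2
      · exact .inr (.inl ⟨r2, ev s hs (r2 ▸ ne.symm) φ (r2 ▸ h2) h3⟩)
      by_cases s2 : s = 2
      · exact .inr (.inr ⟨s2, ev r hr r2 φ (s2 ▸ h3) h2⟩)
      exact .inl ⟨(dv r hr φ h2).resolve_left r2, (dv s hs φ h3).resolve_left s2⟩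
    · rintro (⟨h1, h2⟩ | ⟨rfl, h1⟩ | ⟨rfl, h1⟩)
      · rcases (Nat.Prime.dvd_mul hr).1 h1 with h1 | h1 <;>
          rcases (Nat.Prime.dvd_mul hs).1 h2 with h2 | h2
        · exact mk r s ne hr hs c (h1.trans c2) (h2.trans c2)
        · obtain ⟨y, y1, y2⟩ := c5 s hs h2
          exact mk r s ne hr hs y (h1.trans y1) y2
        · obtain ⟨y, y1, y2⟩ := c5 r hr h1
          exact mk r s ne hr hs y y2 (h2.trans y1)
        · exact mk r s ne hr hs x (hx ▸ h1) (hx ▸ h2)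
      · exact mk _ s ne hr hs c c3 (h1.trans c2)
      · exact mk r _ ne hr hs c (h1.trans c2) c3

end CfsgH6.Dg
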