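import Cfsg.Agent.H3.Hk2
import Cfsg.Agent.H8.SL2f
import Cfsg.Agent.H8.Aff

set_option autoImplicit false

/-! Character degrees from a rank one configuration and from a self-centralising element. -/

namespace CfsgH6.Dq
open Cfsg CfsgH3 CfsgH8 Finset
open scoped ComplexConjugate

variable {G : Type*} [Group G] [Fintype G] {B : Subgroup G}

theorem sum_split {F : G → ℂ} {α β : ℂ} (h1 : ∀ x ∈ B, F x = α) (h2 : ∀ x ∉ B, F x = β) :
    ∑ x, F x = Nat.card B * α + (Nat.card G - Nat.card B) * β := by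
  have := Fintype.ofFinite B
  have : ∀ x, F x = extendByZero B (fun _ => α - β) x * 1 + β := fun x => by
    by_cases h : x ∈ B
    · rw [extendByZero_of_mem _ h, h1 x h]; ring
    · rw [extendByZero_of_not_mem _ h, h2 x h]; ring
  simp only [this, sum_add_distrib, sum_extendByZero_mul, sum_const, card_univ, Nat.card_eq_fintype_card,
    nsmul_eq_mul]
  ring

theorem mackey2 [Fintype B] {w : G} (bru : ∀ x ∉ B, ∃ a ∈ B, ∃ b ∈ B, x = a * w * b) {θ φ : B → ℂ}
    (hθ : IsClassFunction B θ) (hφ : IsClassFunction B φ) :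
    classInner (indFun B θ) (indFun B φ) = classInner θ φ + (Nat.card B : ℂ)⁻¹ ^ 2 *
      (Nat.card G - Nat.card B) * ∑ b : B, θ b * conj (extendByZero B φ (w⁻¹ * b * w)) := by
  have k : ∀ y, ∀ a ∈ B, ∀ c ∈ B, ∑ b : B, θ b * conj (extendByZero B φ ((a * y * c)⁻¹ * b * (a * y * c))) =
      ∑ b : B, θ b * conj (extendByZero B φ (y⁻¹ * b * y)) := fun y a ha c hc =>
    Fintype.sum_equiv (MulAut.conj (⟨a, ha⟩ : B)⁻¹).toEquiv _ _ fun b => by
      rw [← extendByZero_conj_mem hφ hc (y⁻¹ * _ * y), ← hθ b ⟨a, ha⟩⁻¹]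
      congr 3
      simp [mul_assoc]
  rw [classInner_indFun_left _ (isClassFunction_indFun _), classInner]
  simp only [indFun_apply, map_mul, map_sum, map_inv₀, map_natCast, mul_left_comm (θ _), ← mul_sum]
  simp only [mul_sum]
  rw [sum_comm]
  simp only [← mul_sum]
  rw [sum_split (B := B) (α := ∑ b : B, θ b * conj (φ b))
    (β := ∑ b : B, θ b * conj (extendByZero B φ (w⁻¹ * b * w))) (fun x hx => ?_) fun x hx => ?_, classInner]
  · have := natCard_ne_zero B
    field_simp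
  · have := k 1 x hx 1 B.one_mem
    simpa only [mul_one, inv_one, one_mul, extendByZero_coe] using this
  · obtain ⟨a, ha, c, hc, rfl⟩ := bru x hx
    exact k w a ha c hc

theorem parity {P : Type*} [Group P] [Fintype P] (ho : Odd (Nat.card P)) {ψ : P → ℂ}
    (hi : ∀ u, IsIntegral ℤ (ψ u)) (hr : ∀ u, ψ u⁻¹ = ψ u) : IsIntegral ℤ ((∑ u, ψ u - ψ 1) / 2) := by
  classical
  let A := (integralClosure ℤ ℂ).toSubring.toAddSubgroup.comap (AddMonoidHom.mulRight (2 : ℂ)⁻¹)
  have : ∑ u ∈ univ.erase 1, QuotientAddGroup.mk' A (ψ u) = 0 :=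
    sum_involution (fun u _ => u⁻¹) (fun u _ => by
      rw [hr, ← map_add, QuotientAddGroup.mk'_apply, QuotientAddGroup.eq_zero_iff]
      change IsIntegral ℤ ((ψ u + ψ u) * 2⁻¹)
      convert hi u using 1
      ring) (fun u h _ e => (mem_erase.1 h).1 ((sq_eq_one_iff_of_odd ho u).1 (by
        rw [sq, ← eq_inv_iff_mul_eq_one, e]))) (by simp) (by simp)
  rw [← map_sum, QuotientAddGroup.mk'_apply, QuotientAddGroup.eq_zero_iff, sum_erase_eq_sub (mem_univ _)]
    at this
  exact this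

theorem ps {C : Type*} [CommGroup C] [IsCyclic C] [Fintype C] (hC : Nat.card C = 8) (hG : Nat.card G = 6048)
    (pf : ∀ f : G →* ℂˣ, f = 1) (l : B →* C) {w : G} (bru : ∀ x ∉ B, ∃ a ∈ B, ∃ b ∈ B, x = a * w * b)
    (hl : ∀ (t : B) (h : w⁻¹ * t * w ∈ B), l ⟨_, h⟩ = l t ^ 5)
    (inj : ∀ t : B, w⁻¹ * t * w ∈ B → l t = 1 → t = 1) (sur : ∀ c, ∃ t : B, w⁻¹ * t * w ∈ B ∧ l t = c)
    (hU : Nat.card l.ker = 27) (re : ∀ u : B, l u = 1 → IsConj (u : G) u⁻¹) :
    28 ∈ charDegrees G ∧ 21 ∈ charDegrees G := by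
  classical
  have := Fintype.ofFinite B
  choose τ h1 h2 using sur
  have c8 : ∀ c : C, c ^ 8 = 1 := fun c => hC ▸ pow_card_eq_one'
  have hB : Nat.card B = 216 := by
    rw [← l.ker.card_mul_index, hU, Subgroup.index_ker, MonoidHom.range_eq_top.2 fun c => ⟨_, h2 c⟩,
      Subgroup.card_top, hC]
  have hi : B.index = 28 := Nat.eq_of_mul_eq_mul_left (by decide : 0 < 216) (by
    rw [← hB, B.card_mul_index, hG, hB])
  have ir := fun f : C →* ℂˣ => isIrr_of_unitsHom (f.comp l)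
  have nrm : ∀ f : C →* ℂˣ, classInner (indFun B fun b => f.comp l b) (indFun B fun b => f.comp l b) =
      1 + 8⁻¹ * ∑ c, (f (c ^ 4) : ℂ) := fun f => by
    rw [mackey2 bru (ir f).isClassFunction (ir f).isClassFunction, (ir f).classInner_self, hB, hG,
      ← Fintype.sum_of_injective τ (fun a b h => by rw [← h2 a, h, h2]) (fun c => (f (c ^ 4) : ℂ)) _
        (fun b hb => ?_) fun c => ?_]
    · norm_num
    · rw [extendByZero_of_not_mem _ fun h => hb ⟨l b, (inv_mul_eq_one.1 (inj _ ?_ ?_)).symm⟩, map_zero,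
        mul_zero]
      · simpa [mul_assoc] using B.mul_mem (B.inv_mem h) (h1 (l b))
      · rw [map_mul, map_inv, h2, inv_mul_cancel]
    · rw [extendByZero_of_mem _ (h1 c), ← (ir f).isCharacter.apply_inv, ← Units.val_mul, ← map_mul,
        MonoidHom.comp_apply, map_mul, map_inv, hl, h2]
      congr 2
      rw [eq_mul_inv_iff_mul_eq, ← pow_add, pow_succ' c 8, c8, mul_one]
  have e := mulEquivOfCyclicCardEq (hC.trans (Complex.card_rootsOfUnity 8).symm)
  let χ : C →* ℂˣ := (Subgroup.subtype _).comp e.toMonoidHom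
  have hχ : ∀ c, χ c = 1 → c = 1 := (injective_iff_map_eq_one _).1 (Subtype.val_injective.comp e.injective)
  obtain ⟨g, hg⟩ := IsCyclic.exists_ofOrder_eq_natCard (α := C)
  have g4 : ∀ n, 0 < n → n < 8 → χ (g ^ n) ≠ 1 := fun n a b h =>
    pow_ne_one_of_lt_orderOf a.ne' (by rwa [hg, hC]) (hχ _ h)
  have d1 : ∀ f : C →* ℂˣ, indFun B (fun b => f.comp l b) 1 = 28 := fun f => by
    rw [indFun_apply_one, hi]; simp
  refine ⟨mem_charDegrees.2 ⟨_, (ir χ).isCharacter.ind.isIrr_of_inner_eq_one ?_, d1 χ⟩, ?_⟩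
  · rw [nrm, show ∑ c, (χ (c ^ 4) : ℂ) = 0 from sum_hom_units_eq_zero
      ((Units.coeHom ℂ).comp (χ.comp (powMonoidHom 4))) fun h =>
        g4 4 (by decide) (by decide) (Units.ext (DFunLike.congr_fun h g)), mul_zero, add_zero]
  let f := χ.comp (powMonoidHom 2)
  have cθ := (ir f).isCharacter.ind
  obtain ⟨a, ha, hb, ia, ib⟩ := CfsgRO.exists_of_norm_two cθ (by
    have : ∀ c, f (c ^ 4) = 1 := fun c => by
      rw [MonoidHom.comp_apply, powMonoidHom_apply, ← pow_mul, c8, map_one]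
    simp only [nrm, this, Units.val_one, sum_const, card_univ, ← Nat.card_eq_fintype_card, hC]
    norm_num)
  generalize hθ : (indFun B fun b => (f.comp l b : ℂ)) = θ at *
  have hb := hb.isIrr_of_inner_eq_one (by
    rw [classInner_sub_right, ib, classInner_sub_left, cθ.classInner_comm ha.isCharacter, ia,
      ha.classInner_self]; ring)
  have k : ∀ ψ, IsIrrCharacter G ψ → classInner ψ θ = 1 → ∃ d m : ℕ, ψ 1 = d ∧ d ∣ 6048 ∧ d ≠ 1 ∧
      ∑ u : l.ker, ψ u = 27 * (m + 1) ∧ (m = 0 → d % 2 = 1) := fun ψ hψ h => by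
    rw [← hθ, classInner_indFun_right _ hψ.isClassFunction] at h
    obtain ⟨d, hd⟩ := hψ.isCharacter.exists_nat_apply_one
    obtain ⟨m, hm⟩ := (((hψ.isCharacter.restrict B).sub_of_constituent (ir f)
      (h ▸ one_ne_zero)).restrict l.ker).exists_nat_classInner isCharacter_one
    have s : ∑ u : l.ker, ψ u = 27 * (m + 1) := by
      have : ∀ u : l.ker, (f.comp l u : ℂ) = 1 := fun u => by
        rw [MonoidHom.comp_apply, u.2, map_one, Units.val_one]
      simp only [classInner_one_right, hU, Pi.sub_apply, this, sum_sub_distrib, sum_const, card_univ,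
        ← Nat.card_eq_fintype_card, nsmul_eq_mul] at hm
      push_cast at hm
      linear_combination 27 * hm
    refine ⟨d, m, hd, hG ▸ hψ.degree_dvd_card hd, ?_, s, ?_⟩
    · rintro rfl
      obtain ⟨p, rfl⟩ := hψ.isCharacter.exists_monoidHom (by simpa using hd)
      rw [pf p, show (fun b : B => ((1 : G →* ℂˣ) b : ℂ)) = fun _ => 1 from rfl,
        isIrr_one.classInner_of_ne (ir f) fun e => g4 2 (by decide) (by decide) (Units.ext (by
          have := congrFun e (τ g)
          rw [MonoidHom.comp_apply, h2] at this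
          exact this.symm))] at h
      exact zero_ne_one h
    · rintro rfl
      have := parity (P := l.ker) (ψ := fun u => ψ u) (by rw [hU]; decide)
        (fun u => hψ.isCharacter.isIntegral _) fun u => (hψ.isClassFunction.eq_of_isConj (re u u.2)).symm
      simp only [s, OneMemClass.coe_one, hd] at this
      have := int_dvd_of_isIntegral_div (a := 27 - d) (b := 2) two_ne_zero (by simpa using this)
      omega
  obtain ⟨d, m, a1, a2, a3, a4, a5⟩ := k a ha ia
  obtain ⟨d', m', b1, b2, b3, b4, b5⟩ := k _ hb ib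
  have s : ∑ u : l.ker, θ u = 54 := by
    have : ∀ u : l.ker, θ u = if u = 1 then 28 else 1 := fun u => by
      split_ifs with h
      · rw [h, ← hθ]; exact d1 f
      rw [← hθ, indFun_apply, sum_split (B := B) (α := 1) (β := 0) (fun x hx => ?_) fun x hx => ?_, hB]
      · norm_num
      · rw [extendByZero_conj_mem (ir f).isClassFunction hx, extendByZero_coe, MonoidHom.comp_apply, u.2,
          map_one, Units.val_one]
      · obtain ⟨a, ha, c, hc, rfl⟩ := bru x hx
        refine extendByZero_of_not_mem _ fun e => h (Subtype.ext ?_)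
        have := inj (⟨a, ha⟩⁻¹ * u * ⟨a, ha⟩) (by
          simpa [mul_assoc] using B.mul_mem (B.mul_mem hc e) (B.inv_mem hc)) (by
            rw [map_mul, map_mul, u.2, mul_one, ← map_mul, inv_mul_cancel, map_one])
        simpa [mul_assoc, inv_mul_eq_one] using this
    simp only [this, sum_ite, sum_const, filter_eq', mem_univ, if_true, card_singleton, filter_ne',
      card_erase_of_mem, card_univ, ← Nat.card_eq_fintype_card, hU]
    norm_num
  simp only [Pi.sub_apply, sum_sub_distrib, s, a4] at b4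
  have e1 : m + m' = 0 := by exact_mod_cast (by linear_combination -b4 / 27 : (m : ℂ) + m' = 0)
  have e2 : d + d' = 28 := by
    have := d1 f
    rw [hθ] at this
    rw [Pi.sub_apply, this, a1] at b1
    exact_mod_cast (by linear_combination -b1 : (d : ℂ) + d' = 28)
  have : d = 21 ∨ d' = 21 := by
    have := a5 (by omega)
    obtain rfl : d' = 28 - d := by omega
    have : d ≤ 28 := by omega
    interval_cases d <;> omega
  rcases this with rfl | rfl
  exacts [mem_charDegrees.2 ⟨_, ha, a1⟩, mem_charDegrees.2 ⟨_, hb, b1⟩]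

/-- a root of `X ^ 2 + X + 2` -/
noncomputable def η : ℂ := ⟨-1 / 2, √7 / 2⟩

theorem η_sq : η ^ 2 + η + 2 = 0 := by
  have := Real.sq_sqrt (show (0 : ℝ) ≤ 7 by norm_num)
  apply Complex.ext <;> simp [η, sq] <;> nlinarith

theorem η_conj : conj η = -1 - η := by
  apply Complex.ext <;> simp [η]
  norm_num

theorem η_ind {a b : ℤ} (h : a + b * η = 0) : a = 0 ∧ b = 0 := by
  have h1 := congrArg Complex.im h
  simp [η] at h1
  subst h1
  simpa using h

theorem val7 {x : G} (h7 : x ^ 7 = 1) (h2 : IsConj x (x ^ 2)) {χ : G → ℂ} (hχ : IsCharacter G χ) :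
    ∃ (d : ℕ) (a b : ℤ), χ 1 = d ∧ χ x = a + b * η ∧ (7 : ℤ) ∣ d - a - 3 * b := by
  obtain ⟨n, s, h1, hs, -, hk⟩ := hχ.exists_eigenvalues x
  have k : ∀ i, ∃ a b c : ℕ, a + b + c = 1 ∧ s i + s i ^ 2 + s i ^ 4 = 3 * a + b * η + c * (-1 - η) :=
    fun i => by
      obtain ⟨k, hk⟩ := orderOf_dvd_of_pow_eq_one h7
      have e : s i ^ 7 = 1 := by rw [hk, pow_mul, hs, one_pow]
      generalize s i = z at e
      have : (z - 1) * ((z + z ^ 2 + z ^ 4 - η) * (z + z ^ 2 + z ^ 4 + 1 + η)) = 0 := by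
        linear_combination (z ^ 2 - z + 2) * e - (z - 1) * η_sq
      rcases mul_eq_zero.1 this with h | h
      · exact ⟨1, 0, 0, rfl, by rw [sub_eq_zero.1 h]; norm_num⟩
      rcases mul_eq_zero.1 h with h | h
      · exact ⟨0, 1, 0, rfl, by push_cast; linear_combination h⟩
      · exact ⟨0, 0, 1, rfl, by push_cast; linear_combination h⟩
  choose a b c h3 h4 using k
  have e1 : ∑ i, a i + ∑ i, b i + ∑ i, c i = n := by simp [← sum_add_distrib, h3]
  have e2 : 3 * χ x = 3 * (∑ i, a i : ℕ) + (∑ i, b i : ℕ) * η + (∑ i, c i : ℕ) * (-1 - η) := by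
    have c2 := hχ.isClassFunction.eq_of_isConj h2
    have c4 := hχ.isClassFunction.eq_of_isConj (h2.pow 2)
    have k1 := hk 1
    have k2 := hk 2
    have k4 := hk 4
    simp only [zpow_ofNat, pow_one, ← pow_mul] at k1 k2 k4 c4
    push_cast
    simp only [mul_sum, sum_mul, ← sum_add_distrib, ← h4]
    simp only [sum_add_distrib]
    linear_combination k1 + k2 + k4 + 2 * c2 + c4
  generalize ∑ i, a i = A at *
  generalize ∑ i, b i = B at *
  generalize ∑ i, c i = C at *
  have e3 : 3 * conj (χ x) = 3 * A + B * (-1 - η) + C * η := by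
    have := congrArg conj e2
    simp only [map_mul, map_add, map_sub, map_neg, map_one, map_ofNat, map_natCast, η_conj] at this
    linear_combination this
  have i1 := hχ.isIntegral x
  have i2 := hχ.conj.isIntegral x
  have j1 := int_dvd_of_isIntegral_div (a := 6 * A - B - C) (b := 3) (by decide) (Eq.subst (motive := IsIntegral ℤ) (by
    push_cast
    linear_combination (e2 + e3) / 3) (i1.add i2))
  have j2 := int_dvd_of_isIntegral_div (a := (3 * A - C) ^ 2 - (3 * A - C) * (B - C) + 2 * (B - C) ^ 2)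
    (b := 9) (by decide) (Eq.subst (motive := IsIntegral ℤ) (by
      push_cast
      linear_combination (conj (χ x)) / 3 * e2 + (3 * A + B * η + C * (-1 - η)) / 9 * e3 -
        ((B : ℂ) - C) ^ 2 / 9 * η_sq) (i1.mul i2))
  obtain ⟨t, ht⟩ := j1
  obtain ⟨C', hC⟩ : (3 : ℤ) ∣ C := by
    have : (B : ℤ) = 6 * A - C - 3 * t := by omega
    rw [this] at j2
    refine Int.prime_three.dvd_of_dvd_pow (n := 2) ?_
    obtain ⟨r, hr⟩ := j2
    exact ⟨3 * r + 7 * t * (3 * A - C) - 6 * t ^ 2 - 21 * A ^ 2 + 14 * A * C - 2 * C ^ 2,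
      by linear_combination hr⟩
  refine ⟨n, A - C', 2 * A - 2 * C' - t, h1, ?_, C', by omega⟩
  have : (B : ℂ) = 6 * A - C - 3 * t := by exact_mod_cast (by omega : (B : ℤ) = 6 * A - C - 3 * t)
  have hC : (C : ℂ) = 3 * C' := by exact_mod_cast hC
  push_cast
  linear_combination e2 / 3 + η / 3 * this - (1 + 2 * η) / 3 * hC

/-- the possible contributions -/
def Ty (v : ℤ × ℤ × ℤ × ℤ × ℤ) : Prop := ∃ a b c d e f g h i j k : ℕ, v = ((a : ℤ) + b + f + g + h + i + j + k,
  (c : ℤ) + d + e + f + g + h + i + j + k, (f : ℤ) + g + h - i - j - k,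
  (8 : ℤ) * a - 27 * b + 4 * f + 32 * g - 3 * h - 2 * i - 16 * j - 9 * k,
  (3 : ℤ) * c - 4 * d - 32 * e + 4 * f + 32 * g - 3 * h + 2 * i + 16 * j + 9 * k)

theorem ty_of {d : ℕ} {a b : ℤ} (ha : a ^ 2 ≤ 3) (hb : b ^ 2 ≤ 2) (h1 : d ∣ 6048) (h2 : d ≠ 1) (h3 : ¬ 6 ∣ d)
    (h4 : (7 : ℤ) ∣ d - a - 3 * b) : Ty (a ^ 2, b ^ 2, a * b, d * a, d * b) := by
  have k : ∀ d ∈ Nat.divisors 6048, d ≠ 1 → ¬ 6 ∣ d → 7 ∣ d ∨ d ∈ [2, 3, 4, 8, 9, 16, 27, 32] := by
    decide +kernel
  have a1 : -1 ≤ a := by nlinarith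
  have a2 : a ≤ 1 := by nlinarith
  have b1 : -1 ≤ b := by nlinarith
  have b2 : b ≤ 1 := by nlinarith
  rcases k d (Nat.mem_divisors.2 ⟨h1, by decide⟩) h2 h3 with h | h
  · obtain ⟨rfl, rfl⟩ : a = 0 ∧ b = 0 := by omega
    exact ⟨0, 0, 0, 0, 0, 0, 0, 0, 0, 0, 0, by simp⟩
  simp only [List.mem_cons, List.not_mem_nil, or_false] at h
  interval_cases a <;> interval_cases b <;> rcases h with rfl | rfl | rfl | rfl | rfl | rfl | rfl | rfl <;>
    first
    | exact absurd h4 (by decide)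
    | exact ⟨1, 0, 0, 0, 0, 0, 0, 0, 0, 0, 0, by decide⟩
    | exact ⟨0, 1, 0, 0, 0, 0, 0, 0, 0, 0, 0, by decide⟩
    | exact ⟨0, 0, 1, 0, 0, 0, 0, 0, 0, 0, 0, by decide⟩
    | exact ⟨0, 0, 0, 1, 0, 0, 0, 0, 0, 0, 0, by decide⟩
    | exact ⟨0, 0, 0, 0, 1, 0, 0, 0, 0, 0, 0, by decide⟩
    | exact ⟨0, 0, 0, 0, 0, 1, 0, 0, 0, 0, 0, by decide⟩
    | exact ⟨0, 0, 0, 0, 0, 0, 1, 0, 0, 0, 0, by decide⟩
    | exact ⟨0, 0, 0, 0, 0, 0, 0, 1, 0, 0, 0, by decide⟩
    | exact ⟨0, 0, 0, 0, 0, 0, 0, 0, 1, 0, 0, by decide⟩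
    | exact ⟨0, 0, 0, 0, 0, 0, 0, 0, 0, 1, 0, by decide⟩
    | exact ⟨0, 0, 0, 0, 0, 0, 0, 0, 0, 0, 1, by decide⟩

theorem six (hG : Nat.card G = 6048) (pf : ∀ f : G →* ℂˣ, f = 1) {x : G} (h7 : x ^ 7 = 1) (h1 : x ≠ 1)
    (h2 : IsConj x (x ^ 2)) (h3 : ¬ IsConj x x⁻¹) (h4 : Nat.card (Subgroup.centralizer {x}) = 7) :
    ∃ d ∈ charDegrees G, 6 ∣ d := by
  classical
  by_contra! H
  choose d a b e1 e2 e3 using fun χ : IrrCharacter G => val7 h7 h2 χ.2.isCharacter
  let o : IrrCharacter G := ⟨_, isIrr_one⟩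
  have o1 : d o = 1 := by exact_mod_cast (show (d o : ℂ) = 1 from (e1 o).symm)
  obtain ⟨o2, o3⟩ := η_ind (a := a o - 1) (b := b o) (by push_cast; linear_combination -e2 o)
  have s1 := column_orthogonality x x
  have s2 := column_orthogonality_of_not_isConj h3
  have s3 := sum_irr_deg_mul x
  rw [classInd_of_isConj (IsConj.refl x), h4] at s1
  rw [regChar_of_ne h1] at s3
  simp only [(Subtype.property _ : IsIrrCharacter G _).isCharacter.apply_inv, Complex.conj_conj] at s2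
  simp only [e1, e2, map_add, map_mul, map_intCast, η_conj] at s1 s2 s3
  have t1 : ∑ χ, (a χ ^ 2 - a χ * b χ + 2 * b χ ^ 2) = 7 := by
    have : ∑ χ, ((a χ : ℂ) ^ 2 - a χ * b χ + 2 * b χ ^ 2) = 7 := by
      rw [← (s1.trans (by norm_num) : _ = (7 : ℂ))]
      exact sum_congr rfl fun χ _ => by linear_combination (b χ : ℂ) ^ 2 * η_sq
    exact_mod_cast this
  have t2 := η_ind (a := ∑ χ, (a χ ^ 2 - 2 * b χ ^ 2)) (b := ∑ χ, (2 * (a χ * b χ) - b χ ^ 2)) (by
    push_cast
    rw [sum_mul, ← sum_add_distrib, ← s2]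
    exact sum_congr rfl fun χ _ => by linear_combination -(b χ : ℂ) ^ 2 * η_sq)
  have t3 := η_ind (a := ∑ χ, d χ * a χ) (b := ∑ χ, d χ * b χ) (by
    push_cast
    rw [sum_mul, ← sum_add_distrib, ← s3]
    exact sum_congr rfl fun χ _ => by ring)
  simp only [sum_add_distrib, sum_sub_distrib, ← mul_sum, ← add_sum_erase _ _ (mem_univ o),
    sub_eq_zero.1 o2, o1, o3] at t1 t2 t3
  have := sum_induction (fun χ => (a χ ^ 2, b χ ^ 2, a χ * b χ, d χ * a χ, d χ * b χ)) Ty
    (s := univ.erase o) (by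
      rintro _ _ ⟨a, b, c, d, e, f, g, h, i, j, k, rfl⟩ ⟨a', b', c', d', e', f', g', h', i', j', k', rfl⟩
      refine ⟨a + a', b + b', c + c', d + d', e + e', f + f', g + g', h + h', i + i', j + j', k + k', ?_⟩
      simp only [Prod.mk_add_mk, Prod.mk.injEq]
      omega) ⟨0, 0, 0, 0, 0, 0, 0, 0, 0, 0, 0, rfl⟩ fun χ hχ => by
        have u1 := single_le_sum (f := fun χ => a χ ^ 2) (fun _ _ => sq_nonneg _) hχ
        have u2 := single_le_sum (f := fun χ => b χ ^ 2) (fun _ _ => sq_nonneg _) hχ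
        refine ty_of (by omega) (by omega) (hG ▸ χ.2.degree_dvd_card (e1 χ)) (fun e => ?_)
          (H _ (mem_charDegrees.2 ⟨_, χ.2, e1 χ⟩)) (e3 χ)
        obtain ⟨p, hp⟩ := χ.2.isCharacter.exists_monoidHom (by rw [e1, e, Nat.cast_one])
        exact (mem_erase.1 hχ).1 (Subtype.ext (hp.trans (by rw [pf p]; rfl)))
  obtain ⟨a, b, c, d, e, f, g, h, i, j, k, hk⟩ := this
  simp only [Prod.ext_iff, Prod.fst_sum, Prod.snd_sum] at hk
  have b3 : b ≤ 3 := by omega
  have g2 : g ≤ 2 := by omega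
  have e2 : e ≤ 2 := by omega
  interval_cases b <;> interval_cases g <;> interval_cases e <;> omega

theorem aff_deg {R : Type*} [CommRing R] [Finite R] {ψ : AddChar R ℂ} (h : ψ.IsPrimitive) :
    Nat.card Rˣ ∈ charDegrees (Aff Rˣ R) := by
  have := Fintype.ofFinite (Aff Rˣ R)
  let N := (SemidirectProduct.rightHom : Aff Rˣ R →* Rˣ).ker
  let f : N →* ℂ := ⟨⟨fun n => ψ n.1.left.toAdd, ψ.map_zero_eq_one⟩, fun m n => by
    have : m.1.right = 1 := m.2
    simp [this, AddChar.map_add_eq_mul]⟩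
  refine mem_charDegrees.2 ⟨_, isIrr_indFun_of_inertia_le (isIrr_of_monoidHom f) fun g hg => ?_, ?_⟩
  · by_contra e
    refine h (a := g.right - 1) (fun c => e (Units.ext (sub_eq_zero.1 c))) (AddChar.ext _ _ fun v => ?_)
    have := mem_inertia'.1 hg ⟨.inl (.ofAdd v), by simp [N]⟩
    have k : (g * .inl (.ofAdd v) * g⁻¹).left.toAdd = g.right * v := by
      simp only [SemidirectProduct.mul_left, SemidirectProduct.mul_right, SemidirectProduct.inv_left,
        SemidirectProduct.left_inl, SemidirectProduct.right_inl]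
      simp [actAut, smul_smul, Units.smul_def]
    change ψ _ = ψ v at this
    rw [AddChar.mulShift_apply, sub_mul, one_mul, AddChar.map_sub_eq_div, ← k, this, AddChar.one_apply,
      div_self (ψ.val_isUnit v).ne_zero]
  · rw [indFun_apply_one, map_one, mul_one, Subgroup.index_ker,
      MonoidHom.range_eq_top.2 SemidirectProduct.rightHom_surjective, Subgroup.card_top]

end CfsgH6.Dq
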