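import Cfsg.Agent.H6.Hc1
import Cfsg.Agent.H8.Zsig

set_option autoImplicit false

open Matrix Polynomial

namespace CfsgH6.Eo

variable {F : Type*} [Field F] [Fintype F] {q k : ℕ}

theorem pow_S (hF : Fintype.card F = q) (a : F) : a ^ (∑ i ∈ Finset.range k, q ^ i) = a ^ k := by
  rw [← Finset.prod_pow_eq_pow_sum, ← hF]
  simp [FiniteField.pow_card_pow]

theorem N_eq (h2 : 2 ≤ q) : (q ^ (2 * k) - 1) / (q - 1) = (∑ i ∈ Finset.range k, q ^ i) * (q ^ k + 1) ∧
    q ^ (2 * k) - 1 = (∑ i ∈ Finset.range k, q ^ i) * (q ^ k + 1) * (q - 1) := by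
  have h : q ^ (2 * k) - 1 = (∑ i ∈ Finset.range k, q ^ i) * (q ^ k + 1) * (q - 1) := by
    rw [mul_right_comm, geom_sum_mul_of_one_le (by omega), mul_comm 2, pow_mul, mul_comm, ← Nat.sq_sub_sq,
      one_pow]
  exact ⟨by rw [h, Nat.mul_div_cancel _ (by omega)], h⟩

omit [Fintype F] in
theorem mk_pow {n : ℕ} (A : SpecialLinearGroup (Fin n) F) (j : ℕ) :
    (QuotientGroup.mk A : ProjectiveSpecialLinearGroup (Fin n) F) ^ j = 1 ↔
      ∃ c : F, algebraMap F _ c = A.1 ^ j := by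
  rw [← QuotientGroup.mk_pow, QuotientGroup.eq_one_iff, Matrix.SpecialLinearGroup.mem_center_iff]
  refine ⟨fun ⟨c, _, h⟩ => ⟨c, h⟩, fun ⟨c, h⟩ => ⟨c, ?_, h⟩⟩
  have := congrArg det h
  rw [det_pow, A.det_coe, one_pow] at this
  simpa [algebraMap_eq_diagonal] using this

theorem back (hF : Fintype.card F = q) (hk : 0 < k) (h : 2 ^ (q - 1).factorization 2 ∣ k) :
    ∃ g : ProjectiveSpecialLinearGroup (Fin (2 * k)) F, orderOf g = q ^ k + 1 := by
  classical
  have h2 : 2 ≤ q := hF ▸ Fintype.one_lt_card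
  obtain ⟨p, hp⟩ := CharP.exists F
  have : Fact p.Prime := ⟨CharP.char_is_prime F p⟩
  have : NeZero (2 * k) := ⟨by omega⟩
  let K := FiniteField.Extension F p (2 * k)
  have hK : Nat.card K = q ^ (2 * k) := by
    rw [FiniteField.natCard_extension, Nat.card_eq_fintype_card, hF]
  let b := Module.finBasisOfFinrankEq F K (FiniteField.finrank_extension F p (2 * k))
  obtain ⟨ω, hω⟩ := IsCyclic.exists_ofOrder_eq_natCard (α := Kˣ)
  rw [Nat.card_units, hK] at hω
  set t := ordCompl[2] (q - 1) with ht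
  set S := ∑ i ∈ Finset.range k, q ^ i with hS
  have n0 : Algebra.norm F (ω : K) ≠ 0 := Algebra.norm_ne_zero_iff.2 ω.ne_zero
  have S0 : 0 < S := Finset.sum_pos (fun i _ => by positivity) ⟨0, by simpa using hk⟩
  have co : (q ^ k + 1).Coprime t := Nat.coprime_of_dvd fun s hs h1 h3 => by
    have h4 : s ∣ q ^ k - 1 := (h3.trans (Nat.ordCompl_dvd _ _)).trans (Nat.sub_one_dvd_pow_sub_one q k)
    have h5 := Nat.dvd_sub h1 h4
    rw [show q ^ k + 1 - (q ^ k - 1) = 2 by have := Nat.one_le_pow k q (by omega); omega,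
      Nat.prime_dvd_prime_iff_eq hs Nat.prime_two] at h5
    exact Nat.not_dvd_ordCompl Nat.prime_two (by omega) (h5 ▸ h3)
  refine ⟨QuotientGroup.mk ⟨Algebra.leftMulMatrix b ((ω : K) ^ (t * S)), ?_⟩, ?_⟩
  · obtain ⟨c, hc⟩ := h
    rw [← Algebra.norm_eq_matrix_det, map_pow, pow_mul, hS, pow_S hF, ← pow_mul,
      show t * k = (q - 1) * c by
        rw [hc, ← mul_assoc, mul_comm t, ht, Nat.ordProj_mul_ordCompl_eq_self], pow_mul, ← hF,
      FiniteField.pow_card_sub_one_eq_one _ n0, one_pow]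
  refine (orderOf_eq_iff (by positivity)).2 ⟨(mk_pow _ _).2 ⟨Algebra.norm F (ω : K) ^ t, ?_⟩,
    fun j h1 h0 e => ?_⟩
  · change _ = Algebra.leftMulMatrix b _ ^ _
    rw [← (Algebra.leftMulMatrix b).commutes, ← map_pow (Algebra.leftMulMatrix b), map_pow (algebraMap F K),
      FiniteField.algebraMap_norm_eq_pow, hK, Nat.card_eq_fintype_card, hF, (N_eq h2).1, ← pow_mul,
      ← pow_mul]
    congr 2; ring
  · obtain ⟨c, hc⟩ := (mk_pow _ _).1 e
    change _ = Algebra.leftMulMatrix b _ ^ _ at hc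
    rw [← (Algebra.leftMulMatrix b).commutes, ← map_pow] at hc
    have h3 := Algebra.leftMulMatrix_injective b hc
    have c0 : c ≠ 0 := by rintro rfl; simp at h3; exact absurd h3.symm (by simp)
    have h4 : ω ^ (t * S * j * (q - 1)) = 1 := Units.ext (by
      rw [Units.val_pow_eq_pow_val, pow_mul, pow_mul, ← h3, ← map_pow, ← hF,
        FiniteField.pow_card_sub_one_eq_one _ c0, map_one, Units.val_one])
    have h5 := orderOf_dvd_of_pow_eq_one h4
    rw [hω, (N_eq h2).2, Nat.mul_dvd_mul_iff_right (by omega), mul_comm t, mul_assoc,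
      Nat.mul_dvd_mul_iff_left S0] at h5
    have := Nat.le_of_dvd h0 (co.dvd_of_dvd_mul_left h5)
    omega

theorem forth (hF : Fintype.card F = q) (hodd : Odd q) (hk : 2 ≤ k)
    (g : ProjectiveSpecialLinearGroup (Fin (2 * k)) F) (hg : orderOf g = q ^ k + 1) :
    2 ^ (q - 1).factorization 2 ∣ k := by
  classical
  have h2 : 2 ≤ q := hF ▸ Fintype.one_lt_card
  obtain ⟨A, rfl⟩ := QuotientGroup.mk_surjective g
  have hA : ∀ j, q ^ k + 1 ∣ j ↔ ∃ c : F, algebraMap F _ c = A.1 ^ j := fun j => by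
    rw [← mk_pow, ← hg, orderOf_dvd_iff_pow_eq_one]
  obtain ⟨r, hr, h4⟩ := CfsgH8.zsig (a := q) (n := 2 * k) h2 (by omega)
    (by rintro ⟨rfl, -⟩; exact absurd hodd (by decide)) (by omega)
  have : Fact r.Prime := ⟨hr⟩
  have nd : ∀ e, 0 < e → e < 2 * k → ¬ r ∣ q ^ e - 1 := fun e a b h => by
    rw [Hc.dvd_iff (by omega), h4] at h
    have := Nat.le_of_dvd a h; omega
  have h3 : r ∣ q ^ (2 * k) - 1 := (Hc.dvd_iff (by omega) _).2 (h4 ▸ dvd_rfl)
  obtain ⟨u, hu⟩ : r ∣ q ^ k + 1 := by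
    rw [mul_comm 2, pow_mul, ← one_pow 2, Nat.sq_sub_sq] at h3
    exact ((Nat.Prime.dvd_mul hr).1 h3).resolve_right (nd k (by omega) (by omega))
  have u0 : 0 < u := Nat.pos_of_ne_zero (by rintro rfl; simp at hu)
  obtain ⟨l, hl⟩ := (hA _).1 dvd_rfl
  have l0 : l ≠ 0 := by
    rintro rfl
    have := congrArg det hl
    have : Nonempty (Fin (2 * k)) := ⟨⟨0, by omega⟩⟩
    simp at *
  have d1 : minpoly F A.1 ∣ (∑ i ∈ Finset.range r, (X ^ (u * (q - 1))) ^ i) * (X ^ (u * (q - 1)) - 1) := by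
    rw [geom_sum_mul]
    refine minpoly.dvd _ _ ?_
    simp only [map_sub, map_pow, aeval_X, map_one]
    rw [← pow_mul, mul_right_comm, mul_comm u, ← hu, pow_mul, ← hl, ← map_pow, ← hF,
      FiniteField.pow_card_sub_one_eq_one _ l0, map_one, sub_self]
  have int : IsIntegral F A.1 := Algebra.IsIntegral.isIntegral _
  obtain ⟨h, hm, hi, hd1, hd2⟩ : ∃ h : F[X], h.Monic ∧ Irreducible h ∧ h ∣ minpoly F A.1 ∧
      h ∣ ∑ i ∈ Finset.range r, (X ^ (u * (q - 1))) ^ i := by
    by_contra! hc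
    have co := isCoprime_of_irreducible_dvd (fun e => minpoly.ne_zero int e.1) fun z hz a b =>
      hc (normalize z) (monic_normalize hz.ne_zero) (normalize_associated z |>.symm.irreducible hz)
        (normalize_dvd_iff.2 a) (normalize_dvd_iff.2 b)
    have := aeval_eq_zero_of_dvd_aeval_eq_zero (co.dvd_of_dvd_mul_left d1) (minpoly.aeval F A.1)
    simp only [map_sub, map_pow, aeval_X, map_one, sub_eq_zero] at this
    have := (hA _).2 ⟨1, by rw [this, map_one]⟩
    rw [hu, mul_comm r, Nat.mul_dvd_mul_iff_left u0] at this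
    exact nd 1 one_pos (by omega) (by rwa [pow_one])
  have : Fact (Irreducible h) := ⟨hi⟩
  let K := AdjoinRoot h
  let pb := AdjoinRoot.powerBasis hi.ne_zero
  have : Module.Finite F K := pb.finite
  have : Finite K := Module.finite_of_finite F
  have := Fintype.ofFinite K
  have ev : ∀ f : F[X], aeval (AdjoinRoot.root h) f = 0 ↔ h ∣ f := fun f => by
    rw [AdjoinRoot.aeval_eq, AdjoinRoot.mk_eq_zero]
  have hK : Fintype.card K = q ^ h.natDegree := by
    rw [Module.card_eq_pow_finrank (K := F), hF, pb.finrank]; rfl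
  have s0 := (ev _).2 hd2
  simp only [map_sum, map_pow, aeval_X] at s0
  have rq : (r : K) ≠ 0 := fun e => by
    obtain ⟨p, hp⟩ := CharP.exists K
    obtain ⟨m, pp, hm⟩ := FiniteField.card K p
    have e1 := (Nat.prime_dvd_prime_iff_eq pp hr).1 ((CharP.cast_eq_zero_iff K p r).1 e)
    have e2 : r ∣ q := hr.dvd_of_dvd_pow (n := h.natDegree) (by
      rw [← hK, hm, e1]; exact dvd_pow_self _ m.ne_zero)
    have := (Nat.dvd_add_right (e2.trans (dvd_pow_self q (by omega : k ≠ 0)))).1 ⟨u, hu⟩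
    exact hr.one_lt.ne' (Nat.dvd_one.1 this)
  have o1 : orderOf (AdjoinRoot.root h ^ (u * (q - 1))) = r := orderOf_eq_prime (by
    rw [← sub_eq_zero, ← geom_sum_mul, s0, zero_mul]) fun e => rq (by simpa [e] using s0)
  have a0 : AdjoinRoot.root h ^ (u * (q - 1)) ≠ 0 := fun e => by
    have := pow_orderOf_eq_one (AdjoinRoot.root h ^ (u * (q - 1)))
    rw [o1, e, zero_pow hr.ne_zero] at this
    exact zero_ne_one this
  have o2 := orderOf_dvd_of_pow_eq_one (FiniteField.pow_card_sub_one_eq_one _ a0)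
  rw [o1, hK] at o2
  have dc := hd1.trans (minpoly_dvd_charpoly A.1)
  have dg : h.natDegree = 2 * k := le_antisymm
    (by simpa using natDegree_le_of_dvd dc (charpoly_monic _).ne_zero)
    (by by_contra hc; exact nd _ hi.natDegree_pos (by omega) o2)
  have hc : A.1.charpoly = h := eq_of_monic_of_dvd_of_natDegree_le hm (charpoly_monic _) dc (by simp [dg])
  have nm : Algebra.norm F (AdjoinRoot.root h) = 1 := by
    have := Algebra.PowerBasis.norm_gen_eq_coeff_zero_minpoly pb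
    rw [AdjoinRoot.minpoly_powerBasis_gen_of_monic hm] at this
    rw [← A.det_coe, det_eq_sign_charpoly_coeff, hc, Fintype.card_fin, ← dg]
    exact this
  have aM : AdjoinRoot.root h ^ (q ^ k + 1) = algebraMap F K l := by
    have := (ev (X ^ (q ^ k + 1) - C l)).2 (hd1.trans (minpoly.dvd _ _ (by simp [hl])))
    rwa [map_sub, map_pow, aeval_X, aeval_C, sub_eq_zero] at this
  have lk : l ^ k = 1 := by
    have := FiniteField.algebraMap_norm_eq_pow (K := F) (x := AdjoinRoot.root h)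
    rw [nm, Nat.card_eq_fintype_card, hK, dg, Nat.card_eq_fintype_card, hF, (N_eq h2).1, mul_comm, pow_mul,
      aM, ← map_pow, pow_S hF] at this
    exact ((algebraMap F K).injective this).symm
  by_contra hc2
  obtain ⟨c, hc'⟩ := orderOf_dvd_of_pow_eq_one (hF ▸ FiniteField.pow_card_sub_one_eq_one _ l0)
  have ce : 2 ∣ c := by
    by_contra hh
    refine hc2 (dvd_trans ?_ (orderOf_dvd_of_pow_eq_one lk))
    exact (((Nat.Prime.coprime_iff_not_dvd Nat.prime_two).2 hh).pow_left _).dvd_of_dvd_mul_right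
      (hc' ▸ Nat.ordProj_dvd _ _)
  obtain ⟨c, rfl⟩ := ce
  obtain ⟨μ, hμ⟩ : IsSquare l := (FiniteField.isSquare_iff (fun e => by
    have := FiniteField.even_card_iff_char_two.1 e
    have := Nat.odd_iff.1 hodd
    omega) l0).2 (by
      rw [hF, show q / 2 = orderOf l * c by
        have : orderOf l * (2 * c) = 2 * (orderOf l * c) := by ring
        omega, pow_mul, pow_orderOf_eq_one, one_pow])
  obtain ⟨w, hw⟩ : Even (q ^ k + 1) := hodd.pow.add_one
  obtain ⟨ν, hν⟩ : ∃ ν : F, AdjoinRoot.root h ^ w = algebraMap F K ν := by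
    rw [hw, pow_add, hμ, map_mul, mul_self_eq_mul_self_iff] at aM
    exact aM.elim (fun e => ⟨μ, e⟩) fun e => ⟨-μ, by rw [e, map_neg]⟩
  have := aeval_eq_zero_of_dvd_aeval_eq_zero ((ev (X ^ w - C ν)).1 (by
    rw [map_sub, map_pow, aeval_X, aeval_C, hν, sub_self]))
    (show aeval A.1 h = 0 by rw [← hc]; exact aeval_self_charpoly _)
  have := Nat.le_of_dvd (by omega) ((hA w).2 ⟨ν, by
    rwa [map_sub, map_pow, aeval_X, aeval_C, sub_eq_zero, eq_comm] at this⟩)
  omega

end CfsgH6.Eo
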