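import Cfsg.Agent.H6.StBN
import Cfsg.Prelude.Def_LinearParabolics

/-! Parabolic subgroups of `GL_n`: Bruhat decomposition and double cosets. -/

set_option autoImplicit false

namespace CfsgH6.FL
open Matrix Finset Cfsg

variable {F : Type*} [Field F] {n m : ℕ}

/-- block upper triangular matrices -/
def Par (F : Type*) [Field F] {α : Type*} [LinearOrder α] (a : Fin n → α) : Subgroup (GL (Fin n) F) where
  carrier := {g | (g : Matrix (Fin n) (Fin n) F).BlockTriangular a}
  mul_mem' ha hb := BlockTriangular.mul ha hb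
  one_mem' := blockTriangular_one
  inv_mem' {g} ha := by
    change ((g⁻¹ : GL (Fin n) F) : Matrix (Fin n) (Fin n) F).BlockTriangular a
    have : Invertible (g : Matrix (Fin n) (Fin n) F) := g.invertible
    rw [coe_units_inv]
    exact blockTriangular_inv_of_blockTriangular ha

/-- label preserving permutations -/
def Yg {α : Type*} (a : Fin n → α) : Subgroup (Equiv.Perm (Fin n)) where
  carrier := {σ | ∀ i, a (σ i) = a i}
  mul_mem' {x y} ha hb i := by rw [Equiv.Perm.mul_apply, ha, hb]
  one_mem' _ := rfl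
  inv_mem' {x} ha i := by rw [← ha]; simp

/-- permutation matrices -/
def W (F : Type*) [Field F] : Equiv.Perm (Fin n) →* GL (Fin n) F := permMatrixHom.toHomUnits

theorem W_apply (w : Equiv.Perm (Fin n)) (i j : Fin n) : (W F w).1 i j = if i = w j then 1 else 0 := by
  simp [W, PEquiv.toMatrix_apply, Equiv.symm_apply_eq]

theorem W_mul (w : Equiv.Perm (Fin n)) (M : Matrix (Fin n) (Fin n) F) (i j : Fin n) : ((W F w).1 * M) (w i) j = M i j := by
  simp [mul_apply, W_apply]

theorem mul_W (w : Equiv.Perm (Fin n)) (M : Matrix (Fin n) (Fin n) F) (i j : Fin n) : (M * (W F w).1) i j = M i (w j) := by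
  simp [mul_apply, W_apply]

theorem W_mem {α : Type*} [LinearOrder α] {a : Fin n → α} {w : Equiv.Perm (Fin n)} (h : w ∈ Yg a) : W F w ∈ Par F a :=
  fun i j k => by
    rw [W_apply, if_neg]
    rintro rfl
    exact k.ne (h j).symm

theorem Par_mono {α : Type*} [LinearOrder α] {a : Fin n → α} (h : Monotone a) : Par F id ≤ Par F a :=
  fun _ hg _ _ k => hg (h.reflect_lt k)

theorem bruhat (g : GL (Fin n) F) : ∃ w, ∃ p ∈ Par F (id : Fin n → Fin n), ∃ q ∈ Par F (id : Fin n → Fin n), g = p * W F w * q := by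
  let S : Set (Fin n → ℕ) := {l | ∃ p ∈ Par F (id : Fin n → Fin n), ∀ i (j : Fin n), j.1 < l i → (p * g).1 i j = 0}
  have bd : ∀ (h : GL (Fin n) F) (i : Fin n) (k : ℕ), (∀ j : Fin n, j.1 < k → h.1 i j = 0) → k < n := fun h i k hk => by
    by_contra! e
    exact h.det_ne_zero (det_eq_zero_of_row_eq_zero i fun j => hk j (j.2.trans_le e))
  have fin : S.Finite := (Set.finite_Iic fun _ => n).subset fun l ⟨p, _, hl⟩ i => (bd _ i _ (hl i)).le
  obtain ⟨l, ⟨p, p1, p2⟩, hl⟩ := fin.exists_maximal ⟨0, 1, one_mem _, by simp⟩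
  let L : Fin n → Fin n := fun i => ⟨l i, bd _ i _ (p2 i)⟩
  have key : ∀ p ∈ Par F (id : Fin n → Fin n), (∀ i (j : Fin n), j.1 < l i → (p * g).1 i j = 0) → ∀ i, (p * g).1 i (L i) ≠ 0 :=
    fun p p1 p2 i e => by
      have := hl (y := Function.update l i (l i + 1)) ⟨p, p1, fun k j hj => by
        by_cases hk : k = i
        · subst hk
          rw [Function.update_self] at hj
          by_cases h : j = L k
          · rw [h, e]
          · exact p2 _ _ (by have : j.1 ≠ l k := fun e => h (Fin.ext e); omega)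
        · exact p2 _ _ (by rwa [Function.update_of_ne hk] at hj)⟩ (le_update_self_iff.2 (by simp)) i
      simp at this
  have inj : ∀ i i', i < i' → L i ≠ L i' := fun i i' h e => by
    let c := -(p * g).1 i (L i) / (p * g).1 i' (L i')
    let t : GL (Fin n) F := SpecialLinearGroup.toGL (SpecialLinearGroup.transvection h.ne c)
    have ht : t.1 = transvection i i' c := rfl
    refine key (t * p) (mul_mem (fun a b hab => ?_) p1) (fun k j hj => ?_) i ?_
    · rw [ht, transvection, Matrix.add_apply, one_apply_ne (show a ≠ b from ne_of_gt hab), single_apply_of_ne, add_zero]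
      rintro ⟨rfl, rfl⟩
      exact lt_asymm h hab
    · rw [mul_assoc, Units.val_mul, ht]
      by_cases hk : k = i
      · subst hk
        rw [transvection_mul_apply_same, p2 _ _ hj, p2 i' j (by have : l k = l i' := congrArg Fin.val e; omega)]; simp
      · rw [transvection_mul_apply_of_ne _ _ _ _ hk, p2 _ _ hj]
    · rw [mul_assoc, Units.val_mul, ht, transvection_mul_apply_same, e]
      have := key p p1 p2 i'
      simp only [c, e]; field_simp; simp
  have hL : Function.Injective L := fun i i' e => by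
    by_contra k
    rcases lt_or_gt_of_ne k with k | k
    exacts [inj _ _ k e, inj _ _ k e.symm]
  let w := Equiv.ofBijective L (Finite.injective_iff_bijective.1 hL)
  refine ⟨w⁻¹, p⁻¹, inv_mem p1, W F w * (p * g), fun i j h => ?_, by simp [mul_assoc]⟩
  obtain ⟨i, rfl⟩ := w.surjective i
  rw [Units.val_mul, W_mul]
  exact p2 _ _ h

variable (a b : Fin n → Fin m)

/-- relative position -/
def cnt (w : Equiv.Perm (Fin n)) (s t : Fin m) : ℕ := #{j | a (w j) = s ∧ b j = t}

/-- partial sums of the relative position -/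
def rk (w : Equiv.Perm (Fin n)) (s t : ℕ) : ℕ := #{j | s ≤ a (w j) ∧ b j < t}

theorem cnt_rk (w : Equiv.Perm (Fin n)) (s t : Fin m) :
    cnt a b w s t + rk a b w (s + 1) (t + 1) + rk a b w s t = rk a b w s (t + 1) + rk a b w (s + 1) t := by
  simp only [cnt, rk, card_filter, ← sum_add_distrib, Fin.ext_iff]
  refine sum_congr rfl fun j _ => ?_
  split_ifs <;> omega

theorem rank_eq (w : Equiv.Perm (Fin n)) (s t : ℕ) :
    (diagonal (fun i => if s ≤ a i then (1 : F) else 0) * (W F w).1 * diagonal (fun j => if b j < t then (1 : F) else 0)).rank =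
      rk a b w s t := by
  classical
  have : diagonal (fun i => if s ≤ a i then (1 : F) else 0) * (W F w).1 * diagonal (fun j => if b j < t then (1 : F) else 0) =
      (W F w).1 * diagonal (fun j => if s ≤ a (w j) ∧ b j < t then (1 : F) else 0) := by
    ext i j
    simp only [mul_diagonal, diagonal_mul, W_apply]
    by_cases h : i = w j
    · subst h; by_cases h1 : s ≤ a (w j) <;> simp [h1]
    · simp [h]
  rw [this, rank_mul_eq_right_of_isUnit_det _ _ (W F w).det_ne_zero.isUnit, rank_diagonal, Fintype.card_subtype, rk]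
  congr 1
  ext j; simp

variable {a b}

theorem rank_le {p q : GL (Fin n) F} (hp : p ∈ Par F a) (hq : q ∈ Par F b) (g : GL (Fin n) F) (s t : ℕ) :
    (diagonal (fun i => if s ≤ a i then (1 : F) else 0) * (p * g * q).1 * diagonal (fun j => if b j < t then (1 : F) else 0)).rank ≤
    (diagonal (fun i => if s ≤ a i then (1 : F) else 0) * g.1 * diagonal (fun j => if b j < t then (1 : F) else 0)).rank := by
  set D := diagonal (fun i => if s ≤ a i then (1 : F) else 0)
  set E := diagonal (fun j => if b j < t then (1 : F) else 0)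
  have h1 : D * p.1 = D * p.1 * D := by
    ext i j
    simp only [D, mul_diagonal, diagonal_mul]
    split_ifs with h h' <;> simp
    exact hp (show a j < a i by rw [Fin.lt_def]; omega)
  have h2 : q.1 * E = E * (q.1 * E) := by
    ext i j
    simp only [E, mul_diagonal, diagonal_mul]
    split_ifs with h h' <;> simp
    exact hq (show b j < b i by rw [Fin.lt_def]; omega)
  have : D * (p * g * q).1 * E = D * p.1 * (D * g.1 * E) * (q.1 * E) := by
    calc _ = (D * p.1) * g.1 * (q.1 * E) := by simp [Matrix.mul_assoc]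
      _ = (D * p.1 * D) * g.1 * (E * (q.1 * E)) := by rw [← h1, ← h2]
      _ = _ := by simp only [Matrix.mul_assoc]
  rw [this]
  exact (rank_mul_le_left _ _).trans (rank_mul_le_right _ _)

theorem cnt_of_par {p q : GL (Fin n) F} (hp : p ∈ Par F a) (hq : q ∈ Par F b) {w w' : Equiv.Perm (Fin n)}
    (h : W F w' = p * W F w * q) : cnt a b w = cnt a b w' := by
  have k : ∀ s t, rk a b w s t = rk a b w' s t := fun s t => by
    rw [← rank_eq (F := F), ← rank_eq (F := F)]
    refine le_antisymm ?_ (h ▸ rank_le hp hq _ s t)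
    rw [show W F w = p⁻¹ * W F w' * q⁻¹ by rw [h]; group]
    exact rank_le (inv_mem hp) (inv_mem hq) _ s t
  ext s t
  have h1 := cnt_rk a b w s t
  have h2 := cnt_rk a b w' s t
  simp only [k] at h1
  omega

theorem exists_equiv_fib {α β γ : Type*} [Fintype α] [Fintype β] [DecidableEq γ] {f : α → γ} {g : β → γ}
    (h : ∀ c, #{x | f x = c} = #{x | g x = c}) : ∃ e : α ≃ β, ∀ x, g (e x) = f x :=
  ⟨Equiv.ofFiberEquiv fun c => Fintype.equivOfCardEq (by rw [Fintype.card_subtype, Fintype.card_subtype, h]),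
    Equiv.ofFiberEquiv_map _⟩

theorem cnt_iff {w w' : Equiv.Perm (Fin n)} : cnt a b w = cnt a b w' ↔ ∃ σ ∈ Yg a, ∃ τ ∈ Yg b, w' = σ * w * τ := by
  constructor
  · intro h
    obtain ⟨e, he⟩ := exists_equiv_fib (f := fun j => (a (w' j), b j)) (g := fun j => (a (w j), b j)) fun c => by
      simpa [cnt, Prod.ext_iff] using (congrFun (congrFun h c.1) c.2).symm
    refine ⟨w' * e⁻¹ * w⁻¹, fun i => ?_, e, fun i => congrArg Prod.snd (he i), by group⟩
    obtain ⟨i, rfl⟩ := (w * e).surjective i
    simpa using (congrArg Prod.fst (he i)).symm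
  · rintro ⟨σ, h1, τ, h2, rfl⟩
    exact cnt_of_par (F := ℚ) (W_mem h1) (W_mem h2) (by rw [map_mul, map_mul])

theorem inner_Yg : classInner (fixedPointCharacter (Yg b)) (fixedPointCharacter (Yg a)) = Nat.card (Set.range (cnt a b)) :=
  inner_fpc _ _ (Set.rangeFactorization (cnt a b)) Set.rangeFactorization_surjective fun _ _ => Subtype.ext_iff.trans cnt_iff

theorem inner_Par [Fintype (GL (Fin n) F)] (ha : Monotone a) (hb : Monotone b) :
    classInner (fixedPointCharacter (Par F b)) (fixedPointCharacter (Par F a)) = Nat.card (Set.range (cnt a b)) := by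
  choose w p p1 q q1 h using bruhat (F := F) (n := n)
  replace p1 := fun g => Par_mono ha (p1 g)
  replace q1 := fun g => Par_mono hb (q1 g)
  refine inner_fpc _ _ (fun g => Set.rangeFactorization (cnt a b) (w g)) ?_ fun g g' => Subtype.ext_iff.trans ⟨fun k => ?_, ?_⟩
  · rintro ⟨_, v, rfl⟩
    exact ⟨W F v, Subtype.ext (cnt_of_par (p1 _) (q1 _) (h _))⟩
  · obtain ⟨σ, h1, τ, h2, e⟩ := cnt_iff.1 k
    refine ⟨p g' * W F σ * (p g)⁻¹, mul_mem (mul_mem (p1 _) (W_mem h1)) (inv_mem (p1 _)),
      (q g)⁻¹ * W F τ * q g', mul_mem (mul_mem (inv_mem (q1 _)) (W_mem h2)) (q1 _), ?_⟩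
    conv_lhs => rw [h g', e, map_mul, map_mul]
    conv_rhs => enter [1, 2]; rw [h g]
    group
  · rintro ⟨x, h1, y, h2, e⟩
    refine cnt_of_par (mul_mem (mul_mem (inv_mem (p1 g')) h1) (p1 g)) (mul_mem (mul_mem (q1 g) h2) (inv_mem (q1 g'))) ?_
    have := h g'
    rw [e] at this
    conv at this => lhs; rw [h g]
    rw [← e] at this
    calc _ = (p g')⁻¹ * (p g' * W F (w g') * q g') * (q g')⁻¹ := by group
      _ = _ := by rw [← this]; group

theorem mem_range_cnt (N : Fin m → Fin m → ℕ) :
    N ∈ Set.range (cnt a b) ↔ (∀ s, ∑ t, N s t = #{i | a i = s}) ∧ ∀ t, ∑ s, N s t = #{i | b i = t} := by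
  constructor
  · rintro ⟨w, rfl⟩
    refine ⟨fun s => ?_, fun t => ?_⟩
    · simp only [cnt, card_filter]
      rw [sum_comm, ← Equiv.sum_comp w fun i => if a i = s then 1 else 0]
      exact sum_congr rfl fun j _ => by by_cases h : a (w j) = s <;> simp [h]
    · simp only [cnt, card_filter]
      rw [sum_comm]
      exact sum_congr rfl fun j _ => by by_cases h : b j = t <;> simp [h]
  · rintro ⟨h1, h2⟩
    have k : ∀ P : Fin m × Fin m → Prop, ∀ [DecidablePred P],
        #{x : Σ c : Fin m × Fin m, Fin (N c.1 c.2) | P x.1} = ∑ c : Fin m × Fin m, if P c then N c.1 c.2 else 0 := fun P _ => by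
      rw [card_filter, Fintype.sum_sigma]
      exact sum_congr rfl fun c _ => by split_ifs <;> simp
    obtain ⟨e1, k1⟩ := exists_equiv_fib (f := fun x : Σ c : Fin m × Fin m, Fin (N c.1 c.2) => x.1.1) (g := a) fun s => by
      rw [← h1, k (·.1 = s), Fintype.sum_prod_type]; simp
    obtain ⟨e2, k2⟩ := exists_equiv_fib (f := b) (g := fun x : Σ c : Fin m × Fin m, Fin (N c.1 c.2) => x.1.2) fun s => by
      rw [← h2, k (·.2 = s), Fintype.sum_prod_type]; simp
    refine ⟨e2.trans e1, funext fun s => funext fun t => ?_⟩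
    have := k (· = (s, t))
    simp only [sum_ite_eq', mem_univ, if_true] at this
    rw [← this, cnt, card_filter, card_filter, ← Equiv.sum_comp e2]
    simp [k1, ← k2, Prod.ext_iff]

section label
variable {μ : Fin n → ℕ} (hμ : ∑ i, μ i = n)

theorem label_le (i s : Fin n) : compLabel μ i ≤ s ↔ i.1 < ∑ k with k ≤ s, μ k := by
  have mono : ∀ j j' : Fin n, j ≤ j' → ∑ k with k ≤ j, μ k ≤ ∑ k with k ≤ j', μ k := fun j j' h =>
    sum_le_sum_of_subset fun k hk => by simp at hk ⊢; exact hk.trans h
  constructor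
  · intro h
    by_contra! k
    have : Iic s ⊆ ({j | ∑ k with k ≤ j, μ k ≤ i.1} : Finset (Fin n)) := fun j hj => by simpa using (mono _ _ (mem_Iic.1 hj)).trans k
    have := card_le_card this
    rw [Fin.card_Iic] at this
    exact absurd (this.trans h) (by omega)
  · intro h
    have : ({j | ∑ k with k ≤ j, μ k ≤ i.1} : Finset (Fin n)) ⊆ Iio s := fun j hj => by
      by_contra k
      have := mono _ _ (not_lt.1 (mt mem_Iio.2 k))
      have := (mem_filter.1 hj).2
      omega
    simpa [compLabel] using card_le_card this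

include hμ

theorem label_lt (i : Fin n) : compLabel μ i < n := by
  have := (label_le (μ := μ) i ⟨n - 1, by have := i.2; omega⟩).2 (by
    rw [filter_true_of_mem fun k _ => by rw [Fin.le_def]; have := k.2; simp only; omega, hμ]; exact i.2)
  have := i.2
  simp only at *
  omega

/-- the block label -/
def lab (i : Fin n) : Fin n := ⟨compLabel μ i, label_lt hμ i⟩

theorem lab_mono : Monotone (lab hμ) := fun i j h => by
  refine (card_le_card fun k hk => ?_ : compLabel μ i ≤ compLabel μ j)
  simp only [mem_filter, mem_univ, true_and] at hk ⊢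
  exact hk.trans h

theorem card_lab (s : Fin n) : #{i | lab hμ i = s} = μ s := by
  have k : ∀ s : Fin n, ∑ k with k ≤ s, #{i | lab hμ i = k} = ∑ k with k ≤ s, μ k := fun s => by
    have h1 : ∑ k with k ≤ s, μ k ≤ n := (sum_le_sum_of_subset (subset_univ _)).trans hμ.le
    rw [← card_biUnion fun x _ y _ h => by simp [Function.onFun, disjoint_filter]; rintro _ rfl; exact h]
    conv_rhs => rw [← Fin.card_filter_val_lt (n := n) (m := ∑ k with k ≤ s, μ k) |>.trans (min_eq_right h1)]
    congr 1
    ext i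
    simp only [mem_biUnion, mem_filter, mem_univ, true_and, ← label_le]
    exact ⟨fun ⟨a, h, e⟩ => by subst e; exact h, fun h => ⟨lab hμ i, h, rfl⟩⟩
  induction s using WellFoundedLT.induction with
  | ind s ih =>
    have e : ∀ f : Fin n → ℕ, ∑ k with k ≤ s, f k = f s + ∑ k with k < s, f k := fun f => by
      rw [← sum_insert (by simp)]
      exact sum_congr (by ext; simp [le_iff_lt_or_eq, or_comm]) fun _ _ => rfl
    have := k s
    rw [e, e, sum_congr rfl fun x hx => ih x (mem_filter.1 hx).2] at this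
    exact add_right_cancel this

theorem par_eq : parabolicGL n F μ = Par F (lab hμ) := rfl

theorem yg_eq : youngSubgroup μ = Yg (lab hμ) := by
  ext σ
  exact forall_congr' fun i => (Fin.ext_iff (a := lab hμ _) (b := lab hμ _)).symm

end label

/-- number of matrices with given row and column sums -/
noncomputable def MM (ν μ : Fin n → ℕ) : ℕ := Nat.card {N : Fin n → Fin n → ℕ // (∀ s, ∑ t, N s t = ν s) ∧ ∀ t, ∑ s, N s t = μ t}

theorem card_range {ν μ : Fin n → ℕ} (hν : ∑ i, ν i = n) (hμ : ∑ i, μ i = n) :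
    Nat.card (Set.range (cnt (lab hν) (lab hμ))) = MM ν μ :=
  Nat.card_congr (Equiv.subtypeEquivRight fun N => by simp only [mem_range_cnt, card_lab])

theorem inner_parabolic [Fintype (GL (Fin n) F)] {ν μ : Fin n → ℕ} (hν : ∑ i, ν i = n) (hμ : ∑ i, μ i = n) :
    classInner (fixedPointCharacter (parabolicGL n F μ)) (fixedPointCharacter (parabolicGL n F ν)) = MM ν μ := by
  rw [par_eq hν, par_eq hμ, inner_Par (lab_mono hν) (lab_mono hμ), card_range]

theorem inner_young {ν μ : Fin n → ℕ} (hν : ∑ i, ν i = n) (hμ : ∑ i, μ i = n) :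
    classInner (fixedPointCharacter (youngSubgroup μ)) (fixedPointCharacter (youngSubgroup ν)) = MM ν μ := by
  rw [yg_eq hν, yg_eq hμ, inner_Yg, card_range]

end CfsgH6.FL
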