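import Cfsg.Agent.H5.SLBasic

set_option autoImplicit false

open Polynomial

namespace CfsgH6.Hc

variable {r q : ℕ} [hr : Fact r.Prime]

theorem dvd_iff (hq : 1 ≤ q) (i : ℕ) : r ∣ q ^ i - 1 ↔ orderOf (q : ZMod r) ∣ i := by
  rw [orderOf_dvd_iff_pow_eq_one, ← ZMod.natCast_eq_zero_iff, Nat.cast_sub (Nat.one_le_pow _ _ hq),
    sub_eq_zero]
  simp

theorem ord_pos (hrq : ¬ r ∣ q) : 0 < orderOf (q : ZMod r) := by
  have : (q : ZMod r) ≠ 0 := by rwa [Ne, ZMod.natCast_eq_zero_iff]
  exact orderOf_pos_iff.2 (isOfFinOrder_iff_pow_eq_one.2 ⟨r - 1, by have := hr.out.two_le; omega,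
    ZMod.pow_card_sub_one_eq_one this⟩)

theorem v_cyc (hq : 2 ≤ q) (hrq : ¬ r ∣ q) :
    padicValNat r ((cyclotomic (orderOf (q : ZMod r)) ℤ).eval (q : ℤ)).natAbs =
      padicValNat r (q ^ orderOf (q : ZMod r) - 1) := by
  set d := orderOf (q : ZMod r) with hd
  have h0 : 0 < d := ord_pos hrq
  have h1 := congrArg (fun f => (eval (q : ℤ) f).natAbs) (prod_cyclotomic_eq_X_pow_sub_one h0 ℤ)
  simp only [eval_prod, eval_sub, eval_pow, eval_X, eval_one] at h1
  rw [← Finset.mul_prod_erase _ _ (Nat.mem_divisors_self d h0.ne'), Int.natAbs_mul] at h1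
  have h2 : ((q : ℤ) ^ d - 1).natAbs = q ^ d - 1 := by
    rw [← Int.natAbs_natCast (q ^ d - 1), Nat.cast_sub (Nat.one_le_pow _ _ (by omega))]; simp
  have h3 : q ^ d - 1 ≠ 0 := by have := Nat.one_lt_pow h0.ne' hq; omega
  rw [h2] at h1
  have h4 : ¬ r ∣ (∏ x ∈ d.divisors.erase d, eval (q : ℤ) (cyclotomic x ℤ)).natAbs := by
    rw [← Int.natCast_dvd, (Nat.prime_iff_prime_int.1 hr.out).dvd_finsetProd_iff]
    rintro ⟨k, hk, h⟩
    have h5 := h.trans (eval_dvd (x := (q : ℤ)) (cyclotomic.dvd_X_pow_sub_one k ℤ))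
    simp only [eval_sub, eval_pow, eval_X, eval_one] at h5
    have h6 : r ∣ q ^ k - 1 := by
      rw [← Int.natCast_dvd_natCast, Nat.cast_sub (Nat.one_le_pow _ _ (by omega))]; simpa using h5
    rw [dvd_iff (by omega)] at h6
    exact (Finset.mem_erase.1 hk).1 (Nat.dvd_antisymm (Nat.dvd_of_mem_divisors (Finset.mem_erase.1 hk).2) h6)
  rw [← h1] at h3 ⊢
  rw [padicValNat.mul (left_ne_zero_of_mul h3) (right_ne_zero_of_mul h3),
    padicValNat.eq_zero_of_not_dvd h4, add_zero]

theorem v_pow (hq : 2 ≤ q) {i : ℕ} (h0 : 0 < i) (hi : i < r) :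
    padicValNat r (q ^ i - 1) =
      if orderOf (q : ZMod r) ∣ i then padicValNat r (q ^ orderOf (q : ZMod r) - 1) else 0 := by
  split_ifs with h
  · obtain ⟨k, rfl⟩ := h
    set d := orderOf (q : ZMod r) with hd
    have d0 : 0 < d := Nat.pos_of_mul_pos_right h0 |> fun _ => Nat.pos_of_ne_zero (by rintro e; simp [e] at h0)
    have k0 : 0 < k := Nat.pos_of_ne_zero (by rintro e; simp [e] at h0)
    have h3 : q ^ d - 1 ≠ 0 := by have := Nat.one_lt_pow d0.ne' hq; omega
    have h4 : ¬ r ∣ ∑ j ∈ Finset.range k, (q ^ d) ^ j := by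
      rw [← ZMod.natCast_eq_zero_iff]
      push_cast
      rw [hd, pow_orderOf_eq_one]
      simp only [one_pow, Finset.sum_const, Finset.card_range, nsmul_eq_mul, mul_one,
        ZMod.natCast_eq_zero_iff]
      exact Nat.not_dvd_of_pos_of_lt k0 (lt_of_le_of_lt (Nat.le_mul_of_pos_left k d0) hi)
    have h5 : (∑ j ∈ Finset.range k, (q ^ d) ^ j) * (q ^ d - 1) = (q ^ d) ^ k - 1 :=
      geom_sum_mul_of_one_le (Nat.one_le_pow _ _ (by omega)) k
    rw [pow_mul, ← h5, padicValNat.mul (fun e => h4 (by rw [e]; exact dvd_zero _)) h3,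
      padicValNat.eq_zero_of_not_dvd h4, zero_add]
  · exact padicValNat.eq_zero_of_not_dvd (by rwa [dvd_iff (by omega)])

theorem v_GL {F : Type*} [Field F] [Fintype F] (hq : Fintype.card F = q) {n : ℕ} (hrn : n < r)
    (hrq : ¬ r ∣ q) : (Nat.card (GL (Fin n) F)).factorization r =
      n / orderOf (q : ZMod r) * padicValNat r (q ^ orderOf (q : ZMod r) - 1) := by
  have h2 : 2 ≤ q := hq ▸ Fintype.one_lt_card
  have ne : ∀ i : Fin n, q ^ (n - i) - 1 ≠ 0 := fun i => by
    have := Nat.one_lt_pow (show n - i ≠ 0 by omega) h2; omega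
  have e : ∀ i : Fin n, q ^ n - q ^ (i : ℕ) = q ^ (i : ℕ) * (q ^ (n - i) - 1) := fun i => by
    rw [Nat.mul_sub, mul_one, ← pow_add, Nat.add_sub_cancel' i.2.le]
  rw [Matrix.card_GL_field, hq, Nat.factorization_prod (fun i _ => by
    rw [e]; exact mul_ne_zero (by positivity) (ne i)), Finsupp.finsetSum_apply]
  have e2 : ∀ i : Fin n, (q ^ n - q ^ (i : ℕ)).factorization r =
      if orderOf (q : ZMod r) ∣ (i.rev : ℕ) + 1 then padicValNat r (q ^ orderOf (q : ZMod r) - 1) else 0 :=
    fun i => by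
      rw [Nat.factorization_def _ hr.out, e, padicValNat.mul (by positivity) (ne i),
        padicValNat.eq_zero_of_not_dvd (fun h => hrq (hr.out.dvd_of_dvd_pow h)), zero_add,
        v_pow h2 (by omega) (by omega), show (i.rev : ℕ) + 1 = n - i by rw [Fin.val_rev]; omega]
  simp only [e2]
  rw [← Equiv.sum_comp Fin.revPerm]
  simp only [Fin.revPerm_apply, Fin.rev_rev]
  rw [Fin.sum_univ_eq_sum_range (fun i => if orderOf (q : ZMod r) ∣ i + 1 then
    padicValNat r (q ^ orderOf (q : ZMod r) - 1) else 0), ← Finset.sum_filter, Finset.sum_const,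
    Nat.card_multiples, smul_eq_mul]

theorem ex_hom {K : Type*} [Field K] [Finite K] {m : ℕ} (h : m ∣ Nat.card K - 1) :
    ∃ f : Multiplicative (ZMod m) →* Kˣ, Function.Injective f := by
  classical
  have := Fintype.ofFinite K
  have h1 : m ∣ Fintype.card Kˣ := by rwa [Fintype.card_units, ← Nat.card_eq_fintype_card]
  have h2 := IsCyclic.card_orderOf_eq_totient (α := Kˣ) h1
  have h3 : 0 < m := Nat.pos_of_dvd_of_pos h1 Fintype.card_pos
  obtain ⟨x, hx⟩ := Finset.card_pos.1 (h2 ▸ Nat.totient_pos.2 h3)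
  have hx' : Nat.card (Subgroup.zpowers x) = m := by rw [Nat.card_zpowers]; simpa using hx
  subst hx'
  exact ⟨(Subgroup.zpowers x).subtype.comp (zmodCyclicMulEquiv inferInstance).toMonoidHom,
    Subtype.val_injective.comp (zmodCyclicMulEquiv inferInstance).injective⟩

theorem ex_GL {F : Type*} [Field F] [Fintype F] (n : ℕ) {d m : ℕ} (hd : 0 < d)
    (h : m ∣ Fintype.card F ^ d - 1) :
    ∃ f : (Fin (n / d) → Multiplicative (ZMod m)) →* GL (Fin n) F, Function.Injective f := by
  obtain ⟨p, hp⟩ := CharP.exists F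
  have : Fact p.Prime := ⟨CharP.char_is_prime F p⟩
  have : NeZero d := ⟨hd.ne'⟩
  let K := FiniteField.Extension F p d
  obtain ⟨f, hf⟩ := ex_hom (K := K) (m := m) (by
    rwa [FiniteField.natCard_extension, Nat.card_eq_fintype_card])
  let R := (Fin (n / d) → K) × (Fin (n % d) → F)
  have hR : Module.finrank F R = n := by
    rw [Module.finrank_prod, Module.finrank_pi_fintype, Module.finrank_fin_fun]
    simp [K, FiniteField.finrank_extension, Nat.div_add_mod']
  let b := Module.finBasisOfFinrankEq F R hR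
  let g : (Fin (n / d) → Multiplicative (ZMod m)) →* R :=
    (MonoidHom.inl _ _).comp (MonoidHom.pi fun i =>
      ((Units.coeHom K).comp f).comp (Pi.evalMonoidHom _ i))
  refine ⟨((Algebra.leftMulMatrix b).toMonoidHom.comp g).toHomUnits, fun x y e => ?_⟩
  have e1 : g x = g y := Algebra.leftMulMatrix_injective b (congrArg Units.val e)
  funext i
  exact hf (Units.ext (congrFun (congrArg Prod.fst e1) i))

theorem of_hom {G A : Type*} [Group G] [Finite G] [Group A] (f : A →* G) (hf : Function.Injective f)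
    (h : Nat.card A = r ^ (Nat.card G).factorization r) (P : Sylow r G) :
    Nonempty ((P : Subgroup G) ≃* A) :=
  ⟨(Sylow.equiv P (Sylow.ofCard f.range (by
    rw [← h]; exact (Nat.card_congr (MonoidHom.ofInjective hf).toEquiv).symm))).trans
    (MonoidHom.ofInjective hf).symm⟩

theorem card_hc (a e : ℕ) : Nat.card (Fin a → Multiplicative (ZMod (r ^ e))) = r ^ (a * e) := by
  rw [Nat.card_fun, Nat.card_congr Multiplicative.toAdd, Nat.card_zmod, Nat.card_eq_fintype_card, Fintype.card_fin,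
    ← pow_mul, mul_comm]

theorem ex_SL1 {F : Type*} [Field F] [Fintype F] (k : ℕ) {m : ℕ} (h : m ∣ Fintype.card F - 1) :
    ∃ f : (Fin k → Multiplicative (ZMod m)) →* Matrix.SpecialLinearGroup (Fin (k + 1)) F,
      Function.Injective f := by
  obtain ⟨f, hf⟩ := ex_hom (K := F) (m := m) (by rwa [Nat.card_eq_fintype_card])
  let y : (Fin k → Multiplicative (ZMod m)) → Fin (k + 1) → F :=
    fun x => Fin.cons (f (∏ i, x i)⁻¹) fun i => f (x i)
  refine ⟨MonoidHom.mk' (fun x => ⟨Matrix.diagonal (y x), ?_⟩) fun a b => Subtype.ext ?_,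
    fun a b e => ?_⟩
  · rw [Matrix.det_diagonal, Fin.prod_univ_succ]
    simp only [y, Fin.cons_zero, Fin.cons_succ]
    rw [← Units.coe_prod, ← map_prod, ← Units.val_mul, ← map_mul, inv_mul_cancel, map_one, Units.val_one]
  · change Matrix.diagonal (y (a * b)) = Matrix.diagonal (y a) * Matrix.diagonal (y b)
    rw [Matrix.diagonal_mul_diagonal]
    congr 1
    funext i
    induction i using Fin.cases with
    | zero => simp [y, Finset.prod_mul_distrib, mul_comm]
    | succ i => simp [y]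
  · funext i
    have := congrFun (Matrix.diagonal_injective (congrArg Subtype.val e)) i.succ
    exact hf (Units.ext (by simpa [y] using this))

theorem ex_SL2 {F : Type*} [Field F] [Fintype F] {n a e : ℕ} (h : ¬ r ∣ Fintype.card F - 1)
    (f : (Fin a → Multiplicative (ZMod (r ^ e))) →* GL (Fin n) F) (hf : Function.Injective f) :
    ∃ f : (Fin a → Multiplicative (ZMod (r ^ e))) →* Matrix.SpecialLinearGroup (Fin n) F,
      Function.Injective f := by
  classical
  have hd : ∀ x, Matrix.GeneralLinearGroup.det (f x) = 1 := fun x => by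
    have h1 := orderOf_dvd_natCard x
    rw [card_hc] at h1
    have h2 := (orderOf_map_dvd (Matrix.GeneralLinearGroup.det.comp f) x).trans h1
    have h3 := orderOf_dvd_card (x := Matrix.GeneralLinearGroup.det (f x))
    rw [Fintype.card_units] at h3
    exact orderOf_eq_one_iff.1 (Nat.eq_one_of_dvd_coprimes
      (((Nat.Prime.coprime_iff_not_dvd hr.out).2 h).pow_left _) h2 h3)
  refine ⟨MonoidHom.mk' (fun x => ⟨(f x).1, congrArg Units.val (hd x)⟩) fun a b => Subtype.ext ?_,
    fun a b e => hf (Units.ext (congrArg Subtype.val e))⟩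
  change (f (a * b)).1 = (f a).1 * (f b).1
  rw [map_mul, Units.val_mul]

end CfsgH6.Hc
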