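import Cfsg.Agent.H6.Inv2b
import Cfsg.Agent.H6.GoodG2

/-! Certificates for the involutions, G2. -/

namespace CfsgH6

open Cfsg.Lie

set_option maxRecDepth 100000

/-- representatives in the Weyl group -/
def irG2 : List (List ℕ) := [[11, 7], [11], [9], []]

theorem icG2_0 : fastG2.chkJs id irG2
    [(2, [], 0, 0), (2, [], 1, 0), (2, [], 2, 0), (2, [], 3, 0)] 0 = true := by decide +kernel

theorem icG2 : ∀ b < 2 ^ chevG2.rank, ∃ c, fastG2.chkJ id irG2 b c = true := fun b hb => by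
  have hb' : b < 4 := hb
  exact fastG2.chkJs_sound _ icG2_0 b (by omega) hb'

theorem ipG2 : fastG2.paths id ([] :: [[11], [9]]) irG2
    [[(true, [[4], [8], [5], [0], [4]], [7, 4, 7]), (false, [[7], [11, 8]], [9])], [(true, [[0]], [11])], [(true, [[2]], [9])], []] = true := by decide +kernel

/-- a class of involutions with rank 6 -/
def iyG2_0 : List ℕ × List ℕ × List ℕ × List ℕ × List ℕ := ([11],
  [0x23c6ef372fe94f82a, 0x4daa66d2c7ddf743f, 0x878dde6e5fd29f054, 0x20b54cda58fbbee87e, 0x2000a708a824f612c926, 0x2001393fd19d8958b533],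
  [6, 8, 9, 10, 11, 12],
  [0x101715609f7c746c69, 0x40538454127b096493, 0x80f1bbcdcbfa53e0a8, 0x1008ff34785799e5cbd, 0x2002e2ac13ef8e8d8d2, 0x400cc623af8783354e7, 0x8006a99b4b1f77dd0fc, 0x100008d12e6b76c84d11],
  [4, 6, 7, 8, 9, 10, 11, 12])

theorem ikG2_0 : fastG2.chkY id iyG2_0 = true := by decide +kernel

/-- a class of involutions with rank 6 -/
def iyG2_1 : List ℕ × List ℕ × List ℕ × List ℕ × List ℕ := ([9],
  [0x878dde6e5fd29f054, 0x101715609f7c746c69, 0x100008d12e6b76c84d11, 0x1004d27743470b17392e, 0x9e6ea9f5c82638c41, 0x122b7b93ed82e09443],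
  [10, 11, 9, 13, 3, 4],
  [0x20b54cda58fbbee87e, 0x40538454127b096493, 0x2002e2ac13ef8e8d8d2, 0x400cc623af8783354e7, 0x8006a99b4b1f77dd0fc, 0x2000a708a824f612c926, 0x8889662b2e077a10fc, 0x11098e6271a05ea30d4],
  [5, 6, 9, 10, 11, 13, 3, 4])

theorem ikG2_1 : fastG2.chkY id iyG2_1 = true := by decide +kernel

theorem invG2a (F : Type*) [Field F] [Fintype F] [CharP F 2] :
    ∀ t ∈ (goodG2.tw1 F).G1, orderOf t = 2 → ∃ y ∈ [[11], [9]].map (goodG2.gl F).xw, (goodG2.tw1 F).Cj t y :=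
  checkedG2.inv_classes' (goodG2.tw1 F) (fρ := id) (fun _ => rfl) (fun _ => rfl) ipG2 icG2

theorem invG2b (F : Type*) [Field F] [Fintype F] [CharP F 2] :
    (∀ y ∈ [[11], [9]].map (goodG2.gl F).xw, y ∈ (goodG2.tw1 F).G1 ∧ orderOf y = 2) ∧
      ([[11], [9]].map (goodG2.gl F).xw).Pairwise fun a b => ¬ (goodG2.tw1 F).Cj a b :=
  checkedG2.finals (goodG2.tw1 F) (fρ := id) (fun _ => rfl) (fun _ => rfl) (Y := [iyG2_0, iyG2_1])
    (by simp only [List.forall_mem_cons, ikG2_0, ikG2_1]; simp) (R := fun a b => a = [11] ∧ b = [9])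
    (by
      rintro _ _ ⟨rfl, rfl⟩ ⟨g, hg, e⟩
      refine (goodG2.gl F).not_conj_root (p := 2) (by simpa using CharTwo.two_eq_zero) (r := ⟨11, by decide⟩) (s := ⟨9, by decide⟩)
        (by decide +kernel) (by decide +kernel) (by decide +kernel) ((goodG2.tw1 F).G1_le_Gr hg) ?_
      rw [← (goodG2.gl F).xw_one, ← (goodG2.gl F).xw_one]
      exact e)
    (by decide +kernel)

end CfsgH6
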