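import Cfsg.Agent.H6.Inv2b
import Cfsg.Agent.H6.GoodF4
import Cfsg.Agent.H6.TwF4

/-! Certificates for the involutions, TF4. -/

namespace CfsgH6

open Cfsg.Lie

set_option maxRecDepth 100000

/-- representatives in the Weyl group -/
def irTF4 : List (List ℕ) := [[33, 24, 39, 45], [32, 37], [25, 30], []]

theorem icTF4_0 : fastF4.chkJs mapF4.fι irTF4
    [(2, [], 0, 0), (0, [], 0, 3), (0, [], 1, 2), (0, [], 0, 3), (0, [], 1, 2), (0, [], 0, 3), (2, [42, 26], 2, 0), (0, [], 0, 3), (0, [], 0, 3), (2, [47, 45, 39, 31], 1, 0), (0, [], 0, 3), (0, [], 1, 2), (0, [], 0, 3), (0, [], 1, 2), (0, [], 0, 3), (2, [], 3, 0)] 0 = true := by decide +kernel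

theorem icTF4 : ∀ b < 2 ^ chevF4.rank, ∃ c, fastF4.chkJ mapF4.fι irTF4 b c = true := fun b hb => by
  have hb' : b < 16 := hb
  exact fastF4.chkJs_sound _ icTF4_0 b (by omega) hb'

theorem ipTF4 : fastF4.paths mapF4.fι ([] :: [[28, 30], [32, 37]]) irTF4
    [[(true, [[2, 8], [26, 34, 36], [20, 22, 17], [10, 15], [14, 23], [8, 2]], [45, 2, 45, 39, 8, 39]), (false, [[45, 39], [47, 45, 39, 31]], [32, 37])], [(true, [[15, 10]], [32, 37])], [(true, [[20, 22, 17]], [28, 30])], []] = true := by decide +kernel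

/-- a class of involutions with rank 21 -/
def iyTF4_0 : List ℕ × List ℕ × List ℕ × List ℕ × List ℕ := ([28, 30],
  [0x4daa66d2c7ddf743f, 0x1008ff34785799e5cbd, 0x100008d12e6b76c84d11, 0x1000081af155173f23d65, 0x100000fa8cfc37711c2db9, 0x4000000afd9d6906cdb1637, 0x400000000a195a45c672ef6df, 0x40000000001a738b426458e733, 0x800000000003188ebe1e0cd539c, 0x1807e488a4e83cdbc15, 0x1400c4b314930efb19f6, 0x40000036fbefaa6fb125e3, 0x600000000a2cb8efe80ca8c15, 0x5000000000c4771c8d019b083a, 0x8000000100000d9c8459aaa3d19fd, 0x6e6c89e5e834b8c15, 0x1800062d88ec68755fc35, 0x800000048000049ead47a4541a003, 0x5000000dcb3358d029d083a, 0xc0000000000a2d999c9814f841b, 0x4a00007548e2dd6d5c2d3d],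
  [5, 11, 14, 23, 28, 32, 37, 40, 46, 9, 13, 27, 35, 39, 30, 3, 18, 49, 29, 44, 20],
  [0x19e3779b97f4a7c15, 0x878dde6e5fd29f054, 0x101715609f7c746c69, 0x20b54cda58fbbee87e, 0x40538454127b096493, 0x2002e2ac13ef8e8d8d2, 0x8006a99b4b1f77dd0fc, 0x2000a708a824f612c926, 0x4000454021de755d453b, 0x40000be1e08c47287358f, 0x20000098c475f0f066a9ce, 0x800000d5336963eefba1f8, 0x200000011a25cd6ed909a22, 0x80000004e115049ec25924c, 0x10000000ec48ca036b700e61, 0x200000008a8043bceaba8a76, 0x4000000028b7bd766a05068b, 0x80000000c6ef372fe94f82a0, 0x1000000006526b0e96899feb5, 0x8000000003fcd1e15e67972f4, 0x20000000007c3c1188e50e6b1e, 0x8000000000b8ab04fbe3a36348, 0x1000000000056e27eb562eddf5d, 0x20000000000f519f86ee2385b72, 0x100000000000cfc0659b6017cfb1, 0x2000000000006df7df54df624bc6, 0x4000000000000c2f590e5eacc7db, 0x800000000000aa66d2c7ddf743f0, 0x2000000000000e6d5c63adc8c3c1a, 0x1000000100000b212b0b62c5dedbc, 0x5000000000000cd9373750697782a],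
  [0, 3, 4, 5, 6, 9, 11, 13, 14, 18, 21, 23, 25, 27, 28, 29, 30, 31, 32, 35, 37, 39, 40, 41, 44, 45, 46, 47, 49, 20, 48])

theorem ikTF4_0 : fastF4.chkY mapF4.fι iyTF4_0 = true := by decide +kernel

/-- a class of involutions with rank 24 -/
def iyTF4_1 : List ℕ × List ℕ × List ℕ × List ℕ × List ℕ := ([32, 37],
  [0x19e3779b97f4a7c15, 0x878dde6e5fd29f054, 0x1008ff34785799e5cbd, 0x100008d12e6b76c84d11, 0x2000a708a824f612c926, 0x1000081af155173f23d65, 0x100000fa8cfc37711c2db9, 0x20000098c475f0f066a9ce, 0x40000036fbefaa6fb125e3, 0x200000008a8043bceaba8a76, 0x200000000035e2aa2e7e47aca, 0x1000000000de0497cf65c3ef09, 0x20000000000f519f86ee2385b72, 0x40000000000935172286182d787, 0x2000000000000e6d5c63adc8c3c1a, 0x4000000000000850d3ff45bd6b82f, 0x4daa66d2c7ddf743f, 0x20000000004002ab7fcc2a4bf68fd, 0x1000000736ae31d6e461e0d, 0x208056b365ef0c41298e, 0x4000000008000667aa463af71797f, 0x20080000d6d5c1c11b6b3bd2, 0x2001022b59c107776c0d59,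 0x20200020000e9a15dc6f6e098c2],
  [5, 11, 14, 27, 28, 25, 35, 30, 31, 40, 39, 44, 46, 47, 37, 32, 9, 48, 38, 13, 49, 29, 6, 26],
  [0x101715609f7c746c69, 0x20b54cda58fbbee87e, 0x2002e2ac13ef8e8d8d2, 0x8006a99b4b1f77dd0fc, 0x4000454021de755d453b, 0x800000d5336963eefba1f8, 0x200000011a25cd6ed909a22, 0x80000004e115049ec25924c, 0x10000000ec48ca036b700e61, 0x4000000028b7bd766a05068b, 0x80000000c6ef372fe94f82a0, 0x1000000006526b0e96899feb5, 0x8000000003fcd1e15e67972f4, 0x20000000007c3c1188e50e6b1e, 0x40000000001a738b426458e733, 0x8000000000b8ab04fbe3a36348, 0x1000000000056e27eb562eddf5d, 0x800000000003188ebe1e0cd539c, 0x100000000000cfc0659b6017cfb1, 0x2000000000006df7df54df624bc6, 0x4000000000000c2f590e5eacc7db, 0x800000000000aa66d2c7ddf743f0, 0x1000000000000489e4c815d41c005, 0x420001916a0e08495fca9, 0x4200000002b15e7e08d947ca9, 0xa000000000000c5917f9707ad085e, 0x20014044b36667f2f191e0, 0x20204000000599e045c6907378f],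
  [4, 5, 9, 11, 14, 23, 25, 27, 28, 30, 31, 32, 35, 37, 38, 39, 40, 43, 44, 45, 46, 47, 48, 13, 29, 49, 6, 26])

theorem ikTF4_1 : fastF4.chkY mapF4.fι iyTF4_1 = true := by decide +kernel

theorem invTF4a {K : Type*} [Field K] [Fintype K] [CharP K 2] {φ : K →+* K} {m : ℕ} (hφ : ∀ t, φ t = t ^ 2 ^ m)
    (hK : Fintype.card K = 2 ^ (2 * m + 1)) :
    ∀ t ∈ (TF4g hφ hK).G1, orderOf t = 2 → ∃ y ∈ [[28, 30], [32, 37]].map (goodF4.gl K).xw, (TF4g hφ hK).Cj t y :=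
  checkedF4.inv_classes' (TF4g hφ hK) (fρ := mapF4.fι) (fun _ => rfl) (XF4 φ).f_one ipTF4 icTF4

theorem invTF4b {K : Type*} [Field K] [Fintype K] [CharP K 2] {φ : K →+* K} {m : ℕ} (hφ : ∀ t, φ t = t ^ 2 ^ m)
    (hK : Fintype.card K = 2 ^ (2 * m + 1)) :
    (∀ y ∈ [[28, 30], [32, 37]].map (goodF4.gl K).xw, y ∈ (TF4g hφ hK).G1 ∧ orderOf y = 2) ∧
      ([[28, 30], [32, 37]].map (goodF4.gl K).xw).Pairwise fun a b => ¬ (TF4g hφ hK).Cj a b :=
  checkedF4.finals (TF4g hφ hK) (fρ := mapF4.fι) (fun _ => rfl) (XF4 φ).f_one (Y := [iyTF4_0, iyTF4_1])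
    (by simp only [List.forall_mem_cons, ikTF4_0, ikTF4_1]; simp) (R := fun _ _ => False) (fun _ _ h => h.elim)
    (by decide +kernel)

theorem mem_commutator_iff' {Γ : Type*} [Group Γ] {G : Subgroup Γ} {a : G} : a ∈ commutator G ↔ (a : Γ) ∈ ⁅G, G⁆ := by
  rw [← Subgroup.map_subtype_commutator]
  exact (Subgroup.mem_map_iff_mem Subtype.val_injective).symm

theorem ncard_comm {Γ : Type*} [Group Γ] (G : Subgroup Γ) (Y : List Γ)
    (h1 : ∀ t ∈ G, orderOf t = 2 → ∃ y ∈ Y, ∃ g ∈ G, g * t * g⁻¹ = y) (h2 : ∀ y ∈ Y, y ∈ G ∧ orderOf y = 2)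
    (h3 : Y.Pairwise fun a b => ¬ ∃ g ∈ G, g * a * g⁻¹ = b) (h4 : ∀ y ∈ Y, y ∈ ⁅G, G⁆) {c : Γ} (hc : c ∈ G)
    (h5 : ∀ y ∈ Y, Commute c y) (h6 : G ≤ Subgroup.zpowers c ⊔ ⁅G, G⁆) :
    (ConjClasses.mk '' {g : commutator G | orderOf g = 2}).ncard = Y.length := by
  rw [ncard_classes (commutator G) (Y.pmap Subtype.mk fun y hy => (h2 y hy).1), List.length_pmap]
  · intro t _ h
    obtain ⟨y, hy, g, hg, e⟩ := h1 t t.2 (by rwa [Subgroup.orderOf_coe])
    have h7 : (⟨g, hg⟩ : G) ∈ Subgroup.zpowers (⟨c, hc⟩ : G) ⊔ commutator G := by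
      rw [← Subgroup.mem_map_iff_mem (f := G.subtype) Subtype.val_injective, Subgroup.map_sup,
        Subgroup.map_subtype_commutator, MonoidHom.map_zpowers]
      exact h6 hg
    obtain ⟨_, ⟨k, rfl⟩, b, hb, e'⟩ := Subgroup.mem_sup_of_normal_right.1 h7
    refine ⟨⟨y, (h2 y hy).1⟩, List.mem_pmap.2 ⟨y, hy, rfl⟩, b, hb, Subtype.ext ?_⟩
    obtain rfl : c ^ k * b = g := by simpa using congrArg Subtype.val e'
    change (b : Γ) * t * (b : Γ)⁻¹ = y
    rw [← mul_inv_cancel_left (c ^ k)⁻¹ y, inv_inv, ← mul_inv_cancel_right (c ^ k * y) (c ^ k)⁻¹,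
      ((h5 y hy).zpow_left k).eq, mul_inv_cancel_right, ← e]
    group
  · intro y hy
    obtain ⟨y, hy', rfl⟩ := List.mem_pmap.1 hy
    exact ⟨mem_commutator_iff'.2 (h4 y hy'), by rw [← Subgroup.orderOf_coe]; exact (h2 y hy').2⟩
  · exact h3.pmap _ fun a _ b _ h ⟨g, _, e⟩ => h ⟨g, g.2, congrArg Subtype.val e⟩

theorem comm_self_le {Γ : Type*} [Group Γ] (G : Subgroup Γ) : ⁅G, G⁆ ≤ G :=
  Subgroup.commutator_le.2 fun _ h _ h' => mul_mem (mul_mem (mul_mem h h') (inv_mem h)) (inv_mem h')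

theorem conj_mem_of_comm {Γ : Type*} [Group Γ] {G K : Subgroup Γ} (h1 : ⁅G, G⁆ ≤ K) (h2 : K ≤ G) :
    ∀ g ∈ G, ∀ a ∈ K, g * a * g⁻¹ ∈ K := fun g hg a ha => by
  have := mul_mem (h1 (Subgroup.commutator_mem_commutator hg (h2 ha))) ha
  rwa [commutatorElement_def, inv_mul_cancel_right] at this

section
variable {K : Type*} [Field K] [Fintype K] [CharP K 2] {φ : K →+* K} {m : ℕ} (hφ : ∀ t, φ t = t ^ 2 ^ m)
  (hK : Fintype.card K = 2 ^ (2 * m + 1))

theorem blkTF4 {g : List ℕ} (h : fastF4.blk mapF4.fι [g] = true) : (goodF4.gl K).xw g ∈ (TF4g hφ hK).G1 := by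
  have := checkedF4.blk_sound (TF4g hφ hK) (fρ := mapF4.fι) (fun _ => rfl) (XF4 φ).f_one h
  rwa [List.flatten_singleton] at this

theorem commTF4 {z g h : List ℕ} (h1 : fastF4.blk mapF4.fι [g] = true) (h2 : fastF4.blk mapF4.fι [h] = true)
    (e : fastF4.eqW (g ++ h) (z ++ h ++ g) = true) : (goodF4.gl K).xw z ∈ ⁅(TF4g hφ hK).G1, (TF4g hφ hK).G1⁆ := by
  have h3 : (goodF4.gl K).xw _ = (goodF4.gl K).xw _ := checkedF4.eqW_xw e
  rw [Cover.xw_append, Cover.xw_append, Cover.xw_append] at h3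
  have := Subgroup.commutator_mem_commutator (blkTF4 hφ hK h1) (blkTF4 hφ hK h2)
  rwa [commutatorElement_def, h3, mul_inv_cancel_right, mul_inv_cancel_right] at this

theorem invTF4c : ∀ y ∈ [[28, 30], [32, 37]].map (goodF4.gl K).xw, y ∈ ⁅(TF4g hφ hK).G1, (TF4g hφ hK).G1⁆ := by
  simp only [List.map_cons, List.map_nil, List.forall_mem_cons]
  exact ⟨commTF4 hφ hK (g := [4, 9]) (h := [40, 46]) (by decide +kernel) (by decide +kernel) (by decide +kernel),
    commTF4 hφ hK (g := [31, 35, 40]) (h := [25, 27, 28]) (by decide +kernel) (by decide +kernel) (by decide +kernel),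
    by simp⟩

theorem invTF4d {t : GL chevF4.Idx K} (ht : t ∈ (TF4g hφ hK).G1) (h : orderOf t = 2) :
    t ∈ ⁅(TF4g hφ hK).G1, (TF4g hφ hK).G1⁆ := by
  obtain ⟨y, hy, e⟩ := invTF4a hφ hK t ht h
  obtain ⟨g, hg, rfl⟩ := e.symm
  exact conj_mem_of_comm le_rfl (comm_self_le _) g hg _ (invTF4c hφ hK y hy)

end

theorem titsφ (t : ZMod 2) : RingHom.id _ t = t ^ 2 ^ 0 := by simp

theorem titsK : Fintype.card (ZMod 2) = 2 ^ (2 * 0 + 1) := by simp

theorem tits_eq : twistedF4 (ZMod 2) 1 = (TF4g titsφ titsK).G1 := twistedF4_eq titsφ titsK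

theorem tits_gen : (TF4g titsφ titsK).G1 ≤ Subgroup.zpowers ((goodF4.gl (ZMod 2)).xw [27, 25, 28]) ⊔
    ⁅(TF4g titsφ titsK).G1, (TF4g titsφ titsK).G1⁆ := by
  set T := TF4g titsφ titsK
  have h0 : ∀ {v w}, fastF4.eqW v w = true → (goodF4.gl (ZMod 2)).xw v = (goodF4.gl (ZMod 2)).xw w :=
    checkedF4.eqW_xw
  have h1 := invTF4c titsφ titsK
  simp only [List.map_cons, List.map_nil, List.forall_mem_cons] at h1
  refine T.G1_le_of_conj (conj_mem_of_comm le_sup_right (sup_le (Subgroup.zpowers_le.2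
    (blkTF4 _ _ (by decide +kernel))) (comm_self_le _))) fun c g hg => ?_
  have hz : ∀ t : ZMod 2, t = 0 ∨ t = 1 := by decide
  fin_cases c
  · obtain ⟨t, rfl⟩ := (twoF4 titsφ titsK _ (XF4 _).fn_gl (T.nil_Sp 0) (by simp) clsF4.1.1 _).1 hg
    rcases hz t with rfl | rfl
    · simp only [f4PairWord, Cover.word_cons, pow_zero, pow_one, Cover.xn_zero, one_mul]
      exact one_mem _
    · have : (goodF4.gl (ZMod 2)).xw [33, 24] ∈ ⁅T.G1, T.G1⁆ :=
        commTF4 titsφ titsK (g := [20, 22, 17]) (h := [26, 34, 36]) (by decide +kernel) (by decide +kernel) (by decide +kernel)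
      exact Subgroup.mem_sup_right (by simpa [f4PairWord, Cover.xw] using this)
  · obtain ⟨t, u, rfl⟩ := (posF4 titsφ titsK _ (XF4 _).fn_gl (T.nil_Sp 1) clsF4.2.1 _).1 hg
    have h2 := Subgroup.mem_sup_left (T := ⁅T.G1, T.G1⁆) (Subgroup.mem_zpowers ((goodF4.gl (ZMod 2)).xw [27, 25, 28]))
    have h3 := Subgroup.mem_sup_right (S := Subgroup.zpowers ((goodF4.gl (ZMod 2)).xw [27, 25, 28])) h1.1
    have h4 := (((goodF4.gl (ZMod 2)).xw_append _ _).symm.trans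
      (h0 (v := [27, 25, 28] ++ [28, 30]) (w := [27, 25, 30]) (by decide +kernel))) ▸ mul_mem h2 h3
    rcases hz t with rfl | rfl <;> rcases hz u with rfl | rfl <;>
      simp only [b2ClassWord, f4a, f4b, f4ab, f4aab, Cover.word_cons, pow_zero, pow_one, mul_one, one_pow, add_zero,
        zero_add, CharTwo.add_self_eq_zero, ne_eq, OfNat.ofNat_ne_zero, not_false_eq_true, zero_pow, Cover.xn_zero,
        one_mul, Nat.reduceAdd, Cover.xw, List.map_cons, List.map_nil] at h2 h3 h4 ⊢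
    exacts [one_mem _, h3, h2, h4]

theorem tits_classes : (ConjClasses.mk '' {g : TitsGroup | orderOf g = 2}).ncard = 2 := by
  have := ncard_comm _ _ (invTF4a titsφ titsK) (invTF4b titsφ titsK).1 (invTF4b titsφ titsK).2 (invTF4c titsφ titsK)
    (blkTF4 titsφ titsK (g := [27, 25, 28]) (by decide +kernel)) (by
      simp only [List.map_cons, List.map_nil, List.forall_mem_cons, commute_iff_eq, ← Cover.xw_append]
      exact ⟨checkedF4.eqW_xw (by decide +kernel), checkedF4.eqW_xw (by decide +kernel), by simp⟩) tits_gen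
  rwa [← tits_eq] at this

end CfsgH6
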