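import Cfsg.Agent.H6.Cent
import Cfsg.Agent.H6.FieldFix

/-! Centralizer and normalizer of the finite groups in the algebraic group. -/

set_option autoImplicit false

namespace CfsgH6

open Cfsg.Lie

variable {D : ChevalleyDatum}

namespace Cover

variable {G : Good D} {F : Type*} [Field F] {Γ : Type*} [Group Γ] (C : Cover G F Γ)

theorem lc_eq_zero_of_notMem (i : Fin D.rank) {S : Set (Fin D.nroots)} (hS : ∀ r ∈ S, G.Pos r) (hi : G.sm i ∉ S)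
    {u : Γ} (hu : u ∈ C.US S) : C.lc i (G.sm i) u = 0 :=
  C.US_induction (p := fun u => C.lc i (G.sm i) u = 0) (C.lc_one _ _) (fun g hg r hr t e => by
    rw [C.lc_U i i (C.US_mono hS hg) (C.x_mem_U (hS r hr) t), e, C.lc_x, if_neg fun e : r = G.sm i => hi (e ▸ hr), add_zero]) hu

theorem pos_of_conj_U {m u : Γ} {w : Equiv.Perm (Fin D.nroots)} (h : C.Mon m w) (hu : u ∈ C.U)
    (h1 : m * u * m⁻¹ ∈ C.B) {i : Fin D.rank} (h2 : C.lc i (G.sm i) u ≠ 0) : G.Pos (w (G.sm i)) := by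
  obtain ⟨a, ha, b, hb, rfl⟩ := C.U_split (w := w) hu
  have h3 : m * b * m⁻¹ = 1 := C.eq_one_of_V_B (h.conj_invSet hb) (mul_mem (inv_mem (C.U_le_B
    (h.conj_mem (fun _ h => h.2) ha))) h1) (by congr 1; group)
  rw [conj_eq_one_iff.1 h3, mul_one] at h2
  exact by_contra fun e => h2 (C.lc_eq_zero_of_notMem i (fun _ h => h.1) (fun h => e h.2) ha)

theorem mem_B_of_comm {g : Γ} (hg : g ∈ C.Gr) (h : ∀ i, ∃ u ∈ C.U, C.lc i (G.sm i) u ≠ 0 ∧ g * u * g⁻¹ ∈ C.B) :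
    g ∈ C.B := by
  obtain ⟨u, hu, m, hm, w, hw, h1, v, hv, rfl⟩ := C.canonical' hg
  have hv' := C.invSet_le_U _ hv
  obtain rfl := Good.eq_one_of_pos hw fun i => by
    obtain ⟨a, ha, h2, h3⟩ := h i
    refine C.pos_of_conj_U h1 (mul_mem (mul_mem hv' ha) (inv_mem hv')) ?_ (by rwa [C.lc_conj_U i hv' ha])
    convert mul_mem (mul_mem (inv_mem (C.U_le_B hu)) h3) (C.U_le_B hu) using 1
    group
  exact mul_mem (mul_mem (C.U_le_B hu) (C.HH_le_B (C.mem_HH_of_mon hm h1))) (C.U_le_B hv')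

theorem π_eq_one_of_comm_one {g : Γ} (hg : g ∈ C.Gr) (h : ∀ r, g * C.x r 1 * g⁻¹ = C.x r 1) : C.π g = 1 := by
  obtain ⟨m, hm, w, hw, h1, h2⟩ := C.exists_n0
  have h3 := C.mem_B_of_comm hg fun i => ⟨_, C.x_mem_U (G.pos_sm i) 1, by simp [C.lc_sm],
    by rw [h]; exact C.U_le_B (C.x_mem_U (G.pos_sm i) 1)⟩
  have h4 := C.mem_B_of_comm (mul_mem (mul_mem (C.NN_le_Gr hm) hg) (inv_mem (C.NN_le_Gr hm))) fun i => by
    obtain ⟨c, hc, -⟩ := h1.conj_n (w⁻¹ (G.sm i))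
    have := hc 1
    rw [perm_apply_inv] at this
    refine ⟨_, C.x_mem_U (G.pos_sm i) (c * 1), by simp [C.lc_sm], ?_⟩
    rw [← this, show ∀ a, m * g * m⁻¹ * (m * a * m⁻¹) * (m * g * m⁻¹)⁻¹ = m * (g * a * g⁻¹) * m⁻¹ from
      fun a => by group, h, this]
    exact C.U_le_B (C.x_mem_U (G.pos_sm i) _)
  obtain ⟨u, hu, k, hk, e⟩ := C.mem_B.1 h4
  have h5 : g ∈ C.HH := C.B_inf_BV.le ⟨h3, by
    rw [show g = m⁻¹ * u * m * (m⁻¹ * k * m) from (by group : g = m⁻¹ * (m * g * m⁻¹) * m).trans (by rw [e]; group)]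
    exact mul_mem (Subgroup.mem_sup_left (h1.conj_mem' (fun r hr => (h2 (w⁻¹ r)).1 (by simpa using hr)) hu))
      (Subgroup.mem_sup_right (C.conj_HH' hm hk))⟩
  obtain ⟨-, c, hc⟩ := C.exists_hd h5
  obtain rfl : c = 1 := funext fun i => Units.ext (by
    have := C.lc_sm i (Good.chr c (G.vec (G.sm i)) * 1)
    rw [← C.conj_x h5 hc, h, C.lc_sm, G.chr_sm, mul_one] at this
    exact this.symm)
  exact Units.ext (hc.trans G.hd_one)

end Cover

theorem Twist.conj_mem_of_fix {G : Good D} {F : Type*} [Field F] {ι : Type} (T : Twist (G.gl F) ι)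
    {K : Subgroup (GL D.Idx F)} (h1 : T.G1 ≤ K) (h2 : K ≤ T.Fix) {g a : GL D.Idx F} (hg : g ∈ T.Fix) (ha : a ∈ K) :
    g * a * g⁻¹ ∈ K := by
  have key : ∀ g ∈ T.Fix, ∃ k ∈ (G.gl F).HH, k ∈ T.Fix ∧ ∃ b ∈ T.G1, g = k * b := fun g hg => by
    obtain ⟨u, -, hu, m, hm, hm', w, -, -, v, -, hv, e⟩ := T.canonical_fix hg
    obtain ⟨k, hk, hk', l, rfl⟩ := T.exists_H1_mul hm hm'
    exact ⟨k, hk, hk', _, mul_mem (mul_mem (T.HH_conj_G1 (inv_mem hk) (inv_mem hk') hu) (T.mon_wp l).2.1) hv,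
      by rw [e]; group⟩
  obtain ⟨k, hk, hk', b, hb, rfl⟩ := key g hg
  obtain ⟨l, hl, hl', c, hc, e⟩ := key _ (h2 (mul_mem (mul_mem (h1 hb) ha) (inv_mem (h1 hb))))
  have h3 : l ∈ K := by
    rw [eq_mul_inv_of_mul_eq e.symm]
    exact mul_mem (mul_mem (mul_mem (h1 hb) ha) (inv_mem (h1 hb))) (inv_mem (h1 hc))
  rw [show k * b * a * (k * b)⁻¹ = k * (b * a * b⁻¹) * k⁻¹ by group, e, ← mul_assoc, G.HH_comm F hk hl, mul_assoc,
    mul_assoc, ← mul_assoc k]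
  exact mul_mem h3 (h1 (T.HH_conj_G1 hk hk' hc))

theorem Good.norm_fix (G : Good D) {F : Type*} [Field F] (σ : F →+* F) {K : Subgroup (GL D.Idx F)}
    (hK : K ≤ (G.gl F).Gr) (h1 : ∀ r t, σ t = t → (G.gl F).x r t ∈ K)
    (h2 : ∀ g ∈ K, Matrix.GeneralLinearGroup.map σ g = g) :
    (G.gl F).Gr ⊓ Subgroup.centralizer (K : Set (GL D.Idx F)) = ⊥ ∧ ∀ g ∈ (G.gl F).Gr,
      (g ∈ Subgroup.normalizer (K : Set (GL D.Idx F)) ↔ Matrix.GeneralLinearGroup.map σ g = g) := by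
  have h3 : ∀ g ∈ (G.gl F).Gr, (∀ a ∈ K, g * a * g⁻¹ = a) → g = 1 := fun g hg h =>
    (G.gl F).π_eq_one_of_comm_one hg fun r => h _ (h1 r 1 (map_one σ))
  set T := (G.gl F).fieldTw σ (Matrix.GeneralLinearGroup.map σ) (G.map_gl_x σ)
  have h4 := fun g (hg : g ∈ (G.gl F).Gr) => T.mem_Fix_hom _ (G.map_gl_x σ) hg
  refine ⟨eq_bot_iff.2 fun g hg => h3 g hg.1 fun a ha => by rw [← hg.2 a ha, mul_inv_cancel_right],
    fun g hg => ⟨fun h => ?_, fun h => ?_⟩⟩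
  · refine (inv_mul_eq_one.1 (h3 _ (mul_mem (inv_mem hg) (T.mem_Gr_of_R (T.mem_R_hom _ (G.map_gl_x σ) hg)).2)
      fun a ha => ?_)).symm
    have := h2 _ ((Subgroup.mem_normalizer_iff.1 h a).1 ha)
    rw [map_mul, map_mul, map_inv, h2 a ha] at this
    rw [mul_inv_rev, inv_inv, mul_assoc, mul_assoc, ← mul_assoc a, ← mul_assoc (_ : GL D.Idx F) (a * _),
      ← mul_assoc _ a, this]
    group
  · have h5 : ∀ r, (G.gl F).US {r} ⊓ T.Fix ≤ K := fun r g hg => by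
      obtain ⟨t, rfl⟩ := (G.gl F).mem_US_single.1 hg.1
      have := (h4 _ ((G.gl F).x_mem_Gr r t)).1 hg.2
      rw [G.map_gl_x, ← mul_inv_eq_one, ← Cover.x_neg, ← Cover.add] at this
      refine h1 r t (by_contra fun e => (G.gl F).x_ne_one (fun e' => e ?_) this)
      rwa [← sub_eq_add_neg, sub_eq_zero] at e'
    have h6 : T.G1 ≤ K := T.G1_le (fun c => (inf_le_inf_right _ ((G.gl F).US_mono fun r hr =>
        (G.eq_sm_of_support fun j hj => hr.2 j hj).resolve_right fun e => G.not_pos_sm_rev c (e ▸ hr.1))).trans (h5 _))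
      fun c => (inf_le_inf_right _ ((G.gl F).US_mono fun r hr =>
        (G.eq_sm_of_support fun j hj => hr.2 j hj).resolve_left fun e => hr.1 (e ▸ G.pos_sm c))).trans (h5 _)
    have h7 : K ≤ T.Fix := fun a ha => (h4 a (hK ha)).2 (h2 a ha)
    have h8 := (h4 g hg).2 h
    exact Subgroup.mem_normalizer_iff.2 fun a => ⟨T.conj_mem_of_fix h6 h7 h8, fun ha => by
      simpa [mul_assoc] using T.conj_mem_of_fix h6 h7 (inv_mem h8) ha⟩

end CfsgH6
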