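import Cfsg.Agent.H6.Ot1

set_option autoImplicit false

/-! The two groups. -/

namespace CfsgH6.Ot
open CfsgH8 Finset MonoidHom

instance fact7 : Fact (Nat.Prime 7) := ⟨by norm_num⟩
instance solD : Group.IsSolvable (Tb 15 tD) := solTb (a := 4) (b := 0) Nat.prime_two Nat.prime_two rfl
instance solS : Group.IsSolvable (Tb 15 tS) := solTb (a := 4) (b := 0) Nat.prime_two Nat.prime_two rfl
instance solQ : Group.IsSolvable (Tb 15 tQ) := solTb (a := 4) (b := 0) Nat.prime_two Nat.prime_two rfl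
instance solP : Group.IsSolvable (Tb 15 tP) := solTb (a := 4) (b := 0) Nat.prime_two Nat.prime_two rfl
instance solF : Group.IsSolvable (Tb 20 tF) := solTb (a := 1) (b := 1) Nat.prime_three fact7.out rfl

/-- a character -/
noncomputable def a1 : Tb 15 tQ →* ZMod 3 := sg tQ 3 65280 (by decide +kernel)
/-- a character -/
noncomputable def a2 : Tb 15 tS × C3 →* ZMod 7 := (sg tS 7 52428 (by decide +kernel)).coprod cube
/-- a character -/
noncomputable def a3 : Tb 15 tS × C3 →* ZMod 3 := (sg tS 3 52428 (by decide +kernel)).comp (fst _ _)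
/-- a character -/
noncomputable def a4 : Tb 15 tP × C3 →* ZMod 7 := (sg tP 7 65280 (by decide +kernel)).coprod cube
/-- a character -/
noncomputable def a5 : Tb 15 tP × C3 →* ZMod 7 := (sg tP 7 23130 (by decide +kernel)).comp (fst _ _)
/-- a character -/
noncomputable def a6 : Tb 15 tP × C3 →* ZMod 3 := (sg tP 3 61680 (by decide +kernel)).comp (fst _ _)
/-- a character -/
noncomputable def b1 : Tb 15 tV × C3 →* ZMod 7 := (sg tV 7 43690 (by decide +kernel)).coprod cube
/-- a character -/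
noncomputable def b2 : Tb 15 tV × C3 →* ZMod 3 := (sg tV 3 4080 (by decide +kernel)).comp (fst _ _)
/-- a character -/
noncomputable def b3 : Tb 15 tP →* ZMod 7 := sg tP 7 43690 (by decide +kernel)
/-- a character -/
noncomputable def b4 : Tb 15 tP →* ZMod 3 := sg tP 3 4080 (by decide +kernel)
/-- a character -/
noncomputable def b5 : Tb 7 tC →* ZMod 3 := sg tC 3 240 (by decide +kernel)
/-- a character -/
noncomputable def b6 : Tb 7 tC →* ZMod 3 := sg tC 3 170 (by decide +kernel)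
/-- a character -/
noncomputable def b7 : Tb 7 tC →* ZMod 3 := sg tC 3 90 (by decide +kernel)

/-- the solvable group -/
abbrev GG := Aff (Tb 20 tF) V8 × Aff (Tb 15 tQ) (Sd a1 × Sd a1 × Sd a1) × Aff (Tb 15 tS × C3) (Sd a2 × Sd a3) ×
  Aff (Tb 15 tP × C3) (Sd a4 × Sd a5 × Sd a6) × Tb 15 tD

/-- the non-solvable group -/
abbrev HH := PG × Aff (Tb 15 tV × C3) (Sd b1 × Sd b2) × Aff (Tb 15 tP) (Sd b3 × Sd b4) × Tb 15 tS × Tb 20 tF ×
  Aff (Tb 7 tC) (Sd b5 × Sd b6 × Sd b7)

variable {G : Type*} [Group G] [Fintype G] [DecidableEq G] {p q r : ℕ} [Fact p.Prime] [Fact q.Prime]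
  [Fact r.Prime] (a : G →* ZMod p) (b : G →* ZMod q) (c : G →* ZMod r) (n : ℕ)

theorem F2 : F (Aff G (Sd a × Sd b)) n = ∑ x : G, if x ^ n = 1 then wt a x n * wt b x n else 0 :=
  F_aff _ (c := fun x n => wt a x n * wt b x n) (fun x n h => by rw [cnt_prod, cnt_Sd _ h, cnt_Sd _ h]) n

theorem F3 : F (Aff G (Sd a × Sd b × Sd c)) n =
    ∑ x : G, if x ^ n = 1 then wt a x n * (wt b x n * wt c x n) else 0 :=
  F_aff _ (c := fun x n => wt a x n * (wt b x n * wt c x n))
    (fun x n h => by rw [cnt_prod, cnt_prod, cnt_Sd _ h, cnt_Sd _ h, cnt_Sd _ h]) n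

theorem main (n : ℕ) : F GG n = F HH n := by
  have k : F GG 0 = F GG 168 ∧ F HH 0 = F HH 168 ∧
      ∀ d ∈ [1, 2, 3, 4, 6, 7, 8, 12, 14, 21, 24, 28, 42, 56, 84, 168], F GG d = F HH d := by
    simp only [F_prod, F2, F3, F_aff V8 fun x n _ => cnt_V8 x n, F_PG, F_eq (Tb _ _), List.forall_mem_cons]
    decide +kernel
  rw [F_gcd k.1, F_gcd k.2.1]
  exact k.2.2 _ ((by decide +kernel : ∀ d ∈ Nat.divisors 168,
    d ∈ [1, 2, 3, 4, 6, 7, 8, 12, 14, 21, 24, 28, 42, 56, 84, 168]) _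
      (Nat.mem_divisors.2 ⟨Nat.gcd_dvd_right _ _, by decide⟩))

end CfsgH6.Ot
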