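import Mathlib
import Cfsg.Prelude.Def_HallClasses

set_option autoImplicit false
open Equiv Equiv.Perm Equiv.Perm.OnCycleFactors Subgroup

namespace CfsgH6.Pn

theorem sylow_conj {G : Type*} [Group G] [Finite G] {p : ℕ} [Fact p.Prime] {Q K : Subgroup G}
    (hQ : IsPGroup p Q) (hK : IsPGroup p K) :
    ∃ (x : G) (P : Sylow p G), K ≤ P ∧ Q.map (MulAut.conj x).toMonoidHom ≤ P := by
  obtain ⟨P1, h1⟩ := hQ.exists_le_sylow
  obtain ⟨P2, h2⟩ := hK.exists_le_sylow
  obtain ⟨x, rfl⟩ := MulAction.exists_smul_eq G P1 P2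
  exact ⟨x, x • P1, h2, map_mono h1⟩

theorem conj_norm {G : Type*} [Group G] {Q : Subgroup G} {g : G} (x : G)
    (hg : g ∈ normalizer (Q : Set G)) :
    x * g * x⁻¹ ∈ normalizer (Q.map (MulAut.conj x).toMonoidHom : Set G) :=
  le_normalizer_map _ ⟨g, hg, rfl⟩

theorem eq_one_of {G : Type*} [Group G] {K : Subgroup G} (hK : IsPGroup 2 K) {g : G} (hg : g ∈ K)
    (ho : Odd (orderOf g)) : g = 1 := by
  obtain ⟨k, hk⟩ := hK ⟨g, hg⟩
  have h1 : orderOf g ∣ 2 ^ k := orderOf_dvd_of_pow_eq_one (congrArg Subtype.val hk)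
  exact orderOf_eq_one_iff.1 (Nat.eq_one_of_self_dvd_coprime' h1 ho)
where
  Nat.eq_one_of_self_dvd_coprime' {a k : ℕ} (h1 : a ∣ 2 ^ k) (ho : Odd a) : a = 1 :=
    Nat.eq_one_of_dvd_coprimes ((Nat.coprime_two_right.2 ho).pow_right k) dvd_rfl h1

variable {α : Type*} [Fintype α] [DecidableEq α]

/-- a maximal matching -/
structure Mt (τ : Perm α) (m : ℕ) : Prop where
  ct : τ.cycleType = Multiset.replicate m 2
  cd : Fintype.card α / 2 = m

theorem exists_mt (α : Type*) [Fintype α] [DecidableEq α] : ∃ τ : Perm α, Mt τ (Fintype.card α / 2) := by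
  obtain ⟨τ, h⟩ := (exists_with_cycleType_iff α (m := Multiset.replicate (Fintype.card α / 2) 2)).2
    ⟨by simp; omega, fun a ha => (Multiset.eq_of_mem_replicate ha).ge⟩
  exact ⟨τ, h, rfl⟩

/-- the base group -/
def KK (τ : Perm α) : Subgroup (Perm α) := (toPermHom τ).ker.map (Subgroup.subtype _)

variable {τ : Perm α} {m : ℕ}

theorem Mt.inv (h : Mt τ m) (x : α) : τ (τ x) = x := by
  have : τ ^ 2 = 1 := pow_prime_eq_one_iff.2 fun c hc => Multiset.eq_of_mem_replicate (h.ct ▸ hc)
  simpa [sq] using congrArg (fun σ : Perm α => σ x) this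

theorem Mt.supp (h : Mt τ m) : τ.support.card = 2 * m := by
  rw [← sum_cycleType, h.ct]; simp [mul_comm]

theorem Mt.fix (h : Mt τ m) {x y : α} (hx : τ x = x) (hy : τ y = y) : x = y := by
  have h1 : τ.supportᶜ.card ≤ 1 := by
    rw [Finset.card_compl, h.supp, ← h.cd]; omega
  exact Finset.card_le_one.1 h1 x (by simpa) y (by simpa)

theorem Mt.card_K (h : Mt τ m) : Nat.card (KK τ) = 2 ^ m := by
  classical
  rw [KK, ← kerParam_range_eq, Nat.card_eq_fintype_card, kerParam_range_card, h.ct]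
  have : Fintype.card α - 2 * m ≤ 1 := by rw [← h.cd]; omega
  simp
  omega

theorem Mt.pK (h : Mt τ m) : IsPGroup 2 (KK τ) := IsPGroup.of_card h.card_K

theorem Mt.card_F (h : Mt τ m) : Fintype.card τ.cycleFactorsFinset = m := by
  have := congrArg Multiset.card h.ct
  rw [cycleType_def] at this
  simpa using this

theorem Mt.swap_mem (h : Mt τ m) {x : α} (hx : τ x ≠ x) : swap x (τ x) ∈ KK τ := by
  have e : τ.cycleOf x = swap x (τ x) := by
    ext y
    rw [cycleOf_apply]
    split_ifs with h1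
    · obtain ⟨i, rfl⟩ := h1
      rcases zpow_apply_eq_of_apply_apply_eq_self (h.inv x) i with e | e <;> simp [e, h.inv]
    · rw [swap_apply_of_ne_of_ne (by rintro rfl; exact h1 (SameCycle.refl _ _))
        (by rintro rfl; exact h1 ⟨1, by simp⟩)]
  have h2 : swap x (τ x) ∈ τ.cycleFactorsFinset := e ▸ cycleOf_mem_cycleFactorsFinset_iff.2 (by simpa)
  exact ⟨⟨_, mem_centralizer_singleton_iff.2 (self_mem_cycle_factors_commute h2)⟩,
    (mem_ker_toPermHom_iff _ _).2 fun c hc => cycleFactorsFinset_mem_commute' _ h2 hc, rfl⟩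

omit [Fintype α] in
theorem Mt.cent_of {N : Subgroup (Perm α)} (hi : ∀ x y, τ x = x → τ y = y → x = y)
    (H : ∀ g ∈ N, ∀ x, τ x ≠ x → τ (g x) = g (τ x)) : N ≤ centralizer {τ} := fun g hg => by
  rw [mem_centralizer_singleton_iff]
  ext x
  by_cases hx : τ x = x
  · by_contra h1
    have h2 : τ (g x) ≠ g x := fun e => h1 (by simp [hx, e])
    have := H g⁻¹ (N.inv_mem hg) _ h2
    simp only [Perm.coe_inv, symm_apply_apply, hx, eq_symm_apply] at this
    exact h2 this.symm
  · simp [H g hg x hx]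

theorem Mt.norm_le (h : Mt τ m) {P : Subgroup (Perm α)} (hP : IsPGroup 2 P) (hK : KK τ ≤ P) :
    normalizer (P : Set (Perm α)) ≤ centralizer {τ} := by
  have key : ∀ u v, u ≠ v → swap u v ∈ P → τ u ≠ u → τ u = v := fun u v huv h1 h2 => by
    by_contra h3
    have h4 := isThreeCycle_swap_mul_swap_same huv h2.symm (Ne.symm h3)
    have h5 := eq_one_of hP (P.mul_mem h1 (hK (h.swap_mem h2))) (by rw [h4.orderOf]; decide)
    exact h4.ne_one h5
  refine Mt.cent_of (fun x y => h.fix) fun g hg x hx => ?_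
  have h1 : swap (g x) (g (τ x)) ∈ P := by
    rw [swap_apply_apply]; exact (mem_normalizer_iff.1 hg _).1 (hK (h.swap_mem hx))
  have h2 : g x ≠ g (τ x) := g.injective.ne hx.symm
  by_cases h3 : τ (g x) = g x
  · have := key _ _ h2.symm (swap_comm (g x) _ ▸ h1) fun e => h2 (h.fix h3 e)
    rw [← this, h.inv]
  · exact key _ _ h2 h1 h3

theorem Mt.step (h : Mt τ m) {Q : Subgroup (Perm α)} (hQ : IsPGroup 2 Q) (hc : Q ≤ centralizer {τ})
    (hd : 2 ^ padicValNat 2 (Fintype.card α).factorial * Nat.card (KK τ ⊓ Q : Subgroup _) ∣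
      2 ^ m * Nat.card Q) {g : Perm α} (hg : g ∈ normalizer (Q : Set (Perm α)))
    (hg' : g ∈ centralizer {τ}) (ho : Odd (orderOf g))
    (ih : ∀ Q : Subgroup (Perm τ.cycleFactorsFinset), IsPGroup 2 Q →
      2 ^ padicValNat 2 m.factorial ∣ Nat.card Q → ∀ g ∈ normalizer (Q : Set (Perm τ.cycleFactorsFinset)),
        Odd (orderOf g) → g = 1) : g = 1 := by
  have h1 := ih ((Q.subgroupOf _).map (toPermHom τ)) ((hQ.comap_subtype).map _) ?_
    (toPermHom τ ⟨g, hg'⟩) (le_normalizer_map _ ⟨_, le_normalizer_comap _ hg, rfl⟩)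
    (ho.of_dvd_nat ((orderOf_map_dvd _ _).trans (by simp)))
  · exact eq_one_of h.pK ⟨⟨g, hg'⟩, h1, rfl⟩ ho
  · have e1 := card_eq_card_quotient_mul_card_subgroup ((toPermHom τ).comp (inclusion hc)).ker
    rw [Nat.card_congr (QuotientGroup.quotientKerEquivRange _).toEquiv, MonoidHom.range_comp,
      inclusion_range] at e1
    have e2 : Nat.card ((toPermHom τ).comp (inclusion hc)).ker = Nat.card (KK τ ⊓ Q : Subgroup _) := by
      rw [← card_map_of_injective Q.subtype_injective]
      congr 2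
      ext a
      exact ⟨by rintro ⟨a, ha, rfl⟩; exact ⟨⟨⟨a, hc a.2⟩, ha, rfl⟩, a.2⟩,
        by rintro ⟨⟨a, ha, rfl⟩, h2⟩; exact ⟨⟨a, h2⟩, ha, rfl⟩⟩
    have e3 : padicValNat 2 (Fintype.card α).factorial = m + padicValNat 2 m.factorial := by
      rw [← Nat.div_add_mod (Fintype.card α) 2, padicValNat_factorial_mul_add _ (Nat.mod_lt _ two_pos),
        padicValNat_factorial_mul, h.cd, add_comm]
    rw [e1, e2, e3, pow_add, mul_assoc, Nat.mul_dvd_mul_iff_left (by positivity),
      Nat.mul_dvd_mul_iff_right Nat.card_pos] at hd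
    exact hd

theorem card_syl (P : Sylow 2 (Perm α)) :
    Nat.card P = 2 ^ padicValNat 2 (Fintype.card α).factorial := by
  rw [P.card_eq_multiplicity, Nat.card_eq_fintype_card, Fintype.card_perm, Nat.factorization_def _
    Nat.prime_two]

theorem sym_case (n : ℕ) : ∀ (α : Type*) [Fintype α] [DecidableEq α], Fintype.card α = n →
    ∀ Q : Subgroup (Perm α), IsPGroup 2 Q → 2 ^ padicValNat 2 n.factorial ∣ Nat.card Q →
      ∀ g ∈ normalizer (Q : Set (Perm α)), Odd (orderOf g) → g = 1 := by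
  induction n using Nat.strong_induction_on with
  | _ n ih =>
  intro α _ _ hn Q hQ hd g hg ho
  by_cases h1 : n ≤ 1
  · haveI := Fintype.card_le_one_iff_subsingleton.1 (hn ▸ h1)
    exact Subsingleton.elim _ _
  obtain ⟨τ, h⟩ := exists_mt α
  obtain ⟨x, P, h2, h3⟩ := sylow_conj hQ h.pK
  have h4 : Q.map (MulAut.conj x).toMonoidHom = P := eq_of_le_of_card_ge h3 (by
    rw [card_map_of_injective (MulAut.conj x).injective, card_syl, hn]
    exact Nat.le_of_dvd Nat.card_pos hd)
  have h5 := conj_norm x hg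
  rw [h4] at h5
  have h6 := h.norm_le P.2 h2
  have := h.step P.2 (le_normalizer.trans h6) (by
      rw [card_syl, mul_comm, ← h.card_K]; exact Nat.mul_dvd_mul_right (card_dvd_of_le inf_le_left) _)
    h5 (h6 h5) (by rwa [(MulAut.conj x).orderOf_eq g |> (show orderOf (x * g * x⁻¹) = _ from ·)])
    (ih _ (by omega) _ h.card_F)
  simpa using this

theorem alt_case (h6 : 6 ≤ Fintype.card α) (Q : Subgroup (Perm α)) (hQ : IsPGroup 2 Q)
    (hA : Q ≤ alternatingGroup α)
    (hd : 2 ^ padicValNat 2 (Fintype.card α).factorial ∣ 2 * Nat.card Q) {g : Perm α}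
    (hg : g ∈ normalizer (Q : Set (Perm α))) (ho : Odd (orderOf g)) : g = 1 := by
  obtain ⟨τ, h⟩ := exists_mt α
  obtain ⟨x, P, h2, h3⟩ := sylow_conj hQ h.pK
  have h5 := conj_norm x hg
  have hA' : Q.map (MulAut.conj x).toMonoidHom ≤ alternatingGroup α := by
    rintro _ ⟨a, ha, rfl⟩
    exact alternatingGroup.normal.conj_mem _ (hA ha) x
  rw [← card_map_of_injective (f := (MulAut.conj x).toMonoidHom) (MulAut.conj x).injective] at hd
  replace hQ := hQ.map (MulAut.conj x).toMonoidHom
  generalize Q.map (MulAut.conj x).toMonoidHom = Q at *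
  have ex : ∀ s : Finset α, s.card ≤ 4 → ∃ y, τ y ≠ y ∧ y ∉ s := fun s hs => by
    obtain ⟨y, h1, h2⟩ := Finset.exists_mem_notMem_of_card_lt_card
      (show s.card < τ.support.card by rw [h.supp]; omega)
    exact ⟨y, by simpa using h1, h2⟩
  obtain ⟨y0, hy0, -⟩ := ex ∅ (by simp)
  have odd : ∀ R : Subgroup (Perm α), IsPGroup 2 R → KK τ ≤ R →
      2 * Nat.card (R ⊓ alternatingGroup α : Subgroup _) ∣ Nat.card R := fun R hR hK => by
    obtain ⟨k, hk⟩ := hR.index ((alternatingGroup α).subgroupOf R)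
    rw [← card_mul_index ((alternatingGroup α).subgroupOf R), hk, mul_comm 2]
    refine Nat.mul_dvd_mul ?_ (dvd_pow_self 2 ?_)
    · rw [← inf_subgroupOf_left, Nat.card_congr (subgroupOfEquivOfLe inf_le_left).toEquiv]
    · rintro rfl
      have := subgroupOf_eq_top.1 (index_eq_one.1 hk) (hK (h.swap_mem hy0))
      simp [sign_swap hy0.symm] at this
  have h4 : Q = (P : Subgroup (Perm α)) ⊓ alternatingGroup α := eq_of_le_of_card_ge (le_inf h3 hA') (by
    have h7 := odd P P.2 h2
    rw [card_syl] at h7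
    exact Nat.le_of_dvd Nat.card_pos (Nat.dvd_of_mul_dvd_mul_left two_pos (h7.trans hd)))
  have hc : Q ≤ centralizer {τ} := h3.trans (le_normalizer.trans (h.norm_le P.2 h2))
  have hN : normalizer (Q : Set (Perm α)) ≤ centralizer {τ} := by
    refine Mt.cent_of (fun x y => h.fix) fun g hg x hx => ?_
    have key : ∀ y, τ y ≠ y → y ∉ ({x, τ x} : Finset α) → τ (g (τ x)) =
        g ((swap x (τ x) * swap y (τ y)) (g⁻¹ (τ (g x)))) := fun y hy hy' => by
      have h7 : swap x (τ x) * swap y (τ y) ∈ Q := h4 ▸ ⟨h2 (mul_mem (h.swap_mem hx) (h.swap_mem hy)), by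
        simp [sign_swap hx.symm, sign_swap hy.symm]⟩
      have h8 := congrArg (fun σ : Perm α => σ (g x))
        (mem_centralizer_singleton_iff.1 (hc ((mem_normalizer_iff.1 hg _).1 h7)))
      simp only [Finset.mem_insert, Finset.mem_singleton, not_or] at hy'
      have h9 : x ≠ τ y := fun e => hy'.2 (by rw [e, h.inv])
      simpa [swap_apply_of_ne_of_ne (Ne.symm hy'.1) h9] using h8.symm
    have key2 : ∀ y, τ y ≠ y → y ∉ ({x, τ x} : Finset α) → g⁻¹ (τ (g x)) ∈ ({x, τ x, y, τ y} : Finset α) :=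
      fun y hy hy' => by
        by_contra h7
        simp only [Finset.mem_insert, Finset.mem_singleton, not_or] at h7
        have := key y hy hy'
        rw [Perm.mul_apply, swap_apply_of_ne_of_ne h7.2.2.1 h7.2.2.2,
          swap_apply_of_ne_of_ne h7.1 h7.2.1] at this
        simp at this
        exact hx this
    obtain ⟨y, hy, hy'⟩ := ex {x, τ x} (Finset.card_le_two.trans (by norm_num))
    obtain ⟨z, hz, hz'⟩ := ex {x, τ x, y, τ y} Finset.card_le_four
    have k1 := key2 y hy hy'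
    have k2 := key2 z hz fun e => hz' (by simp at e ⊢; tauto)
    have k3 := key y hy hy'
    simp only [Finset.mem_insert, Finset.mem_singleton, not_or] at k1 k2 hy' hz'
    have h9 : x ≠ τ y := fun e => hy'.2 (by rw [e, h.inv])
    rcases k2 with k | k | k | k
    · rw [k, Perm.mul_apply, swap_apply_of_ne_of_ne (Ne.symm hy'.1) h9, swap_apply_left] at k3
      have k4 : τ (g x) = g x := Perm.inv_eq_iff_eq.1 k
      exact absurd (g.injective (h.fix k3 k4)) hx
    · exact Perm.inv_eq_iff_eq.1 k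
    · rw [k] at k1; tauto
    · rw [k] at k1
      rcases k1 with k1 | k1 | k1 | k1
      exacts [absurd (by rw [← k1, h.inv]) hz'.2.1, absurd (τ.injective k1) hz'.1,
        absurd (by rw [← k1, h.inv]) hz'.2.2.2, absurd (τ.injective k1) hz'.2.2.1]
  have := h.step hQ hc ?_ h5 (hN h5)
    (by rwa [(MulAut.conj x).orderOf_eq g |> (show orderOf (x * g * x⁻¹) = _ from ·)])
    (sym_case _ _ h.card_F)
  · simpa using this
  · have h7 := odd _ h.pK le_rfl
    rw [h.card_K] at h7
    refine (Nat.mul_dvd_mul hd (card_dvd_of_le (inf_le_inf_left _ hA'))).trans ?_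
    rw [mul_right_comm]
    exact Nat.mul_dvd_mul_right h7 _

theorem pron_syl {G : Type*} [Group G] [Finite G] {p : ℕ} [Fact p.Prime] (S : Sylow p G) {H : Subgroup G}
    (hS : (S : Subgroup G) ≤ H)
    (hN : ∀ g ∈ normalizer ((S : Subgroup G) : Set G), H.map (MulAut.conj g).toMonoidHom = H) :
    Cfsg.IsPronormal H := fun g => by
  have h1 : (S : Subgroup G) ≤ H ⊔ H.map (MulAut.conj g).toMonoidHom := hS.trans le_sup_left
  have h2 : ((g • S : Sylow p G) : Subgroup G) ≤ H ⊔ H.map (MulAut.conj g).toMonoidHom :=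
    (map_mono hS).trans le_sup_right
  obtain ⟨x, hx⟩ := MulAction.exists_smul_eq (H ⊔ H.map (MulAut.conj g).toMonoidHom : Subgroup G)
    (S.subtype h1) ((g • S).subtype h2)
  rw [Sylow.smul_subtype] at hx
  replace hx := Sylow.subtype_injective hx
  have h3 := hN ((x : G)⁻¹ * g) (Sylow.smul_eq_iff_mem_normalizer.1 (by
    rw [mul_smul, ← hx]; exact inv_smul_smul (x : G) S))
  refine ⟨x, x.2, ?_⟩
  refine Eq.trans ?_ (congrArg (map (MulAut.conj (x : G)).toMonoidHom) h3)
  rw [map_map]
  congr 1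
  ext a
  simp [mul_assoc]

theorem pron_prime {G : Type*} [Group G] [Finite G] {H : Subgroup G}
    (h : H.index = 1 ∨ H.index.Prime) : Cfsg.IsPronormal H := fun g => by
  have h1 := index_dvd_of_le (le_sup_left : H ≤ H ⊔ H.map (MulAut.conj g).toMonoidHom)
  by_cases h2 : (H ⊔ H.map (MulAut.conj g).toMonoidHom).index = 1
  · exact ⟨g, by rw [index_eq_one.1 h2]; trivial, rfl⟩
  have h3 : (H ⊔ H.map (MulAut.conj g).toMonoidHom).index = H.index := by
    rcases h with h | h
    · exact (h2 (Nat.dvd_one.1 (h ▸ h1))).elim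
    · exact ((Nat.dvd_prime h).1 h1).resolve_left h2
  have h4 : Nat.card (H ⊔ H.map (MulAut.conj g).toMonoidHom : Subgroup G) = Nat.card H :=
    Nat.eq_of_mul_eq_mul_right (Nat.pos_of_ne_zero H.index_ne_zero_of_finite) (by
      rw [card_mul_index, ← h3, card_mul_index])
  refine ⟨1, one_mem _, ?_⟩
  rw [map_one, show (1 : MulAut G).toMonoidHom = MonoidHom.id G from rfl, map_id]
  exact (eq_of_le_of_card_ge le_sup_right (by
    rw [h4, card_map_of_injective (MulAut.conj g).injective])).trans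
    (eq_of_le_of_card_ge le_sup_left h4.le).symm

theorem exists_syl {G : Type*} [Group G] [Finite G] {H : Subgroup G} (hH : Odd H.index) :
    ∃ S : Sylow 2 G, (S : Subgroup G) ≤ H := by
  obtain ⟨T⟩ : Nonempty (Sylow 2 H) := inferInstance
  refine ⟨(T.2.map H.subtype).toSylow ?_, map_subtype_le _⟩
  rw [index_map_subtype, Nat.prime_two.dvd_mul, not_or]
  exact ⟨T.not_dvd_index, hH.not_two_dvd_nat⟩

theorem main (n : ℕ) (hn : 5 ≤ n) (H : Subgroup (alternatingGroup (Fin n))) (hH : Odd H.index) :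
    Cfsg.IsPronormal H := by
  obtain ⟨S, hS⟩ := exists_syl hH
  haveI : Nontrivial (Fin n) := Fin.nontrivial_iff_two_le.2 (by omega)
  have hc : 2 * Nat.card (alternatingGroup (Fin n)) = n.factorial := by
    rw [two_mul_nat_card_alternatingGroup, Nat.card_eq_fintype_card, Fintype.card_perm, Fintype.card_fin]
  rcases hn.eq_or_lt with rfl | h6
  · have h1 : Nat.card (alternatingGroup (Fin 5)) = 60 := by
      simp only [Nat.factorial] at hc; omega
    have h2 : H.index ∣ 15 := (Nat.Coprime.pow_right 2 (Nat.coprime_two_right.2 hH)).dvd_of_dvd_mul_left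
      (by have := H.index_dvd_card; rwa [h1] at this)
    have h3 : H.index = 1 ∨ H.index = 3 ∨ H.index = 5 ∨ H.index = 15 := by
      have := Nat.le_of_dvd (by norm_num) h2
      generalize H.index = k at *
      interval_cases k <;> simp_all
    rcases h3 with h3 | h3 | h3 | h3
    · exact pron_prime (.inl h3)
    · exact pron_prime (.inr (h3 ▸ Nat.prime_three))
    · exact pron_prime (.inr (by rw [h3]; exact Nat.prime_five))
    · have h4 := H.card_mul_index
      rw [h1, h3] at h4
      let T := (IsPGroup.of_card (p := 2) (n := 2) (show Nat.card H = 2 ^ 2 by omega)).toSylow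
        hH.not_two_dvd_nat
      exact pron_syl T le_rfl fun g hg => congrArg Sylow.toSubgroup
        (Sylow.smul_eq_iff_mem_normalizer.2 hg : g • T = T)
  · refine pron_syl S hS fun g hg => ?_
    obtain ⟨k, r, hr, e⟩ := Nat.exists_eq_two_pow_mul_odd (orderOf_pos g).ne'
    have h1 : g ^ 2 ^ k = 1 := Subtype.ext (alt_case (by simpa) ((S : Subgroup _).map (Subgroup.subtype _))
      (S.2.map _) (map_subtype_le _) ?_ (le_normalizer_map _ ⟨_, pow_mem hg _, rfl⟩) ?_)
    · have h2 : IsPGroup 2 (zpowers g) := IsPGroup.of_card_dvd_pow (by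
        rw [Nat.card_zpowers]; exact orderOf_dvd_of_pow_eq_one h1)
      have h3 : g ∈ H := hS ((h2.inf_normalizer_sylow S).le ⟨mem_zpowers g, hg⟩).2
      exact (inferInstance : H.FiniteIndex) |> fun _ => eq_of_le_of_card_ge
        (by rintro _ ⟨a, ha, rfl⟩; exact mul_mem (mul_mem h3 ha) (inv_mem h3))
        (by rw [card_map_of_injective (MulAut.conj g).injective])
    · rw [card_map_of_injective (Subgroup.subtype_injective _), S.card_eq_multiplicity, Fintype.card_fin,
        ← hc, padicValNat.mul two_ne_zero Nat.card_pos.ne', Nat.factorization_def _ Nat.prime_two]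
      simp [pow_add]
    · rw [orderOf_coe, orderOf_pow' _ (by positivity), e, Nat.gcd_mul_right_left,
        Nat.mul_div_cancel_left _ (by positivity)]
      exact hr

end CfsgH6.Pn
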