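import Cfsg.Agent.H6.R3c

set_option autoImplicit false

open Matrix

namespace CfsgH6.R3

variable {F : Type*} [Field F]

theorem In.cancel_left {ι : Type*} [Fintype ι] [DecidableEq ι]
    {H : Subgroup (SpecialLinearGroup ι F)} {A B : Matrix ι ι F} (hA : In H A) (h : In H (A * B)) :
    In H B := by
  obtain ⟨C, hC, -, h2⟩ := hA.ex
  have := hC.mul h
  rwa [← mul_assoc, h2, one_mul] at this

theorem In.cancel_right {ι : Type*} [Fintype ι] [DecidableEq ι]
    {H : Subgroup (SpecialLinearGroup ι F)} {A B : Matrix ι ι F} (hB : In H B) (h : In H (A * B)) :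
    In H A := by
  obtain ⟨C, hC, h2, -⟩ := hB.ex
  have := h.mul hC
  rwa [mul_assoc, h2, mul_one] at this

/-- a multiplicatively and additively closed set in a finite field is a subfield -/
theorem ex_subfield [Fintype F] (S : F → Prop) (h0 : S 0) (ha : ∀ x y, S x → S y → S (x + y))
    (hn : ∀ x, S x → S (-x)) (hm : ∀ x y, S x → S y → S (x * y)) {z : F} (hz : z ≠ 0) (hz' : S z) :
    ∃ K : Subfield F, ∀ x, x ∈ K ↔ S x := by
  have hp : ∀ x, S x → ∀ k : ℕ, S (x ^ (k + 1)) := fun x hx k => by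
    induction k with
    | zero => simpa using hx
    | succ k ih => rw [pow_succ]; exact hm _ _ ih hx
  have hq : 2 ≤ Fintype.card F := Fintype.one_lt_card
  have h1 : S 1 := by
    have := hp z hz' (Fintype.card F - 2)
    rwa [show Fintype.card F - 2 + 1 = Fintype.card F - 1 by omega,
      FiniteField.pow_card_sub_one_eq_one z hz] at this
  refine ⟨{ carrier := {x | S x}, mul_mem' := fun a b => hm _ _ a b, one_mem' := h1,
            add_mem' := fun a b => ha _ _ a b, zero_mem' := h0, neg_mem' := fun a => hn _ a,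
            inv_mem' := fun x hx => ?_ }, fun x => Iff.rfl⟩
  by_cases x0 : x = 0
  · simpa [x0] using h0
  have := hp x hx (2 * (Fintype.card F - 1) - 2)
  rwa [show x ^ (2 * (Fintype.card F - 1) - 2 + 1) = x⁻¹ from eq_inv_of_mul_eq_one_left (by
    rw [← pow_succ, show 2 * (Fintype.card F - 1) - 2 + 1 + 1 = (Fintype.card F - 1) * 2 by omega,
      pow_mul, FiniteField.pow_card_sub_one_eq_one x x0, one_pow])] at this

theorem mv3 (a b c d e f g h i x y z : F) : !![a, b, c; d, e, f; g, h, i] *ᵥ ![x, y, z] =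
    ![a * x + b * y + c * z, d * x + e * y + f * z, g * x + h * y + i * z] := by
  ext k; fin_cases k <;> simp [mulVec, dotProduct, Fin.sum_univ_three]

theorem m3 {a b c d e f g h i a' b' c' d' e' f' g' h' i' : F} (h1 : a = a') (h2 : b = b')
    (h3 : c = c') (h4 : d = d') (h5 : e = e') (h6 : f = f') (h7 : g = g') (h8 : h = h')
    (h9 : i = i') : !![a, b, c; d, e, f; g, h, i] = !![a', b', c'; d', e', f'; g', h', i'] := by
  subst_vars; rfl

variable (F) in
/-- the companion matrix of the cube of `X - 1` -/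
def CU : Matrix (Fin 3) (Fin 3) F := !![0, 0, 1; 1, 0, -3; 0, 1, 3]

variable (F) in
/-- its inverse -/
def CV : Matrix (Fin 3) (Fin 3) F := !![3, 1, 0; -3, 0, 1; 1, 0, 0]

theorem CUV : CU F * CV F = 1 := by
  rw [CU, CV, mul_fin_three, one_fin_three]; apply m3 <;> norm_num

theorem det_CU : (CU F).det = 1 := by simp [CU, det_fin_three]

variable {H : Subgroup (SpecialLinearGroup (Fin 3) F)}

theorem e10 (hU : In H (CU F)) {c : F} (h : P H ![c, 0, 0] ![0, 0, 1]) : P H ![0, c, 0] ![1, 0, 0] := by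
  convert h.conj hU CUV using 1
  · rw [CU, mv3]; simp
  · simp [CV]

theorem e20 (hU : In H (CU F)) {c : F} (h : P H ![0, c, 0] ![0, 0, 1]) : P H ![0, 0, c] ![1, 0, 0] := by
  convert h.conj hU CUV using 1
  · rw [CU, mv3]; simp
  · simp [CV]

theorem e02 (hU : In H (CU F)) {c : F} (h : P H ![0, c, 0] ![1, 0, 0]) : P H ![c, 0, 0] ![0, 0, 1] := by
  convert h.conj (hU.inv CUV) (mul_eq_one_comm.1 CUV) using 1
  · rw [CV, mv3]; simp
  · simp [CU]

theorem e2x (hU : In H (CU F)) {c : F} (h : P H ![0, c, 0] ![1, 0, 0]) : P H ![0, 0, c] ![3, 1, 0] := by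
  convert h.conj hU CUV using 1
  · rw [CU, mv3]; simp
  · simp [CV]

theorem xx (hU : In H (CU F)) {c d : F} (h : P H ![c, 0, 0] ![0, 0, 1])
    (h' : P H ![d, 0, 0] ![0, 0, 1]) : P H ![0, c * d, 0] ![0, 0, 1] := by
  convert (e10 hU h).comm h' (by simp) (by simp) (by simp) using 1
  simp [mul_comm]

theorem yy (hU : In H (CU F)) {c d : F} (h : P H ![0, c, 0] ![0, 0, 1])
    (h' : P H ![0, d, 0] ![0, 0, 1]) : P H ![c * d, 0, 0] ![0, 0, 1] := by
  refine e02 hU ?_
  convert h.comm (e20 hU h') (by simp) (by simp) (by simp) using 1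
  simp [mul_comm]

theorem fin3 (hU : In H (CU F)) (h : ∀ c : F, P H ![c, 0, 0] ![0, 0, 1]) : H = ⊤ := by
  have h2 : Phi H ![0, 0, 1] := fun v hv => by
    convert (h (v 0)).add (xx hU (h (v 1)) (h 1)) (by simp) using 1
    ext i; fin_cases i <;> simp
    simpa [dotProduct, Fin.sum_univ_three] using hv
  have h0 : Phi H ![1, 0, 0] := by
    convert h2.act (hU.inv CUV) using 1; simp [CV]
  have h1 : Phi H ![0, 1, 0] := by
    convert (h0.act (hU.inv CUV)).act (h0 ![0, -3, 0] (by simp)) using 1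
    rw [vecMul_tv]; simp [CV]
  refine top_of fun j => ?_
  fin_cases j
  · convert h0 using 1; ext i; fin_cases i <;> simp
  · convert h1 using 1; ext i; fin_cases i <;> simp
  · convert h2 using 1; ext i; fin_cases i <;> simp

theorem tv02 (c : F) : 1 + vecMulVec ![c, 0, 0] ![0, 0, 1] = !![1, 0, c; 0, 1, 0; 0, 0, (1 : F)] := by
  ext i j; fin_cases i <;> fin_cases j <;> simp [vecMulVec_apply]

theorem gen3 [Fintype F] (τ : F) (h0 : τ ≠ 0) (h1 : τ ^ 2 + 12 ≠ 0)
    (hK : ∀ K : Subfield F, τ ^ 3 ∈ K → 12 * τ ∈ K → K = ⊤) (hU : In H (CU F))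
    (hs : In H !![-1, τ, τ * (3 - τ) - 6; 0, 1, 6 - τ; 0, 0, -1]) : H = ⊤ := by
  have ht : P H ![τ ^ 2 + 12, 0, 0] ![0, 0, 1] := by
    rw [P]
    convert hs.mul hs using 1
    rw [tv02, mul_fin_three]; apply m3 <;> ring
  have hy : ∀ c, P H ![0, c, 0] ![0, 0, 1] → P H ![τ * c, 0, 0] ![0, 0, 1] := by
    intro c hc
    obtain ⟨B, -, hB, -⟩ := hs.ex
    have h2 := hc.conj hs hB
    have e : ![0, 0, 1] ᵥ* B = -![0, 0, 1] := by
      have : (-![0, 0, 1] : Fin 3 → F) ᵥ* !![-1, τ, τ * (3 - τ) - 6; 0, 1, 6 - τ; 0, 0, -1] =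
        ![0, 0, 1] := by simp
      rw [← this, vecMul_vecMul, hB, vecMul_one, this]
    rw [e, P, vecMulVec_neg, ← neg_vecMulVec, mv3] at h2
    convert ((P.add h2 hc (by simp)).neg (by simp)) using 1
    simp [mul_comm]
  obtain ⟨K, hK'⟩ := ex_subfield (fun x => P H ![τ⁻¹ * x, 0, 0] ![0, 0, 1])
    (by convert P.zero _ using 1; simp)
    (fun x y hx hy => by convert hx.add hy (by simp) using 1; simp [mul_add])
    (fun x hx => by convert hx.neg (by simp) using 1; simp)
    (fun x y hx hy' => by convert hy _ (xx hU hx hy') using 2; field_simp)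
    (mul_ne_zero h0 h1) (by rwa [inv_mul_cancel_left₀ h0])
  have k1 := (hK' 1).1 K.one_mem
  have k3 : τ ^ 3 ∈ K := by
    rw [← inv_inv (τ ^ 3)]
    refine K.inv_mem ((hK' _).2 ?_)
    convert yy hU (xx hU k1 k1) (xx hU k1 k1) using 2; field_simp
  have k4 : τ * (τ ^ 2 + 12) ∈ K := (hK' _).2 (by rwa [inv_mul_cancel_left₀ h0])
  have hT := hK K k3 (by convert K.sub_mem k4 k3 using 1; ring)
  refine fin3 hU fun c => ?_
  have := (hK' (τ * c)).1 (hT ▸ Subfield.mem_top _)
  rwa [inv_mul_cancel_left₀ h0] at this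

theorem gen4 (ω : F) (h2 : (2 : F) = 0) (hω : ω ^ 2 + ω + 1 = 0) (h4 : ∀ c : F, c ^ 4 = c)
    (hU : In H (CU F)) (hv : In H !![ω, 1, 1; ω, 0, 1; 0, ω, ω + 1]) : H = ⊤ := by
  have a1 : P H ![1, 0, 0] ![0, 0, 1] := by
    refine (hU.mul hv).cancel_left ?_
    convert ((hv.mul hv).mul hU).mul hv using 1
    simp only [tv02, CU, mul_fin_three]
    apply m3 <;> grind
  have a2 : P H ![ω, 0, 0] ![0, 0, 1] := by
    refine (hU.mul hv).cancel_right ?_
    convert ((hU.mul hv).mul hU).mul hU using 1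
    simp only [tv02, CU, mul_fin_three]
    apply m3 <;> grind
  refine fin3 hU fun c => ?_
  have : c * (c - 1) * (c - ω) * (c - (1 + ω)) = 0 := by have := h4 c; grind
  simp only [mul_eq_zero, sub_eq_zero] at this
  rcases this with ((rfl | rfl) | rfl) | rfl
  · convert P.zero _ using 1; simp
  · exact a1
  · exact a2
  · convert a1.add a2 (by simp) using 1; simp

end CfsgH6.R3
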