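import Cfsg.Agent.H6.R3d

set_option autoImplicit false

open Matrix

namespace CfsgH6.R3

variable {F : Type*} [Field F]

theorem ex_gen [Fintype F] : ∃ γ : F, γ ≠ 0 ∧ (∀ k : ℕ, γ ^ k = 1 → Fintype.card F - 1 ∣ k) ∧
    ∀ K : Subfield F, γ ∈ K → K = ⊤ := by
  classical
  obtain ⟨γ, hγ⟩ := IsCyclic.exists_monoid_generator (α := Fˣ)
  refine ⟨γ, γ.ne_zero, fun k hk => ?_, fun K hK => eq_top_iff.2 fun x _ => ?_⟩
  · have := orderOf_eq_card_of_forall_mem_powers hγ
    rw [Nat.card_eq_fintype_card, Fintype.card_units] at this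
    rw [← this]
    exact orderOf_dvd_of_pow_eq_one (Units.ext (by simpa using hk))
  · by_cases hx : x = 0
    · rw [hx]; exact K.zero_mem
    obtain ⟨k, hk⟩ := hγ (Units.mk0 x hx)
    have : x = (γ : F) ^ k := by simpa using (congrArg Units.val hk).symm
    rw [this]; exact K.pow_mem hK k

theorem ex_tau [Fintype F] (hq : Fintype.card F ≠ 4) : ∃ τ : F, τ ≠ 0 ∧ τ ^ 2 + 12 ≠ 0 ∧
    ∀ K : Subfield F, τ ^ 3 ∈ K → 12 * τ ∈ K → K = ⊤ := by
  classical
  obtain ⟨γ, h0, hγ, hK⟩ := ex_gen (F := F)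
  by_cases h12 : (12 : F) = 0
  · refine ⟨γ, h0, by simpa [h12] using h0, fun K h3 _ => ?_⟩
    have h1 := FiniteField.pow_card_sub_one_eq_one (⟨γ ^ 3, h3⟩ : K) (by simpa [Subtype.ext_iff] using h0)
    have h2 := hγ (3 * (Fintype.card K - 1)) (by rw [pow_mul]; exact congrArg Subtype.val h1)
    have hk : 2 ≤ Fintype.card K := Fintype.one_lt_card
    have h4 := Nat.le_of_dvd (by omega) h2
    have h5 := Module.card_eq_pow_finrank (K := K) (V := F)
    have h6 : 0 < Module.finrank K F := Module.finrank_pos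
    by_cases h7 : Module.finrank K F = 1
    · rw [h7, pow_one] at h5
      have := (Fintype.bijective_iff_injective_and_card K.subtype).2 ⟨K.subtype.injective, h5.symm⟩
      exact eq_top_iff.2 fun x _ => by obtain ⟨y, rfl⟩ := this.2 x; exact y.2
    · have h8 : Fintype.card K ^ 2 ≤ Fintype.card F := h5 ▸ Nat.pow_le_pow_right (by omega) (by omega)
      have h9 : Fintype.card F + 2 ≤ 3 * Fintype.card K := by omega
      have : Fintype.card K = 2 := by nlinarith
      rw [this] at h8 h9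
      omega
  have key : ∀ (K : Subfield F) (τ : F), 12 * τ ∈ K → τ ∈ K := fun K τ h => by
    have := K.mul_mem (K.inv_mem (ofNat_mem K 12)) h
    rwa [inv_mul_cancel_left₀ h12] at this
  by_cases h1 : γ ^ 2 + 12 = 0
  · by_cases h2 : γ + 1 ≠ 0 ∧ (γ + 1) ^ 2 + 12 ≠ 0
    · exact ⟨γ + 1, h2.1, h2.2, fun K _ h => hK K (by simpa using K.sub_mem (key K _ h) K.one_mem)⟩
    · refine ⟨γ - 1, fun e => ?_, fun e => ?_,
        fun K _ h => hK K (by simpa using K.add_mem (key K _ h) K.one_mem)⟩ <;> grind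
  · exact ⟨γ, h0, h1, fun K _ h => hK K (key K _ h)⟩

theorem conj_val {ι : Type*} [Fintype ι] [DecidableEq ι] (u g : SpecialLinearGroup ι F)
    {V : Matrix ι ι F} (h : g.1 * u.1 = V * g.1) : (g * u * g⁻¹).1 = V := by
  change g.1 * u.1 * (g⁻¹).1 = V
  rw [h, mul_assoc, show g.1 * (g⁻¹).1 = 1 from congrArg Subtype.val (mul_inv_cancel g), mul_one]

theorem final3 [Fintype F] : ∃ u g : SpecialLinearGroup (Fin 3) F, u.1 = CU F ∧
    Subgroup.closure ({u, g * u * g⁻¹} : Set (SpecialLinearGroup (Fin 3) F)) = ⊤ := by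
  let u : SpecialLinearGroup (Fin 3) F := ⟨CU F, det_CU⟩
  have hU : ∀ g, In (Subgroup.closure {u, g * u * g⁻¹}) (CU F) := fun g =>
    ⟨u, Subgroup.subset_closure (by simp), rfl⟩
  by_cases hq : Fintype.card F = 4
  · obtain ⟨ω, h0, hω, -⟩ := ex_gen (F := F)
    have h4 : ∀ c : F, c ^ 4 = c := fun c => hq ▸ FiniteField.pow_card c
    have h2 : (2 : F) = 0 := by have := h4 (-1); grind
    have h1 : ω ≠ 1 := fun e => by simpa [hq] using hω 1 (by simp [e])
    have h3 : ω ^ 2 + ω + 1 = 0 := by have := h4 ω; grind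
    let g : SpecialLinearGroup (Fin 3) F := ⟨!![0, 1, 0; -1, 0, 0; 0, ω, 1], by simp [det_fin_three]⟩
    refine ⟨u, g, rfl, gen4 ω h2 h3 h4 (hU g) ⟨g * u * g⁻¹, Subgroup.subset_closure (by simp),
      conj_val u g ?_⟩⟩
    simp only [u, g, CU, mul_fin_three]
    apply m3 <;> grind
  · obtain ⟨τ, h0, h1, hK⟩ := ex_tau hq
    let g : SpecialLinearGroup (Fin 3) F := ⟨!![1, 0, 0; 0, -1, -τ; 0, 0, -1], by simp [det_fin_three]⟩
    refine ⟨u, g, rfl, gen3 τ h0 h1 hK (hU g) ((hU g).cancel_left ⟨g * u * g⁻¹,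
      Subgroup.subset_closure (by simp), conj_val u g ?_⟩)⟩
    simp only [u, g, CU, mul_fin_three]
    apply m3 <;> ring

theorem CU_nil : IsNilpotent (CU F - 1) ∧ (CU F - 1) ^ (3 - 1) ≠ 0 := by
  have e : CU F - 1 = !![-1, 0, 1; 1, -1, -3; 0, 1, 2] := by
    ext i j; fin_cases i <;> fin_cases j <;> simp [CU] <;> norm_num
  rw [e]
  refine ⟨⟨3, ?_⟩, fun h => ?_⟩
  · rw [pow_three, mul_fin_three, mul_fin_three]
    ext i j; fin_cases i <;> fin_cases j <;> simp <;> norm_num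
  · rw [show 3 - 1 = 2 from rfl, pow_two, mul_fin_three] at h
    simpa using congrFun (congrFun h 0) 0

end CfsgH6.R3
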