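import Cfsg.Agent.H6.R3e

set_option autoImplicit false

open Matrix

namespace CfsgH6.R3

variable {F : Type*} [Field F]

section gen
variable {ι : Type*} [Fintype ι] [DecidableEq ι] {H : Subgroup (SpecialLinearGroup ι F)}

theorem Phi.zero : Phi H (0 : ι → F) := fun v _ => ⟨1, H.one_mem, by simp⟩

theorem Phi.add {f g : ι → F} (hf : Phi H f) (hg : Phi H g) : Phi H (f + g) := by
  by_cases h : ∃ y, g ⬝ᵥ y = 0 ∧ f ⬝ᵥ y ≠ 0
  · obtain ⟨y, h1, h2⟩ := h
    have := hf.act (hg ((f ⬝ᵥ y)⁻¹ • y) (by simp [h1]))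
    rwa [vecMul_tv, dotProduct_smul, smul_eq_mul, inv_mul_cancel₀ h2, one_smul] at this
  push Not at h
  by_cases g0 : g = 0
  · simpa [g0] using hf
  obtain ⟨i, hi⟩ := Function.ne_iff.1 g0
  have : f + g = (f i / g i + 1) • g := by
    ext j
    have := h (Pi.single j (g i) - Pi.single i (g j)) (by simp [mul_comm])
    have hi' : g i ≠ 0 := hi
    simp only [dotProduct_sub, dotProduct_single, sub_eq_zero] at this
    simp only [Pi.add_apply, Pi.smul_apply, smul_eq_mul]
    field_simp
    linear_combination this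
  rw [this]; exact hg.smul _

variable (H) in
/-- the forms all of whose transvections lie in `H` -/
def phiSub : Submodule F (ι → F) where
  carrier := {f | Phi H f}
  add_mem' := Phi.add
  zero_mem' := Phi.zero
  smul_mem' := fun c _ h => Phi.smul h c

theorem P.flip {v f : ι → F} {c : F} (h : P H v (c • f)) : P H (c • v) f := by
  rwa [P, vecMulVec_smul, ← smul_vecMulVec] at h

theorem vecMul_inv {A B : Matrix ι ι F} (h : A * B = 1) {f g : ι → F} (e : g ᵥ* A = f) :
    f ᵥ* B = g := by rw [← e, vecMul_vecMul, h, vecMul_one]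

theorem P.step {U B : Matrix ι ι F} (hU : In H U) (hB : U * B = 1) {x y f : ι → F} (hx : P H x f)
    (hy : P H y f) (h0 : f ⬝ᵥ x = 0) (h1 : f ⬝ᵥ y = 0) (h2 : f ⬝ᵥ U *ᵥ y = 0) :
    P H (((f ᵥ* B) ⬝ᵥ x) • U *ᵥ y) f :=
  (hy.conj hU hB).comm hx (by
    rw [dotProduct_mulVec, vecMul_vecMul, mul_eq_one_comm.1 hB, vecMul_one, h1]) h0 h2

end gen

variable {m : ℕ}

variable (F m) in
/-- the lower Jordan block -/
def LL : Matrix (Fin (m + 3)) (Fin (m + 3)) F := 1 + (NN F m)ᵀ

theorem det_L : (LL F m).det = 1 := by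
  rw [LL, ← transpose_one, ← transpose_add, det_transpose, det_U]

theorem L_cast (k : Fin (m + 2)) : LL F m *ᵥ ee k.castSucc = ee k.castSucc + ee k.succ := by
  rw [LL, add_mulVec, one_mulVec, mulVec_transpose, cast_N]

theorem L_last : LL F m *ᵥ ee (Fin.last _) = ee (Fin.last _) := by
  rw [LL, add_mulVec, one_mulVec, mulVec_transpose, last_N, add_zero]

theorem vm_cast (g : Fin (m + 3) → F) (k : Fin (m + 2)) :
    (g ᵥ* LL F m) k.castSucc = g k.castSucc + g k.succ := by
  have := dotProduct_mulVec g (LL F m) (ee k.castSucc)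
  rw [L_cast] at this
  simpa using this.symm

theorem vm_last (g : Fin (m + 3) → F) : (g ᵥ* LL F m) (Fin.last _) = g (Fin.last _) := by
  have := dotProduct_mulVec g (LL F m) (ee (Fin.last _))
  rw [L_last] at this
  simpa using this.symm

theorem L_reg : IsNilpotent (LL F m - 1) ∧ (LL F m - 1) ^ (m + 3 - 1) ≠ 0 := by
  rw [LL, add_sub_cancel_left]
  obtain ⟨k, hk⟩ := nil_N (F := F) (m := m)
  refine ⟨⟨k, by rw [← transpose_pow, hk, transpose_zero]⟩, fun e => ?_⟩
  rw [← transpose_pow, transpose_eq_zero] at e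
  have h1 := N_pow (F := F) (Fin.last (m + 2))
  rw [Fin.val_last, show NN F m ^ (m + 2) = 0 from e, Matrix.zero_mulVec] at h1
  simpa using congrFun h1 0

theorem reg_conj {U A B : Matrix (Fin (m + 3)) (Fin (m + 3)) F} (h : A * B = 1)
    (hU : IsNilpotent (U - 1) ∧ (U - 1) ^ (m + 3 - 1) ≠ 0) :
    IsNilpotent (A * U * B - 1) ∧ (A * U * B - 1) ^ (m + 3 - 1) ≠ 0 := by
  have h' := mul_eq_one_comm.1 h
  have key : ∀ k : ℕ, (A * U * B - 1) ^ k = A * (U - 1) ^ k * B := fun k => by
    induction k with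
    | zero => simp [h]
    | succ k ih =>
      rw [pow_succ, ih, pow_succ, show A * U * B - 1 = A * (U - 1) * B by
        rw [mul_sub, sub_mul, mul_one, h]]
      simp only [mul_assoc]
      rw [← mul_assoc B A, h', one_mul]
  obtain ⟨⟨k, hk⟩, h2⟩ := hU
  refine ⟨⟨k, by rw [key, hk, mul_zero, zero_mul]⟩, fun e => h2 ?_⟩
  rw [key] at e
  have := congrArg (fun X => B * X * A) e
  simp only [mul_zero, zero_mul, mul_assoc, h', mul_one] at this
  rwa [← mul_assoc, h', one_mul] at this

variable {H : Subgroup (SpecialLinearGroup (Fin (m + 3)) F)}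

theorem finish (hU : In H (LL F m)) {f : Fin (m + 3) → F} (hf : Phi H f) (hL : f (Fin.last _) ≠ 0) :
    H = ⊤ := by
  have h1 : ∀ j : Fin (m + 3), ∃ g ∈ phiSub H, g j ≠ 0 ∧ ∀ i, j < i → g i = 0 := by
    intro j
    induction j using Fin.reverseInduction with
    | last => exact ⟨f, hf, hL, fun i hi => absurd hi (Fin.le_last i).not_gt⟩
    | cast k ih =>
      obtain ⟨g, hg, h2, h3⟩ := ih
      refine ⟨g ᵥ* LL F m - g, (phiSub H).sub_mem (Phi.act hg hU) hg, by simpa [vm_cast] using h2,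
        fun i hi => ?_⟩
      induction i using Fin.lastCases with
      | last => simp [vm_last]
      | cast i => simpa [vm_cast] using h3 _ (by simpa using hi)
  refine top_of fun j => ?_
  change _ ∈ phiSub H
  induction j using WellFoundedLT.induction with
  | ind j ih =>
    obtain ⟨g, hg, h2, h3⟩ := h1 j
    have : Pi.single j 1 = (g j)⁻¹ • (g - ∑ i ∈ Finset.univ.erase j, g i • Pi.single i (1 : F)) := by
      ext i
      by_cases h : i = j
      · simp [h, h2, Finset.sum_apply, Pi.single_apply]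
      · simp [h, Finset.sum_apply, Pi.single_apply]
    rw [this]
    refine Submodule.smul_mem _ _ (Submodule.sub_mem _ hg (Submodule.sum_mem _ fun i hi => ?_))
    rcases lt_or_gt_of_ne (Finset.ne_of_mem_erase hi) with h | h
    · exact Submodule.smul_mem _ _ (ih i h)
    · rw [h3 i h, zero_smul]; exact Submodule.zero_mem _

theorem P.of_basis {v f : Fin (m + 3) → F}
    (h : ∀ i, v i ≠ 0 → f i = 0 ∧ ∀ c : F, P H (c • ee i) f) : P H v f := by
  rw [pi_eq_sum_univ' v]
  refine P.sum _ _ (fun k => ?_) fun k => ?_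
  · by_cases hk : v k = 0
    · rw [hk, zero_smul]; exact P.zero _
    · exact (h k hk).2 _
  · by_cases hk : v k = 0
    · simp [hk]
    · simp [(h k hk).1]

/-- climbing along the basis -/
theorem climb (hU : In H (LL F m)) {B : Matrix (Fin (m + 3)) (Fin (m + 3)) F} (hB : LL F m * B = 1)
    {f : Fin (m + 3) → F} (i : Fin (m + 3)) (hi : ∀ c : F, P H (c • ee i) f)
    (hb : (f ᵥ* B) i ≠ 0) (j : Fin (m + 3)) (hj : i ≤ j) (h0 : ∀ k, i ≤ k → k ≤ j → f k = 0) (c : F) :
    P H (c • ee j) f := by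
  induction j using Fin.induction generalizing c with
  | zero => rw [← Fin.le_zero_iff.1 hj]; exact hi c
  | succ k ih =>
    rcases hj.eq_or_lt with e | e
    · rw [← e]; exact hi c
    have e' : i ≤ k.castSucc := Fin.le_castSucc_iff.2 e
    have ih' := ih e' (fun l a b => h0 l a (b.trans Fin.castSucc_lt_succ.le))
    have z1 := h0 _ e' Fin.castSucc_lt_succ.le
    have := P.step hU hB (hi ((f ᵥ* B) i)⁻¹) (ih' c) (by simp [h0 i le_rfl hj]) (by simp [z1])
      (by rw [mulVec_smul, L_cast]; simp [z1, h0 _ hj le_rfl])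
    convert this.sub (ih' c) (by simp [z1]) using 1
    rw [mulVec_smul, L_cast]
    simp [hb]

end CfsgH6.R3
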