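import Cfsg.Agent.H6.R3g

set_option autoImplicit false

open Matrix

namespace CfsgH6.R3

variable {F : Type*} [Field F] {m : ℕ} {H : Subgroup (SpecialLinearGroup (Fin (m + 1 + 3)) F)}

theorem zero_L {k : ℕ} : ee 0 ᵥ* LL F k = ee 0 := by
  rw [LL, vecMul_add, vecMul_one, vecMul_transpose, N_zero, add_zero]

theorem odd_gen [Fintype F] (h2 : (2 : F) ≠ 0) {φ f : Fin (m + 1 + 3) → F} {σ : F}
    {B : Matrix (Fin (m + 1 + 3)) (Fin (m + 1 + 3)) F} (hB : LL F (m + 1) * B = 1)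
    (f0 : f 0 = -2) (fL : f (Fin.last _) ≠ 0) (fm : ∀ i, i ≠ 0 → i ≠ Fin.last _ → f i = 0)
    (φ0 : φ 0 = σ) (φ1 : φ 1 = -2) (φ2 : φ 2 = 4) (hσ : σ ≠ 0) (hb : (f ᵥ* B) 1 ≠ 0)
    (hK : ∀ K : Subfield F, 2 * (f ᵥ* B) 1 * σ ∈ K → K = ⊤) (hU : In H (LL F (m + 1)))
    (hs : In H (1 + vecMulVec (ee 1) φ + vecMulVec (ee 0) f)) : H = ⊤ := by
  set s : Matrix (Fin (m + 1 + 3)) (Fin (m + 1 + 3)) F := 1 + vecMulVec (ee 1) φ + vecMulVec (ee 0) f with hsd
  set b := (f ᵥ* B) 1 with hbd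
  have f1 : f 1 = 0 := fm 1 (by simp) (by simp [Fin.ext_iff])
  have f2 : f 2 = 0 := fm 2 (fun e => by have := congrArg Fin.val e; change 2 = 0 at this; omega)
    (fun e => by have := congrArg Fin.val e; change 2 = m + 1 + 2 at this; omega)
  have smv : ∀ y, s *ᵥ y = y + (φ ⬝ᵥ y) • ee 1 + (f ⬝ᵥ y) • ee 0 := fun y => by
    rw [hsd, add_mulVec, tv_mulVec, vecMulVec_mulVec]; simp
  have vms : ∀ g, g ᵥ* s = g + g 1 • φ + g 0 • f := fun g => by
    rw [hsd, vecMul_add, vecMul_tv, vecMul_vecMulVec]; simp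
  have ht : P H (σ • ee 1) f := by
    rw [P]
    convert hs.mul hs using 1
    conv_rhs => rw [hsd, add_mul, add_mul, one_mul, vecMulVec_mul, vecMulVec_mul, ← hsd, vms, vms,
      hsd, φ0, φ1, f0, f1]
    simp only [vecMulVec_add, vecMulVec_smul, smul_vecMulVec]
    module
  obtain ⟨S, -, hS, -⟩ := hs.ex
  have U1 : LL F (m + 1) *ᵥ ee 1 = ee 1 + ee 2 := L_cast 1
  have hy : ∀ y, P H y f → f ⬝ᵥ y = 0 → P H ((φ ⬝ᵥ y) • ee 1) f := by
    intro y h h0
    have h1 := h.conj hs hS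
    rw [vecMul_inv hS (g := (-1 : F) • f) (by rw [smul_vecMul, vms, f0, f1]; module)] at h1
    convert (h1.flip.add h h0).neg ?_ using 1
    · rw [smv, h0]; module
    · rw [smv, h0]; simp [h0, f1]
  have hκ : 2 * b ≠ 0 := mul_ne_zero h2 hb
  obtain ⟨K, hK'⟩ := ex_subfield (fun x => P H (((2 * b)⁻¹ * x) • ee 1) f)
    (by convert P.zero _ using 1; simp)
    (fun x y hx hy => by convert hx.add hy (by simp [f1]) using 1; module)
    (fun x hx => by convert hx.neg (by simp [f1]) using 1; module)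
    (fun x y hx hy' => by
      have := P.step hU hB hx hy' (by simp [f1]) (by simp [f1]) (by rw [mulVec_smul, U1]; simp [f1, f2])
      convert hy _ this (by rw [mulVec_smul, U1]; simp [f1, f2]) using 2
      rw [mulVec_smul, U1]
      simp only [dotProduct_smul, dotProduct_add, dotProduct_single, φ1, φ2, ← hbd, smul_eq_mul]
      field_simp
      ring)
    (mul_ne_zero hκ hσ) (by rwa [inv_mul_cancel_left₀ hκ])
  have hT := hK K ((hK' _).2 (by rwa [inv_mul_cancel_left₀ hκ]))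
  have all1 : ∀ c : F, P H (c • ee 1) f := fun c => by
    have := (hK' (2 * b * c)).1 (hT ▸ Subfield.mem_top _)
    rwa [inv_mul_cancel_left₀ hκ] at this
  have mid : ∀ v : Fin (m + 1 + 3) → F, v 0 = 0 → v (Fin.last _) = 0 → P H v f := fun v v0 vL =>
    P.of_basis fun i hi => by
      have i0 : i ≠ 0 := fun e => hi (e ▸ v0)
      have iL : i ≠ Fin.last _ := fun e => hi (e ▸ vL)
      refine ⟨fm i i0 iL, climb hU hB 1 all1 hb i (Fin.one_le_of_ne_zero i0) fun k k1 k2 => fm k ?_ ?_⟩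
      · rintro rfl; exact absurd k1 (by simp)
      · rintro rfl; exact iL (Fin.last_le_iff.1 k2)
  have hB' := mul_eq_one_comm.1 hB
  set g := f ᵥ* LL F (m + 1) with hg
  set x := B *ᵥ ee 1 with hx
  have g1 : g 1 = 0 := (vm_cast f 1).trans (by change f 1 + f 2 = 0; rw [f1, f2, add_zero])
  have g0 : g 0 = -2 := (vm_cast f 0).trans (by change f 0 + f 1 = _; rw [f0, f1, add_zero])
  have gx : g ⬝ᵥ x = 0 := by
    rw [hg, hx, dotProduct_mulVec, vecMul_vecMul, hB, vecMul_one]; simp [f1]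
  have fx : f ⬝ᵥ x = b := by rw [hx, dotProduct_mulVec]; simp [hbd]
  have x0 : x 0 = 0 := by
    have := dotProduct_mulVec (ee 0) B (ee 1)
    rw [vecMul_inv hB zero_L] at this
    simpa [hx] using this
  have px : ∀ c : F, P H (c • x) g := fun c => by
    have := (all1 c).conj (hU.inv hB) hB'
    rwa [mulVec_smul] at this
  have py : ∀ c : F, P H (c • (s *ᵥ x + x)) f := fun c => by
    have h1 := (px (-c / 2)).conj hs hS
    rw [vecMul_inv hS (g := g - (2 : F) • f) (by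
      rw [sub_vecMul, smul_vecMul, vms, vms, f0, f1, g0, g1]; module)] at h1
    have h3 := h1.conj (px (-(2 * b)⁻¹)) (tv_inv (by simp [gx]))
    have e1 : g ⬝ᵥ s *ᵥ x = -(2 * b) := by rw [smv]; simp [gx, g1, g0, fx]; ring
    rw [tv_mulVec, vecMul_tv, mulVec_smul, dotProduct_smul, e1] at h3
    have e2 : g - (2 : F) • f + ((g - (2 : F) • f) ⬝ᵥ -(-(2 * b)⁻¹ • x)) • g = (-2 : F) • f := by
      have : (g - (2 : F) • f) ⬝ᵥ -(-(2 * b)⁻¹ • x) = -1 := by
        simp [gx, fx]; field_simp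
      rw [this]; module
    rw [e2] at h3
    convert h3.flip using 1
    rw [smul_eq_mul]
    match_scalars <;> field_simp
  refine finish hU (fun v hv => ?_) fL
  have fy : f ⬝ᵥ (s *ᵥ x + x) = 0 := by rw [smv]; simp [fx, f0, f1]; ring
  have y0 : (s *ᵥ x + x) 0 = b := by rw [smv]; simp [x0, fx]
  have w0 : (v - (v 0 / b) • (s *ᵥ x + x)) 0 = 0 := by
    rw [Pi.sub_apply, Pi.smul_apply, y0, smul_eq_mul, div_mul_cancel₀ _ hb, sub_self]
  have fw : f ⬝ᵥ (v - (v 0 / b) • (s *ᵥ x + x)) = 0 := by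
    rw [dotProduct_sub, dotProduct_smul, fy, hv, smul_zero, sub_zero]
  have := (py (v 0 / b)).add (mid _ w0 ?_) fw
  · rwa [add_sub_cancel] at this
  · generalize v - (v 0 / b) • (s *ᵥ x + x) = w at w0 fw
    rw [dotProduct, Finset.sum_eq_single (Fin.last _) (fun i _ hi => by
      by_cases i0 : i = 0
      · rw [i0, w0, mul_zero]
      · rw [fm i i0 hi, zero_mul]) (by simp)] at fw
    exact (mul_eq_zero.1 fw).resolve_left fL

end CfsgH6.R3
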