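import Cfsg.Agent.H6.R3h

set_option autoImplicit false

open Matrix

namespace CfsgH6.R3

variable {F : Type*} [Field F] {m : ℕ}

theorem P.add' {ι : Type*} [Fintype ι] [DecidableEq ι] {H : Subgroup (SpecialLinearGroup ι F)}
    {v f g : ι → F} (h : P H v f) (h' : P H v g) (h0 : f ⬝ᵥ v = 0) : P H v (f + g) := by
  rw [P]
  convert In.mul h h' using 1
  rw [add_mul, one_mul, mul_add, mul_one, vecMulVec_mul_vecMulVec, h0, zero_smul, vecMulVec_zero,
    add_zero, vecMulVec_add]
  abel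

theorem L_one (h2 : (2 : F) = 0) : LL F m *ᵥ (fun _ => 1) = ee 0 := by
  ext i
  rw [LL, add_mulVec, one_mulVec, mulVec_transpose, Pi.add_apply]
  have := dotProduct_mulVec (fun _ => (1 : F)) (NN F m) (ee i)
  induction i using Fin.cases with
  | zero => rw [N_zero] at this; simp at this; simp [← this]
  | succ k => rw [N_succ] at this; simp at this; simp [← this]; linear_combination h2

variable {H : Subgroup (SpecialLinearGroup (Fin (m + 1 + 3)) F)}

theorem even_gen (h2 : (2 : F) = 0) {φ : Fin (m + 1 + 3) → F} {γ δ : F}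
    {B : Matrix (Fin (m + 1 + 3)) (Fin (m + 1 + 3)) F} (hB : LL F (m + 1) * B = 1)
    (fm : ∀ i : Fin (m + 1 + 3), (i : ℕ) ≤ m + 1 → φ i = 0)
    (fK : φ (Fin.last _).castSucc = γ) (fL : φ (Fin.last _) = γ + 1) (hη : γ + 1 ≠ 0)
    (hγ : γ = δ ∨ γ = 0 ∧ δ = 1) (hδ0 : δ ≠ 0) (hδ : ∀ x : F, x ≠ 0 → ∃ k : ℕ, x = δ ^ k)
    (hU : In H (LL F (m + 1)))
    (hs : In H ((1 + vecMulVec (ee 0 + ee 1) (φ ᵥ* B)) * (1 + vecMulVec (ee 0) φ))) : H = ⊤ := by
  have hB' := mul_eq_one_comm.1 hB
  set s : Matrix (Fin (m + 1 + 3)) (Fin (m + 1 + 3)) F := (1 + vecMulVec (ee 0 + ee 1) (φ ᵥ* B)) * (1 + vecMulVec (ee 0) φ) with hsd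
  have f0 : φ 0 = 0 := fm 0 (by simp)
  have f1 : φ 1 = 0 := fm 1 (by simp)
  have U0 : LL F (m + 1) *ᵥ ee 0 = ee 0 + ee 1 := L_cast 0
  have Bo : B *ᵥ ee 0 = fun _ => 1 := by rw [← L_one h2, mulVec_mulVec, hB', one_mulVec]
  have fo : φ ⬝ᵥ (fun _ => 1) = 1 := by
    rw [dotProduct, Fin.sum_univ_castSucc, Fin.sum_univ_castSucc, fK, fL,
      Finset.sum_eq_zero fun i _ => by rw [fm _ (by simp; omega), zero_mul]]
    linear_combination γ * h2
  have b0 : (φ ᵥ* B) 0 = 1 := by
    have := dotProduct_mulVec φ B (ee 0)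
    rw [Bo, fo] at this
    simpa using this.symm
  have bz : (φ ᵥ* B) ⬝ᵥ (ee 0 + ee 1) = 0 := by
    rw [← U0, dotProduct_mulVec, vecMul_vecMul, hB', vecMul_one]; simp [f0]
  have vms : ∀ g, g ᵥ* s = g + (g ⬝ᵥ (ee 0 + ee 1)) • (φ ᵥ* B) + (g 0 + g ⬝ᵥ (ee 0 + ee 1)) • φ :=
    fun g => by rw [hsd, ← vecMul_vecMul, vecMul_tv, vecMul_tv]; simp [b0]
  have ht : P H (ee 0 + ee 1) φ := by
    rw [P]
    convert hs.mul hs using 1
    have e : s = 1 + vecMulVec (ee 0) φ + vecMulVec (ee 0 + ee 1) (φ ᵥ* B + φ) := by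
      rw [hsd, add_mul, one_mul, vecMulVec_mul, vecMul_tv]; simp [b0]
    conv_rhs => rw [e, add_mul, add_mul, one_mul, vecMulVec_mul, vecMulVec_mul, ← e, add_vecMul, vms, vms,
      e, bz, b0, f0, show φ ⬝ᵥ (ee 0 + ee 1) = 0 by simp [f0, f1]]
    simp only [vecMulVec_add, vecMulVec_smul]
    match_scalars <;> grind
  obtain ⟨S, -, hS, -⟩ := hs.ex
  have up : ∀ (c : F) g, P H (c • ee 0) g → g 0 = 0 → g 1 = 0 → P H (c • (ee 0 + ee 1)) g := by
    intro c g h g0 g1
    have h1 := h.conj hs hS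
    rw [vecMul_inv hS (g := g) (by rw [vms]; simp [g0, g1])] at h1
    convert h1.sub h (by simp [g0]) using 1
    rw [hsd, ← mulVec_mulVec, tv_mulVec, tv_mulVec]
    simp [f0, b0]
  have down : ∀ (c : F) g, P H (c • (ee 0 + ee 1)) g → P H (c • ee 0) (g ᵥ* LL F (m + 1)) := by
    intro c g h
    have := h.conj (hU.inv hB) hB'
    rwa [← U0, mulVec_smul, mulVec_mulVec, hB', one_mulVec] at this
  have iter : ∀ (c : F) (k : ℕ) g, P H (c • ee 0) g → (∀ j : Fin (m + 1 + 3), (j : ℕ) ≤ k → g j = 0) →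
      ∀ j : Fin (m + 1 + 3), (j : ℕ) = k + 1 → ∃ g', P H (c • ee 0) g' ∧ g' 0 = 0 ∧ g' 1 = g j := by
    intro c k
    induction k with
    | zero => exact fun g h h0 j hj => ⟨g, h, h0 0 (by simp), by rw [show j = 1 from Fin.ext hj]⟩
    | succ k ih =>
      intro g h h0 j hj
      have g0 := h0 0 (by simp)
      have e : ∀ i : Fin (m + 1 + 2), (g + g ᵥ* LL F (m + 1)) i.castSucc = g i.succ := fun i => by
        rw [Pi.add_apply, vm_cast]; linear_combination g i.castSucc * h2
      induction j using Fin.cases with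
      | zero => simp at hj
      | succ j =>
        rw [← e]
        refine ih _ (h.add' (down _ _ (up _ _ h g0 (h0 1 (by simp)))) (by simp [g0])) (fun i hi => ?_) _
          (by simpa using hj)
        induction i using Fin.lastCases with
        | last => simp at hi hj; omega
        | cast i => rw [e]; exact h0 _ (by simpa using hi)
  have vm : ∀ j : Fin (m + 1 + 3), (j : ℕ) ≤ m → (φ ᵥ* LL F (m + 1)) j = 0 := fun j hj => by
    induction j using Fin.lastCases with
    | last => simp at hj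
    | cast i => rw [vm_cast, fm _ (by omega), fm _ (by simpa using hj), add_zero]
  have vK : (φ ᵥ* LL F (m + 1)) (Fin.last _).castSucc = 1 := by
    rw [vm_cast, Fin.succ_last, fK, fL]; linear_combination γ * h2
  have vJ : (φ ᵥ* LL F (m + 1)) (Fin.last _).castSucc.castSucc = γ := by
    rw [vm_cast, Fin.succ_castSucc, Fin.succ_last, fK, fm _ (by simp), zero_add]
  have mul : ∀ c c' : F, P H (c • (ee 0 + ee 1)) φ → P H (c' • (ee 0 + ee 1)) φ →
      P H ((δ * c * c') • ee 0) φ := by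
    intro c c' h h'
    obtain ⟨g, k1, k2, k3⟩ : ∃ g, P H (c • ee 0) g ∧ g 0 = 0 ∧ g 1 = δ := by
      rcases hγ with e | ⟨e, e'⟩
      · rw [← e, ← vJ]; exact iter c m _ (down _ _ h) vm _ (by simp)
      · rw [e', ← vK]
        refine iter c (m + 1) _ (down _ _ h) (fun j hj => ?_) _ (by simp)
        rcases hj.eq_or_lt with k | k
        · rw [show j = (Fin.last _).castSucc.castSucc from Fin.ext (by simpa using k), vJ, e]
        · exact vm j (by omega)
    convert k1.comm h' (by simp [k2]) (by simp [f0, f1]) (by simp [f0]) using 1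
    simp only [dotProduct_smul, dotProduct_add, dotProduct_single, k2, k3]
    match_scalars; simp; ring
  have all1 : ∀ c : F, P H (c • (ee 0 + ee 1)) φ := fun c => by
    by_cases hc : c = 0
    · rw [hc, zero_smul]; exact P.zero _
    obtain ⟨k, rfl⟩ := hδ c hc
    clear hc
    induction k with
    | zero => simpa using ht
    | succ k ih =>
      convert up _ _ (mul _ 1 ih (by simpa using ht)) f0 f1 using 2; ring
  have all0 : ∀ c : F, P H (c • ee 0) φ := fun c => by
    convert mul (δ⁻¹ * c) 1 (all1 _) (all1 _) using 2; field_simp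
  have low : ∀ j : Fin (m + 1 + 3), (j : ℕ) ≤ m + 1 → ∀ c : F, P H (c • ee j) φ := fun j hj =>
    climb hU hB 0 all0 (by simp [b0]) j (Fin.zero_le _) fun k _ k2 => fm k (le_trans k2 hj)
  have po : P H ((γ / (γ + 1)) • fun _ => 1) (φ ᵥ* LL F (m + 1)) := by
    have := (all0 (γ / (γ + 1))).conj (hU.inv hB) hB'
    rwa [mulVec_smul, Bo] at this
  have go : (φ ᵥ* LL F (m + 1)) ⬝ᵥ ((γ / (γ + 1)) • fun _ => 1) = 0 := by
    rw [dotProduct_smul, ← dotProduct_mulVec, L_one h2]; simp [f0]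
  set y : Fin (m + 1 + 3) → F := ee (Fin.last _).castSucc.castSucc + ee (Fin.last _).castSucc +
    γ • fun _ => 1 with hy
  have fy : φ ⬝ᵥ y = 0 := by
    rw [hy, dotProduct_add, dotProduct_add, dotProduct_smul, fo, dotProduct_single, dotProduct_single,
      fK, fm _ (by simp), smul_eq_mul]
    linear_combination γ * h2
  have ey : ((1 + vecMulVec ((γ / (γ + 1)) • fun _ => 1) (φ ᵥ* LL F (m + 1))) * LL F (m + 1)) *ᵥ
      ee (Fin.last _).castSucc.castSucc = y := by
    rw [← mulVec_mulVec, L_cast, tv_mulVec, Fin.succ_castSucc, Fin.succ_last, dotProduct_add,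
      dotProduct_single, dotProduct_single, vK, vJ, smul_smul, mul_one, mul_one,
      mul_div_cancel₀ _ hη]
  have py : ∀ c : F, P H (c • y) φ := fun c => by
    have := P.step (In.mul po hU) (B := B * (1 + vecMulVec (-((γ / (γ + 1)) • fun _ => 1))
      (φ ᵥ* LL F (m + 1)))) (by rw [mul_assoc, ← mul_assoc _ B, hB, one_mul, tv_inv go])
      (all0 c) (low (Fin.last _).castSucc.castSucc (by simp) 1) (by simp [f0])
      (by simp [fm]) (by rw [one_smul, ey, fy])
    rw [one_smul, ey, ← vecMul_vecMul, vecMul_tv] at this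
    convert this using 2
    simp [b0, vm 0 (by simp)]
  refine finish hU (fun v hv => ?_) (fL ▸ hη)
  have yK : y (Fin.last _).castSucc = γ + 1 := by
    simp [hy, (Fin.castSucc_lt_last _).ne', add_comm]
  have wK : (v - (v (Fin.last _).castSucc / (γ + 1)) • y) (Fin.last _).castSucc = 0 := by
    rw [Pi.sub_apply, Pi.smul_apply, yK, smul_eq_mul, div_mul_cancel₀ _ hη, sub_self]
  have fw : φ ⬝ᵥ (v - (v (Fin.last _).castSucc / (γ + 1)) • y) = 0 := by
    rw [dotProduct_sub, dotProduct_smul, fy, hv, smul_zero, sub_zero]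
  have := (py (v (Fin.last _).castSucc / (γ + 1))).add (P.of_basis fun i hi => ?_) fw
  · rwa [add_sub_cancel] at this
  · generalize v - (v (Fin.last _).castSucc / (γ + 1)) • y = w at wK fw hi
    rw [dotProduct, Fin.sum_univ_castSucc, Fin.sum_univ_castSucc, wK, fL,
      Finset.sum_eq_zero fun i _ => by rw [fm _ (by simp; omega), zero_mul]] at fw
    have wL : w (Fin.last _) = 0 := by simpa [hη] using fw
    have : (i : ℕ) ≤ m + 1 := by
      by_contra hc
      rcases (show (i : ℕ) = m + 2 ∨ (i : ℕ) = m + 3 by omega) with e | e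
      · exact hi (by rw [show i = (Fin.last _).castSucc from Fin.ext e, wK])
      · exact hi (by rw [show i = Fin.last _ from Fin.ext e, wL])
    exact ⟨fm i this, low i this⟩

end CfsgH6.R3
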