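import Cfsg.Agent.H6.R3i

set_option autoImplicit false

open Matrix

namespace CfsgH6.R3

variable {F : Type*} [Field F] {m : ℕ}

theorem sub_top_of_prime [Fintype F] (h : (Fintype.card F).Prime) (K : Subfield F) : K = ⊤ := by
  classical
  have h5 := Module.card_eq_pow_finrank (K := K) (V := F)
  have h7 : Module.finrank K F = 1 := (h5 ▸ h).eq_one_of_pow
  rw [h7, pow_one] at h5
  have := (Fintype.bijective_iff_injective_and_card K.subtype).2 ⟨K.subtype.injective, h5.symm⟩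
  exact eq_top_iff.2 fun x _ => by obtain ⟨y, rfl⟩ := this.2 x; exact y.2

theorem lastB_ne {B : Matrix (Fin (m + 3)) (Fin (m + 3)) F} (hB : LL F m * B = 1) (j : Fin (m + 3)) :
    (ee (Fin.last _) ᵥ* B) j ≠ 0 := by
  have h1 : (ee (Fin.last _) ᵥ* B) ᵥ* LL F m = ee (Fin.last _) := by
    rw [vecMul_vecMul, mul_eq_one_comm.1 hB, vecMul_one]
  generalize ee (Fin.last _) ᵥ* B = g at h1
  induction j using Fin.reverseInduction with
  | last => rw [← vm_last g, h1]; simp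
  | cast k ih =>
    have := vm_cast g k
    rw [h1] at this
    intro e
    simp [e, ih.symm, Fin.castSucc_ne_last] at this

theorem odd_pair [Fintype F] (h2 : (2 : F) ≠ 0) {ρ : F} (h0 : ρ ≠ 0) (h1 : ρ + 1 ≠ 0)
    {B : Matrix (Fin (m + 1 + 3)) (Fin (m + 1 + 3)) F} (hB : LL F (m + 1) * B = 1)
    (hK : ∀ K : Subfield F, 2 * (-2) ^ (m + 4) * (ee (Fin.last _) ᵥ* B) 1 * (1 + ρ⁻¹) ∈ K → K = ⊤) :
    ∃ A A' : Matrix (Fin (m + 1 + 3)) (Fin (m + 1 + 3)) F, A * A' = 1 ∧ (ρ = 1 → A.det = 1) ∧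
      ∀ H, In H (LL F (m + 1)) → In H (A * LL F (m + 1) * A') → H = ⊤ := by
  set φ : Fin (m + 1 + 3) → F := ρ • ee 0 + fun j : Fin (m + 1 + 3) => (-2) ^ (j : ℕ) with hφ
  set f : Fin (m + 1 + 3) → F := (-2 : F) • ee 0 + (ρ⁻¹ * (-2) ^ (m + 4)) • ee (Fin.last _) with hf
  have φ0 : φ 0 = ρ + 1 := by simp [hφ]
  have φ1 : φ 1 = -2 := by simp [hφ]
  have φ2 : φ 2 = 4 := by
    have : (2 : Fin (m + 1 + 3)) ≠ 0 := fun e => by
      have := congrArg Fin.val e; change 2 = 0 at this; omega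
    simp only [hφ, Pi.add_apply, Pi.smul_apply, Pi.single_eq_of_ne this, smul_zero, zero_add]
    change (-2 : F) ^ 2 = 4
    norm_num
  have hz : φ ⬝ᵥ (ee 0 + ee 1) = ρ - 1 := by simp [φ0, φ1]; ring
  have e : f = -ρ⁻¹ • (φ + φ ᵥ* LL F (m + 1)) := by
    ext j
    induction j using Fin.lastCases with
    | last =>
      rw [Pi.smul_apply, Pi.add_apply (f := φ), vm_last]
      simp [hf, hφ]; ring
    | cast k =>
      rw [Pi.smul_apply, Pi.add_apply (f := φ), vm_cast]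
      by_cases hk : k = 0
      · simp [hf, hφ, hk]; field_simp; ring
      · simp [hf, hφ, hk, Fin.castSucc_ne_last, pow_succ, h0]; ring
  have U0 : LL F (m + 1) *ᵥ ee 0 = ee 0 + ee 1 := L_cast 0
  have hη : ρ⁻¹ * (-2) ^ (m + 4) ≠ 0 := mul_ne_zero (inv_ne_zero h0) (pow_ne_zero _ (neg_ne_zero.2 h2))
  have fb : (f ᵥ* B) 1 = ρ⁻¹ * (-2) ^ (m + 4) * (ee (Fin.last _) ᵥ* B) 1 := by
    rw [hf, add_vecMul, smul_vecMul, smul_vecMul, vecMul_inv hB zero_L]; simp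
  refine ⟨1 + vecMulVec (-(ρ⁻¹ • (ee 0 + ee 1))) φ, 1 + vecMulVec (ee 0 + ee 1) φ, ?_, fun hρ => ?_,
    fun H hU hV => ?_⟩
  · rw [add_mul, one_mul, vecMulVec_mul, vecMul_tv, hz]
    simp only [vecMulVec_add, vecMulVec_smul, smul_vecMulVec, neg_vecMulVec]
    match_scalars <;> field_simp <;> ring
  · exact det_tv (by rw [dotProduct_neg, dotProduct_smul, hz, hρ]; simp)
  refine odd_gen h2 (f := f) hB (by simp [hf]) (by simpa [hf] using hη)
    (fun i a b => by simp [hf, a, b]) φ0 φ1 φ2 h1 (fb ▸ mul_ne_zero hη (lastB_ne hB 1))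
    (fun K h => hK K ?_) hU (hU.cancel_left ?_)
  · convert h using 1; rw [fb]; field_simp
  · convert hV using 1
    have e2 : (φ ᵥ* LL F (m + 1)) ⬝ᵥ (ee 0 + ee 1) = ρ + 1 := by
      have a0 : (φ ᵥ* LL F (m + 1)) 0 = φ 0 + φ 1 := vm_cast φ 0
      have a1 : (φ ᵥ* LL F (m + 1)) 1 = φ 1 + φ 2 := vm_cast φ 1
      simp [a0, a1, φ0, φ1, φ2]; ring
    rw [add_mul 1, one_mul, vecMulVec_mul, add_mul, vecMulVec_mul, vecMul_tv, e2, mul_add, mul_add,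
      mul_add, mul_one, mul_vecMulVec, mul_vecMulVec, mul_vecMulVec, mulVec_add, U0, e]
    simp only [vecMulVec_add, vecMulVec_smul, smul_vecMulVec, neg_vecMulVec, add_vecMulVec]
    match_scalars <;> field_simp <;> ring

theorem even_pair (h2 : (2 : F) = 0) {γ δ : F} (hη : γ + 1 ≠ 0)
    (hγ : γ = δ ∨ γ = 0 ∧ δ = 1) (hδ0 : δ ≠ 0) (hδ : ∀ x : F, x ≠ 0 → ∃ k : ℕ, x = δ ^ k) :
    ∃ A A' : Matrix (Fin (m + 1 + 3)) (Fin (m + 1 + 3)) F, A * A' = 1 ∧ A.det = 1 ∧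
      ∀ H, In H (LL F (m + 1)) → In H (A * LL F (m + 1) * A') → H = ⊤ := by
  set φ : Fin (m + 1 + 3) → F := γ • ee (Fin.last _).castSucc + (γ + 1) • ee (Fin.last _) with hφ
  have fm : ∀ i : Fin (m + 1 + 3), (i : ℕ) ≤ m + 1 → φ i = 0 := fun i hi => by
    have a : i ≠ (Fin.last _).castSucc := by rintro rfl; simp at hi
    have b : i ≠ Fin.last _ := by rintro rfl; simp at hi
    simp [hφ, a, b]
  have f0 : φ ⬝ᵥ ee 0 = 0 := by simpa using fm 0 (by simp)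
  have rr : (1 + vecMulVec (ee 0) φ) * (1 + vecMulVec (ee 0) φ) =
      (1 : Matrix (Fin (m + 1 + 3)) (Fin (m + 1 + 3)) F) := by
    rw [tv_mul f0, ← two_smul F, h2, zero_smul, zero_vecMulVec, add_zero]
  refine ⟨_, _, rr, det_tv f0, fun H hU hV => ?_⟩
  obtain ⟨B, -, hB, hB'⟩ := hU.ex
  refine even_gen h2 (φ := φ) hB fm (by simp [hφ, Fin.castSucc_ne_last])
    (by simp [hφ, (Fin.castSucc_ne_last _).symm]) hη hγ hδ0 hδ hU ?_
  have := hU.mul (hV.inv (B := (1 + vecMulVec (ee 0) φ) * B * (1 + vecMulVec (ee 0) φ)) (by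
    simp only [mul_assoc]
    rw [← mul_assoc (1 + vecMulVec (ee 0) φ) (1 + _), rr, one_mul, ← mul_assoc _ B, hB, one_mul, rr]))
  rwa [← mul_assoc, ← mul_assoc, mul_add (LL F _), mul_one, add_mul, hB, mul_vecMulVec, vecMulVec_mul,
    show LL F (m + 1) *ᵥ ee 0 = ee 0 + ee 1 from L_cast 0] at this

theorem pair [Fintype F] : ∃ A A' : Matrix (Fin (m + 1 + 3)) (Fin (m + 1 + 3)) F, A * A' = 1 ∧
    ((Fintype.card F).Prime → A.det = 1) ∧
      ∀ H, In H (LL F (m + 1)) → In H (A * LL F (m + 1) * A') → H = ⊤ := by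
  by_cases h2 : (2 : F) = 0
  · obtain ⟨δ, hδ⟩ := IsCyclic.exists_monoid_generator (α := Fˣ)
    have h3 : ∀ x : F, x ≠ 0 → ∃ k : ℕ, x = (δ : F) ^ k := fun x hx => by
      obtain ⟨k, hk⟩ := hδ (Units.mk0 x hx)
      exact ⟨k, by simpa using (congrArg Units.val hk).symm⟩
    by_cases h : (δ : F) = 1
    · obtain ⟨A, A', a, b, c⟩ := even_pair (m := m) h2 (γ := 0) (by simp) (Or.inr ⟨rfl, h⟩) δ.ne_zero h3
      exact ⟨A, A', a, fun _ => b, c⟩
    · obtain ⟨A, A', a, b, c⟩ := even_pair (m := m) h2 (γ := δ)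
        (fun e => h (by linear_combination e - h2)) (Or.inl rfl) δ.ne_zero h3
      exact ⟨A, A', a, fun _ => b, c⟩
  have hB : LL F (m + 1) * (LL F (m + 1))⁻¹ = 1 := mul_nonsing_inv _ (by simp [det_L])
  by_cases hp : (Fintype.card F).Prime
  · obtain ⟨A, A', a, b, c⟩ := odd_pair h2 (ρ := 1) one_ne_zero (by rwa [one_add_one_eq_two]) hB
      fun K _ => sub_top_of_prime hp K
    exact ⟨A, A', a, fun _ => b rfl, c⟩
  have hC : 2 * (-2) ^ (m + 4) * (ee (Fin.last _) ᵥ* (LL F (m + 1))⁻¹) 1 ≠ 0 :=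
    mul_ne_zero (mul_ne_zero h2 (pow_ne_zero _ (neg_ne_zero.2 h2))) (lastB_ne hB 1)
  obtain ⟨γ, g0, g1, hK⟩ : ∃ γ : F, γ ≠ 0 ∧
      γ ≠ 2 * (-2) ^ (m + 4) * (ee (Fin.last _) ᵥ* (LL F (m + 1))⁻¹) 1 ∧
      ∀ K : Subfield F, γ ∈ K → K = ⊤ := by
    obtain ⟨γ, g0, -, hK⟩ := ex_gen (F := F)
    by_cases h : γ = 2 * (-2) ^ (m + 4) * (ee (Fin.last _) ᵥ* (LL F (m + 1))⁻¹) 1
    · refine ⟨-γ, neg_ne_zero.2 g0, fun e => mul_ne_zero h2 g0 ?_, fun K k => hK K (by simpa using k)⟩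
      rw [← h] at e; linear_combination -e
    · exact ⟨γ, g0, h, hK⟩
  generalize hc : 2 * (-2) ^ (m + 4) * (ee (Fin.last _) ᵥ* (LL F (m + 1))⁻¹) 1 = C at hC g1
  have g2 : γ - C ≠ 0 := sub_ne_zero.2 g1
  obtain ⟨A, A', a, -, c⟩ := odd_pair h2 (ρ := C / (γ - C)) (div_ne_zero hC g2)
    (by rw [div_add_one g2]; exact div_ne_zero (by simpa using g0) g2) hB
    fun K k => hK K (by convert k using 1; rw [hc]; field_simp; ring)
  exact ⟨A, A', a, fun h => absurd h hp, c⟩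

end CfsgH6.R3
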