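import Cfsg.Agent.H6.StCh
import Cfsg.Agent.H6.Cent
import Cfsg.Agent.H4.First
import Cfsg.Agent.H4.Twist
import Cfsg.Agent.S0924
import Cfsg.Agent.S0955
import Cfsg.Agent.S0914

/-! Blocks in the defining characteristic. -/

set_option autoImplicit false

open Cfsg CfsgH3 CfsgH4 Cfsg.Lie

namespace CfsgH6

section
variable {G : Type*} [Group G] [Finite G] {p : ℕ} [hp : Fact p.Prime] {M : Ideal AlgInt}

theorem sylow_of_defect (hM : IsPModular p M)
    (h : ∀ D : Subgroup G, IsPGroup p D → D ≠ ⊥ →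
      (pCore p (Subgroup.normalizer (D : Set G))).map (Subgroup.normalizer (D : Set G)).subtype = D →
      ∀ x ∈ Subgroup.centralizer (D : Set G), ∃ k, orderOf x = p ^ k)
    {B : Set (IrrCharacter G)} (hB : IsPBlock M B) {D : Subgroup G} (hD : IsDefectGroup p M B D) (h0 : D ≠ ⊥) :
    ¬ p ∣ D.index ∧ Subgroup.centralizer (D : Set G) ≤ D := by
  have : PMod p M := ⟨hM⟩
  have h1 := h D hD.isPGroup h0 (Cfsg.Agent.S0955.result p M hM B hB D hD)
  have h2 : ¬ p ∣ D.index := by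
    obtain ⟨g, hg, h2⟩ := isDefectGroup_iff_sylow.1 hD
    have h3 : ¬ p ∣ orderOf g := fun h3 => hg.2.1 (by rw [blockCoeff_eq_zero hB.fB_mem h3]; exact InP.zero)
    obtain ⟨k, hk⟩ := h1 g fun x hx => Subgroup.mem_centralizer_singleton_iff.1 (h2.1 hx)
    obtain rfl : g = 1 := by
      rcases k with _ | k
      · exact orderOf_eq_one_iff.1 hk
      · exact absurd (hk ▸ dvd_pow_self p k.succ_ne_zero) h3
    have h4 := h2.2.2
    rwa [show Subgroup.centralizer ({1} : Set G) = ⊤ from eq_top_iff.2 fun x _ => by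
      simp [Subgroup.mem_centralizer_singleton_iff], Subgroup.relIndex_top_right] at h4
  refine ⟨h2, fun x hx => ?_⟩
  have h3 := IsPGroup.to_sup_of_normal_left' hD.isPGroup (isPGroup_zpowers_of_pelt (h1 x hx))
    ((Subgroup.zpowers_le).2 (Subgroup.centralizer_le_normalizer _ hx))
  have := (hD.isPGroup.toSylow h2).is_maximal' h3 le_sup_left
  exact this.le (Subgroup.mem_sup_right (Subgroup.mem_zpowers x))

theorem block_eq_of_defect (hM : IsPModular p M)
    (h : ∀ D : Subgroup G, IsPGroup p D → D ≠ ⊥ →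
      (pCore p (Subgroup.normalizer (D : Set G))).map (Subgroup.normalizer (D : Set G)).subtype = D →
      ∀ x ∈ Subgroup.centralizer (D : Set G), ∃ k, orderOf x = p ^ k)
    {B B' : Set (IrrCharacter G)} (hB : IsPBlock M B) (hB' : IsPBlock M B') {D D' : Subgroup G}
    (hD : IsDefectGroup p M B D) (hD' : IsDefectGroup p M B' D') (h0 : D ≠ ⊥) (h0' : D' ≠ ⊥) : B = B' := by
  have : PMod p M := ⟨hM⟩
  obtain ⟨h1, h2⟩ := sylow_of_defect hM h hB hD h0
  obtain ⟨h1', -⟩ := sylow_of_defect hM h hB' hD' h0'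
  obtain ⟨x, hx⟩ := MulAction.exists_smul_eq G (hD'.isPGroup.toSylow h1') (hD.isPGroup.toSylow h1)
  have h3 : CfsgL0.cj x D' = D := congrArg Sylow.toSubgroup hx
  have h4 := hD'.conj hB' x
  rw [h3] at h4
  obtain ⟨b, hb, -, -, h5⟩ := hB.exists_brauer_corr hD
  obtain ⟨b', hb', -, -, h6⟩ := hB'.exists_brauer_corr h4
  have hn : (D.subgroupOf (Subgroup.normalizer (D : Set G))).Normal := Subgroup.normal_in_normalizer
  have h7 := CfsgH1.le_pCore (hn := hn) (hD.isPGroup.comap_subtype (K := Subgroup.normalizer (D : Set G)))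
  have h8 : Subgroup.centralizer (pCore p (Subgroup.normalizer (D : Set G)) : Set _) ≤
      pCore p (Subgroup.normalizer (D : Set G)) := fun y hy => h7 (h2 fun a ha =>
    congrArg Subtype.val (hy ⟨a, Subgroup.le_normalizer ha⟩ (h7 ha)))
  rw [eB_eq_one_of_centralizer_le h8 hb] at h5
  rw [eB_eq_one_of_centralizer_le h8 hb'] at h6
  exact h5.unique h6

theorem card_blocks_two (hM : IsPModular p M)
    (h : ∀ D : Subgroup G, IsPGroup p D → D ≠ ⊥ →
      (pCore p (Subgroup.normalizer (D : Set G))).map (Subgroup.normalizer (D : Set G)).subtype = D →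
      ∀ x ∈ Subgroup.centralizer (D : Set G), ∃ k, orderOf x = p ^ k)
    (hG : p ∣ Nat.card G) (St : IrrCharacter G) (h1 : ¬ p ∣ Nat.card G / charDegree St.1)
    (h2 : ∀ χ : IrrCharacter G, (∀ x, p ∣ orderOf x → χ.1 x = 0) → χ = St) :
    Nat.card {B : Set (IrrCharacter G) // IsPBlock M B} = 2 := by
  have : PMod p M := ⟨hM⟩
  have key : ∀ B, IsPBlock M B → IsDefectGroup p M B ⊥ → ∀ χ ∈ B, χ = St := fun B hB hD χ hχ =>
    h2 χ fun x hx => Cfsg.Agent.S0924.result p M hM χ x _ (isPPart_ppart p x) fun E hE hx' => by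
      rw [← hB.eq_blockOf hχ] at hE
      obtain ⟨y, rfl⟩ := hD.exists_conj hB hE
      rw [CfsgL0.cj_bot, Subgroup.mem_bot, ppart_eq_one_iff] at hx'
      exact hx' hx
  have h3 : irrOne G ≠ St := by
    rintro rfl
    have : charDegree (irrOne G).1 = 1 := by
      have : (charDegree (irrOne G).1 : ℂ) = 1 := coe_charDegree (irrOne G).2.isCharacter
      exact_mod_cast this
    rw [this, Nat.div_one] at h1
    exact h1 hG
  obtain ⟨D0, hD0⟩ := (isPBlock_principal (M := M) (G := G)).exists_defectGroup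
  have h4 : D0 ≠ ⊥ := by
    rintro rfl
    exact h3 (key _ isPBlock_principal hD0 _ irrOne_mem_principal)
  refine Nat.card_eq_two_iff.2 ⟨⟨_, isPBlock_blockOf St.2⟩, ⟨_, isPBlock_principal⟩, fun e => h3 ?_, ?_⟩
  · have e : blockOf M St.1 = principalBlock M G := congrArg Subtype.val e
    have := irrOne_mem_principal (M := M) (G := G)
    rwa [← e, (Cfsg.Agent.S0914.result p M hM St).1 h1] at this
  · refine Set.eq_univ_of_forall ?_
    rintro ⟨B, hB⟩
    obtain ⟨D, hD⟩ := hB.exists_defectGroup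
    by_cases h0 : D = ⊥
    · subst h0
      obtain ⟨χ, hχ⟩ := hB.nonempty
      exact Or.inl (Subtype.ext (key B hB hD χ hχ ▸ hB.eq_blockOf hχ))
    · exact Or.inr (Subtype.ext (block_eq_of_defect hM h hB isPBlock_principal hD hD0 h0 h4))

end

variable {D : ChevalleyDatum}

theorem Cover.radical_eq {G : Good D} {F : Type*} [Field F] [Finite F] {Γ : Type*} [Group Γ] [Finite Γ]
    (C : Cover G F Γ) (h3 : C.R3) (hG : C.Gr = ⊤) (p : ℕ) [Fact p.Prime] [CharP F p] {Q : Subgroup Γ}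
    (hQ : IsPGroup p Q)
    (h : (pCore p (Subgroup.normalizer (Q : Set Γ))).map (Subgroup.normalizer (Q : Set Γ)).subtype = Q) :
    ∃ g J, CfsgL0.cj g (C.US (G.radJ J)) = Q := by
  obtain ⟨P, hP⟩ := hQ.exists_le_sylow
  obtain ⟨x, hx⟩ := MulAction.exists_smul_eq Γ P (C.sylow h3 hG p)
  have h1 : ∀ a ∈ Q, x * a * x⁻¹ ∈ C.U := fun a ha => by
    rw [← C.sylow_coe h3 hG p, ← hx]; exact ⟨a, hP ha, rfl⟩
  obtain ⟨g, -, J, h4, h5⟩ := C.borel_tits (X := (fun a => x * a * x⁻¹) '' Q) (by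
    rintro _ ⟨a, ha, rfl⟩; exact h1 a ha)
  refine ⟨(g * x)⁻¹, J, ?_⟩
  set R := CfsgL0.cj (g * x)⁻¹ (C.US (G.radJ J)) with hR
  have hm : ∀ a, a ∈ R ↔ g * x * a * (g * x)⁻¹ ∈ C.US (G.radJ J) := fun a => by rw [hR, CfsgL0.mem_cj, inv_inv]
  have hQR : Q ≤ R := fun a ha => (hm a).2 (by simpa [mul_assoc] using h4 _ ⟨a, ha, rfl⟩)
  have hRp : IsPGroup p R := (C.isPGroup_US p (G.nil_radJ J)).map _
  have hn : (R.subgroupOf (Subgroup.normalizer (Q : Set Γ))).Normal := ⟨fun a ha n => by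
    have h6 := h5 (x * n * x⁻¹) (hG ▸ trivial) (by
      rintro _ ⟨a, ha, rfl⟩
      exact ⟨_, (Subgroup.mem_normalizer_iff.1 n.2 a).1 ha, by group⟩)
    have := C.PJ_conj_rad h6 ((hm a).1 ha)
    refine (hm _).2 ?_
    convert this using 1
    change g * x * (n * a * (n : Γ)⁻¹) * _ = g * _ * _ * (g * x * a * _) * _
    group⟩
  by_contra hne
  have := hRp.isNilpotent
  have h7 := CfsgH1.lt_normalizer_inf_of_isNilpotent (lt_of_le_of_ne hQR (Ne.symm hne))
  refine h7.not_ge fun a ha => ?_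
  rw [← h]
  exact ⟨⟨a, ha.1⟩, CfsgH1.le_pCore (hn := hn) hRp.comap_subtype ha.2, rfl⟩

theorem Good.card_blocks (G : Good D) {rk : List ℕ} (hc : Good.ConnOK D rk) (F : Type*) [Field F] [Finite F]
    (p : ℕ) [Fact p.Prime] [CharP F p] {M : Ideal AlgInt} (hM : IsPModular p M) :
    Nat.card {B : Set (IrrCharacter (D.group F)) // IsPBlock M B} = 2 := by
  have := Fintype.ofFinite (D.group F)
  have hx : orderOf ((G.grp F).x (G.sm ⟨0, by have := G.two_le_rank; omega⟩) 1) = p := by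
    obtain ⟨k, hk⟩ := pelt_of_mem ((G.grp F).isPGroup_US p G.nil_pos) ((G.grp F).x_mem (G.pos_sm ⟨0, by
      have := G.two_le_rank; omega⟩) 1)
    refine orderOf_eq_prime ?_ ((G.grp F).x_ne_one one_ne_zero)
    have : ∀ n : ℕ, (G.grp F).x (G.sm ⟨0, by have := G.two_le_rank; omega⟩) 1 ^ n = (G.grp F).x _ n := fun n => by
      induction n with
      | zero => simp [Cover.x_zero]
      | succ n ih => rw [pow_succ, ih, ← Cover.add]; simp
    rw [this, CharP.cast_eq_zero, Cover.x_zero]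
  refine card_blocks_two hM (fun Q hQ h0 h x hx => ?_) (hx ▸ orderOf_dvd_natCard _)
    ⟨_, (G.split F p).isIrr⟩ ?_ fun χ hχ => Subtype.ext ((G.split F p).eq_St (fun N hN hU => ?_) χ.2 hχ)
  · obtain ⟨g, J, rfl⟩ := (G.grp F).radical_eq (G.grp_R3 F) (G.grp_Gr F) p hQ h
    have hJ : Jᶜ.Nonempty := by
      by_contra h1
      rw [Set.not_nonempty_iff_eq_empty, Set.compl_empty_iff] at h1
      exact h0 (by rw [h1, Cover.rad_univ, Cover.US_empty, CfsgL0.cj_bot])
    have := (G.grp F).mem_U_of_cent (G.grp_π_injective F) hc hJ (G.mem_grp F (g⁻¹ * x * g)) fun v hv => by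
      have := hx (g * v * g⁻¹) (CfsgL0.mem_cj.2 (by simpa [mul_assoc] using hv))
      calc _ = g⁻¹ * (x * (g * v * g⁻¹)) * x⁻¹ * g := by group
        _ = _ := by rw [← this]; group
    obtain ⟨k, hk⟩ := pelt_of_mem ((G.grp F).isPGroup_US p G.nil_pos) this
    exact ⟨k, by rw [← hk]; exact ((MulAut.conj g⁻¹).orderOf_eq x).symm.trans (by simp)⟩
  · have h1 : charDegree (G.split F p).St = Nat.card ((G.split F p).U ∅) := by
      have := (coe_charDegree (G.split F p).isIrr.isCharacter).trans (G.split F p).deg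
      exact_mod_cast this
    change ¬ p ∣ _ / charDegree (G.split F p).St
    rw [h1, ← ((G.split F p).U ∅).card_mul_index, Nat.mul_div_cancel_left _ Nat.card_pos]
    exact (G.split F p).syl
  · rw [eq_top_iff, ← G.grp_Gr F]
    have h1 : ∀ r t, G.Pos r → (G.grp F).x r t ∈ N := fun r t hr =>
      hU ((G.gl F).x_mem (by rw [Cover.radJ_empty]; exact hr) t)
    refine (G.grp F).Gr_le_of_pm (fun i t => h1 _ t (G.pos_sm i)) fun i t => ?_
    obtain ⟨c, hc, -⟩ := ((G.grp F).mon_ν i).conj_n (G.sm i)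
    have := hN.conj_mem _ (h1 _ ((c⁻¹ : Fˣ) * t) (G.pos_sm i)) ((G.grp F).ν i)
    rwa [hc, G.σ_sm, Units.mul_inv_cancel_left] at this

end CfsgH6
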