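import Mathlib
import Cfsg.Agent.H8.GL2b

set_option autoImplicit false
open Subgroup Matrix CfsgH8

namespace CfsgH6.Tc

variable {F : Type*} [Field F]

local notation "M3" => Matrix (Fin 3) (Fin 3) F
local notation "M2" => Matrix (Fin 2) (Fin 2) F

/-- similarity -/
def Sim (A B : M3) : Prop := ∃ P : M3, P.det ≠ 0 ∧ A * P = P * B

theorem Sim.trans {A B C : M3} (h : Sim A B) (h' : Sim B C) : Sim A C := by
  obtain ⟨P, h1, h2⟩ := h
  obtain ⟨Q, h3, h4⟩ := h'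
  exact ⟨P * Q, by rw [det_mul]; exact mul_ne_zero h1 h3, by
    rw [← mul_assoc, h2, mul_assoc, h4, mul_assoc]⟩

/-- block embedding -/
def ι : M2 →* M3 where
  toFun B := !![1, 0, 0; 0, B 0 0, B 0 1; 0, B 1 0, B 1 1]
  map_one' := by ext i j; fin_cases i <;> fin_cases j <;> simp
  map_mul' A B := by ext i j; fin_cases i <;> fin_cases j <;> simp [mul_apply, Fin.sum_univ_succ]

theorem det_ι (B : M2) : (ι B).det = B.det := by simp [ι, det_fin_three, det_fin_two]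

/-- the companion matrix -/
def CC (s : F) : M2 := !![0, -1; 1, s]

variable {s : F}

theorem sim_ι (h1 : s ≠ 2) (h2 : s ≠ -2) {B : M2} (hd : B.det = 1) (ht : B.trace = s) :
    Sim (ι B) (ι (CC s)) := by
  obtain ⟨P, hP⟩ := exists_companion (A := B) fun h => by
    rw [det_fin_two, h.1, ← h.2.2, zero_mul, sub_zero, mul_self_eq_one_iff] at hd
    rw [trace_fin_two, ← h.2.2] at ht
    rcases hd with e | e <;> rw [e] at ht
    exacts [h1 (by rw [← ht]; norm_num), h2 (by rw [← ht]; norm_num)]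
  exact ⟨ι P.1, by rw [det_ι]; exact P.det_ne_zero, by rw [← map_mul, ← map_mul, hP, hd, ht]; rfl⟩

theorem sim_low (h1 : s ≠ 2) (h2 : s ≠ -2) {a b c d : F} (hd : a * d - b * c = 1) (ht : a + d = s) :
    Sim !![1, 0, 0; 1, a, b; 0, c, d] (ι (CC s)) := by
  refine Sim.trans ⟨!![2 - s, 0, 0; 1 - d, 1, 0; c, 0, 1], by
    simpa [det_fin_three, sub_eq_zero] using h1.symm, ?_⟩
    (sim_ι h1 h2 (B := !![a, b; c, d]) (by rw [det_fin_two_of, hd]) (by simpa using ht))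
  ext i j
  fin_cases i <;> fin_cases j <;> simp [ι, mul_apply, Fin.sum_univ_succ]
  · linear_combination ht - hd
  · ring

theorem sim_up (h1 : s ≠ 2) (a b : F) : Sim !![1, a, b; 0, 0, -1; 0, 1, s] (ι (CC s)) := by
  refine ⟨!![1, (s - 1) * a - b, a - b; 0, 2 - s, 0; 0, 0, 2 - s], by
    simpa [det_fin_three, sub_eq_zero] using h1.symm, ?_⟩
  ext i j
  fin_cases i <;> fin_cases j <;> simp [ι, CC, mul_apply, Fin.sum_univ_succ] <;> ring

theorem step1 {g : M3} (hg : ∀ c : F, g ≠ c • 1) :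
    ∃ M : M3, Sim g M ∧ M 0 0 = 1 ∧ M 1 0 = 1 ∧ M 2 0 = 0 := by
  obtain ⟨v, w, h⟩ : ∃ v w : Fin 3 → F, (of ![v, g *ᵥ v - v, w])ᵀ.det ≠ 0 := by
    by_contra H
    push Not at H
    have k1 := H ![1, 0, 0] ![0, 1, 0]
    have k2 := H ![1, 0, 0] ![0, 0, 1]
    have k3 := H ![0, 1, 0] ![1, 0, 0]
    have k4 := H ![0, 1, 0] ![0, 0, 1]
    have k5 := H ![0, 0, 1] ![1, 0, 0]
    have k6 := H ![0, 0, 1] ![0, 1, 0]
    have k7 := H ![1, 1, 0] ![0, 0, 1]
    have k8 := H ![1, 0, 1] ![0, 1, 0]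
    simp [det_fin_three, vecHead, vecTail, mulVec, dotProduct, Fin.sum_univ_three] at k1 k2 k3 k4 k5 k6 k7 k8
    refine hg (g 0 0) ?_
    ext i j
    fin_cases i <;> fin_cases j <;> simp [k1, k2, k3, k4, k5, k6]
    · linear_combination k7 + k4 - k2
    · linear_combination -k8 + k6 - k1
  set P := (of ![v, g *ᵥ v - v, w])ᵀ with hP
  have h1 : (P⁻¹ * g * P) *ᵥ ![1, 0, 0] = ![1, 1, 0] := by
    have : g *ᵥ (P *ᵥ ![1, 0, 0]) = P *ᵥ ![1, 1, 0] := by
      ext i; simp [hP, mulVec, dotProduct, Fin.sum_univ_succ]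
    rw [← mulVec_mulVec, ← mulVec_mulVec, this, mulVec_mulVec, nonsing_inv_mul _ h.isUnit, one_mulVec]
  refine ⟨P⁻¹ * g * P, ⟨P, h, by rw [mul_assoc, mul_nonsing_inv_cancel_left _ _ h.isUnit]⟩, ?_, ?_, ?_⟩
  exacts [by simpa [mulVec, dotProduct, Fin.sum_univ_succ] using congrFun h1 0,
    by simpa [mulVec, dotProduct, Fin.sum_univ_succ] using congrFun h1 1,
    by simpa [mulVec, dotProduct, Fin.sum_univ_succ] using congrFun h1 2]

theorem step2 (h1 : s ≠ 2) (h2 : s ≠ -2) {M : M3} (hd : M.det = 1) (m0 : M 0 0 = 1) (m1 : M 1 0 = 1)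
    (m2 : M 2 0 = 0) : ∃ T T' : M3, Sim T (ι (CC s)) ∧ Sim T' (ι (CC s)) ∧ Sim M (T * T') := by
  rw [det_fin_three, m0, m1, m2] at hd
  obtain ⟨r, hr⟩ : ∃ r, s * M 2 1 - (M 2 2 + r * M 2 1) ≠ 0 := by
    by_contra H
    push Not at H
    have k0 := H 0
    have k1 : M 2 1 = 0 := by linear_combination k0 - H 1
    have k2 : M 2 2 = 0 := by linear_combination s * k1 - k0
    simp [k1, k2] at hd
  obtain ⟨t, ht⟩ : ∃ t, t * (s * M 2 1 - (M 2 2 + r * M 2 1)) = s - M 2 1 - s * (M 1 1 - M 2 1 * r - M 0 1) +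
      (M 1 2 + r * M 1 1 - (M 2 2 + r * M 2 1) * r - M 0 2 - r * M 0 1) := ⟨_, div_mul_cancel₀ _ hr⟩
  refine ⟨_, _, sim_low h1 h2 (a := s - M 2 1) (b := M 1 1 - M 2 1 * r - M 0 1 + M 2 1 * t)
    (c := s * M 2 1 - (M 2 2 + r * M 2 1)) (d := M 2 1) (by linear_combination hd - M 2 1 * ht) (by ring),
    sim_up h1 (M 0 1 - M 2 1 * t) (M 0 2 + t + r * M 0 1 - (M 2 2 + r * M 2 1) * t),
    !![1, 0, t; 0, 1, r; 0, 0, 1], by simp [det_fin_three], ?_⟩
  ext i j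
  fin_cases i <;> fin_cases j <;> simp [mul_apply, Fin.sum_univ_succ, m0, m1, m2]
  all_goals first | ring1 | linear_combination ht | linear_combination -ht

/-- the semisimple element -/
def XX (s : F) : SpecialLinearGroup (Fin 3) F := ⟨ι (CC s), by simp [det_ι, CC, det_fin_two]⟩

theorem out {A : M3} (h : Sim A (ι (CC s))) :
    ∃ u : SpecialLinearGroup (Fin 3) F, A = (u * XX s * u⁻¹).1 := by
  obtain ⟨P, h1, h2⟩ := h
  have e : !![P.det⁻¹, 0, 0; 0, 1, 0; 0, 0, 1] * ι (CC s) = ι (CC s) * !![P.det⁻¹, 0, 0; 0, 1, 0; 0, 0, 1] := by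
    ext i j
    fin_cases i <;> fin_cases j <;> simp [ι, CC, mul_apply, Fin.sum_univ_succ]
  let u : SpecialLinearGroup (Fin 3) F := ⟨P * !![P.det⁻¹, 0, 0; 0, 1, 0; 0, 0, 1], by
    rw [det_mul, det_fin_three !![_, _, _; _, _, _; _, _, _]]; simp [h1]⟩
  have e2 : A * u.1 = u.1 * (XX s).1 := by
    change A * (P * _) = P * _ * ι (CC s)
    rw [← mul_assoc, h2, mul_assoc, mul_assoc, e]
  refine ⟨u, ?_⟩
  have e3 : u.1 * (u⁻¹).1 = 1 := congrArg Subtype.val (mul_inv_cancel u)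
  change A = u.1 * (XX s).1 * (u⁻¹).1
  rw [← e2, mul_assoc, e3, mul_one]

theorem prod (h1 : s ≠ 2) (h2 : s ≠ -2) (g : SpecialLinearGroup (Fin 3) F) (hg : ∀ c : F, g.1 ≠ c • 1) :
    ∃ u v, g = u * XX s * u⁻¹ * (v * XX s * v⁻¹) := by
  obtain ⟨M, hM, m0, m1, m2⟩ := step1 hg
  obtain ⟨T, T', k1, k2, k3⟩ := step2 h1 h2 (M := M) (by
    obtain ⟨P, p1, p2⟩ := hM
    have := congrArg det p2
    rw [det_mul, det_mul, g.2, one_mul] at this
    exact (left_eq_mul₀ p1).1 this) m0 m1 m2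
  obtain ⟨P, p1, p2⟩ := hM.trans k3
  have k : ∀ A : M3, Sim (P * A * P⁻¹) A := fun A =>
    ⟨P, p1, by rw [nonsing_inv_mul_cancel_right _ _ p1.isUnit]⟩
  obtain ⟨u, hu⟩ := out ((k T).trans k1)
  obtain ⟨v, hv⟩ := out ((k T').trans k2)
  refine ⟨u, v, Subtype.ext ?_⟩
  change g.1 = (u * XX s * u⁻¹).1 * (v * XX s * v⁻¹).1
  rw [← hu, ← hv, mul_assoc P T', mul_assoc (P * T), nonsing_inv_mul_cancel_left _ _ p1.isUnit,
    ← mul_assoc, mul_assoc P, ← p2, mul_nonsing_inv_cancel_right _ _ p1.isUnit]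

variable [Fintype F]

theorem pow_XX (h1 : s ≠ 2) (h2 : s ≠ -2) :
    XX s ^ ((Fintype.card F ^ 2 - 1) * (Fintype.card F - 1) ^ 2) = 1 := by
  have k : ∀ y : GL (Fin 2) F, y ^ Nat.card (centralizer {y}) = 1 := fun y =>
    orderOf_dvd_iff_pow_eq_one.1 (Subgroup.orderOf_dvd_natCard _ (mem_centralizer_singleton_iff.2 rfl))
  have : mk2 0 (-1) 1 s (by simp) ^ ((Fintype.card F ^ 2 - 1) * (Fintype.card F - 1) ^ 2) = 1 := by
    rcases ell_or_isConj_tri (mk2 0 (-1) 1 s (by simp)) with h | ⟨a, x, d, h⟩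
    · rw [pow_mul, ← card_centralizer_ell h, k, one_pow]
    · have ne : a ≠ d := by
        rintro rfl
        have e1 := trace_eq_of_isConj h
        have e2 := det_eq_of_isConj h
        simp [trace_fin_two, det_fin_two] at e1 e2
        rcases mul_self_eq_one_iff.1 e2.symm with e | e <;> rw [e] at e1
        exacts [h1 (by rw [e1]; norm_num), h2 (by rw [e1]; norm_num)]
      obtain ⟨c, hc⟩ := isConj_iff.1 (h.trans (isConj_tri_of_ne ne x 0)).symm
      rw [← hc, conj_pow, pow_mul', ← card_centralizer_diag ne, k, one_pow, mul_one, mul_inv_cancel]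
  refine Subtype.ext ?_
  change ι (CC s) ^ _ = 1
  rw [← map_pow, ← map_one ι]
  exact congrArg ι (congrArg Units.val this)

theorem main (p : ℕ) [Fact p.Prime] [CharP F p] (h3 : 3 ≤ Fintype.card F) :
    ∃ x : ProjectiveSpecialLinearGroup (Fin 3) F, ¬ p ∣ orderOf x ∧ ∀ g, g ≠ 1 →
      ∃ u v, g = (u * x * u⁻¹) * (v * x * v⁻¹) := by
  classical
  obtain ⟨s, -, hs⟩ := Finset.exists_mem_notMem_of_card_lt_card (s := {(2 : F), -2}) (t := Finset.univ)
    (Finset.card_le_two.trans_lt h3)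
  simp only [Finset.mem_insert, Finset.mem_singleton, not_or] at hs
  refine ⟨QuotientGroup.mk (XX s), fun h => ?_, fun g g1 => ?_⟩
  · have h1 := h.trans (orderOf_dvd_of_pow_eq_one (by
      rw [← QuotientGroup.mk_pow, pow_XX hs.1 hs.2, QuotientGroup.mk_one]))
    have hp : p.Prime := Fact.out
    obtain ⟨n, -, hn⟩ := FiniteField.card F p
    have h2 : p ∣ Fintype.card F := hn ▸ dvd_pow_self p n.ne_zero
    have k : ∀ m : ℕ, 0 < m → p ∣ m → ¬ p ∣ m - 1 := fun m m0 e e' =>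
      hp.one_lt.ne' (Nat.dvd_one.1 (by simpa [Nat.sub_sub_self m0] using Nat.dvd_sub e e'))
    rcases (Nat.Prime.dvd_mul hp).1 h1 with e | e
    exacts [k _ (by positivity) (h2.trans (dvd_pow_self _ two_ne_zero)) e,
      k _ (by omega) h2 (hp.dvd_of_dvd_pow e)]
  · obtain ⟨g, rfl⟩ := QuotientGroup.mk_surjective g
    obtain ⟨u, v, e⟩ := prod hs.1 hs.2 g fun c hc => g1 ((QuotientGroup.eq_one_iff _).2
      (mem_center_iff.2 fun a => Subtype.ext (by simp [hc])))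
    exact ⟨QuotientGroup.mk u, QuotientGroup.mk v, by rw [e]; rfl⟩

end CfsgH6.Tc
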