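import Mathlib
import Cfsg.Agent.H8.GL2b

set_option autoImplicit false
open Subgroup Matrix CfsgH8

namespace CfsgH6.Tc4

variable {F : Type*} [Field F]

local notation "M2" => Matrix (Fin 2) (Fin 2) F
local notation "GL2" => GL (Fin 2) F
local notation "Sp" => symplecticGroup (Fin 2) F

theorem conj_of {G : Type*} [Group G] {a b : G} (c : G) (h : c * a = b * c) : IsConj a b :=
  isConj_iff.2 ⟨c, mul_inv_eq_of_eq_mul h⟩

theorem t1 (B : GL2) : B.1ᵀ * (B⁻¹).1ᵀ = 1 := by rw [← transpose_mul, Units.inv_mul, transpose_one]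
theorem t2 (B : GL2) : (B⁻¹).1ᵀ * B.1ᵀ = 1 := by rw [← transpose_mul, Units.mul_inv, transpose_one]

/-- lower unipotent elements -/
def uL (Y : M2) (h : Yᵀ = Y) : Sp := ⟨fromBlocks 1 0 Y 1, by
  simp [SymplecticGroup.mem_iff, J, fromBlocks_multiply, fromBlocks_transpose, h]⟩

/-- upper unipotent elements -/
def uU (Y : M2) (h : Yᵀ = Y) : Sp := ⟨fromBlocks 1 Y 0 1, by
  simp [SymplecticGroup.mem_iff, J, fromBlocks_multiply, fromBlocks_transpose, h]⟩

/-- Levi elements -/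
def ll : GL2 →* Sp where
  toFun B := ⟨fromBlocks B.1 0 0 (B⁻¹).1ᵀ, by
    simp [SymplecticGroup.mem_iff, J, fromBlocks_multiply, fromBlocks_transpose, t2,
      -coe_units_inv]⟩
  map_one' := Subtype.ext (by simp)
  map_mul' a b := Subtype.ext (by simp [fromBlocks_multiply, -coe_units_inv])

theorem ll_val (B : GL2) : (ll B).1 = fromBlocks B.1 0 0 (B⁻¹).1ᵀ := rfl

theorem blocks (g : Sp) : ∃ A B C D : M2, g.1 = fromBlocks A B C D ∧ Cᵀ * A = Aᵀ * C ∧
    Dᵀ * A - Bᵀ * C = 1 ∧ B * Aᵀ = A * Bᵀ := by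
  obtain ⟨g, hg⟩ := g
  rw [← fromBlocks_toBlocks g] at hg
  have h1 := SymplecticGroup.mem_iff.1 hg
  have h2 := SymplecticGroup.mem_iff'.1 hg
  simp only [J, fromBlocks_multiply, fromBlocks_transpose, fromBlocks_inj] at h1 h2
  refine ⟨_, _, _, _, (fromBlocks_toBlocks g).symm, ?_, ?_, ?_⟩
  · simpa [add_neg_eq_zero] using h2.1
  · simpa [sub_eq_add_neg] using h2.2.2.1
  · simpa [add_neg_eq_zero] using h1.1

theorem decomp (g : Sp) (h : GL2) (e : g.1.toBlocks₁₁ = h.1) :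
    ∃ T hT S hS, g = uL T hT * ll h * uU S hS := by
  obtain ⟨A, B, C, D, h0, h1, h2, h3⟩ := blocks g
  rw [h0, toBlocks_fromBlocks₁₁] at e
  subst e
  have k : (C * (h⁻¹).1)ᵀ = C * (h⁻¹).1 := by
    rw [transpose_mul, ← mul_one Cᵀ, ← h.mul_inv, ← mul_assoc Cᵀ, h1, ← mul_assoc, ← mul_assoc, t2, one_mul]
  refine ⟨C * (h⁻¹).1, k, (h⁻¹).1 * B, ?_, Subtype.ext ?_⟩
  · rw [transpose_mul, ← one_mul Bᵀ, ← h.inv_mul, mul_assoc _ h.1, ← h3, mul_assoc, mul_assoc, t1, mul_one]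
  · have h4 := congrArg (fun X => (h⁻¹).1ᵀ * Xᵀ) h2
    simp only [transpose_sub, transpose_mul, transpose_transpose, mul_sub, ← mul_assoc, t2, one_mul,
      transpose_one, mul_one] at h4
    rw [← transpose_mul C, k, sub_eq_iff_eq_add'] at h4
    simp [h0, uL, uU, ll_val, fromBlocks_multiply, mul_assoc, h4, -coe_units_inv]

/-- no fixed forms -/
def Inj (B : M2) : Prop := ∀ Y : M2, Bᵀ * Y * B = Y → Y = 0

theorem inj_of {B : M2} (h1 : 1 - B.det ≠ 0) (h2 : (1 + B.det) ^ 2 - B.trace ^ 2 ≠ 0) : Inj B := by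
  intro Y hY
  have c : B * B - B.trace • B + B.det • 1 = 0 := by
    ext i j
    fin_cases i <;> fin_cases j <;> simp [mul_apply, trace_fin_two, det_fin_two] <;> ring
  have e := congrArg (fun X => Bᵀ * Bᵀ * Y * X) c
  have e1 : Bᵀ * Bᵀ * Y * B = Bᵀ * Y := by rw [mul_assoc Bᵀ, mul_assoc Bᵀ, hY]
  simp only [mul_add, mul_sub, ← mul_assoc, Matrix.mul_smul, e1, hY, mul_one, mul_zero] at e
  have e2 : (1 - B.trace • Bᵀ + B.det • (Bᵀ * Bᵀ)) * Y = 0 := by
    rw [← e, add_mul, sub_mul, one_mul, smul_mul_assoc, smul_mul_assoc]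
  have e3 : (1 - B.trace • Bᵀ + B.det • (Bᵀ * Bᵀ)).det ≠ 0 := by
    convert mul_ne_zero (pow_ne_zero 2 h1) h2 using 1
    simp [mul_apply, trace_fin_two, det_fin_two]
    ring
  rw [← nonsing_inv_mul_cancel_left _ Y e3.isUnit, e2, mul_zero]

theorem Inj.flip {B D : M2} (h : Inj Dᵀ) (e : B * Dᵀ = 1) : Inj B := fun Y hY => h Y (by
  conv_lhs => rw [← hY]
  rw [← mul_assoc, ← mul_assoc, ← transpose_mul, e, transpose_one, one_mul, mul_assoc, e, mul_one])

theorem Inj.surj [Finite F] {B : M2} (h : Inj B) {R : M2} (hR : Rᵀ = R) :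
    ∃ Y : M2, Yᵀ = Y ∧ Bᵀ * Y * B - Y = R := by
  obtain ⟨Y, hY⟩ := Finite.injective_iff_surjective.1 (show Function.Injective
    fun Y : {Y : M2 // Yᵀ = Y} => (⟨Bᵀ * Y.1 * B - Y.1, by simp [mul_assoc, Y.2]⟩ : {Y : M2 // Yᵀ = Y}) from
      fun a b e => Subtype.ext (sub_eq_zero.1 (h _ (by
        rw [mul_sub, sub_mul]; exact sub_eq_sub_iff_sub_eq_sub.1 (congrArg Subtype.val e))))) ⟨R, hR⟩
  exact ⟨Y.1, Y.2, congrArg Subtype.val hY⟩

/-- admissible parameters -/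
structure Par (s δ : F) : Prop where
  d0 : δ ≠ 0
  d1 : 1 - δ ≠ 0
  d2 : (1 + δ) ^ 2 - s ^ 2 ≠ 0
  d3 : s ^ 2 - 4 * δ ≠ 0

/-- the class -/
def Cl (s δ : F) (B : M2) : Prop := B.trace = s ∧ B.det = δ

/-- the class and its inverse -/
def OK (s δ : F) (B : GL2) : Prop := Cl s δ B.1 ∨ Cl s δ (B⁻¹).1

variable {s δ : F}

/-- the semisimple element -/
noncomputable def X0 (P : Par s δ) : GL2 := mk2 0 (-δ) 1 s (by simpa using P.d0)

theorem Cl.ns (P : Par s δ) {B : M2} (h : Cl s δ B) : ¬ IsSc B := fun k => P.d3 (by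
  rw [← h.1, ← h.2, trace_fin_two, det_fin_two, k.1, k.2.2]; ring)

theorem cl_X0 (P : Par s δ) : Cl s δ (X0 P).1 := by simp [Cl, X0, det_fin_two]

theorem Cl.conj (P : Par s δ) {B : GL2} (h : Cl s δ B.1) : IsConj (ll (X0 P)) (ll B) :=
  ll.map_isConj (isConj_of_trace_det ((cl_X0 P).ns P) (h.ns P) ((cl_X0 P).1.trans h.1.symm)
    ((cl_X0 P).2.trans h.2.symm))

theorem OK.conj (P : Par s δ) {B : GL2} (h : OK s δ B) : IsConj (ll (X0 P)) (ll B) := by
  rcases h with h | h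
  · exact h.conj P
  · refine (Cl.conj P (B := ⟨(B⁻¹).1ᵀ, B.1ᵀ, t2 B, t1 B⟩) ⟨by simpa using h.1, by simpa using h.2⟩).trans
      (conj_of (SymplecticGroup.symJ _ _) (Subtype.ext ?_))
    simp [ll_val, J, fromBlocks_multiply, -coe_units_inv]

theorem OK.inj (P : Par s δ) {B : GL2} (h : OK s δ B) : Inj B.1 ∧ Inj (B⁻¹).1ᵀ := by
  have k : ∀ C : M2, Cl s δ C → Inj C ∧ Inj Cᵀ := fun C h =>
    ⟨inj_of (h.2 ▸ P.d1) (by rw [h.1, h.2]; exact P.d2),
      inj_of (by rw [det_transpose, h.2]; exact P.d1) (by rw [det_transpose, trace_transpose, h.1, h.2]; exact P.d2)⟩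
  rcases h with h | h
  · exact ⟨(k _ h).1, Inj.flip (k _ h).2 (t2 B)⟩
  · exact ⟨Inj.flip (D := (B⁻¹).1ᵀ) (k _ h).1 B.mul_inv, (k _ h).2⟩

/-- good blocks -/
def Good (s δ : F) (A : M2) : Prop := ∃ B C : GL2, OK s δ B ∧ OK s δ C ∧ A = (B * C).1

theorem Good.out [Finite F] (P : Par s δ) {g : Sp} (h : Good s δ g.1.toBlocks₁₁) :
    ∃ u v, g = u * ll (X0 P) * u⁻¹ * (v * ll (X0 P) * v⁻¹) := by
  obtain ⟨B, C, hB, hC, e⟩ := h
  obtain ⟨T, hT, S, hS, rfl⟩ := decomp g _ e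
  obtain ⟨Y, y1, y2⟩ := (hB.inj P).1.surj (R := B.1ᵀ * T * B.1) (by simp [mul_assoc, hT])
  obtain ⟨Z, z1, z2⟩ := (hC.inj P).2.surj hS
  obtain ⟨u, hu⟩ := isConj_iff.1 ((hB.conj P).trans (conj_of (b := uL T hT * ll B) (uL Y y1) (Subtype.ext (by
    have := congrArg ((B⁻¹).1ᵀ * ·) y2
    simp only [mul_sub, ← mul_assoc, t2, one_mul, sub_eq_iff_eq_add] at this
    simp [uL, ll_val, fromBlocks_multiply, this, -coe_units_inv]))))
  obtain ⟨v, hv⟩ := isConj_iff.1 ((hC.conj P).trans (conj_of (b := ll C * uU S hS) (uU Z z1) (Subtype.ext (by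
    have := congrArg (C.1 * ·) z2
    simp only [mul_sub, ← mul_assoc, transpose_transpose, Units.mul_inv, one_mul, sub_eq_iff_eq_add] at this
    simp [uU, ll_val, fromBlocks_multiply, this, add_comm, -coe_units_inv]))))
  exact ⟨u, v, by rw [hu, hv, map_mul]; simp only [mul_assoc]⟩

theorem good_of (P : Par s δ) {ε : F} (he : ε = 1 ∨ ε = δ) {A C : M2} (hA : A.det = ε ^ 2) (hC : Cl s δ C)
    (h : (A * C).trace = ε * s) : Good s δ A := by
  have e0 : ε ≠ 0 := by rcases he with rfl | rfl; exacts [one_ne_zero, P.d0]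
  have c0 : C.det ≠ 0 := hC.2 ▸ P.d0
  have b1 : (ε⁻¹ • (A * C)).det = δ := by rw [det_smul, det_mul, hA, hC.2]; simp [e0]
  refine ⟨.mkOfDetNeZero (ε⁻¹ • (A * C)) (b1 ▸ P.d0), sc (Units.mk0 ε e0) * (GeneralLinearGroup.mkOfDetNeZero C c0)⁻¹,
    .inl ⟨by simp [h, e0], b1⟩, ?_, ?_⟩
  · rcases he with rfl | rfl
    · exact .inr (by simpa using hC)
    · refine .inl ?_
      rw [show Units.mk0 ε e0 = GeneralLinearGroup.det (GeneralLinearGroup.mkOfDetNeZero C c0) from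
        Units.ext hC.2.symm]
      exact ⟨(trace_bar _).trans hC.1, (det_bar _).trans hC.2⟩
  · simp [sc_val', e0, mul_assoc, mul_nonsing_inv _ c0.isUnit, -sc_val]

theorem good_ns (P : Par s δ) {ε : F} (he : ε = 1 ∨ ε = δ) {A : M2} (hA : A.det = ε ^ 2) (h : ¬ IsSc A)
    {c d : F} (e : d ^ 2 - A.trace * c * d + ε ^ 2 * c ^ 2 - s * d + ε * s * c + δ = 0) : Good s δ A := by
  obtain ⟨Q, hQ⟩ := exists_companion h
  have k : ∀ X : M2, (Q.1 * X * (Q⁻¹).1).trace = X.trace := fun X => by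
    rw [trace_mul_comm, ← mul_assoc, Q.inv_mul, one_mul]
  refine good_of P he hA (C := Q.1 * !![s - d, ε * s + ε ^ 2 * c - A.trace * d; c, d] * (Q⁻¹).1)
    ⟨by rw [k]; simp, ?_⟩ ?_
  · rw [det_mul, mul_comm, ← det_mul, ← mul_assoc, Q.inv_mul, one_mul, det_fin_two_of]
    linear_combination -e
  · rw [← mul_assoc, ← mul_assoc, hQ, mul_assoc Q.1, k, hA]
    simp

theorem good_one (P : Par s δ) : Good s δ 1 :=
  good_of P (.inl rfl) (by simp) (cl_X0 P) (by simp [(cl_X0 P).1])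

theorem sy (x y z : F) : !![x, y; y, z]ᵀ = !![x, y; y, z] := by simp [m2_ext_iff]

theorem det_sub (A C : M2) (x y z : F) : (A - !![x, y; y, z] * C).det = A.det -
    (x * (C 0 0 * A 1 1 - C 0 1 * A 1 0) + y * (C 1 0 * A 1 1 - C 1 1 * A 1 0 + C 0 1 * A 0 0 - C 0 0 * A 0 1) +
      z * (C 1 1 * A 0 0 - C 1 0 * A 0 1)) + (x * z - y ^ 2) * C.det := by
  simp [det_fin_two, vecMul, dotProduct]
  ring

theorem trace_sub' (A C : M2) (x y z : F) : (A - !![x, y; y, z] * C).trace = A.trace -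
    (x * C 0 0 + y * (C 0 1 + C 1 0) + z * C 1 1) := by
  simp [trace_fin_two, vecMul, dotProduct]
  ring

theorem step2 (g : Sp) (h : g.1.toBlocks₂₁ ≠ 0) :
    ∃ S : M2, Sᵀ = S ∧ (g.1.toBlocks₁₁ - S * g.1.toBlocks₂₁).det = 1 := by
  obtain ⟨A, B, C, D, h0, h1, h2, -⟩ := blocks g
  rw [h0, toBlocks_fromBlocks₂₁] at h ⊢
  rw [toBlocks_fromBlocks₁₁]
  have k1 := congrFun (congrFun h1 0) 1
  simp only [m2_mul, transpose_apply] at k1
  by_cases hC : C.det = 0
  · by_cases n1 : C 0 0 * A 1 1 - C 0 1 * A 1 0 = 0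
    · by_cases n3 : C 1 1 * A 0 0 - C 1 0 * A 0 1 = 0
      · have n2 : C 0 1 * A 0 0 - C 0 0 * A 0 1 = 0 := pow_eq_zero_iff two_ne_zero |>.1 (by
          rw [det_fin_two] at hC
          linear_combination (C 1 1 * A 0 0 - C 1 0 * A 0 1) * n1 - (A 0 0 * A 1 1 - A 0 1 * A 1 0) * hC -
            (C 0 1 * A 0 0 - C 0 0 * A 0 1) * k1)
        have k2 : A * C.adjugate = 0 := by
          rw [adjugate_fin_two, m2_ext_iff]
          simp only [m2_mul]
          simp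
          exact ⟨by linear_combination n3, by linear_combination -n2, by linear_combination -k1 - n2,
            by linear_combination n1⟩
        have k3 := congrArg (· * C.adjugate) h2
        simp only [sub_mul, mul_assoc, k2, mul_adjugate, hC, zero_smul, mul_zero, sub_zero, one_mul] at k3
        rw [adjugate_fin_two, eq_comm, m2_ext_iff] at k3
        simp at k3
        exact (h (m2_ext k3.2.2.2 k3.2.1 k3.2.2.1 k3.1)).elim
      · refine ⟨_, sy 0 0 ((A.det - 1) / (C 1 1 * A 0 0 - C 1 0 * A 0 1)), ?_⟩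
        rw [det_sub]
        linear_combination -div_mul_cancel₀ (A.det - 1) n3
    · refine ⟨_, sy ((A.det - 1) / (C 0 0 * A 1 1 - C 0 1 * A 1 0)) 0 0, ?_⟩
      rw [det_sub]
      linear_combination -div_mul_cancel₀ (A.det - 1) n1
  · obtain ⟨z, hz⟩ : ∃ z, z * C.det = 1 + (C 0 0 * A 1 1 - C 0 1 * A 1 0) := ⟨_, div_mul_cancel₀ _ hC⟩
    refine ⟨_, sy (1 - A.det + z * (C 1 1 * A 0 0 - C 1 0 * A 0 1)) 0 z, ?_⟩
    rw [det_sub]
    linear_combination (1 - A.det + z * (C 1 1 * A 0 0 - C 1 0 * A 0 1)) * hz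

theorem shift (g : Sp) {S : M2} (hS : Sᵀ = S) : ∃ g' : Sp, IsConj g' g ∧
    g'.1.toBlocks₁₁ = g.1.toBlocks₁₁ - S * g.1.toBlocks₂₁ ∧ g'.1.toBlocks₂₁ = g.1.toBlocks₂₁ := by
  have e : uU S hS * uU (-S) (by simp [hS]) = 1 := Subtype.ext (by simp [uU, fromBlocks_multiply])
  obtain ⟨A, B, C, D, h0, -⟩ := blocks g
  refine ⟨uU (-S) (by simp [hS]) * g * uU S hS, conj_of (uU S hS) (by
    rw [← mul_assoc, ← mul_assoc, e, one_mul]), ?_, ?_⟩ <;>
    simp [uU, h0, fromBlocks_multiply, sub_eq_add_neg]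

theorem step1 {g : Sp} (hg : g ∉ center Sp) : ∃ g' : Sp, IsConj g' g ∧ g'.1.toBlocks₂₁ ≠ 0 := by
  by_contra H
  push Not at H
  obtain ⟨A, B, C, D, h0, -⟩ := blocks g
  have hC : C = 0 := by simpa [h0] using H g (IsConj.refl g)
  have hB : B = 0 := by
    have := H _ (isConj_iff.2 ⟨(SymplecticGroup.symJ (Fin 2) F)⁻¹, by
      rw [inv_inv, mul_assoc, inv_mul_cancel_right, inv_mul_cancel_left]⟩)
    simpa [h0, SymplecticGroup.coe_inv, J, fromBlocks_multiply, fromBlocks_transpose, fromBlocks_neg] using this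
  have k : ∀ Y : M2, Yᵀ = Y → D * Y = Y * A := fun Y hY => by
    have e : uL Y hY * uL (-Y) (by simp [hY]) = 1 := Subtype.ext (by simp [uL, fromBlocks_multiply])
    have := H (uL (-Y) (by simp [hY]) * g * uL Y hY) (conj_of (uL Y hY) (by
      rw [← mul_assoc, ← mul_assoc, e, one_mul]))
    simpa [h0, uL, fromBlocks_multiply, hB, hC, neg_add_eq_zero, eq_comm] using this
  have k1 : D = A := by simpa using k 1 transpose_one
  have k2 := k !![1, 0; 0, 0] (by simp [m2_ext_iff])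
  have k3 := k !![0, 1; 1, 0] (by simp [m2_ext_iff])
  simp [k1, m2_ext_iff, m2_mul, vecMul, dotProduct] at k2 k3
  have k4 : A = A 0 0 • 1 := IsSc.eq ⟨by simp [k2], by simp [k2], by tauto⟩
  have k5 : g.1 = A 0 0 • 1 := by
    rw [h0, hB, hC, k1, ← fromBlocks_one, fromBlocks_smul, ← k4, smul_zero]
  exact hg (mem_center_iff.2 fun a => Subtype.ext (by simp [k5]))

variable [Fintype F]

theorem good_odd (h2 : (2 : F) ≠ 0) (hq : Fintype.card F % 2 = 1) (P : Par (2 : F) (-1)) {A : M2}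
    (hA : A.det = 1) : Good (2 : F) (-1) A ∨ Good (2 : F) (-1) (-A) := by
  have k : ∀ A : M2, A.det = 1 → ¬ IsSc A → A.trace ≠ 2 → Good (2 : F) (-1) A := fun A hA h1 h3 => by
    have h4 : (4 : F) ≠ 0 := fun e => h2 (pow_eq_zero_iff two_ne_zero |>.1 (by linear_combination e))
    by_cases h5 : A.trace = -2
    · refine good_ns P (.inl rfl) (by simpa using hA) h1 (c := 4⁻¹) (d := -4⁻¹) ?_
      rw [h5]; field_simp; ring
    · obtain ⟨a, b, e⟩ := FiniteField.exists_root_sum_quadratic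
        (Polynomial.degree_quadratic (a := (1 : F)) (b := -2) (c := -1) one_ne_zero)
        (Polynomial.degree_quadratic (a := 4 - A.trace ^ 2) (b := 4 - 2 * A.trace) (c := 0) fun e =>
          mul_ne_zero (sub_ne_zero.2 h3) (add_eq_zero_iff_eq_neg.not.2 h5) (by linear_combination -e)) hq
      simp only [Polynomial.eval_add, Polynomial.eval_mul, Polynomial.eval_C, Polynomial.eval_pow,
        Polynomial.eval_X] at e
      exact good_ns P (.inl rfl) (by simpa using hA) h1 (c := 2 * b) (d := a + A.trace * b)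
        (by linear_combination e)
  by_cases h1 : IsSc A
  · rw [det_fin_two, h1.1, ← h1.2.2, zero_mul, sub_zero, mul_self_eq_one_iff] at hA
    rw [h1.eq]
    rcases hA with e | e <;> rw [e]
    exacts [.inl (by simpa using good_one P), .inr (by simpa using good_one P)]
  by_cases h3 : A.trace = 2
  · refine .inr (k _ (by simp [det_neg, hA]) (by simpa [IsSc] using h1) fun e => h2 ?_)
    rw [trace_neg, h3] at e
    exact pow_eq_zero_iff two_ne_zero |>.1 (by linear_combination -e)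
  · exact .inl (k A hA h1 h3)

theorem good_even (h2 : ringChar F = 2) (P : Par s δ) {ε : F} (he : ε = 1 ∨ ε = δ) {A : M2}
    (hA : A.det = ε ^ 2) (h : A.trace ≠ 0) : Good s δ A := by
  haveI : CharP F 2 := ringChar.of_eq h2
  have e0 : ε ≠ 0 := by rcases he with rfl | rfl; exacts [one_ne_zero, P.d0]
  have t : (2 : F) = 0 := CharTwo.two_eq_zero
  obtain ⟨c, hc⟩ := FiniteField.isSquare_of_char_two h2 (δ / (A.trace * ε))
  rw [div_eq_iff (mul_ne_zero h e0)] at hc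
  exact good_ns P he hA (fun k => h (by rw [trace_fin_two, k.2.2]; linear_combination A 1 1 * t))
    (c := c) (d := ε * c) (by linear_combination hc + ε ^ 2 * c ^ 2 * t)

theorem step3 (h2 : ringChar F = 2) (P : Par s δ) {A C : M2} (hA : A.det = 1) (hC : C ≠ 0) :
    ∃ S : M2, Sᵀ = S ∧ Good s δ (A - S * C) := by
  haveI : CharP F 2 := ringChar.of_eq h2
  have t : (2 : F) = 0 := CharTwo.two_eq_zero
  by_cases h : A.trace = 0
  swap
  · exact ⟨0, by simp, by simpa using good_even h2 P (.inl rfl) (by simpa using hA) h⟩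
  by_cases h1 : ∃ a b : F, a ^ 2 * C 0 0 + a * b * (C 0 1 + C 1 0) + b ^ 2 * C 1 1 ≠ 0
  · obtain ⟨a, b, h1⟩ := h1
    have k := fun r : F => det_sub A C (r * a ^ 2) (r * (a * b)) (r * b ^ 2)
    obtain ⟨n, hn⟩ : ∃ n, ∀ r : F, (A - !![r * a ^ 2, r * (a * b); r * (a * b), r * b ^ 2] * C).det =
        1 - r * n := ⟨a ^ 2 * (C 0 0 * A 1 1 - C 0 1 * A 1 0) + a * b * (C 1 0 * A 1 1 - C 1 1 * A 1 0 +
          C 0 1 * A 0 0 - C 0 0 * A 0 1) + b ^ 2 * (C 1 1 * A 0 0 - C 1 0 * A 0 1), fun r => by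
      rw [k, hA]; ring⟩
    have tr : ∀ r : F, r ≠ 0 → (A - !![r * a ^ 2, r * (a * b); r * (a * b), r * b ^ 2] * C).trace ≠ 0 :=
      fun r r0 e => mul_ne_zero r0 h1 (by rw [trace_sub', h] at e; linear_combination -e)
    by_cases n0 : n = 0
    · exact ⟨_, sy _ _ _, good_even h2 P (.inl rfl) (by rw [hn 1, n0]; simp) (tr 1 one_ne_zero)⟩
    · refine ⟨_, sy _ _ _, good_even h2 P (.inr rfl) (by rw [hn ((1 - δ ^ 2) / n), div_mul_cancel₀ _ n0]; ring)
        (tr _ (div_ne_zero (fun e => pow_ne_zero 2 P.d1 ?_) n0))⟩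
      linear_combination e + (δ ^ 2 - δ) * t
  · push Not at h1
    have c0 : C 0 0 = 0 := by simpa using h1 1 0
    have c1 : C 1 1 = 0 := by simpa using h1 0 1
    have c2 : C 1 0 = C 0 1 := by linear_combination h1 1 1 - c0 - c1 - C 0 1 * t
    have c3 : C 0 1 ≠ 0 := fun e => hC (m2_ext c0 e (c2.trans e) c1)
    refine ⟨_, sy (A 0 1 / C 0 1) ((A 0 0 - 1) / C 0 1) (A 1 0 / C 0 1), ?_⟩
    convert good_one P using 1
    rw [trace_fin_two] at h
    simp [m2_ext_iff, vecMul, dotProduct, c0, c1, c2, c3]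
    linear_combination h - A 0 0 * t

theorem pow_X0 (P : Par s δ) : X0 P ^ ((Fintype.card F ^ 2 - 1) * (Fintype.card F - 1) ^ 2) = 1 := by
  have k : ∀ y : GL2, y ^ Nat.card (centralizer {y}) = 1 := fun y =>
    orderOf_dvd_iff_pow_eq_one.1 (Subgroup.orderOf_dvd_natCard _ (mem_centralizer_singleton_iff.2 rfl))
  rcases ell_or_isConj_tri (X0 P) with h | ⟨a, x, d, h⟩
  · rw [pow_mul, ← card_centralizer_ell h, k, one_pow]
  · have ne : a ≠ d := by
      rintro rfl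
      have e1 := trace_eq_of_isConj h
      have e2 := det_eq_of_isConj h
      rw [(cl_X0 P).1] at e1
      rw [(cl_X0 P).2] at e2
      simp [trace_fin_two, det_fin_two] at e1 e2
      exact P.d3 (by rw [e1, e2]; ring)
    obtain ⟨c, hc⟩ := isConj_iff.1 (h.trans (isConj_tri_of_ne ne x 0)).symm
    rw [← hc, conj_pow, pow_mul', ← card_centralizer_diag ne, k, one_pow, mul_one, mul_inv_cancel]

theorem key (h3 : 3 ≤ Fintype.card F) : ∃ s δ : F, Par s δ ∧ ∀ g : Sp, g ∉ center Sp →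
    ∃ g' : Sp, IsConj g' g ∧ (Good s δ g'.1.toBlocks₁₁ ∨ Good s δ (-g'.1.toBlocks₁₁)) := by
  classical
  by_cases h2 : ringChar F = 2
  · haveI : CharP F 2 := ringChar.of_eq h2
    have t : (2 : F) = 0 := CharTwo.two_eq_zero
    have k : ∀ a b : F, ∃ c, c ≠ a ∧ c ≠ b := fun a b => by
      obtain ⟨s, -, hs⟩ := Finset.exists_mem_notMem_of_card_lt_card (s := {a, b}) (t := Finset.univ)
        (Finset.card_le_two.trans_lt h3)
      exact ⟨s, by simpa using hs⟩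
    obtain ⟨δ, d0, d1⟩ := k 0 1
    obtain ⟨s, s0, s1⟩ := k 0 (1 + δ)
    have P : Par s δ := ⟨d0, sub_ne_zero.2 d1.symm, fun e => pow_ne_zero 2 (sub_ne_zero.2 s1)
      (by linear_combination e + (s ^ 2 - s * (1 + δ)) * t), fun e => pow_ne_zero 2 s0
      (by linear_combination e + 2 * δ * t)⟩
    refine ⟨s, δ, P, fun g hg => ?_⟩
    obtain ⟨g1, c1, h1⟩ := step1 hg
    obtain ⟨S, hS, e⟩ := step2 g1 h1
    obtain ⟨g2, c2, e1, e2⟩ := shift g1 hS
    obtain ⟨S', hS', e'⟩ := step3 h2 P (e1 ▸ e) (e2 ▸ h1)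
    obtain ⟨g3, c3, e3, -⟩ := shift g2 hS'
    exact ⟨g3, (c3.trans c2).trans c1, .inl (e3 ▸ e')⟩
  · have t : (2 : F) ≠ 0 := Ring.two_ne_zero h2
    have P : Par (2 : F) (-1) := ⟨by simp, fun e => t (by linear_combination e),
      fun e => pow_ne_zero 2 t (by linear_combination -e), fun e => pow_ne_zero 3 t (by linear_combination e)⟩
    refine ⟨_, _, P, fun g hg => ?_⟩
    obtain ⟨g1, c1, h1⟩ := step1 hg
    obtain ⟨S, hS, e⟩ := step2 g1 h1
    obtain ⟨g2, c2, e1, -⟩ := shift g1 hS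
    exact ⟨g2, c2.trans c1, good_odd t (FiniteField.odd_card_of_char_ne_two h2) P (e1 ▸ e)⟩

theorem main (p : ℕ) [Fact p.Prime] [CharP F p] (h3 : 3 ≤ Fintype.card F) :
    ∃ x : Sp ⧸ center Sp, ¬ p ∣ orderOf x ∧ ∀ g, g ≠ 1 →
      ∃ u v, g = (u * x * u⁻¹) * (v * x * v⁻¹) := by
  obtain ⟨s, δ, P, H⟩ := key h3
  refine ⟨QuotientGroup.mk (ll (X0 P)), fun h => ?_, fun g g1 => ?_⟩
  · have h1 := h.trans (orderOf_dvd_of_pow_eq_one (by
      rw [← QuotientGroup.mk_pow, ← map_pow, pow_X0 P, map_one, QuotientGroup.mk_one]))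
    have hp : p.Prime := Fact.out
    obtain ⟨n, -, hn⟩ := FiniteField.card F p
    have h2 : p ∣ Fintype.card F := hn ▸ dvd_pow_self p n.ne_zero
    have k : ∀ m : ℕ, 0 < m → p ∣ m → ¬ p ∣ m - 1 := fun m m0 e e' =>
      hp.one_lt.ne' (Nat.dvd_one.1 (by simpa [Nat.sub_sub_self m0] using Nat.dvd_sub e e'))
    rcases (Nat.Prime.dvd_mul hp).1 h1 with e | e
    exacts [k _ (by positivity) (h2.trans (dvd_pow_self _ two_ne_zero)) e,
      k _ (by omega) h2 (hp.dvd_of_dvd_pow e)]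
  · obtain ⟨g, rfl⟩ := QuotientGroup.mk_surjective g
    obtain ⟨g', c0, h⟩ := H g fun e => g1 ((QuotientGroup.eq_one_iff _).2 e)
    obtain ⟨c, rfl⟩ := isConj_iff.1 c0
    obtain ⟨g'', e, h⟩ : ∃ g'' : Sp, (QuotientGroup.mk g' : Sp ⧸ center Sp) = QuotientGroup.mk g'' ∧
        Good s δ g''.1.toBlocks₁₁ := by
      refine h.elim (fun h => ⟨g', rfl, h⟩) fun h => ⟨g' * ⟨-1, SymplecticGroup.neg_mem (one_mem _)⟩,
        (QuotientGroup.mk_mul_of_mem _ (mem_center_iff.2 fun a => Subtype.ext (by simp))).symm, ?_⟩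
      convert h using 1
      ext i j
      simp [toBlocks₁₁]
    obtain ⟨u, v, rfl⟩ := h.out P
    exact ⟨QuotientGroup.mk (c * u), QuotientGroup.mk (c * v), by
      simp only [QuotientGroup.mk_mul, QuotientGroup.mk_inv, e]; group⟩

end CfsgH6.Tc4
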