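import Cfsg.Agent.H6.Wt3

set_option autoImplicit false
set_option linter.unusedSectionVars false

/-! The Weil representation of the finite symplectic groups. -/

namespace CfsgH6.Weil
open Matrix Module CfsgH6.Wt

variable {F : Type*} [Field F] [Fintype F] [DecidableEq F] {n : Type*} [Fintype n] [DecidableEq n]
  (ψ : AddChar F ℂ)

/-- Heisenberg operators -/
noncomputable def H (v : n ⊕ n → F) : End ℂ ((n → F) → ℂ) where
  toFun f x := ψ ((v ∘ Sum.inr) ⬝ᵥ x + 2⁻¹ * ((v ∘ Sum.inl) ⬝ᵥ (v ∘ Sum.inr))) * f (x + v ∘ Sum.inl)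
  map_add' f g := by ext x; simp [mul_add]
  map_smul' c f := by ext x; simp; ring

theorem H_apply (v : n ⊕ n → F) (f : (n → F) → ℂ) (x : n → F) : H ψ v f x =
    ψ ((v ∘ Sum.inr) ⬝ᵥ x + 2⁻¹ * ((v ∘ Sum.inl) ⬝ᵥ (v ∘ Sum.inr))) * f (x + v ∘ Sum.inl) := rfl

theorem om_eq (v w : n ⊕ n → F) : v ⬝ᵥ J n F *ᵥ w =
    (v ∘ Sum.inr) ⬝ᵥ (w ∘ Sum.inl) - (v ∘ Sum.inl) ⬝ᵥ (w ∘ Sum.inr) := by
  simp [J, fromBlocks_mulVec, neg_mulVec, dotProduct, Fintype.sum_sum_type]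
  ring

theorem H_zero : H ψ (0 : n ⊕ n → F) = 1 := by
  ext f x
  simp [H_apply]

theorem H_mul (h2 : (2 : F) ≠ 0) (v w : n ⊕ n → F) :
    H ψ v * H ψ w = ψ (-(2⁻¹ * (v ⬝ᵥ J n F *ᵥ w))) • H ψ (v + w) := by
  refine LinearMap.ext fun f => funext fun x => ?_
  simp only [End.mul_apply, H_apply, LinearMap.smul_apply, Pi.smul_apply, smul_eq_mul, ← mul_assoc,
    ← AddChar.map_add_eq_mul, om_eq, Pi.add_comp, add_assoc]
  congr 2
  simp only [dotProduct_add, add_dotProduct, dotProduct_comm (w ∘ Sum.inr) (v ∘ Sum.inl),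
    dotProduct_comm (v ∘ Sum.inr) (w ∘ Sum.inl)]
  field_simp
  ring

theorem om_inv (g : symplecticGroup n F) (v w : n ⊕ n → F) :
    (g.1 *ᵥ v) ⬝ᵥ J n F *ᵥ (g.1 *ᵥ w) = v ⬝ᵥ J n F *ᵥ w := by
  rw [← vecMul_transpose, ← dotProduct_mulVec, mulVec_mulVec, mulVec_mulVec,
    SymplecticGroup.mem_iff'.1 g.2]

theorem trace_eq (T : End ℂ ((n → F) → ℂ)) :
    LinearMap.trace ℂ _ T = ∑ x, T (Pi.single x 1) x := by
  rw [LinearMap.trace_eq_matrix_trace ℂ (Pi.basisFun ℂ _), Matrix.trace]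
  simp [LinearMap.toMatrix_apply]

variable {ψ}

theorem trace_H (hψ : ψ.IsPrimitive) {v : n ⊕ n → F} (hv : v ≠ 0) :
    LinearMap.trace ℂ _ (H ψ v) = 0 := by
  rw [trace_eq]
  simp only [H_apply]
  by_cases ha : v ∘ Sum.inl = 0
  · have hb : v ∘ Sum.inr ≠ 0 := fun hb => hv (by
      rw [← Sum.elim_comp_inl_inr v, ha, hb]; ext (i | i) <;> rfl)
    simpa [ha, dotProduct_comm] using sum_psi hψ hb
  · exact Finset.sum_eq_zero fun x _ => by simp [Pi.single_apply, ha]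

theorem H_li (hψ : ψ.IsPrimitive) (h2 : (2 : F) ≠ 0) :
    LinearIndependent ℂ (H ψ : (n ⊕ n → F) → _) := by
  rw [Fintype.linearIndependent_iff]
  intro c hc w
  have h1 := congrArg (fun T => LinearMap.trace ℂ _ (H ψ (-w) * T)) hc
  simp only [Finset.mul_sum, mul_smul_comm, H_mul ψ h2, map_sum, map_smul, mul_zero,
    map_zero] at h1
  rw [Finset.sum_eq_single w] at h1
  · have h3 : ψ (-(2⁻¹ * (-w ⬝ᵥ J n F *ᵥ w))) ≠ 0 := by
      intro e
      have := ψ.map_add_eq_mul (-(2⁻¹ * (-w ⬝ᵥ J n F *ᵥ w))) (2⁻¹ * (-w ⬝ᵥ J n F *ᵥ w))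
      rw [e, neg_add_cancel, AddChar.map_zero_eq_one, zero_mul] at this
      exact one_ne_zero this
    rw [neg_add_cancel, H_zero, LinearMap.trace_one, finrank_fintype_fun_eq_card] at h1
    simp only [smul_eq_mul, mul_eq_zero, h3, false_or, Nat.cast_eq_zero,
      Fintype.card_ne_zero, or_false] at h1
    exact h1
  · intro v _ hv
    rw [trace_H hψ (by rwa [neg_add_eq_sub, sub_ne_zero])]
    simp
  · simp

/-- the Heisenberg basis -/
noncomputable def bH (hψ : ψ.IsPrimitive) (h2 : (2 : F) ≠ 0) :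
    Basis (n ⊕ n → F) ℂ (End ℂ ((n → F) → ℂ)) :=
  basisOfLinearIndependentOfCardEqFinrank (H_li hψ h2) (by
    rw [Module.finrank_linearMap]
    simp [pow_add])

theorem bH_apply (hψ : ψ.IsPrimitive) (h2 : (2 : F) ≠ 0) (v : n ⊕ n → F) :
    bH hψ h2 v = H ψ v := by simp [bH]

variable (ψ) in
/-- intertwining operators -/
def Int (g : symplecticGroup n F) (T : End ℂ ((n → F) → ℂ)) : Prop :=
  ∀ v, T * H ψ v = H ψ (g.1 *ᵥ v) * T

theorem exists_int (hψ : ψ.IsPrimitive) (h2 : (2 : F) ≠ 0) (g : symplecticGroup n F) :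
    ∃ T : (End ℂ ((n → F) → ℂ))ˣ, Int ψ g T := by
  let e : (n ⊕ n → F) ≃ (n ⊕ n → F) :=
    { toFun := fun v => g.1 *ᵥ v
      invFun := fun v => (g⁻¹).1 *ᵥ v
      left_inv := fun v => by
        simp only [mulVec_mulVec]
        rw [← Submonoid.coe_mul, inv_mul_cancel]; simp
      right_inv := fun v => by
        simp only [mulVec_mulVec]
        rw [← Submonoid.coe_mul, mul_inv_cancel]; simp }
  let l := (bH hψ h2).equiv (bH hψ h2) e
  have hl : ∀ v, l (H ψ v) = H ψ (g.1 *ᵥ v) := fun v => by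
    rw [← bH_apply hψ h2, ← bH_apply hψ h2]; exact Basis.equiv_apply _ _ _ _
  have hmul : ∀ x y, l.toLinearMap (x * y) = l.toLinearMap x * l.toLinearMap y := by
    rw [LinearMap.map_mul_iff]
    refine (bH hψ h2).ext fun v => (bH hψ h2).ext fun w => ?_
    simp [bH_apply, H_mul ψ h2, hl, om_inv, mulVec_add, -mulVec_mulVec]
  have hone : l 1 = 1 := by rw [← H_zero ψ, hl, mulVec_zero]
  obtain ⟨T, hT⟩ := (AlgEquiv.ofLinearEquiv l hone hmul).eq_linearEquivConjAlgEquiv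
  refine ⟨LinearMap.GeneralLinearGroup.ofLinearEquiv T, fun v => ?_⟩
  have := congrArg (fun z => z (H ψ v)) hT
  simp only [AlgEquiv.ofLinearEquiv_apply, hl, LinearEquiv.conjAlgEquiv_apply] at this
  rw [this]
  refine LinearMap.ext fun f => ?_
  simp

theorem scalar_of_comm (hψ : ψ.IsPrimitive) (h2 : (2 : F) ≠ 0) {T : End ℂ ((n → F) → ℂ)}
    (h : ∀ v, T * H ψ v = H ψ v * T) : ∃ c : ℂ, T = c • 1 := by
  have : T ∈ Subalgebra.center ℂ (End ℂ ((n → F) → ℂ)) := by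
    rw [Subalgebra.mem_center_iff]
    intro S
    have : LinearMap.mulRight ℂ T = LinearMap.mulLeft ℂ T :=
      (bH hψ h2).ext fun v => by simp [bH_apply, h]
    exact LinearMap.congr_fun this S
  obtain ⟨c, hc⟩ := (Algebra.IsCentral.mem_center_iff ℂ).1 this
  exact ⟨c, by rw [hc, Algebra.algebraMap_eq_smul_one]⟩

theorem int_unique (hψ : ψ.IsPrimitive) (h2 : (2 : F) ≠ 0) {g : symplecticGroup n F}
    {T : (End ℂ ((n → F) → ℂ))ˣ} {T' : End ℂ ((n → F) → ℂ)} (h : Int ψ g T) (h' : Int ψ g T') :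
    ∃ c : ℂ, T' = c • (T : End ℂ _) := by
  obtain ⟨c, hc⟩ := scalar_of_comm hψ h2 (T := (T⁻¹).1 * T') fun v => by
    rw [mul_assoc, h' v, ← mul_assoc, ← mul_assoc]
    congr 1
    rw [Units.inv_mul_eq_iff_eq_mul, ← mul_assoc, h v, Units.mul_inv_cancel_right]
  refine ⟨c, ?_⟩
  rw [Units.inv_mul_eq_iff_eq_mul] at hc
  rw [hc, mul_smul_comm, mul_one]

variable (F n) in
/-- the parity operator -/
def sg : End ℂ ((n → F) → ℂ) where
  toFun f x := f (-x)
  map_add' _ _ := rfl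
  map_smul' _ _ := rfl

theorem sg_apply (f : (n → F) → ℂ) (x : n → F) : sg F n f x = f (-x) := rfl

theorem sg_sg : sg F n * sg F n = 1 := by
  refine LinearMap.ext fun f => funext fun x => ?_
  simp [sg_apply]

theorem sg_H (v : n ⊕ n → F) : sg F n * H ψ v = H ψ (-v) * sg F n := by
  refine LinearMap.ext fun f => funext fun x => ?_
  have h1 : (-v) ∘ Sum.inl = -(v ∘ Sum.inl) := rfl
  have h2 : (-v) ∘ Sum.inr = -(v ∘ Sum.inr) := rfl
  simp [sg_apply, H_apply, h1, h2, add_comm]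

theorem trace_sg (h2 : (2 : F) ≠ 0) : LinearMap.trace ℂ _ (sg F n) = 1 := by
  rw [trace_eq, Finset.sum_eq_single 0]
  · simp [sg_apply]
  · intro x _ hx
    rw [sg_apply, Pi.single_eq_of_ne]
    intro e
    apply hx
    have : (2 : F) • x = 0 := by rw [two_smul]; nth_rewrite 1 [← e]; exact neg_add_cancel x
    simpa [h2] using this
  · simp

theorem int_comm (hψ : ψ.IsPrimitive) (h2 : (2 : F) ≠ 0) {g : symplecticGroup n F}
    {T : (End ℂ ((n → F) → ℂ))ˣ} (h : Int ψ g T) : T.1 * sg F n = sg F n * T.1 := by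
  obtain ⟨c, hc⟩ := int_unique hψ h2 h (T' := sg F n * T.1 * sg F n) fun v => by
    rw [mul_assoc, sg_H, ← mul_assoc, mul_assoc (sg F n), h, ← mul_assoc, sg_H, mulVec_neg, neg_neg]
    simp only [mul_assoc]
  have h1 : sg F n * T.1 = c • (T.1 * sg F n) := by
    rw [← smul_mul_assoc, ← hc, mul_assoc, sg_sg, mul_one]
  have h3 : sg F n = c • (T.1 * sg F n * (T⁻¹).1) := by
    rw [← smul_mul_assoc, ← h1, Units.mul_inv_cancel_right]
  have h4 := congrArg (LinearMap.trace ℂ _) h3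
  rw [map_smul, LinearMap.trace_mul_comm, ← mul_assoc, Units.inv_mul, one_mul, trace_sg h2,
    smul_eq_mul, mul_one] at h4
  rw [h1, ← h4, one_smul]

end CfsgH6.Weil
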