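import Cfsg.Agent.H6.Weil

set_option autoImplicit false
set_option linter.unusedSectionVars false

/-! The odd part of the Weil representation. -/

namespace CfsgH6.Weil
open Matrix Module CfsgH6.Wt

variable {F : Type*} [Field F] [Fintype F] [DecidableEq F] {n : Type*} [Fintype n] [DecidableEq n]
  {ψ : AddChar F ℂ}

variable (F n) in
/-- odd functions -/
def Wm : Submodule ℂ ((n → F) → ℂ) := LinearMap.ker (sg F n + 1)

theorem mem_Wm {f : (n → F) → ℂ} : f ∈ Wm F n ↔ sg F n f = -f := by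
  simp [Wm, add_eq_zero_iff_eq_neg]

theorem finrank_Wm (h2 : (2 : F) ≠ 0) :
    2 * finrank ℂ (Wm F n) + 1 = Fintype.card F ^ Fintype.card n := by
  have hp : LinearMap.IsProj (Wm F n) ((2⁻¹ : ℂ) • (1 - sg F n)) := by
    refine ⟨fun f => ?_, fun f hf => ?_⟩
    · rw [mem_Wm]
      have := LinearMap.congr_fun (sg_sg (F := F) (n := n)) f
      simp only [End.mul_apply, End.one_apply] at this
      simp only [LinearMap.smul_apply, LinearMap.sub_apply, End.one_apply, map_smul, map_sub, this]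
      module
    · rw [mem_Wm] at hf
      simp only [LinearMap.smul_apply, LinearMap.sub_apply, End.one_apply, hf]
      module
  have h := hp.trace
  rw [map_smul, map_sub, trace_sg h2, LinearMap.trace_one, finrank_fintype_fun_eq_card,
    Fintype.card_fun, smul_eq_mul] at h
  apply Nat.cast_injective (R := ℂ)
  push_cast at h ⊢
  linear_combination -2 * h

theorem map_Wm {T : End ℂ ((n → F) → ℂ)} (h : T * sg F n = sg F n * T) :
    ∀ f ∈ Wm F n, T f ∈ Wm F n := fun f hf => by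
  rw [mem_Wm] at hf ⊢
  rw [← End.mul_apply, ← h, End.mul_apply, hf, map_neg]

variable (n ψ) in
/-- the group of intertwining pairs -/
def Gam : Subgroup (symplecticGroup n F × (End ℂ ((n → F) → ℂ))ˣ) where
  carrier := {x | Int ψ x.1 x.2}
  one_mem' v := by simp
  mul_mem' {x y} hx hy v := by
    simp only [Prod.snd_mul, Units.val_mul, Prod.fst_mul, Submonoid.coe_mul]
    rw [mul_assoc, hy v, ← mul_assoc, hx, ← mulVec_mulVec, mul_assoc]
  inv_mem' {x} hx v := by
    have := hx ((x.1⁻¹).1 *ᵥ v)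
    rw [mulVec_mulVec, ← Submonoid.coe_mul, mul_inv_cancel, OneMemClass.coe_one, one_mulVec] at this
    simp only [Prod.snd_inv, Prod.fst_inv]
    rw [Units.inv_mul_eq_iff_eq_mul, ← mul_assoc, this, Units.mul_inv_cancel_right]

/-- restriction to odd functions -/
noncomputable def res (hψ : ψ.IsPrimitive) (h2 : (2 : F) ≠ 0) : Gam n ψ →* End ℂ (Wm F n) where
  toFun x := x.1.2.1.restrict (map_Wm (int_comm hψ h2 x.2))
  map_one' := LinearMap.ext fun _ => rfl
  map_mul' _ _ := LinearMap.ext fun _ => rfl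

/-- normalised pairs -/
noncomputable def Gam0 (hψ : ψ.IsPrimitive) (h2 : (2 : F) ≠ 0) : Subgroup (Gam n ψ) :=
  MonoidHom.eqLocus
    (((LinearMap.det.comp (Units.coeHom _)).comp (MonoidHom.snd _ _)).comp (Gam n ψ).subtype).toHomUnits
    ((powMonoidHom 2).comp (LinearMap.det.comp (res hψ h2))).toHomUnits

theorem mem_Gam0 (hψ : ψ.IsPrimitive) (h2 : (2 : F) ≠ 0) {x : Gam n ψ} : x ∈ Gam0 hψ h2 ↔
    LinearMap.det x.1.2.1 = LinearMap.det (res hψ h2 x) ^ 2 := by
  change _ = _ ↔ _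
  rw [Units.ext_iff]
  rfl

/-- the projection -/
noncomputable def prj (hψ : ψ.IsPrimitive) (h2 : (2 : F) ≠ 0) : Gam0 (n := n) hψ h2 →* symplecticGroup n F :=
  ((MonoidHom.fst _ _).comp (Gam n ψ).subtype).comp (Gam0 hψ h2).subtype

theorem prj_bij (hψ : ψ.IsPrimitive) (h2 : (2 : F) ≠ 0) :
    Function.Bijective (prj (n := n) hψ h2) := by
  have hN : finrank ℂ ((n → F) → ℂ) = 2 * finrank ℂ (Wm F n) + 1 := by
    rw [finrank_Wm h2, finrank_fintype_fun_eq_card, Fintype.card_fun]
  constructor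
  · rw [injective_iff_map_eq_one]
    rintro ⟨⟨⟨g, T⟩, hx⟩, hx0⟩ h
    change g = 1 at h
    subst h
    obtain ⟨c, hc⟩ := scalar_of_comm hψ h2 (T := T.1) fun v => by simpa using hx v
    have h1 : res hψ h2 ⟨(1, T), hx⟩ = c • 1 := LinearMap.ext fun f => Subtype.ext (by
      change T.1 f = c • f.1
      rw [hc]; rfl)
    rw [mem_Gam0, h1] at hx0
    simp only at hx0
    have h0 : LinearMap.det T.1 ≠ 0 := (T.isUnit.map LinearMap.det).ne_zero
    rw [hc] at hx0 h0
    rw [LinearMap.det_smul, map_one, mul_one, hN] at hx0 h0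
    rw [LinearMap.det_smul, map_one, mul_one, ← pow_mul, mul_comm, pow_succ] at hx0
    have hc1 : c = 1 := mul_left_cancel₀ (pow_ne_zero _ (by
      rintro rfl; simp at h0)) (hx0.trans (mul_one _).symm)
    refine Subtype.ext (Subtype.ext (Prod.ext rfl (Units.ext ?_)))
    change T.1 = 1
    rw [hc, hc1, one_smul]
  · intro g
    obtain ⟨T, hT⟩ := exists_int hψ h2 g
    have h0 : LinearMap.det T.1 ≠ 0 := (T.isUnit.map LinearMap.det).ne_zero
    have h1 : LinearMap.det (res hψ h2 ⟨(g, T), hT⟩) ≠ 0 :=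
      (((Group.isUnit _).map (res hψ h2)).map LinearMap.det).ne_zero
    set d := LinearMap.det (res hψ h2 ⟨(g, T), hT⟩) with hd
    let c : ℂˣ := Units.mk0 (d ^ 2 / LinearMap.det T.1) (div_ne_zero (pow_ne_zero _ h1) h0)
    have hT' : Int ψ g (c • T).1 := fun v => by
      simp only [Units.val_smul, smul_mul_assoc, mul_smul_comm, hT v]
    refine ⟨⟨⟨(g, c • T), hT'⟩, ?_⟩, rfl⟩
    have h3 : res hψ h2 ⟨(g, c • T), hT'⟩ = c.1 • res hψ h2 ⟨(g, T), hT⟩ :=
      LinearMap.ext fun f => rfl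
    rw [mem_Gam0, h3]
    change LinearMap.det (c.1 • T.1) = _
    rw [LinearMap.det_smul, LinearMap.det_smul, hN, ← hd, pow_succ, mul_assoc]
    simp only [c, Units.val_mk0, div_mul_cancel₀ _ h0]
    ring

theorem exists_rep (hψ : ψ.IsPrimitive) (h2 : (2 : F) ≠ 0) {i j : n} (hij : i ≠ j) :
    ∃ ρ : symplecticGroup n F →* End ℂ (Wm F n), ρ (uS (Pi.single (i, i) 1)) ≠ 1 := by
  let e := MulEquiv.ofBijective _ (prj_bij (n := n) hψ h2)
  refine ⟨((res hψ h2).comp (Gam0 hψ h2).subtype).comp e.symm.toMonoidHom, fun h => ?_⟩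
  obtain ⟨⟨⟨⟨g, T⟩, hx⟩, hx0⟩, hg⟩ := e.surjective (uS (Pi.single (i, i) 1))
  rw [← hg] at h
  simp only [MulEquiv.toMonoidHom_eq_coe, MonoidHom.coe_comp, MonoidHom.coe_coe,
    Function.comp_apply, MulEquiv.symm_apply_apply, Subgroup.subtype_apply] at h
  change g = _ at hg
  subst hg
  have hT : ∀ f ∈ Wm F n, T.1 f = f := fun f hf =>
    congrArg Subtype.val (LinearMap.congr_fun h ⟨f, hf⟩)
  have key : ∀ v, ∀ f ∈ Wm F n, (H ψ v + H ψ (-v)) f =
      (H ψ ((uS (Pi.single (i, i) (1 : F))).1 *ᵥ v) +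
        H ψ (-((uS (Pi.single (i, i) (1 : F))).1 *ᵥ v))) f := by
    intro v f hf
    have h1 : (H ψ v + H ψ (-v)) f ∈ Wm F n := map_Wm (by
      rw [add_mul, mul_add, sg_H, sg_H, neg_neg, add_comm]) f hf
    rw [← hT _ h1, ← End.mul_apply, mul_add, hx v, hx (-v), ← add_mul, End.mul_apply, hT f hf,
      mulVec_neg]
  let a : n → F := Pi.single i 2
  let x : n → F := Pi.single j 1
  let f : (n → F) → ℂ := Pi.single (x + a) 1 - Pi.single (-(x + a)) 1
  have hf : f ∈ Wm F n := by
    rw [mem_Wm]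
    ext y
    simp [sg_apply, f, Pi.single_apply, neg_eq_iff_eq_neg]
  have hv : (uS (Pi.single (i, i) (1 : F))).1 *ᵥ (Sum.elim 0 (Pi.single i 1)) =
      Sum.elim a (Pi.single i 1) := by
    simp only [uS, fromBlocks_mulVec, Sum.elim_comp_inl, Sum.elim_comp_inr, mulVec_zero, zero_add,
      one_mulVec, zero_mulVec]
    congr 1
    rw [mulVec_single_one]
    ext k
    by_cases hk : k = i
    · subst hk; simp [mat, a]; norm_num
    · simp [mat, a, hk, Pi.single_apply, Ne.symm hk]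
  have h3 := congrFun (key (Sum.elim 0 (Pi.single i 1)) f hf) x
  rw [hv] at h3
  have e1 : ∀ u w : n → F, -(Sum.elim u w) = Sum.elim (-u) (-w) := fun u w => by
    ext (k | k) <;> rfl
  have n1 : x ≠ x + a := fun e => h2 (Eq.symm (by simpa [x, a, hij] using congrFun e i))
  have n2 : x ≠ -(x + a) := fun e => h2 (by simpa [x, a, hij] using congrFun e i)
  have n3 : x + a ≠ -(x + a) := fun e => h2 (by
    have := congrFun e j
    simp [x, a, hij.symm] at this
    linear_combination this)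
  have n4 : x + -a ≠ x + a := fun e => h2 (by
    have := congrFun e i
    simp [x, a, hij] at this
    have h4 : (2 : F) * 2 = 0 := by linear_combination -this
    simpa using h4)
  have n5 : x + -a ≠ -(x + a) := fun e => h2 (by
    have := congrFun e j
    simp [x, a, hij.symm] at this
    linear_combination this)
  simp only [LinearMap.add_apply, Pi.add_apply, H_apply, e1, Sum.elim_comp_inl, Sum.elim_comp_inr,
    neg_zero, add_zero, f, Pi.sub_apply, Pi.single_eq_of_ne n1, Pi.single_eq_of_ne n2,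
    Pi.single_eq_of_ne n3, Pi.single_eq_of_ne n4, Pi.single_eq_of_ne n5, Pi.single_eq_same,
    sub_zero, mul_zero, mul_one] at h3
  have := ψ.map_add_eq_mul (Pi.single i 1 ⬝ᵥ x + 2⁻¹ * (a ⬝ᵥ Pi.single i 1))
    (-(Pi.single i 1 ⬝ᵥ x + 2⁻¹ * (a ⬝ᵥ Pi.single i 1)))
  rw [← h3, add_neg_cancel, AddChar.map_zero_eq_one, zero_mul] at this
  exact one_ne_zero this

end CfsgH6.Weil
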