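import Cfsg.Agent.H6.R3c
import Cfsg.Agent.H3.Pc1

set_option autoImplicit false

open Matrix Cfsg CfsgH3 MulAction

namespace CfsgH6.Wl

section lst
variable {G : Type*} [Group G] [Fintype G]

open Classical in
theorem inner_list (l : List (G → ℂ)) (hl : ∀ ψ ∈ l, IsIrrCharacter G ψ) {χ : G → ℂ}
    (hχ : IsIrrCharacter G χ) : classInner l.sum χ = l.count χ := by
  induction l with
  | nil => simp [classInner_zero_left]
  | cons a l ih =>
    rw [List.sum_cons, classInner_add_left, ih fun ψ h => hl ψ (List.mem_cons_of_mem _ h),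
      (hl a List.mem_cons_self).classInner_eq_ite hχ, List.count_cons]
    by_cases h : a = χ <;> simp [h, add_comm]

theorem inner_list' (π : G → ℂ) (l : List (G → ℂ)) (h : ∀ ψ ∈ l, classInner π ψ = 1) :
    classInner π l.sum = l.length := by
  induction l with
  | nil => simp [classInner_zero_right]
  | cons a l ih =>
    rw [List.sum_cons, classInner_add_right, ih fun ψ k => h ψ (List.mem_cons_of_mem _ k),
      h a List.mem_cons_self]
    simp [add_comm]

theorem decomp {π : G → ℂ} (hπ : IsCharacter G π) {k : ℕ}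
    (mf : ∀ χ, IsIrrCharacter G χ → classInner π χ = 0 ∨ classInner π χ = 1)
    (h1 : classInner π (fun _ => 1) ≠ 0) (hk : classInner π π = k) :
    ∃ χ : Fin (k - 1) → G → ℂ, (∀ i, IsIrrCharacter G (χ i)) ∧ Function.Injective χ ∧
      ∀ g, π g = 1 + ∑ i, χ i g := by
  classical
  obtain ⟨l, hl, rfl⟩ := hπ.exists_list_irr
  have c1 : ∀ ψ ∈ l, classInner l.sum ψ = 1 := fun ψ h => (mf ψ (hl ψ h)).resolve_left (by
    rw [inner_list l hl (hl ψ h)]; exact_mod_cast (List.count_pos_iff.2 h).ne')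
  have nd : l.Nodup := List.nodup_iff_count_eq_one.2 fun ψ h => by
    have := c1 ψ h
    rw [inner_list l hl (hl ψ h)] at this
    exact_mod_cast this
  rw [inner_list' _ l c1] at hk
  obtain rfl : l.length = k := by exact_mod_cast hk
  rw [inner_list l hl isIrr_one] at h1
  have m1 : (fun _ => 1) ∈ l := List.count_pos_iff.1 (Nat.pos_of_ne_zero (by exact_mod_cast h1))
  rw [← List.length_erase_of_mem m1]
  refine ⟨(l.erase fun _ => 1).get, fun i => hl _ (List.mem_of_mem_erase (List.get_mem _ _)),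
    List.nodup_iff_injective_get.1 (nd.erase _), fun g => ?_⟩
  rw [← List.sum_erase m1, Pi.add_apply, ← Finset.sum_apply, ← List.sum_ofFn, List.ofFn_get]

end lst

variable {F : Type*} [Field F] {m : ℕ}

theorem mv (S : Submodule F (Fin (m + 3) → F)) {w w' : Fin (m + 3) → F}
    (h : w ∉ S ⊔ F ∙ (w' - w)) :
    ∃ g : SpecialLinearGroup (Fin (m + 3)) F, (∀ v ∈ S, g • v = v) ∧ g • w = w' := by
  obtain ⟨f, h1, h2⟩ := Submodule.exists_dual_map_eq_bot_of_notMem h inferInstance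
  have h3 : ∀ v ∈ S ⊔ F ∙ (w' - w), f v = 0 := fun v hv => by
    have := Submodule.mem_map_of_mem (f := f) hv
    rwa [h2] at this
  have e : ∀ x, ((f w)⁻¹ • fun i => f (Pi.single i 1)) ⬝ᵥ x = (f w)⁻¹ * f x := fun x => by
    rw [smul_dotProduct, LinearMap.pi_apply_eq_sum_univ f x, dotProduct_comm]
    congr 2
    funext i
    congr 2
    funext j
    simp [Pi.single_apply, eq_comm]
  refine ⟨⟨_, R3.det_tv (v := w' - w) (f := (f w)⁻¹ • fun i => f (Pi.single i 1)) (by
    rw [e, h3 _ (Submodule.mem_sup_right (Submodule.mem_span_singleton_self _)), mul_zero])⟩,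
    fun v hv => ?_, ?_⟩
  · change (1 + vecMulVec _ _) *ᵥ v = v
    rw [R3.tv_mulVec, e, h3 v (Submodule.mem_sup_left hv)]; simp
  · change (1 + vecMulVec _ _) *ᵥ w = w'
    rw [R3.tv_mulVec, e, inv_mul_cancel₀ h1]; simp

theorem mv2 (v : Fin (m + 3) → F) {w w' : Fin (m + 3) → F} (h : w ∉ F ∙ v) (h' : w' ∉ F ∙ v) :
    ∃ g : SpecialLinearGroup (Fin (m + 3)) F, g • v = v ∧ g • w = w' := by
  classical
  have hv := Submodule.mem_span_singleton_self (R := F) v
  by_cases hw : w ∈ F ∙ v ⊔ F ∙ (w' - w)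
  swap
  · obtain ⟨g, a, b⟩ := mv _ hw
    exact ⟨g, a v hv, b⟩
  have key : ∀ x y : Fin (m + 3) → F, x ∉ F ∙ v → x ∈ F ∙ v ⊔ F ∙ w → x ∈ F ∙ v ⊔ F ∙ (y - x) →
      y ∈ F ∙ v ⊔ F ∙ w := fun x y h1 h2 h3 => by
    obtain ⟨a, ha, b, hb, e⟩ := Submodule.mem_sup.1 h3
    obtain ⟨c, rfl⟩ := Submodule.mem_span_singleton.1 hb
    have c0 : c ≠ 0 := by
      rintro rfl
      rw [zero_smul, add_zero] at e
      exact h1 (e ▸ ha)
    have : y = c⁻¹ • (x - a) + x := by rw [← sub_eq_iff_eq_add, eq_inv_smul_iff₀ c0, eq_sub_iff_add_eq', e]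
    rw [this]
    exact add_mem (Submodule.smul_mem _ _ (sub_mem h2 (Submodule.mem_sup_left ha))) h2
  have w1 : w ∈ F ∙ v ⊔ F ∙ w := Submodule.mem_sup_right (Submodule.mem_span_singleton_self w)
  obtain ⟨y, hy⟩ : ∃ y, y ∉ F ∙ v ⊔ F ∙ w := by
    by_contra! hc
    have h1 := finrank_span_finset_le_card (R := F) ({v, w} : Finset (Fin (m + 3) → F))
    have h2 : ({v, w} : Finset (Fin (m + 3) → F)).card ≤ 2 := Finset.card_le_two
    rw [Set.finrank, Finset.coe_pair, Submodule.span_insert, 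
      show (F ∙ v ⊔ F ∙ w : Submodule F _) = ⊤ from eq_top_iff.2 fun x _ => hc x] at h1
    simp at h1
    omega
  obtain ⟨g, a, b⟩ := mv _ fun k => hy (key w y h w1 k)
  obtain ⟨g', a', b'⟩ := mv _ fun k => hy (key w' y h' (key w w' h w1 hw) k)
  exact ⟨g'⁻¹ * g, by rw [mul_smul, a v hv, inv_smul_eq_iff, a' v hv], by
    rw [mul_smul, b, inv_smul_eq_iff, b']⟩

variable (F m) in
/-- the non-zero vectors -/
def Om : SubMulAction (SpecialLinearGroup (Fin (m + 3)) F) (Fin (m + 3) → F) where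
  carrier := {v | v ≠ 0}
  smul_mem' := fun g v hv e => hv (by simpa using congrArg (g⁻¹ • ·) e)

open Classical in
/-- the invariant of a pair -/
noncomputable def cc (x y : Om F m) : F := if h : ∃ a : F, a • x.1 = y.1 then h.choose else 0

theorem cc_eq {x y : Om F m} {a : F} (h : a • x.1 = y.1) : cc x y = a := by
  rw [cc, dif_pos ⟨a, h⟩]
  exact smul_left_injective F x.2 ((Exists.choose_spec (⟨a, h⟩ : ∃ a : F, a • x.1 = y.1)).trans h.symm)

theorem cc_spec {x y : Om F m} (h : cc x y ≠ 0) : cc x y • x.1 = y.1 := by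
  by_cases k : ∃ a : F, a • x.1 = y.1
  · obtain ⟨a, k⟩ := k; rw [cc_eq k, k]
  · exact absurd (dif_neg k) h

theorem cc_zero {x y : Om F m} (h : cc x y = 0) : y.1 ∉ F ∙ x.1 := fun k => by
  obtain ⟨a, k⟩ := Submodule.mem_span_singleton.1 k
  rw [cc_eq k] at h
  exact y.2 (by rw [← k, h, zero_smul])

theorem sm (g : SpecialLinearGroup (Fin (m + 3)) F) (a : F) (v : Fin (m + 3) → F) :
    g • a • v = a • g • v := mulVec_smul _ _ _

theorem cc_smul (g : SpecialLinearGroup (Fin (m + 3)) F) (x y : Om F m) : cc (g • x) (g • y) = cc x y := by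
  by_cases k : ∃ a : F, a • x.1 = y.1
  · obtain ⟨a, k⟩ := k
    rw [cc_eq k]
    exact cc_eq (by rw [SubMulAction.val_smul, SubMulAction.val_smul, ← k, sm])
  · rw [cc, cc, dif_neg k, dif_neg]
    rintro ⟨a, h⟩
    rw [SubMulAction.val_smul, SubMulAction.val_smul, ← sm] at h
    exact k ⟨a, MulAction.injective g h⟩

theorem tr (x y : Om F m) : ∃ g : SpecialLinearGroup (Fin (m + 3)) F, g • x = y := by
  obtain ⟨g, -, h⟩ := mv2 0 (w := x.1) (w' := y.1) (by simpa using (show x.1 ≠ 0 from x.2))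
    (by simpa using (show y.1 ≠ 0 from y.2))
  exact ⟨g, Subtype.ext h⟩

theorem tr2 {x y x' y' : Om F m} (h : cc x y = cc x' y') :
    ∃ g : SpecialLinearGroup (Fin (m + 3)) F, g • x = x' ∧ g • y = y' := by
  obtain ⟨g, rfl⟩ := tr x x'
  rw [← cc_smul g] at h
  by_cases k : cc (g • x) y' = 0
  · obtain ⟨g', a, b⟩ := mv2 _ (cc_zero (h.trans k)) (cc_zero k)
    exact ⟨g' * g, by rw [mul_smul]; exact Subtype.ext a, by rw [mul_smul]; exact Subtype.ext b⟩
  · exact ⟨g, rfl, Subtype.ext (by rw [← cc_spec k, ← h, cc_spec (h ▸ k)])⟩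

/-- scalar multiples -/
def sc (a : Fˣ) (x : Om F m) : Om F m := ⟨(a : F) • x.1, smul_ne_zero a.ne_zero x.2⟩

theorem cc_sc (a : Fˣ) (x y : Om F m) : cc (sc a x) (sc a y) = cc x y := by
  by_cases k : ∃ b : F, b • x.1 = y.1
  · obtain ⟨b, k⟩ := k
    rw [cc_eq k]
    exact cc_eq (by simp only [sc]; rw [← k, smul_comm])
  · rw [cc, cc, dif_neg k, dif_neg]
    rintro ⟨b, h⟩
    simp only [sc] at h
    rw [smul_comm] at h
    exact k ⟨b, smul_right_injective _ a.ne_zero h⟩

theorem comm [Fintype F] [DecidableEq F] [Fintype (Om F m)] [DecidableEq (Om F m)]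
    (S T : Matrix (Om F m) (Om F m) ℂ)
    (hS : ∀ (g : SpecialLinearGroup (Fin (m + 3)) F) x y, S (g • x) (g • y) = S x y)
    (hT : ∀ (g : SpecialLinearGroup (Fin (m + 3)) F) x y, T (g • x) (g • y) = T x y) : S * T = T * S := by
  have inv : ∀ (S : Matrix (Om F m) (Om F m) ℂ),
      (∀ (g : SpecialLinearGroup (Fin (m + 3)) F) x y, S (g • x) (g • y) = S x y) →
      ∀ x y x' y', cc x y = cc x' y' → S x y = S x' y' := fun S h x y x' y' e => by
    obtain ⟨g, rfl, rfl⟩ := tr2 e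
    rw [h]
  have ne : Nonempty (Om F m) := ⟨⟨Pi.single 0 1, show _ ≠ _ by simp⟩⟩
  have row : ∀ x x', ∑ y, S x y = ∑ y, S x' y := fun x x' => by
    obtain ⟨g, rfl⟩ := tr x x'
    exact Fintype.sum_equiv (MulAction.toPerm g) _ _ fun y => (hS g x y).symm
  have col : ∀ x x', ∑ y, S y x = ∑ y, S y x' := fun x x' => by
    obtain ⟨g, rfl⟩ := tr x x'
    exact Fintype.sum_equiv (MulAction.toPerm g) _ _ fun y => (hS g y x).symm
  have rc : ∀ x z, ∑ y, S x y = ∑ y, S y z := fun x z => by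
    have h := Finset.sum_comm (s := Finset.univ) (t := Finset.univ) (f := fun a b => S a b)
    rw [Finset.sum_congr rfl fun a _ => row a x, Finset.sum_congr rfl fun a _ => col a z] at h
    simpa using h
  obtain ⟨t, ht⟩ : ∃ t : F → ℂ, ∀ x y, T x y = t (cc x y) :=
    ⟨fun a => if h : ∃ p : Om F m × Om F m, cc p.1 p.2 = a then T h.choose.1 h.choose.2 else 0,
      fun x y => by
        have h : ∃ p : Om F m × Om F m, cc p.1 p.2 = cc x y := ⟨(x, y), rfl⟩
        simp only [dif_pos h]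
        exact inv T hT _ _ _ _ h.choose_spec.symm⟩
  have hT' : ∀ x y, T x y = t 0 + ∑ a : Fˣ, if sc a x = y then t a - t 0 else 0 := fun x y => by
    rw [ht]
    by_cases k : cc x y = 0
    · rw [k, Finset.sum_eq_zero (fun a _ => if_neg fun e => a.ne_zero
        ((cc_eq (congrArg Subtype.val e)).symm.trans k)), add_zero]
    · rw [Finset.sum_eq_single (Units.mk0 _ k) (fun a _ h => if_neg fun e => h
        (Units.ext (cc_eq (congrArg Subtype.val e)).symm)) (by simp),
        if_pos (Subtype.ext (cc_spec k))]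
      simp
  have si : ∀ (a : Fˣ) (y z : Om F m), sc a y = z ↔ y = sc a⁻¹ z := fun a y z => by
    simp only [sc, Subtype.ext_iff, Units.val_inv_eq_inv_val, eq_inv_smul_iff₀ a.ne_zero]
  ext x z
  simp only [mul_apply, hT', mul_add, add_mul, Finset.sum_add_distrib, Finset.mul_sum, Finset.sum_mul]
  congr 1
  · rw [← Finset.sum_mul, ← Finset.mul_sum, rc x z, mul_comm]
  · rw [Finset.sum_comm, Finset.sum_comm (f := fun y a => ite _ _ _ * S y z)]
    refine Finset.sum_congr rfl fun a _ => ?_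
    conv_lhs => simp only [si]
    simp only [mul_ite, mul_zero, ite_mul, zero_mul, Finset.sum_ite_eq, Finset.sum_ite_eq',
      Finset.mem_univ, if_true]
    rw [mul_comm, inv S hS x (sc a⁻¹ z) (sc a x) z]
    rw [← cc_sc a, (si a _ z).2 rfl]

theorem orb [Fintype F] : Nat.card (Quotient (orbitRel (SpecialLinearGroup (Fin (m + 3)) F)
    (Om F m × Om F m))) = Fintype.card F := by
  rw [← Nat.card_eq_fintype_card]
  refine Nat.card_congr (Equiv.ofBijective (Quotient.lift (fun p => cc p.1 p.2) ?_) ⟨?_, fun a => ?_⟩)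
  · rintro p q ⟨g, rfl⟩
    exact cc_smul g _ _
  · rintro ⟨p⟩ ⟨q⟩ e
    obtain ⟨g, a, b⟩ := tr2 (show cc q.1 q.2 = cc p.1 p.2 from e.symm)
    exact Quotient.sound ⟨g, Prod.ext a b⟩
  · let x : Om F m := ⟨Pi.single 0 1, show _ ≠ _ by simp⟩
    by_cases h : a = 0
    · refine ⟨Quotient.mk _ (x, ⟨Pi.single 1 1, show _ ≠ _ by simp⟩), ?_⟩
      rw [h]
      refine dif_neg ?_
      rintro ⟨b, e⟩
      simpa [x] using congrFun e 1
    · exact ⟨Quotient.mk _ (x, sc (Units.mk0 a h) x), cc_eq rfl⟩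

theorem main [Fintype F] [DecidableEq F] :
    ∃ χ : Fin (Fintype.card F - 1) → (SpecialLinearGroup (Fin (m + 3)) F → ℂ),
      (∀ i, IsIrrCharacter _ (χ i)) ∧ Function.Injective χ ∧
      ∀ g, (Nat.card (fixedBy (Om F m) g) : ℂ) = 1 + ∑ i, χ i g := by
  classical
  have := Fintype.ofFinite (Om F m)
  have hG : (Nat.card (SpecialLinearGroup (Fin (m + 3)) F) : ℂ) ≠ 0 := by exact_mod_cast Nat.card_pos.ne'
  refine decomp (π := fun g => (Nat.card (fixedBy (Om F m) g) : ℂ)) ?_ ?_ ?_ ?_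
  · rw [← CfsgPc.perm_char]; exact isCharacter_of_rep _
  · rw [← CfsgPc.perm_char, CfsgPc.mf_iff]
    intro S T hS hT
    apply LinearMap.toMatrix'.injective
    rw [LinearMap.toMatrix'_comp, LinearMap.toMatrix'_comp]
    exact comm _ _ ((CfsgPc.mem_inv_iff S).1 hS) ((CfsgPc.mem_inv_iff T).1 hT)
  · refine mul_ne_zero (inv_ne_zero hG) ?_
    simp only [map_one, mul_one]
    rw [← Nat.cast_sum, Nat.cast_ne_zero, Ne, Finset.sum_eq_zero_iff]
    intro h
    have : Nonempty (fixedBy (Om F m) (1 : SpecialLinearGroup (Fin (m + 3)) F)) :=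
      ⟨⟨⟨Pi.single 0 1, show _ ≠ _ by simp⟩, by simp⟩⟩
    exact Nat.card_pos.ne' (h 1 (Finset.mem_univ _))
  · have := Fintype.ofFinite (Quotient (orbitRel (SpecialLinearGroup (Fin (m + 3)) F) (Om F m × Om F m)))
    have h := sum_card_fixedBy_eq_card_orbits_mul_card_group (SpecialLinearGroup (Fin (m + 3)) F)
      (Om F m × Om F m)
    simp only [← Nat.card_eq_fintype_card] at h
    rw [orb] at h
    rw [classInner, inv_mul_eq_iff_eq_mul₀ hG, mul_comm, ← Nat.cast_mul, ← h, Nat.cast_sum]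
    refine Finset.sum_congr rfl fun g _ => ?_
    rw [Complex.conj_natCast, ← Nat.cast_mul, ← Nat.card_prod]
    congr 1
    exact Nat.card_congr ⟨fun p => ⟨(p.1.1, p.2.1), Prod.ext p.1.2 p.2.2⟩,
      fun p => (⟨p.1.1, congrArg Prod.fst p.2⟩, ⟨p.1.2, congrArg Prod.snd p.2⟩), fun _ => rfl, fun _ => rfl⟩

end CfsgH6.Wl
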